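import Cfsg.Agent.Lib.LocalP2.EssentialCommute
import Cfsg.Agent.Lib.LocalP2.ExtraIndexP

/-!
Essential subgroups in a `p`-group with a unique abelian subgroup of index `p`.
-/

set_option autoImplicit false
set_option linter.style.haveILetI false

namespace Cfsg.Agent.Lib.LocalP2.AbelianIndexP

open Cfsg Cfsg.FusionSystem Cfsg.Agent.Lib.Fusion

/-- A nonabelian `p`-group `S` with a unique abelian subgroup `A` of index `p`; `Z` is the centre
of `S` and `W` the second centre intersected with `A`. -/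
structure AData {Ω : Type*} [Group Ω] (p : ℕ) (S A Z W : Subgroup Ω) : Prop where
  pgroup : IsPGroup p S
  le : A ≤ S
  comm : ∀ a ∈ A, ∀ b ∈ A, a * b = b * a
  index : (A.subgroupOf S).index = p
  nonab : ∃ g ∈ S, ∃ h ∈ S, g * h ≠ h * g
  uniq : ∀ B : Subgroup Ω, B ≤ S → (∀ a ∈ B, ∀ b ∈ B, a * b = b * a) →
    (B.subgroupOf S).index = p → B = A
  eqZ : Z = S ⊓ Subgroup.centralizer (S : Set Ω)
  memW : ∀ w, w ∈ W ↔ w ∈ A ∧ ∀ g ∈ S, w * g * w⁻¹ * g⁻¹ ∈ Z

variable {Ω : Type*} [Group Ω] {p : ℕ} [hp : Fact p.Prime] {S A Z W : Subgroup Ω}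

omit hp in
theorem AData.central (d : AData p S A Z W) {w : Ω} (hw : w ∈ Z) {g : Ω} (hg : g ∈ S) :
    g * w = w * g := by
  rw [d.eqZ] at hw; exact hw.2 g hg

omit hp in
theorem AData.mem_Z (d : AData p S A Z W) {w : Ω} (hw : w ∈ S) (h : ∀ g ∈ S, g * w = w * g) :
    w ∈ Z := d.eqZ ▸ ⟨hw, h⟩

omit hp in
theorem AData.Z_le_S (d : AData p S A Z W) : Z ≤ S := d.eqZ ▸ inf_le_left

theorem AData.normal (d : AData p S A Z W) [Finite S] : S ≤ Subgroup.normalizer (A : Set Ω) := by
  have hlt : A < S := lt_of_le_of_ne d.le fun e => hp.out.ne_one (by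
    rw [← d.index, Subgroup.index_eq_one, Subgroup.subgroupOf_eq_top, e])
  have h1 := lt_normalizer_inf d.pgroup hlt
  have h2 : (S ⊓ Subgroup.normalizer (A : Set Ω)).subgroupOf S = ⊤ := by
    have hlt' : A.subgroupOf S < (S ⊓ Subgroup.normalizer (A : Set Ω)).subgroupOf S := by
      refine lt_of_le_of_ne (fun x hx => h1.le hx) fun e => ?_
      obtain ⟨g, hg, hgA⟩ := SetLike.exists_of_lt h1
      have : (⟨g, hg.1⟩ : S) ∈ A.subgroupOf S := e.symm ▸ (show _ ∈ _ from hg)
      exact hgA this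
    rw [← Subgroup.index_eq_one]
    refine ((Nat.dvd_prime hp.out).1 (d.index ▸ Subgroup.index_dvd_of_le hlt'.le)).resolve_right ?_
    intro e
    refine hlt'.ne (Subgroup.eq_of_le_of_card_ge hlt'.le (le_of_eq ?_))
    have h3 := (A.subgroupOf S).card_mul_index
    have h4 := ((S ⊓ Subgroup.normalizer (A : Set Ω)).subgroupOf S).card_mul_index
    rw [e, ← h3, d.index] at h4
    exact Nat.eq_of_mul_eq_mul_right hp.out.pos h4
  exact fun g hg => ((Subgroup.subgroupOf_eq_top.1 h2) hg).2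

/-- `S` is generated by `A` and any element outside it. -/
theorem AData.gen (d : AData p S A Z W) [Finite S] {x : Ω} (hx : x ∈ S) (hxA : x ∉ A) {g : Ω}
    (hg : g ∈ S) : ∃ a ∈ A, ∃ i : ℕ, g = a * x ^ i := by
  have := d.normal
  haveI hn : (A.subgroupOf S).Normal := Subgroup.normal_subgroupOf_of_le_normalizer d.normal
  set xS : S := ⟨x, hx⟩
  have hlt : A.subgroupOf S < Subgroup.zpowers xS ⊔ A.subgroupOf S :=
    lt_of_le_of_ne le_sup_right fun e => hxA (by
      have : xS ∈ A.subgroupOf S := e.symm ▸ Subgroup.mem_sup_left (Subgroup.mem_zpowers xS)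
      exact this)
  have htop : Subgroup.zpowers xS ⊔ A.subgroupOf S = ⊤ := by
    rw [← Subgroup.index_eq_one]
    refine ((Nat.dvd_prime hp.out).1 (d.index ▸ Subgroup.index_dvd_of_le hlt.le)).resolve_right ?_
    intro e
    refine hlt.ne (Subgroup.eq_of_le_of_card_ge hlt.le (le_of_eq ?_))
    have h3 := (A.subgroupOf S).card_mul_index
    have h4 := (Subgroup.zpowers xS ⊔ A.subgroupOf S).card_mul_index
    rw [e, ← h3, d.index] at h4
    exact Nat.eq_of_mul_eq_mul_right hp.out.pos h4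
  obtain ⟨y, hy, a, ha, hya⟩ := Subgroup.mem_sup_of_normal_right.1
    (htop ▸ Subgroup.mem_top (⟨g, hg⟩ : S) : (⟨g, hg⟩ : S) ∈ Subgroup.zpowers xS ⊔ _)
  obtain ⟨i, rfl⟩ := mem_powers_iff_mem_zpowers.2 hy
  refine ⟨x ^ i * (a : Ω) * (x ^ i)⁻¹, ?_, i, ?_⟩
  · exact conj_mem_of_mem_normalizer (this (S.pow_mem hx i)) ha
  · have h := congrArg Subtype.val hya
    simp only [Subgroup.coe_mul, SubmonoidClass.coe_pow, xS] at h
    rw [inv_mul_cancel_right]
    exact h.symm

/-- `C_A(x) = Z` for `x` outside `A`. -/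
theorem AData.mem_Z_of_comm (d : AData p S A Z W) [Finite S] {x : Ω} (hx : x ∈ S) (hxA : x ∉ A)
    {a : Ω} (ha : a ∈ A) (h : a * x = x * a) : a ∈ Z := by
  refine d.mem_Z (d.le ha) fun g hg => ?_
  obtain ⟨b, hb, i, rfl⟩ := d.gen hx hxA hg
  rw [mul_assoc, ← (Commute.pow_right h i).eq, ← mul_assoc, d.comm b hb a ha, mul_assoc]

theorem AData.Z_le (d : AData p S A Z W) [Finite S] : Z ≤ A := by
  intro z hz
  by_contra hzA
  obtain ⟨g, hg, h, hh, hne⟩ := d.nonab
  obtain ⟨a, ha, i, rfl⟩ := d.gen (d.Z_le_S hz) hzA hg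
  obtain ⟨b, hb, j, rfl⟩ := d.gen (d.Z_le_S hz) hzA hh
  apply hne
  have e1 : ∀ (k : ℕ), ∀ s ∈ S, s * z ^ k = z ^ k * s := fun k s hs =>
    (Commute.pow_right (d.central hz hs) k).eq
  calc a * z ^ i * (b * z ^ j) = a * (z ^ i * b) * z ^ j := by group
    _ = a * b * (z ^ i * z ^ j) := by rw [← e1 i b (d.le hb)]; group
    _ = b * a * (z ^ j * z ^ i) := by rw [d.comm a ha b hb, ← pow_add, ← pow_add, add_comm]
    _ = b * (a * z ^ j) * z ^ i := by group
    _ = b * z ^ j * (a * z ^ i) := by rw [e1 j a (d.le ha)]; group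

theorem AData.pow_p_mem (d : AData p S A Z W) [Finite S] {x : Ω} (hx : x ∈ S) : x ^ p ∈ A := by
  haveI hn : (A.subgroupOf S).Normal := Subgroup.normal_subgroupOf_of_le_normalizer d.normal
  have := Subgroup.pow_index_mem (A.subgroupOf S) (⟨x, hx⟩ : S)
  rw [d.index, Subgroup.mem_subgroupOf] at this
  simpa using this

/-- The commutator with `x`. -/
def dl (x a : Ω) : Ω := a * x * a⁻¹ * x⁻¹

theorem AData.dl_mem (d : AData p S A Z W) [Finite S] {x : Ω} (hx : x ∈ S) {a : Ω} (ha : a ∈ A) :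
    dl x a ∈ A := by
  have h : dl x a = a * (x * a⁻¹ * x⁻¹) := by rw [dl]; group
  rw [h]
  exact A.mul_mem ha (conj_mem_of_mem_normalizer (d.normal hx) (A.inv_mem ha))

theorem AData.dl_mul (d : AData p S A Z W) [Finite S] {x : Ω} (hx : x ∈ S) {a b : Ω} (ha : a ∈ A)
    (hb : b ∈ A) : dl x (a * b) = dl x a * dl x b := by
  have hcb := d.dl_mem hx hb
  calc dl x (a * b) = a * (dl x b * (x * a⁻¹ * x⁻¹)) := by simp only [dl]; group
    _ = a * ((x * a⁻¹ * x⁻¹) * dl x b) := by
        rw [d.comm _ hcb _ (conj_mem_of_mem_normalizer (d.normal hx) (A.inv_mem ha))]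
    _ = dl x a * dl x b := by simp only [dl]; group

theorem AData.mem_W_iff (d : AData p S A Z W) [Finite S] {x : Ω} (hx : x ∈ S) (hxA : x ∉ A) {a : Ω}
    (ha : a ∈ A) : a ∈ W ↔ dl x a ∈ Z := by
  refine ⟨fun h => ((d.memW a).1 h).2 x hx, fun h => (d.memW a).2 ⟨ha, fun g hg => ?_⟩⟩
  obtain ⟨b, hb, i, rfl⟩ := d.gen hx hxA hg
  have e1 : a * x * a⁻¹ = dl x a * x := by rw [dl, inv_mul_cancel_right]
  have e2 : a * x ^ i * a⁻¹ = dl x a ^ i * x ^ i := by
    rw [← conj_pow, e1]
    exact (show Commute (dl x a) x from (d.central h hx).symm).mul_pow i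
  have e3 : a * (b * x ^ i) * a⁻¹ * (b * x ^ i)⁻¹ = dl x a ^ i := by
    calc a * (b * x ^ i) * a⁻¹ * (b * x ^ i)⁻¹
        = (a * b * a⁻¹) * (a * x ^ i * a⁻¹) * (x ^ i)⁻¹ * b⁻¹ := by group
      _ = b * dl x a ^ i * b⁻¹ := by
          rw [d.comm a ha b hb, mul_inv_cancel_right, e2]; group
      _ = dl x a ^ i := by
          rw [d.central (Z.pow_mem h i) (d.le hb), mul_inv_cancel_right]
  rw [e3]
  exact Z.pow_mem h i

theorem AData.Z_le_W (d : AData p S A Z W) [Finite S] : Z ≤ W := fun w hw =>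
  (d.memW w).2 ⟨d.Z_le hw, fun g hg => by
    rw [← d.central hw hg, mul_inv_cancel_right, mul_inv_cancel]; exact Z.one_mem⟩

theorem AData.W_le (d : AData p S A Z W) : W ≤ A := fun _ hw => ((d.memW _).1 hw).1

variable {F : FusionSystem S} [Finite S] {P : Subgroup Ω}

theorem AData.not_le (d : AData p S A Z W) (hP : F.IsEssential p P) (hPA : P ≠ A) : ¬ P ≤ A :=
  fun hle => hPA (le_antisymm hle fun a ha =>
    hP.1.2 P (isConj_refl hP.1.1) ⟨d.le ha, fun q hq => d.comm q (hle hq) a ha⟩)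

theorem AData.decomp (d : AData p S A Z W) (hPS : P ≤ S) {x : Ω} (hx : x ∈ P) (hxA : x ∉ A)
    {g : Ω} (hg : g ∈ P) : ∃ a ∈ A ⊓ P, ∃ i : ℕ, g = a * x ^ i := by
  obtain ⟨a, ha, i, rfl⟩ := d.gen (hPS hx) hxA (hPS hg)
  refine ⟨a, ⟨ha, ?_⟩, i, rfl⟩
  have := P.mul_mem hg (P.inv_mem (P.pow_mem hx i))
  rwa [mul_inv_cancel_right] at this

/-- Normalizing elements of `A` are those with commutator in `A ∩ P`. -/
theorem AData.mem_normalizer_iff' (d : AData p S A Z W) (hPS : P ≤ S) {x : Ω} (hx : x ∈ P)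
    (hxA : x ∉ A) {a : Ω} (ha : a ∈ A) :
    a ∈ Subgroup.normalizer (P : Set Ω) ↔ dl x a ∈ P := by
  constructor
  · intro h
    exact P.mul_mem (conj_mem_of_mem_normalizer h hx) (P.inv_mem hx)
  · intro h
    haveI := finite_of_le hPS
    refine mem_normalizer_of_conj_mem fun g hg => ?_
    obtain ⟨b, hb, i, rfl⟩ := d.decomp hPS hx hxA hg
    have e1 : a * x * a⁻¹ = dl x a * x := by rw [dl, inv_mul_cancel_right]
    rw [show a * (b * x ^ i) * a⁻¹ = (a * b * a⁻¹) * (a * x ^ i * a⁻¹) by group,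
      d.comm a ha b hb.1, mul_inv_cancel_right, ← conj_pow, e1]
    exact P.mul_mem hb.2 (P.pow_mem (P.mul_mem h hx) i)

/-- In an abelian essential `P` the trace of `A` is the centre. -/
theorem AData.inf_eq_of_abelian (d : AData p S A Z W) (hP : F.IsEssential p P)
    (hab : ∀ a ∈ P, ∀ b ∈ P, a * b = b * a) {x : Ω} (hx : x ∈ P) (hxA : x ∉ A) : A ⊓ P = Z := by
  refine le_antisymm (fun a ha => d.mem_Z_of_comm (hP.1.1 hx) hxA ha.1 (hab a ha.2 x hx))
    fun z hz => ⟨d.Z_le hz, ?_⟩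
  exact hP.1.2 P (isConj_refl hP.1.1)
    ⟨d.Z_le_S hz, fun q hq => d.central hz (hP.1.1 hq)⟩

omit hp in
theorem AData.Z_le_P (d : AData p S A Z W) (hP : F.IsCentric P) : Z ≤ P := fun _ hz =>
  hP.2 P (isConj_refl hP.1) ⟨d.Z_le_S hz, fun _ hq => d.central hz (hP.1 hq)⟩

/-- An element of `A` normalizing the essential subgroup `P` exists outside `P`. -/
theorem AData.exists_normalizing (d : AData p S A Z W) (hF : F.IsSaturated p)
    (hP : F.IsEssential p P) {x : Ω} (hx : x ∈ P) (hxA : x ∉ A) :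
    ∃ a ∈ A, a ∈ Subgroup.normalizer (P : Set Ω) ∧ a ∉ P := by
  obtain ⟨g, hg, hgP⟩ := SetLike.exists_of_lt
    (lt_normalizer_inf d.pgroup (ne_top_of_essential d.pgroup hF hP))
  obtain ⟨a, ha, i, rfl⟩ := d.gen (hP.1.1 hx) hxA hg.1
  have hxi : x ^ i ∈ P := P.pow_mem hx i
  refine ⟨a, ha, ?_, fun h => hgP (P.mul_mem h hxi)⟩
  have h1 : x ^ i ∈ Subgroup.normalizer (P : Set Ω) := Subgroup.le_normalizer hxi
  have := (Subgroup.normalizer (P : Set Ω)).mul_mem hg.2
    ((Subgroup.normalizer (P : Set Ω)).inv_mem h1)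
  rwa [mul_inv_cancel_right] at this

/-- The index of `Z` in `W`, abelian case. -/
theorem AData.index_W_abelian (d : AData p S A Z W) (hF : F.IsSaturated p) (hP : F.IsEssential p P)
    (hab : ∀ a ∈ P, ∀ b ∈ P, a * b = b * a) {x : Ω} (hx : x ∈ P) (hxA : x ∉ A) :
    Z.relIndex W = p := by
  have hPS := hP.1.1
  have hxS := hPS hx
  have hinf := d.inf_eq_of_abelian hP hab hx hxA
  haveI := finite_of_le hPS
  haveI := finite_of_le (d.W_le.trans d.le)
  have hZP : Z ≤ P := d.Z_le_P hP.1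
  have hN : ∀ a ∈ W, a ∈ normalizerIn S P := fun a ha => ⟨d.le (d.W_le ha),
    (d.mem_normalizer_iff' hPS hx hxA (d.W_le ha)).2
      (hZP ((d.mem_W_iff hxS hxA (d.W_le ha)).1 ha))⟩
  have hWP : ∀ a ∈ W, a ∉ Z → a ∉ P := fun a ha haZ h => haZ (hinf ▸ ⟨d.W_le ha, h⟩)
  have hxpZ : x ^ p ∈ Z := hinf ▸ ⟨d.pow_p_mem hxS, P.pow_mem hx p⟩
  let δ : W →* Z := MonoidHom.mk'
    (fun a => ⟨dl x a, (d.mem_W_iff hxS hxA (d.W_le a.2)).1 a.2⟩)
    fun a b => Subtype.ext (d.dl_mul hxS (d.W_le a.2) (d.W_le b.2))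
  have hker : δ.ker = Z.subgroupOf W := by
    ext a
    rw [MonoidHom.mem_ker, Subgroup.mem_subgroupOf, ← Subtype.coe_inj]
    change dl x a = 1 ↔ _
    rw [dl, mul_inv_eq_one, mul_inv_eq_iff_eq_mul]
    exact ⟨fun h => d.mem_Z_of_comm hxS hxA (d.W_le a.2) h, fun h => (d.central h hxS).symm⟩
  have hrp : ∀ a ∈ W, dl x a ^ p = 1 := by
    intro a ha
    have h := (d.mem_W_iff hxS hxA (d.W_le ha)).1 ha
    have e1 : a * x * a⁻¹ = dl x a * x := by rw [dl, inv_mul_cancel_right]
    have e2 : a * x ^ p * a⁻¹ = dl x a ^ p * x ^ p := by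
      rw [← conj_pow, e1]
      exact (show Commute (dl x a) x from (d.central h hxS).symm).mul_pow p
    rw [d.central hxpZ (d.le (d.W_le ha)), mul_inv_cancel_right] at e2
    exact mul_eq_right.1 e2.symm
  by_contra hne
  have hidx : δ.ker.index = Z.relIndex W := by rw [hker]; rfl
  obtain ⟨e, he⟩ := IsPGroup.iff_card.1 (d.pgroup.to_le (d.W_le.trans d.le))
  obtain ⟨k, -, hk⟩ := (Nat.dvd_prime_pow hp.out).1 (he ▸ δ.ker.index_dvd_card :
    δ.ker.index ∣ p ^ e)
  have hk1 : k ≠ 0 := by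
    intro e
    rw [e, pow_zero, Subgroup.index_eq_one, hker, Subgroup.subgroupOf_eq_top] at hk
    obtain ⟨a, ha, haN, haP⟩ := d.exists_normalizing hF hP hx hxA
    refine haP (hZP (hk ((d.mem_W_iff hxS hxA ha).2 ?_)))
    exact hinf ▸ ⟨d.dl_mem hxS ha, (d.mem_normalizer_iff' hPS hx hxA ha).1 haN⟩
  have hk2 : 2 ≤ k := by
    by_contra h
    obtain rfl : k = 1 := by omega
    exact hne (hidx.symm.trans (hk.trans (pow_one p)))
  -- the image of `δ`, of order at least `p²`, elementary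
  have hrange : p ^ 2 ≤ Nat.card δ.range := by
    rw [← Subgroup.index_ker, hk]
    exact Nat.pow_le_pow_right hp.out.pos hk2
  refine not_essential_of_commute d.pgroup hF hP fun β hβ => ?_
  -- elements of the image inside a hyperplane
  have hmeet : ∀ γ : MulAut P, ∃ a ∈ W, a ∉ Z ∧
      ∀ h : dl x a ∈ P, ((γ ⟨dl x a, h⟩ : P) : Ω) ∈ Z := by
    intro γ
    let θ : δ.range →* P := MonoidHom.mk' (fun w => γ ⟨(w : Z), hZP (w : Z).2⟩) fun u v => by
      rw [← map_mul]
      rfl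
    haveI : (Z.subgroupOf P).Normal := ⟨fun u hu v => by
      rw [Subgroup.mem_subgroupOf] at hu ⊢
      simp only [Subgroup.coe_mul, Subgroup.coe_inv]
      rw [d.central hu (hPS v.2), mul_inv_cancel_right]
      exact hu⟩
    let θ' : δ.range →* P ⧸ Z.subgroupOf P := (QuotientGroup.mk' _).comp θ
    have hqp : Nat.card (P ⧸ Z.subgroupOf P) ∣ p := by
      set π := QuotientGroup.mk' (Z.subgroupOf P)
      have hle : ∀ q : P ⧸ Z.subgroupOf P, q ∈ Subgroup.zpowers (π ⟨x, hx⟩) := by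
        intro q
        obtain ⟨⟨g, hg⟩, rfl⟩ := QuotientGroup.mk'_surjective _ q
        obtain ⟨b, hb, i, rfl⟩ := d.decomp hPS hx hxA hg
        refine ⟨i, ?_⟩
        have hb' : π ⟨b, hb.2⟩ = 1 := (QuotientGroup.eq_one_iff _).2 (hinf ▸ hb)
        calc π ⟨x, hx⟩ ^ (i : ℤ) = π ⟨b, hb.2⟩ * π (⟨x, hx⟩ ^ i) := by
              rw [hb', one_mul, zpow_natCast, map_pow]
          _ = _ := by rw [← map_mul]; rfl
      have h1 : Nat.card (P ⧸ Z.subgroupOf P) = orderOf (π ⟨x, hx⟩) :=
        (orderOf_eq_card_of_forall_mem_zpowers hle).symm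
      rw [h1]
      refine orderOf_dvd_of_pow_eq_one ?_
      rw [← map_pow]
      exact (QuotientGroup.eq_one_iff _).2 (by rw [Subgroup.mem_subgroupOf]; simpa using hxpZ)
    have hlt : θ'.ker ≠ ⊥ := by
      intro e
      have h1 : Nat.card δ.range ≤ p := by
        have := θ'.ker.card_mul_index
        rw [e, Subgroup.card_bot, one_mul, Subgroup.index_bot] at this
        refine Nat.le_of_dvd hp.out.pos ((?_ : Nat.card δ.range ∣ _).trans hqp)
        have h2 := Subgroup.card_subgroup_dvd_card θ'.range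
        rwa [← Subgroup.index_ker, e, Subgroup.index_bot] at h2
      have h3 := hrange.trans h1
      have : p ^ 1 < p ^ 2 := Nat.pow_lt_pow_right hp.out.one_lt one_lt_two
      rw [pow_one] at this
      omega
    obtain ⟨⟨⟨_, ⟨a, rfl⟩⟩, hker'⟩, hne1⟩ := θ'.ker.ne_bot_iff_exists_ne_one.1 hlt
    refine ⟨a, a.2, fun haZ => hne1 ?_, fun h => ?_⟩
    · refine Subtype.ext (Subtype.ext ?_)
      have : δ a = 1 := MonoidHom.mem_ker.1 (hker ▸ haZ)
      simpa using this
    · have := (QuotientGroup.eq_one_iff _).1 (MonoidHom.mem_ker.1 hker')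
      exact this
  obtain ⟨a, haW, haZ, hae⟩ := hmeet β⁻¹
  obtain ⟨b, hbW, hbZ, hbe⟩ := hmeet β
  refine ⟨a, hN a haW, b, hN b hbW, hWP a haW haZ, hWP b hbW hbZ, ?_⟩
  have hshift : ∀ (c : Ω) (hc : c ∈ W) (q : P), ∃ (h : dl x c ∈ P) (i : ℕ),
      conjAut P (hN c hc).2 q * q⁻¹ = (⟨dl x c, h⟩ : P) ^ i := by
    intro c hc q
    have hd := (d.mem_W_iff hxS hxA (d.W_le hc)).1 hc
    obtain ⟨e, he, i, hq⟩ := d.decomp hPS hx hxA q.2
    refine ⟨hZP hd, i, Subtype.ext ?_⟩
    have e1 : c * x * c⁻¹ = dl x c * x := by rw [dl, inv_mul_cancel_right]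
    simp only [Subgroup.coe_mul, conjAut_apply, Subgroup.coe_inv, SubmonoidClass.coe_pow]
    rw [hq, show c * (e * x ^ i) * c⁻¹ = (c * e * c⁻¹) * (c * x ^ i * c⁻¹) by group,
      d.comm c (d.W_le hc) e he.1, mul_inv_cancel_right, ← conj_pow, e1,
      (show Commute (dl x c) x from (d.central hd hxS).symm).mul_pow i]
    calc e * (dl x c ^ i * x ^ i) * (e * x ^ i)⁻¹ = e * dl x c ^ i * e⁻¹ := by group
      _ = dl x c ^ i := by rw [d.central (Z.pow_mem hd i) (d.le he.1), mul_inv_cancel_right]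
  have hfix : ∀ (c : Ω) (hc : c ∈ W) (q : P), (q : Ω) ∈ Z → conjAut P (hN c hc).2 q = q :=
    fun c hc q hq => Subtype.ext (by
      rw [conjAut_apply, d.central hq (d.le (d.W_le hc)), mul_inv_cancel_right])
  refine ExtraIndexP.comm_of_shift (fun u v => Subtype.ext (hab _ u.2 _ v.2)) (fun q => ?_) fun q => ?_
  · obtain ⟨h, i, hi⟩ := hshift b hbW (β⁻¹ q)
    have e : (β * conjAut P (hN b hbW).2 * β⁻¹) q * q⁻¹ = β ((⟨dl x b, h⟩ : P) ^ i) := by
      rw [← hi]; simp
    rw [e]
    refine hfix a haW _ ?_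
    rw [map_pow, SubmonoidClass.coe_pow]
    exact Z.pow_mem (hbe h) i
  · obtain ⟨h, i, hi⟩ := hshift a haW q
    rw [hi, MulAut.mul_apply, MulAut.mul_apply]
    rw [hfix b hbW _ (by rw [map_pow, SubmonoidClass.coe_pow]; exact Z.pow_mem (hae h) i),
      MulAut.apply_inv_self]

/-- The nonabelian case. -/
theorem AData.nonabelian_facts (d : AData p S A Z W) (hF : F.IsSaturated p)
    (hP : F.IsEssential p P) (hna : ∃ a ∈ P, ∃ b ∈ P, a * b ≠ b * a) {x : Ω} (hx : x ∈ P)
    (hxA : x ∉ A) : A ⊓ P = W ∧ Z.relIndex W = p := by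
  have hPS := hP.1.1
  have hxS := hPS hx
  haveI := finite_of_le hPS
  have hZP : Z ≤ P := d.Z_le_P hP.1
  have hr := isRadical_of_essential d.pgroup hP
  set P0 : Subgroup P := A.subgroupOf P with hP0
  -- `A ∩ P` is not invariant
  obtain ⟨α, -, y, hy, hαy⟩ : ∃ α ∈ F.autGroup P, ∃ y : P, (y : Ω) ∈ A ∧ ((α y : P) : Ω) ∉ A := by
    by_contra hno
    simp only [not_exists, not_and, not_not] at hno
    obtain ⟨a, ha, haN, haP⟩ := d.exists_normalizing hF hP hx hxA
    apply haP
    let Q : Subgroup Ω := normalizerIn S P ⊓ A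
    have hQ : Q ≤ P := by
      let D : ℕ → Subgroup P := fun i => if i = 0 then ⊥ else if i = 1 then P0 else ⊤
      refine le_of_chain d.pgroup hP.1 hr (inf_le_right.trans d.le) (fun g hg => ?_) 2 D rfl rfl
        (fun α' hα' i q hq => ?_) (fun g hg hgN i hi q hq => ?_)
      · haveI : Finite Q := finite_of_le (inf_le_right.trans d.le)
        refine mem_normalizer_of_conj_mem fun q hq => ⟨⟨?_, ?_⟩, ?_⟩
        · exact S.mul_mem (S.mul_mem (hPS hg) hq.1.1) (S.inv_mem (hPS hg))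
        · exact (Subgroup.normalizer (P : Set Ω)).mul_mem
            ((Subgroup.normalizer (P : Set Ω)).mul_mem (Subgroup.le_normalizer hg) hq.1.2)
            ((Subgroup.normalizer (P : Set Ω)).inv_mem (Subgroup.le_normalizer hg))
        · exact conj_mem_of_mem_normalizer (d.normal (hPS hg)) hq.2
      · by_cases h0 : i = 0
        · subst h0
          simp only [D, if_true, Subgroup.mem_bot] at hq ⊢
          rw [hq, map_one]
        by_cases h1 : i = 1
        · subst h1
          simp only [D, one_ne_zero, if_true, if_false, hP0, Subgroup.mem_subgroupOf] at hq ⊢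
          exact hno α' hα' q hq
        · simp only [D, h0, h1, if_false, Subgroup.mem_top]
      · interval_cases i
        · simp only [D, zero_add, one_ne_zero, if_true, if_false, hP0, Subgroup.mem_subgroupOf] at hq
          simp only [D, if_true, Subgroup.mem_bot, mul_inv_eq_one]
          exact Subtype.ext (by rw [conjAut_apply, d.comm g hg.2 q hq, mul_inv_cancel_right])
        · simp only [D, one_ne_zero, if_true, if_false, hP0, Subgroup.mem_subgroupOf, Subgroup.coe_mul,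
            Subgroup.coe_inv, conjAut_apply]
          exact d.dl_mem (hPS q.2) hg.2
    exact hQ ⟨⟨d.le ha, haN⟩, ha⟩
  set x' : Ω := ((α y : P) : Ω) with hx'
  -- the image of `A ∩ P` meets it in the centre
  set P1 : Subgroup P := P0.map (α : MulAut P).toMonoidHom with hP1
  have hinf : P1 ⊓ P0 ≤ Z.subgroupOf P := by
    rintro _ ⟨⟨u, hu, rfl⟩, hmem⟩
    rw [Subgroup.mem_subgroupOf]
    refine d.mem_Z_of_comm (hPS (α y).2) hαy hmem ?_
    have h1 : u * y = y * u := Subtype.ext (d.comm _ hu _ hy)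
    have h2 := congrArg (fun v : P => ((α v : P) : Ω)) h1
    simpa using h2
  haveI : (A.subgroupOf P).Normal :=
    Subgroup.normal_subgroupOf_of_le_normalizer (hPS.trans d.normal)
  haveI : (Z.subgroupOf P).Normal := ⟨fun u hu v => by
    rw [Subgroup.mem_subgroupOf] at hu ⊢
    simp only [Subgroup.coe_mul, Subgroup.coe_inv]
    rw [d.central hu (hPS v.2), mul_inv_cancel_right]
    exact hu⟩
  have hi0 : P0.index = p := by
    have hdvd : P0.index ∣ p := by
      haveI : (A.subgroupOf S).Normal := Subgroup.normal_subgroupOf_of_le_normalizer d.normal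
      let χ : P →* S ⧸ A.subgroupOf S :=
        (QuotientGroup.mk' (A.subgroupOf S)).comp (Subgroup.inclusion hPS)
      have hk : χ.ker = P0 := by
        ext u
        simp only [χ, MonoidHom.mem_ker, MonoidHom.comp_apply, QuotientGroup.mk'_apply,
          QuotientGroup.eq_one_iff, hP0, Subgroup.mem_subgroupOf]
        rfl
      rw [← hk, Subgroup.index_ker, ← d.index, Subgroup.index_eq_card]
      exact Subgroup.card_subgroup_dvd_card _
    refine ((Nat.dvd_prime hp.out).1 hdvd).resolve_left fun e => hxA ?_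
    rw [Subgroup.index_eq_one, hP0, Subgroup.subgroupOf_eq_top] at e
    exact e hx
  have hi1 : P1.index = p := by
    rw [hP1, Subgroup.index_map_eq _ (α : MulAut P).surjective
      (fun u hu => by rw [(α.map_eq_one_iff (x := u)).1 hu]; exact P0.one_mem), hi0]
  haveI : P1.Normal := (inferInstance : (A.subgroupOf P).Normal).map _ (α : MulAut P).surjective
  -- `|A ∩ P : Z| = p`
  have hrel : (Z.subgroupOf P).relIndex P0 = p := by
    have hle : Z.subgroupOf P ≤ P0 := fun u hu => d.Z_le hu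
    have h1 : (P1 ⊓ P0).relIndex P0 ≤ p := by
      rw [Subgroup.inf_relIndex_right]
      exact (Nat.le_of_dvd (hi1 ▸ hp.out.pos)
        (Subgroup.relIndex_dvd_index_of_normal P1 P0)).trans hi1.le
    have h2 : (Z.subgroupOf P).relIndex P0 ≤ p :=
      (Nat.le_of_dvd (Nat.pos_of_ne_zero (relIndex_ne_zero _ _))
        (Subgroup.relIndex_dvd_of_le_left _ hinf)).trans h1
    obtain ⟨e, he⟩ := IsPGroup.iff_card.1 ((d.pgroup.to_le hPS).to_subgroup P0)
    obtain ⟨k, -, hk⟩ := (Nat.dvd_prime_pow hp.out).1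
      (he ▸ ((Z.subgroupOf P).subgroupOf P0).index_dvd_card)
    change (Z.subgroupOf P).relIndex P0 = p ^ k at hk
    rcases Nat.lt_or_ge k 1 with hk0 | hk0
    · exfalso
      obtain rfl : k = 0 := by omega
      rw [pow_zero, Subgroup.relIndex_eq_one] at hk
      obtain ⟨g, hg, h, hh, hne⟩ := hna
      obtain ⟨b, hb, i, rfl⟩ := d.decomp hPS hx hxA hg
      obtain ⟨c, hc, j, rfl⟩ := d.decomp hPS hx hxA hh
      have hbZ : b ∈ Z := hk (show (⟨b, hb.2⟩ : P) ∈ P0 from hb.1)
      have hcZ : c ∈ Z := hk (show (⟨c, hc.2⟩ : P) ∈ P0 from hc.1)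
      apply hne
      calc b * x ^ i * (c * x ^ j) = b * (x ^ i * c) * x ^ j := by group
        _ = b * c * (x ^ i * x ^ j) := by rw [d.central hcZ (S.pow_mem hxS i)]; group
        _ = c * b * (x ^ j * x ^ i) := by
            rw [d.comm b hb.1 c hc.1, ← pow_add, ← pow_add, add_comm]
        _ = c * (x ^ j * b) * x ^ i := by rw [d.central hbZ (S.pow_mem hxS j)]; group
        _ = c * x ^ j * (b * x ^ i) := by group
    · rw [hk] at h2 ⊢
      obtain rfl : k = 1 := le_antisymm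
        ((Nat.pow_le_pow_iff_right hp.out.one_lt).1 (h2.trans (pow_one p).ge)) hk0
      exact pow_one p
  -- `A ∩ P ≤ W`
  have hPW : A ⊓ P ≤ W := by
    rintro w ⟨hwA, hwP⟩
    rw [d.mem_W_iff hxS hxA hwA]
    have hcard : Nat.card (P ⧸ Z.subgroupOf P) = p ^ 2 := by
      rw [← Subgroup.index_eq_card, ← Subgroup.relIndex_mul_index
        (show Z.subgroupOf P ≤ P0 from fun u hu => d.Z_le hu), hrel, hi0, sq]
    have hc := IsPGroup.commutative_of_card_eq_prime_sq hcard
      (QuotientGroup.mk' (Z.subgroupOf P) ⟨w, hwP⟩) (QuotientGroup.mk' (Z.subgroupOf P) ⟨x, hx⟩)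
    rw [← mul_inv_eq_one, ← map_mul, ← map_mul, ← map_inv, ← map_mul, QuotientGroup.mk'_apply,
      QuotientGroup.eq_one_iff, Subgroup.mem_subgroupOf] at hc
    have e : dl x w = w * x * (x * w)⁻¹ := by rw [dl]; group
    rw [e]
    exact hc
  -- `W ≤ P`
  have hWP : W ≤ P := by
    let D : ℕ → Subgroup P := fun i => if i = 0 then ⊥ else if i = 1 then Subgroup.center P else ⊤
    have hcen : ∀ q ∈ Subgroup.center P, (q : Ω) ∈ Z := by
      intro q hq
      have hqA : (q : Ω) ∈ A := by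
        by_contra hqA
        obtain ⟨g, hg, h, hh, hne⟩ := hna
        have hcz : ∀ b ∈ A ⊓ P, b ∈ Z := fun b hb => d.mem_Z_of_comm (hPS q.2) hqA hb.1
          (congrArg Subtype.val (Subgroup.mem_center_iff.1 hq ⟨b, hb.2⟩))
        obtain ⟨b, hb, i, rfl⟩ := d.decomp hPS hx hxA hg
        obtain ⟨c, hc, j, rfl⟩ := d.decomp hPS hx hxA hh
        apply hne
        calc b * x ^ i * (c * x ^ j) = b * (x ^ i * c) * x ^ j := by group
          _ = b * c * (x ^ i * x ^ j) := by rw [d.central (hcz c hc) (S.pow_mem hxS i)]; group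
          _ = c * b * (x ^ j * x ^ i) := by
              rw [d.comm b hb.1 c hc.1, ← pow_add, ← pow_add, add_comm]
          _ = c * (x ^ j * b) * x ^ i := by rw [d.central (hcz b hb) (S.pow_mem hxS j)]; group
          _ = c * x ^ j * (b * x ^ i) := by group
      exact d.mem_Z_of_comm hxS hxA hqA
        (congrArg Subtype.val (Subgroup.mem_center_iff.1 hq ⟨x, hx⟩)).symm
    refine le_of_chain d.pgroup hP.1 hr (d.W_le.trans d.le) (fun g hg => ?_) 2 D rfl rfl
      (fun α' _ i q hq => ?_) (fun g hg hgN i hi q hq => ?_)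
    · haveI : Finite W := finite_of_le (d.W_le.trans d.le)
      refine mem_normalizer_of_conj_mem fun q hq => ?_
      have h1 := ((d.memW q).1 hq).2 g (hPS hg)
      have h2 : g * q * g⁻¹ = (q * g * q⁻¹ * g⁻¹)⁻¹ * q := by group
      rw [h2]
      exact W.mul_mem (W.inv_mem (d.Z_le_W h1)) hq
    · by_cases h0 : i = 0
      · subst h0
        simp only [D, if_true, Subgroup.mem_bot] at hq ⊢
        rw [hq, map_one]
      by_cases h1 : i = 1
      · subst h1
        simp only [D, one_ne_zero, if_true, if_false] at hq ⊢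
        rw [Subgroup.mem_center_iff] at hq ⊢
        intro u
        have := congrArg α' (hq (α'⁻¹ u))
        simpa using this
      · simp only [D, h0, h1, if_false, Subgroup.mem_top]
    · interval_cases i
      · simp only [D, zero_add, one_ne_zero, if_true, if_false] at hq
        simp only [D, if_true, Subgroup.mem_bot, mul_inv_eq_one]
        exact Subtype.ext (by
          rw [conjAut_apply, d.central (hcen q hq) (d.le (d.W_le hg)), mul_inv_cancel_right])
      · simp only [D, one_ne_zero, if_true, if_false, Subgroup.mem_center_iff]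
        intro u
        refine Subtype.ext ?_
        simp only [Subgroup.coe_mul, Subgroup.coe_inv, conjAut_apply]
        exact d.central (((d.memW g).1 hg).2 q (hPS q.2)) (hPS u.2)
  have heq : A ⊓ P = W := le_antisymm hPW (le_inf d.W_le hWP)
  refine ⟨heq, ?_⟩
  rw [← hrel, hP0, ← heq]
  have h : Z.subgroupOf P = (Z ⊓ P).subgroupOf P := by rw [Subgroup.inf_subgroupOf_right]
  rw [← Subgroup.relIndex_map_map_of_injective (Z.subgroupOf P) (A.subgroupOf P) P.subtype_injective,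
    Subgroup.subgroupOf_map_subtype, Subgroup.subgroupOf_map_subtype, inf_eq_left.2 hZP]

/-- Everything about an essential subgroup different from `A`. -/
theorem AData.main (d : AData p S A Z W) (hF : F.IsSaturated p) (hP : F.IsEssential p P)
    (hPA : P ≠ A) : ∃ x ∈ P, x ∉ A ∧ Z.relIndex W = p ∧ (A ⊓ P = Z ∨ A ⊓ P = W) := by
  obtain ⟨x, hx, hxA⟩ := SetLike.not_le_iff_exists.1 (d.not_le hP hPA)
  refine ⟨x, hx, hxA, ?_⟩
  by_cases hab : ∀ a ∈ P, ∀ b ∈ P, a * b = b * a
  · exact ⟨d.index_W_abelian hF hP hab hx hxA, Or.inl (d.inf_eq_of_abelian hP hab hx hxA)⟩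
  · simp only [not_forall] at hab
    obtain ⟨a, ha, b, hb, hne⟩ := hab
    obtain ⟨h1, h2⟩ := d.nonabelian_facts hF hP ⟨a, ha, b, hb, hne⟩ hx hxA
    exact ⟨h2, Or.inr h1⟩

/-- The second centre lies in `A`. -/
theorem AData.second_center_le (d : AData p S A Z W) (hW : Z.relIndex W = p) {b : Ω} (hb : b ∈ S)
    (hc : ∀ g ∈ S, b * g * b⁻¹ * g⁻¹ ∈ Z) : b ∈ A := by
  by_contra hbA
  have hAW : W = A := le_antisymm d.W_le fun a ha => by
    rw [d.mem_W_iff hb hbA ha, dl]
    have := Z.inv_mem (hc a (d.le ha))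
    have e : (b * a * b⁻¹ * a⁻¹)⁻¹ = a * b * a⁻¹ * b⁻¹ := by group
    rwa [e] at this
  rw [hAW] at hW
  apply hbA
  set B : Subgroup Ω := Z ⊔ Subgroup.zpowers b with hB
  have hBS : B ≤ S := sup_le d.Z_le_S (Subgroup.zpowers_le.2 hb)
  have hBab : ∀ u ∈ B, ∀ v ∈ B, u * v = v * u := by
    have h1 : B ≤ Subgroup.centralizer ({b} : Set Ω) :=
      sup_le (fun w hw => Subgroup.mem_centralizer_singleton_iff.2 (d.central hw hb).symm)
        (Subgroup.zpowers_le.2 (Subgroup.mem_centralizer_singleton_iff.2 rfl))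
    intro u hu
    have h2 : B ≤ Subgroup.centralizer ({u} : Set Ω) :=
      sup_le (fun w hw => Subgroup.mem_centralizer_singleton_iff.2 (d.central hw (hBS hu)).symm)
        (Subgroup.zpowers_le.2 (Subgroup.mem_centralizer_singleton_iff.2
          (Subgroup.mem_centralizer_singleton_iff.1 (h1 hu)).symm))
    exact fun v hv => (Subgroup.mem_centralizer_singleton_iff.1 (h2 hv)).symm
  have hbB : b ∈ B := Subgroup.mem_sup_right (Subgroup.mem_zpowers b)
  have hBidx : (B.subgroupOf S).index = p := by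
    have hZ : Z.relIndex S = p * p := by
      rw [← Subgroup.relIndex_mul_relIndex Z A S d.Z_le d.le, hW]
      congr 1
      exact d.index
    have h3 : Z.relIndex B * B.relIndex S = p * p :=
      (Subgroup.relIndex_mul_relIndex Z B S le_sup_left hBS).trans hZ
    change B.relIndex S = p
    obtain ⟨k, hk, hke⟩ := (Nat.dvd_prime_pow hp.out).1
      (show B.relIndex S ∣ p ^ 2 by rw [sq, ← h3]; exact dvd_mul_left _ _)
    interval_cases k
    · exfalso
      rw [pow_zero, Subgroup.relIndex_eq_one] at hke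
      obtain ⟨g, hg, h, hh, hne⟩ := d.nonab
      exact hne (hBab g (hke hg) h (hke hh))
    · rw [hke, pow_one]
    · exfalso
      rw [hke, sq] at h3
      have h4 : Z.relIndex B = 1 := by
        have h5 : Z.relIndex B * (p * p) = 1 * (p * p) := by rw [h3, one_mul]
        exact Nat.eq_of_mul_eq_mul_right (Nat.mul_pos hp.out.pos hp.out.pos) h5
      exact hbA (d.Z_le ((Subgroup.relIndex_eq_one.1 h4) hbB))
  exact d.uniq B hBS hBab hBidx ▸ hbB

/-- The index of `P` in its normalizer. -/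
theorem AData.index_normalizer (d : AData p S A Z W) (hF : F.IsSaturated p) (hP : F.IsEssential p P)
    (hPA : P ≠ A) : P.relIndex (normalizerIn S P) = p := by
  obtain ⟨x, hx, hxA, hW, hcase⟩ := d.main hF hP hPA
  have hPS := hP.1.1
  have hxS := hPS hx
  set N := normalizerIn S P with hN
  have hNA : N ⊓ A ≤ S := inf_le_right.trans d.le
  haveI : Finite N := finite_of_le (normalizerIn_le S P)
  haveI := finite_of_le hNA
  have hZP := d.Z_le_P hP.1
  have hdl : ∀ a ∈ N ⊓ A, dl x a ∈ A ⊓ P := fun a ha =>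
    ⟨d.dl_mem hxS ha.2, (d.mem_normalizer_iff' hPS hx hxA ha.2).1 ha.1.2⟩
  -- a bound on the index of `A ∩ P` in `N ∩ A`
  have hbound : (A ⊓ P).relIndex (N ⊓ A) ≤ p := by
    rcases hcase with h | h
    · rw [h]
      have hle : N ⊓ A ≤ W := fun a ha => (d.mem_W_iff hxS hxA ha.2).2 (h ▸ hdl a ha)
      haveI := finite_of_le (d.W_le.trans d.le)
      have hmul := Subgroup.relIndex_mul_relIndex Z (N ⊓ A) W
        (le_inf (hZP.trans (le_normalizerIn hPS)) d.Z_le) hle
      refine le_trans ?_ hW.le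
      rw [← hmul]
      exact Nat.le_mul_of_pos_right _ (Nat.pos_of_ne_zero (relIndex_ne_zero' _ _))
    · rw [h]
      haveI := finite_of_le (d.W_le.trans d.le)
      haveI : (Z.subgroupOf W).Normal := ⟨fun u hu v => by
        rw [Subgroup.mem_subgroupOf] at hu ⊢
        simp only [Subgroup.coe_mul, Subgroup.coe_inv]
        rw [d.central hu (d.le (d.W_le v.2)), mul_inv_cancel_right]
        exact hu⟩
      let δ : ↥(N ⊓ A) →* W := MonoidHom.mk' (fun a => ⟨dl x a, h ▸ hdl a a.2⟩)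
        fun a b => Subtype.ext (d.dl_mul hxS a.2.2 b.2.2)
      let χ : ↥(N ⊓ A) →* W ⧸ Z.subgroupOf W := (QuotientGroup.mk' _).comp δ
      have hk : χ.ker = W.subgroupOf (N ⊓ A) := by
        ext a
        simp only [χ, MonoidHom.mem_ker, MonoidHom.comp_apply, QuotientGroup.mk'_apply,
          QuotientGroup.eq_one_iff, Subgroup.mem_subgroupOf]
        exact (d.mem_W_iff hxS hxA a.2.2).symm
      change (W.subgroupOf (N ⊓ A)).index ≤ p
      rw [← hk, Subgroup.index_ker]
      refine Nat.le_of_dvd hp.out.pos (dvd_trans (Subgroup.card_subgroup_dvd_card _) ?_)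
      rw [← Subgroup.index_eq_card]
      exact dvd_of_eq hW
  -- `N = (N ∩ A) P`
  have hPN : P ≤ N := le_normalizerIn hPS
  haveI hPn : (P.subgroupOf N).Normal := Subgroup.normal_subgroupOf_of_le_normalizer inf_le_right
  have htop : (N ⊓ A).subgroupOf N ⊔ P.subgroupOf N = ⊤ := by
    rw [eq_top_iff]
    rintro ⟨g, hg⟩ -
    obtain ⟨a, ha, i, rfl⟩ := d.gen hxS hxA (normalizerIn_le S P hg)
    have hxi : x ^ i ∈ P := P.pow_mem hx i
    have haN : a ∈ N := by
      have := N.mul_mem hg (N.inv_mem (hPN hxi))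
      rwa [mul_inv_cancel_right] at this
    refine Subgroup.mem_sup_of_normal_right.2 ⟨⟨a, haN⟩, ⟨haN, ha⟩, ⟨x ^ i, hPN hxi⟩, hxi, rfl⟩
  have hle : P.relIndex N ≤ p := by
    have h1 : P.relIndex N = (P.subgroupOf N).relIndex ((N ⊓ A).subgroupOf N) := by
      have h := Subgroup.relIndex_sup_right (H := (N ⊓ A).subgroupOf N) (K := P.subgroupOf N)
      rw [htop, Subgroup.relIndex_top_right] at h
      exact h
    rw [h1, ← Subgroup.relIndex_map_map_of_injective _ _ N.subtype_injective,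
      Subgroup.subgroupOf_map_subtype, Subgroup.subgroupOf_map_subtype,
      inf_eq_left.2 hPN, inf_eq_left.2 (inf_le_left : N ⊓ A ≤ N)]
    have h2 : P.relIndex (N ⊓ A) = (A ⊓ P).relIndex (N ⊓ A) := by
      rw [← Subgroup.inf_relIndex_right (H := P) (K := N ⊓ A),
        ← Subgroup.inf_relIndex_right (H := A ⊓ P) (K := N ⊓ A)]
      congr 1
      rw [inf_comm A P, inf_assoc, inf_comm A (N ⊓ A), inf_assoc, inf_idem]
    rw [h2]; exact hbound
  have hne : P.relIndex N ≠ 1 := by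
    rw [Ne, Subgroup.relIndex_eq_one]
    obtain ⟨a, ha, haN, haP⟩ := d.exists_normalizing hF hP hx hxA
    exact fun h => haP (h ⟨d.le ha, haN⟩)
  obtain ⟨e, he⟩ := IsPGroup.iff_card.1 (d.pgroup.to_le (normalizerIn_le S P))
  obtain ⟨k, -, hk⟩ := (Nat.dvd_prime_pow hp.out).1 (he ▸ (P.subgroupOf N).index_dvd_card)
  change P.relIndex N = p ^ k at hk
  rw [hk] at hle hne ⊢
  have hk1 : k ≤ 1 := (Nat.pow_le_pow_iff_right hp.out.one_lt).1 (hle.trans (pow_one p).ge)
  interval_cases k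
  · simp at hne
  · exact pow_one p

end Cfsg.Agent.Lib.LocalP2.AbelianIndexP
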