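import Cfsg.Agent.Lib.LocalP2.AbelianIndexPSetup
import Cfsg.Agent.Lib.Coprime.Action

/-!
The derived subgroup and the class of a `p`-group with abelian subgroup of index `p` and small
second centre.
-/

set_option autoImplicit false
set_option linter.style.haveILetI false

namespace Cfsg.Agent.Lib.LocalP2.AbelianIndexP

open Cfsg Cfsg.FusionSystem Cfsg.Agent.Lib.Fusion
open scoped commutatorElement

variable {Ω : Type*} [Group Ω] {p : ℕ} [hp : Fact p.Prime] {S A Z W : Subgroup Ω} [Finite S]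

/-- The derived subgroup consists of the commutators with `x`. -/
theorem AData.commutator_eq (d : AData p S A Z W) {x : Ω} (hx : x ∈ S) (hxA : x ∉ A) :
    ∃ D : Subgroup Ω, D = (commutator ↥S).map S.subtype ∧ D ≤ A ∧
      ∀ w, w ∈ D ↔ ∃ a ∈ A, dl x a = w := by
  have h1 : dl x 1 = 1 := by simp [dl]
  let D : Subgroup Ω :=
    { carrier := {w | ∃ a ∈ A, dl x a = w}
      one_mem' := ⟨1, A.one_mem, h1⟩
      mul_mem' := by
        rintro _ _ ⟨a, ha, rfl⟩ ⟨b, hb, rfl⟩
        exact ⟨a * b, A.mul_mem ha hb, d.dl_mul hx ha hb⟩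
      inv_mem' := by
        rintro _ ⟨a, ha, rfl⟩
        refine ⟨a⁻¹, A.inv_mem ha, eq_inv_of_mul_eq_one_left ?_⟩
        rw [← d.dl_mul hx (A.inv_mem ha) ha, inv_mul_cancel, h1] }
  have hDA : D ≤ A := by
    rintro _ ⟨a, ha, rfl⟩
    exact d.dl_mem hx ha
  refine ⟨D, le_antisymm ?_ ?_, hDA, fun w => Iff.rfl⟩
  · rintro _ ⟨a, ha, rfl⟩
    refine ⟨⁅(⟨a, d.le ha⟩ : S), ⟨x, hx⟩⁆, ?_, rfl⟩
    rw [_root_.commutator_def]
    exact Subgroup.commutator_mem_commutator (Subgroup.mem_top _) (Subgroup.mem_top _)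
  · rw [_root_.commutator_def, Subgroup.map_commutator, ← MonoidHom.range_eq_map,
      Subgroup.range_subtype, Subgroup.commutator_le]
    have hconjA : ∀ a ∈ A, ∀ w ∈ D, a * w * a⁻¹ = w := fun a ha w hw => by
      rw [d.comm a ha w (hDA hw), mul_inv_cancel_right]
    have hconjx : ∀ i : ℕ, ∀ w ∈ D, x ^ i * w * (x ^ i)⁻¹ ∈ D := by
      intro i
      induction i with
      | zero => intro w hw; simpa using hw
      | succ i ih =>
        rintro _ ⟨a, ha, rfl⟩
        have e : x ^ (i + 1) * dl x a * (x ^ (i + 1))⁻¹ =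
            x ^ i * dl x (x * a * x⁻¹) * (x ^ i)⁻¹ := by
          rw [pow_succ]; simp only [dl]; group
        rw [e]
        exact ih _ ⟨_, conj_mem_of_mem_normalizer (d.normal hx) ha, rfl⟩
    have hbase : ∀ a ∈ A, ∀ i : ℕ, a * x ^ i * a⁻¹ * (x ^ i)⁻¹ ∈ D := by
      intro a ha i
      induction i with
      | zero => simp
      | succ i ih =>
        have e : a * x ^ (i + 1) * a⁻¹ * (x ^ (i + 1))⁻¹ =
            (a * x ^ i * a⁻¹ * (x ^ i)⁻¹) * (x ^ i * dl x a * (x ^ i)⁻¹) := by
          rw [pow_succ]; simp only [dl]; group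
        rw [e]
        exact D.mul_mem ih (hconjx i _ ⟨a, ha, rfl⟩)
    intro g hg h hh
    obtain ⟨a, ha, i, rfl⟩ := d.gen hx hxA hg
    obtain ⟨b, hb, j, rfl⟩ := d.gen hx hxA hh
    have e : ⁅a * x ^ i, b * x ^ j⁆ =
        a * ((b * x ^ i * b⁻¹ * (x ^ i)⁻¹)⁻¹) * a⁻¹ *
          (b * (a * x ^ j * a⁻¹ * (x ^ j)⁻¹) * b⁻¹) := by
      rw [commutatorElement_def]
      have hxx : x ^ j * (x ^ i)⁻¹ = (x ^ i)⁻¹ * x ^ j :=
        ((Commute.pow_pow (Commute.refl x) j i).inv_right).eq
      calc a * x ^ i * (b * x ^ j) * (a * x ^ i)⁻¹ * (b * x ^ j)⁻¹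
          = a * x ^ i * b * (x ^ j * (x ^ i)⁻¹) * a⁻¹ * (x ^ j)⁻¹ * b⁻¹ := by group
        _ = a * x ^ i * b * (x ^ i)⁻¹ * (b⁻¹ * (a⁻¹ * a)) * b * x ^ j * a⁻¹ * (x ^ j)⁻¹ * b⁻¹ := by
            rw [hxx]; group
        _ = a * x ^ i * b * (x ^ i)⁻¹ * b⁻¹ * a⁻¹ * ((b * a) * x ^ j * a⁻¹ * (x ^ j)⁻¹ * b⁻¹) := by
            rw [← d.comm a ha b hb]; group
        _ = _ := by group
    rw [e]
    refine D.mul_mem ?_ ?_
    · rw [hconjA a ha _ (D.inv_mem (hbase b hb i))]
      exact D.inv_mem (hbase b hb i)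
    · rw [hconjA b hb _ (hbase a ha j)]
      exact hbase a ha j

omit [Finite S] in
theorem AData.card_A (d : AData p S A Z W) : Nat.card A * p = Nat.card S := by
  rw [← Nat.card_congr (Subgroup.subgroupOfEquivOfLe d.le).toEquiv, ← d.index]
  exact Subgroup.card_mul_index _

/-- `|Z ∩ S'| = p` and `|A| = |Z| |S'|`. -/
theorem AData.card_facts (d : AData p S A Z W) (hW : Z.relIndex W = p) {x : Ω} (hx : x ∈ S)
    (hxA : x ∉ A) {D : Subgroup Ω} (hD : ∀ w, w ∈ D ↔ ∃ a ∈ A, dl x a = w) (hDA : D ≤ A) :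
    Nat.card ↥(Z ⊓ D) = p ∧ Nat.card A = Nat.card Z * Nat.card D := by
  haveI := finite_of_le d.le
  haveI := finite_of_le (d.W_le.trans d.le)
  let δ : A →* D := MonoidHom.mk' (fun a => ⟨dl x a, (hD _).2 ⟨a, a.2, rfl⟩⟩)
    fun a b => Subtype.ext (d.dl_mul hx a.2 b.2)
  have hker : ∀ a : A, dl x a = 1 ↔ (a : Ω) ∈ Z := by
    intro a
    rw [dl, mul_inv_eq_one, mul_inv_eq_iff_eq_mul]
    exact ⟨fun h => d.mem_Z_of_comm hx hxA a.2 h, fun h => (d.central h hx).symm⟩
  have hk : δ.ker = Z.subgroupOf A := by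
    ext a
    rw [MonoidHom.mem_ker, ← Subtype.coe_inj, Subgroup.mem_subgroupOf]
    exact hker a
  have hsur : Function.Surjective δ := by
    rintro ⟨w, hw⟩
    obtain ⟨a, ha, rfl⟩ := (hD w).1 hw
    exact ⟨⟨a, ha⟩, rfl⟩
  refine ⟨?_, ?_⟩
  · let δ' : W →* ↥(Z ⊓ D) := MonoidHom.mk'
      (fun a => ⟨dl x a, (d.mem_W_iff hx hxA (d.W_le a.2)).1 a.2, (hD _).2 ⟨a, d.W_le a.2, rfl⟩⟩)
      fun a b => Subtype.ext (d.dl_mul hx (d.W_le a.2) (d.W_le b.2))
    have hk' : δ'.ker = Z.subgroupOf W := by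
      ext a
      rw [MonoidHom.mem_ker, ← Subtype.coe_inj, Subgroup.mem_subgroupOf]
      exact hker ⟨a, d.W_le a.2⟩
    have hsur' : Function.Surjective δ' := by
      rintro ⟨w, hwZ, hwD⟩
      obtain ⟨a, ha, rfl⟩ := (hD w).1 hwD
      exact ⟨⟨a, (d.mem_W_iff hx hxA ha).2 hwZ⟩, rfl⟩
    have h := Subgroup.index_ker δ'
    rw [MonoidHom.range_eq_top.2 hsur', Subgroup.card_top, hk'] at h
    rw [← h]
    exact hW
  · rw [← δ.ker.card_mul_index, Subgroup.index_ker, MonoidHom.range_eq_top.2 hsur, Subgroup.card_top,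
      hk, Nat.card_congr (Subgroup.subgroupOfEquivOfLe d.Z_le).toEquiv]

/-- `Z S'` has index `p` in `A`. -/
theorem AData.index_sup (d : AData p S A Z W) {D : Subgroup Ω} (hDA : D ≤ A)
    (h1 : Nat.card ↥(Z ⊓ D) = p) (h2 : Nat.card A = Nat.card Z * Nat.card D) :
    ((Z ⊔ D).subgroupOf A).index = p := by
  haveI := finite_of_le d.le
  have hnorm : Z ≤ Subgroup.normalizer (D : Set Ω) := fun z hz => by
    haveI := finite_of_le (hDA.trans d.le)
    refine mem_normalizer_of_conj_mem fun w hw => ?_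
    rw [← d.central hz (d.le (hDA hw)), mul_inv_cancel_right]
    exact hw
  have h3 := Coprime.card_sup_mul_card_inf_of_le_normalizer hnorm
  rw [h1, ← h2, ← Nat.card_congr (Subgroup.subgroupOfEquivOfLe (sup_le d.Z_le hDA)).toEquiv,
    ← ((Z ⊔ D).subgroupOf A).card_mul_index] at h3
  exact (Nat.eq_of_mul_eq_mul_left Nat.card_pos h3).symm

/-- The class of `S/Z`. -/
theorem AData.lcs_not_le (d : AData p S A Z W) (hW : Z.relIndex W = p) {x : Ω} (hx : x ∈ S)
    (hxA : x ∉ A) {m : ℕ} (hm : (Z.subgroupOf S).index = p ^ m) (h3 : 3 ≤ m) :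
    ¬ Subgroup.lowerCentralSeries S (m - 2) ≤ Z := by
  intro hle
  haveI := finite_of_le d.le
  obtain ⟨D, -, hDA, hD⟩ := d.commutator_eq hx hxA
  obtain ⟨hZD, -⟩ := d.card_facts hW hx hxA hD hDA
  -- membership of iterated commutators
  have hiter : ∀ k : ℕ, ∀ a ∈ A, (dl x)^[k] a ∈ Subgroup.lowerCentralSeries S k := by
    intro k
    induction k with
    | zero => intro a ha; rw [Subgroup.lowerCentralSeries_zero]; exact d.le ha
    | succ k ih =>
      intro a ha
      rw [Function.iterate_succ_apply', Subgroup.lowerCentralSeries_succ]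
      exact Subgroup.commutator_mem_commutator (ih a ha) hx
  have hmem : ∀ k : ℕ, ∀ a ∈ A, (dl x)^[k] a ∈ A := by
    intro k
    induction k with
    | zero => intro a ha; exact ha
    | succ k ih => intro a ha; rw [Function.iterate_succ_apply']; exact d.dl_mem hx (ih a ha)
  have hmul : ∀ k : ℕ, ∀ a ∈ A, ∀ b ∈ A, (dl x)^[k] (a * b) = (dl x)^[k] a * (dl x)^[k] b := by
    intro k
    induction k with
    | zero => intro a _ b _; rfl
    | succ k ih =>
      intro a ha b hb
      rw [Function.iterate_succ_apply', ih a ha b hb, d.dl_mul hx (hmem k a ha) (hmem k b hb),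
        Function.iterate_succ_apply', Function.iterate_succ_apply']
  let φ : ℕ → (↥A →* ↥A) := fun k => MonoidHom.mk' (fun a => ⟨(dl x)^[k] a, hmem k a a.2⟩)
    fun a b => Subtype.ext (hmul k a a.2 b b.2)
  let K : ℕ → Subgroup A := fun k => (Z.subgroupOf A).comap (φ k)
  have hK : ∀ k, Nat.card (K k) ≤ p ^ k * Nat.card Z := by
    intro k
    induction k with
    | zero =>
      refine le_of_eq ?_
      rw [pow_zero, one_mul, ← Nat.card_congr (Subgroup.subgroupOfEquivOfLe d.Z_le).toEquiv]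
      congr
    | succ k ih =>
      set δ := φ 1 with hδ
      have hstep : K (k + 1) = (K k).comap δ := by
        ext a
        simp only [K, Subgroup.mem_comap, Subgroup.mem_subgroupOf, φ, hδ, MonoidHom.mk'_apply]
        rw [Function.iterate_succ_apply]
        rfl
      have hkerδ : δ.ker = Z.subgroupOf A := by
        ext a
        rw [MonoidHom.mem_ker, ← Subtype.coe_inj, Subgroup.mem_subgroupOf]
        change dl x a = 1 ↔ _
        rw [dl, mul_inv_eq_one, mul_inv_eq_iff_eq_mul]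
        exact ⟨fun h => d.mem_Z_of_comm hx hxA a.2 h, fun h => (d.central h hx).symm⟩
      have hrange : δ.range ≤ D.subgroupOf A := by
        rintro _ ⟨a, rfl⟩
        exact (hD _).2 ⟨a, a.2, rfl⟩
      set R : Subgroup A := K k ⊓ D.subgroupOf A with hR
      have hZK : Z.subgroupOf A ≤ K k := by
        intro a ha
        simp only [K, Subgroup.mem_comap, Subgroup.mem_subgroupOf, φ, MonoidHom.mk'_apply] at ha ⊢
        rcases Nat.eq_zero_or_pos k with rfl | hk
        · exact ha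
        obtain ⟨j, rfl⟩ := Nat.exists_eq_add_of_le hk
        rw [add_comm, Function.iterate_succ_apply]
        have h1 : dl x (a : Ω) = 1 := by
          rw [dl, mul_inv_eq_one, mul_inv_eq_iff_eq_mul, d.central ha hx]
        rw [h1]
        have h2 : ∀ i : ℕ, (dl x)^[i] (1 : Ω) = 1 := by
          intro i
          induction i with
          | zero => rfl
          | succ i ih => rw [Function.iterate_succ_apply', ih]; simp [dl]
        rw [h2]
        exact Z.one_mem
      haveI : (Z.subgroupOf A).Normal := ⟨fun u hu v => by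
        rw [Subgroup.mem_subgroupOf] at hu ⊢
        simp only [Subgroup.coe_mul, Subgroup.coe_inv]
        rw [d.central hu (d.le v.2), mul_inv_cancel_right]
        exact hu⟩
      have h4 : Nat.card R * Nat.card Z ≤ Nat.card (K k) * p := by
        have h5 := Coprime.card_sup_mul_card_inf_of_le_normalizer
          (A := R) (N := Z.subgroupOf A) (by rw [Subgroup.normalizer_eq_top]; exact le_top)
        rw [Nat.card_congr (Subgroup.subgroupOfEquivOfLe d.Z_le).toEquiv] at h5
        rw [← h5]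
        refine Nat.mul_le_mul (Subgroup.card_le_of_le (sup_le inf_le_left hZK)) ?_
        rw [← hZD]
        refine le_trans (Subgroup.card_le_of_le
          (show R ⊓ Z.subgroupOf A ≤ (Z ⊓ D).subgroupOf A from fun a ha => ⟨ha.2, ha.1.2⟩)) ?_
        exact le_of_eq (Nat.card_congr (Subgroup.subgroupOfEquivOfLe
          (inf_le_left.trans d.Z_le)).toEquiv)
      have h6 : Nat.card (K (k + 1)) ≤ Nat.card Z * Nat.card R := by
        let δ' : K (k + 1) →* R := (δ.comp (K (k + 1)).subtype).codRestrict R fun a =>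
          ⟨Subgroup.mem_comap.1 (hstep.le a.2 : _), hrange ⟨(a : A), rfl⟩⟩
        rw [← δ'.ker.card_mul_index, Subgroup.index_ker]
        refine Nat.mul_le_mul ?_ (Subgroup.card_le_card_group _)
        haveI := finite_of_le d.Z_le_S
        refine Nat.card_le_card_of_injective (fun a => (⟨((a : K (k + 1)) : A), ?_⟩ : Z)) ?_
        · have h7 : ((a : K (k + 1)) : A) ∈ δ.ker := by
            have := congrArg Subtype.val (MonoidHom.mem_ker.1 a.2)
            exact this
          rw [hkerδ] at h7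
          exact h7
        · intro a b hab
          exact Subtype.ext (Subtype.ext (Subtype.ext (congrArg Subtype.val hab :)))
      calc Nat.card (K (k + 1)) ≤ Nat.card Z * Nat.card R := h6
        _ = Nat.card R * Nat.card Z := mul_comm _ _
        _ ≤ Nat.card (K k) * p := h4
        _ ≤ p ^ k * Nat.card Z * p := Nat.mul_le_mul_right p ih
        _ = p ^ (k + 1) * Nat.card Z := by ring
  have htop : K (m - 2) = ⊤ := eq_top_iff.2 fun a _ => hle (hiter (m - 2) a a.2)
  have h8 := hK (m - 2)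
  rw [htop, Subgroup.card_top] at h8
  haveI := finite_of_le d.Z_le_S
  have hS' : Nat.card S = Nat.card Z * p ^ m := by
    rw [← (Z.subgroupOf S).card_mul_index, hm,
      Nat.card_congr (Subgroup.subgroupOfEquivOfLe d.Z_le_S).toEquiv]
  have hA' := d.card_A
  rw [hS', show p ^ m = p ^ (m - 1) * p by rw [← pow_succ]; congr 1; omega, ← mul_assoc] at hA'
  rw [Nat.eq_of_mul_eq_mul_right hp.out.pos hA', mul_comm] at h8
  have h9 := Nat.le_of_mul_le_mul_right h8 Nat.card_pos
  have h10 : p ^ (m - 2) < p ^ (m - 1) := Nat.pow_lt_pow_right hp.out.one_lt (by omega)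
  omega

end Cfsg.Agent.Lib.LocalP2.AbelianIndexP
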