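import Cfsg.Agent.Lib.LocalP2.AbelianIndexPNotEssential

/-!
If the abelian subgroup of index `p` is not essential, the fixed points in `Z(S)` of an inversion
automorphism form a subgroup normal in the system.
-/

set_option autoImplicit false

namespace Cfsg.Agent.Lib.LocalP2.AbelianIndexP

open Cfsg Cfsg.Agent.Lib.Fusion
open Cfsg.FusionSystem (centralizerIn normalizerIn extender)
open Cfsg.Agent.Lib.LocalP2.GenExtra (exists_pgroup_of_chain Stab fix_closure)
open scoped commutatorElement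

variable {Ω : Type*} [Group Ω] {p : ℕ} [hp : Fact p.Prime] {S A Z W : Subgroup Ω} [Finite S]
  {F : FusionSystem S} {P : Subgroup Ω}

theorem AData.W_normal (d : AData p S A Z W) : S ≤ Subgroup.normalizer (W : Set Ω) := by
  have := finite_of_le (d.W_le.trans d.le)
  intro g hg
  refine mem_normalizer_of_conj_mem fun q hq => ?_
  have h1 := ((d.memW q).1 hq).2 g hg
  have h2 : g * q * g⁻¹ = (q * g * q⁻¹ * g⁻¹)⁻¹ * q := by group
  rw [h2]
  exact W.mul_mem (W.inv_mem (d.Z_le_W h1)) hq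

theorem AData.dl_mem_der (d : AData p S A Z W) {y : Ω} (hy : y ∈ S) {a : Ω} (ha : a ∈ A) :
    dl y a ∈ der S :=
  ⟨⁅(⟨a, d.le ha⟩ : S), ⟨y, hy⟩⁆,
    Subgroup.commutator_mem_commutator (Subgroup.mem_top _) (Subgroup.mem_top _), by
      simp [commutatorElement_def, dl]⟩

/-- `Z` has index `p` in an abelian essential subgroup. -/
theorem AData.card_abelian (d : AData p S A Z W) (hP : F.IsEssential p P)
    (hab : ∀ a ∈ P, ∀ b ∈ P, a * b = b * a) {x : Ω} (hx : x ∈ P) (hxA : x ∉ A) :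
    Nat.card P = p * Nat.card Z := by
  have hPS := hP.1.1
  have := finite_of_le hPS
  have := finite_of_le d.Z_le_S
  refine le_antisymm (d.card_le_of_not_le hPS hab hx hxA) ?_
  refine GenExtra.card_lt_mul_le d.pgroup hPS (lt_of_le_of_ne (d.Z_le_P hP.1) fun h => ?_)
  exact hxA (d.Z_le (h ▸ hx))

/-- A nontrivial commutator with `y` can be adjusted to any element of `Z ∩ S'`. -/
theorem AData.exists_dl_eq (d : AData p S A Z W) (hE : Nat.card ↥(Z ⊓ der S) = p) {y : Ω} (hy : y ∈ S)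
    (hyA : y ∉ A) {w : Ω} (hw : w ∈ W) (hwZ : w ∉ Z) {u : Ω} (hu : u ∈ Z ⊓ der S) :
    ∃ w' ∈ W, dl y w' = u := by
  have hmem : dl y w ∈ Z ⊓ der S :=
    ⟨(d.mem_W_iff hy hyA (d.W_le hw)).1 hw, d.dl_mem_der hy (d.W_le hw)⟩
  have hne : dl y w ≠ 1 := fun h => hwZ (d.mem_Z_of_comm hy hyA (d.W_le hw) (by
    rw [dl, mul_inv_eq_one, mul_inv_eq_iff_eq_mul] at h; exact h))
  obtain ⟨⟨k, hk⟩, -⟩ := d.mem_zpowers_inter hE (A := A) (e := ⟨_, d.Z_le hmem.1⟩) (u := ⟨u, d.Z_le hu.1⟩)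
    hmem (fun h => hne (congrArg Subtype.val h)) hu
  refine ⟨w ^ k, W.pow_mem hw k, ?_⟩
  have hpow : ∀ n : ℕ, dl y (w ^ n) = dl y w ^ n := by
    intro n
    induction n with
    | zero => simp [dl]
    | succ n ih => rw [pow_succ, d.dl_mul hy (A.pow_mem (d.W_le hw) n) (d.W_le hw), ih, pow_succ]
  rw [hpow]
  exact (congrArg Subtype.val hk).symm

set_option maxHeartbeats 800000 in
/-- An abelian essential subgroup gives an inverting automorphism whose fixed points it preserves. -/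
theorem AData.abelian_inverts (d : AData p S A Z W) (hF : F.IsSaturated p) (hp2 : p ≠ 2)
    (hAe : ¬ F.IsEssential p A) (hE : Nat.card ↥(Z ⊓ der S) = p) (hP : F.IsEssential p P)
    (hab : ∀ a ∈ P, ∀ b ∈ P, a * b = b * a) {x : Ω} (hx : x ∈ P) (hxA : x ∉ A) :
    ∃ (β : MulAut A) (e : A), Inverts F Z β e ∧
      ∀ ψ ∈ F.autGroup P, ∀ q : P, (q : Ω) ∈ zFix Z β → ((ψ q : P) : Ω) ∈ zFix Z β := by
  classical
  have hPS := hP.1.1
  have hxS := hPS hx
  have := finite_of_le hPS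
  have := finite_of_le d.le
  have := finite_mulAut hPS
  have hPp : IsPGroup p P := d.pgroup.to_le hPS
  have hZP := d.Z_le_P hP.1
  have hinf := d.inf_eq_of_abelian hP hab hx hxA
  have hW := d.index_W_abelian hF hP hab hx hxA
  obtain ⟨w0, hw0, hw0Z⟩ : ∃ w ∈ W, w ∉ Z := SetLike.exists_of_lt
    (lt_of_le_of_ne d.Z_le_W fun h => hp.out.ne_one (by rw [← hW, h, Subgroup.relIndex_self]))
  -- the normalizer
  have hWN : ∀ w ∈ W, w ∈ normalizerIn S P := fun w hw => ⟨d.le (d.W_le hw),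
    (d.mem_normalizer_iff' hPS hx hxA (d.W_le hw)).2 (hZP ((d.mem_W_iff hxS hxA (d.W_le hw)).1 hw))⟩
  have hNW : ∀ g ∈ normalizerIn S P, ∃ w ∈ W, ∃ q ∈ P, g = w * q := by
    intro g hg
    obtain ⟨a, ha, i, rfl⟩ := d.gen hxS hxA hg.1
    have hxi : x ^ i ∈ P := P.pow_mem hx i
    have haN : a ∈ Subgroup.normalizer (P : Set Ω) := by
      have h := (Subgroup.normalizer (P : Set Ω)).mul_mem hg.2 ((Subgroup.normalizer (P : Set Ω)).inv_mem
        (Subgroup.le_normalizer hxi))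
      rwa [mul_inv_cancel_right] at h
    refine ⟨a, (d.mem_W_iff hxS hxA ha).2 ?_, _, hxi, rfl⟩
    have h := (d.mem_normalizer_iff' hPS hx hxA ha).1 haN
    rw [← hinf]
    exact ⟨d.dl_mem hxS ha, h⟩
  set Zp : Subgroup P := Z.subgroupOf P with hZpdef
  have hA_iff : ∀ q : P, (q : Ω) ∈ A ↔ q ∈ Zp := fun q =>
    ⟨fun h => hinf.le ⟨h, q.2⟩, fun h => d.Z_le h⟩
  set cj : ∀ w ∈ W, MulAut P := fun w hw => conjAut P (hWN w hw).2 with hcjdef
  have hcA : ∀ w (hw : w ∈ W), cj w hw ∈ F.autGroup P := fun w hw =>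
    autInducedBy_le_autGroup hPS (conjAut_mem_autInducedBy (hWN w hw).1 (hWN w hw).2)
  have hcfix : ∀ w (hw : w ∈ W), ∀ q ∈ Zp, cj w hw q = q := fun w hw q hq => Subtype.ext (by
    show w * (q : Ω) * w⁻¹ = q
    rw [d.central (show (q : Ω) ∈ Z from hq) (d.le (d.W_le hw)), mul_inv_cancel_right])
  have hcdl : ∀ w (hw : w ∈ W) (q : P), ((cj w hw q * q⁻¹ : P) : Ω) = dl (q : Ω) w := fun w hw q => by
    simp [hcjdef, dl]
  have hcZD : ∀ w (hw : w ∈ W) (q : P), ((cj w hw q * q⁻¹ : P) : Ω) ∈ Z ⊓ der S := by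
    intro w hw q
    rw [hcdl w hw]
    exact ⟨((d.memW w).1 hw).2 q (hPS q.2), d.dl_mem_der (hPS q.2) (d.W_le hw)⟩
  -- the element `e`
  obtain ⟨u0, hu0, hu01⟩ : ∃ u ∈ Z ⊓ der S, u ≠ 1 := by
    by_contra h
    push Not at h
    have h2 : Z ⊓ der S = ⊥ := (Subgroup.eq_bot_iff_forall _).2 h
    rw [h2, Subgroup.card_bot] at hE
    exact hp.out.ne_one hE.symm
  set e : P := ⟨u0, hZP hu0.1⟩
  have heZ : e ∈ Zp := hu0.1
  set eA : A := ⟨u0, d.Z_le hu0.1⟩
  have hgenE : ∀ q : P, (q : Ω) ∈ Z ⊓ der S → ∃ k : ℕ, q = e ^ k := by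
    intro q hq
    obtain ⟨⟨k, hk⟩, -⟩ := d.mem_zpowers_inter hE (e := eA) (u := ⟨q, d.Z_le hq.1⟩) hu0
      (fun h => hu01 (congrArg Subtype.val h)) hq
    exact ⟨k, Subtype.ext (by simpa [e, eA] using congrArg Subtype.val hk)⟩
  have hep : e ^ p = 1 := by
    obtain ⟨-, h⟩ := d.mem_zpowers_inter hE (e := eA) (u := eA) hu0
      (fun h => hu01 (congrArg Subtype.val h)) hu0
    exact Subtype.ext (by simpa [e, eA] using congrArg Subtype.val h)
  have hcshift : ∀ w (hw : w ∈ W) (q : P), ∃ k : ℕ, cj w hw q * q⁻¹ = e ^ k :=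
    fun w hw q => hgenE _ (hcZD w hw q)
  have hcomm : ∀ a b : P, a * b = b * a := fun a b => Subtype.ext (hab _ a.2 _ b.2)
  have hZpc : Nat.card Zp = Nat.card Z := Nat.card_congr (Subgroup.subgroupOfEquivOfLe hZP).toEquiv
  have hZpi : Zp.index = p := by
    have h := Zp.card_mul_index
    rw [hZpc, d.card_abelian hP hab hx hxA, mul_comm p] at h
    have := finite_of_le d.Z_le_S
    exact Nat.eq_of_mul_eq_mul_left Nat.card_pos h
  have hZpn : Zp.Normal := ⟨fun q hq g => by rw [hcomm g q, mul_inv_cancel_right]; exact hq⟩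
  have hr := isRadical_of_essential d.pgroup hP
  -- some automorphism moves `Z`
  obtain ⟨φ0, hφ0, q0, hq0, hq0m⟩ : ∃ φ ∈ F.autGroup P, ∃ q ∈ Zp, φ q ∉ Zp := by
    by_contra hno
    push Not at hno
    have hWP : W ≤ P := by
      let D : ℕ → Subgroup P := fun i => if i = 0 then ⊥ else if i = 1 then Zp else ⊤
      refine le_of_chain d.pgroup hP.1 hr (d.W_le.trans d.le) (fun g hg => d.W_normal (hPS hg)) 2 D
        rfl rfl (fun α hα i q hq => ?_) (fun g hg hgN i hi q hq => ?_)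
      · by_cases h0 : i = 0
        · subst h0
          simp only [D, if_true, Subgroup.mem_bot] at hq ⊢
          rw [hq, map_one]
        by_cases h1 : i = 1
        · subst h1
          simp only [D, one_ne_zero, if_true, if_false] at hq ⊢
          exact hno α hα q hq
        · simp only [D, h0, h1, if_false, Subgroup.mem_top]
      · interval_cases i
        · simp only [D, zero_add, one_ne_zero, if_true, if_false] at hq
          simp only [D, if_true, Subgroup.mem_bot, mul_inv_eq_one]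
          exact hcfix g hg q hq
        · simp only [D, one_ne_zero, if_true, if_false]
          exact (hcZD g hg q).1
    exact hw0Z (hinf.le ⟨d.W_le hw0, hWP hw0⟩)
  -- analysis of one moving automorphism
  have hmain : ∀ φ ∈ F.autGroup P, (∃ q ∈ Zp, φ q ∉ Zp) →
      ∃ (β : MulAut A) (e' : A), Inverts F Z β e' ∧
        ∀ q : P, (q : Ω) ∈ zFix Z β ↔ q ∈ Zp ⊓ Zp.map φ.toMonoidHom := by
    intro φ hφ hmov
    set Z' := Zp.map φ.toMonoidHom with hZ'
    have hZ'n : Z'.Normal := ⟨fun q hq g => by rw [hcomm g q, mul_inv_cancel_right]; exact hq⟩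
    have hne : Z' ≠ Zp := fun h => by
      obtain ⟨q, hq, hqm⟩ := hmov
      exact hqm (h.le ⟨q, hq, rfl⟩)
    have hZ'i : Z'.index = p := by
      rw [hZ', Subgroup.index_map_eq _ φ.surjective
        (fun u hu => by rw [(φ.map_eq_one_iff (x := u)).1 hu]; exact Zp.one_mem), hZpi]
    set f := φ e with hfdef
    have hfZ' : f ∈ Z' := ⟨e, heZ, rfl⟩
    have hφi : φ⁻¹ ∈ F.autGroup P := inv_mem hφ
    set sj : ∀ w ∈ W, MulAut P := fun w hw => φ * cj w hw * φ⁻¹ with hsjdef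
    have hsA : ∀ w (hw : w ∈ W), sj w hw ∈ F.autGroup P := fun w hw =>
      mul_mem (mul_mem hφ (hcA w hw)) hφi
    have hsval : ∀ w (hw : w ∈ W) (q : P),
        sj w hw q * q⁻¹ = φ (cj w hw (φ⁻¹ q) * (φ⁻¹ q)⁻¹) := fun w hw q => by
      rw [map_mul, map_inv, MulAut.apply_inv_self]; rfl
    have hsfix : ∀ w (hw : w ∈ W), ∀ q ∈ Z', sj w hw q = q := by
      rintro w hw _ ⟨q, hq, rfl⟩
      show φ (cj w hw (φ⁻¹ (φ q))) = φ q
      rw [MulAut.inv_apply_self, hcfix w hw q hq]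
    have hsshift : ∀ w (hw : w ∈ W) (q : P), ∃ k : ℕ, sj w hw q * q⁻¹ = f ^ k := fun w hw q => by
      obtain ⟨k, hk⟩ := hcshift w hw (φ⁻¹ q)
      exact ⟨k, by rw [hsval w hw, hk, map_pow]⟩
    have htop : Zp ⊔ Z' = ⊤ := by
      rw [← Subgroup.index_eq_one]
      refine ((Nat.dvd_prime hp.out).1 (hZpi ▸ Subgroup.index_dvd_of_le le_sup_left)).resolve_right ?_
      intro h
      have h1 : Zp = Zp ⊔ Z' := by
        refine Subgroup.eq_of_le_of_card_ge le_sup_left (le_of_eq ?_)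
        have h3 := Zp.card_mul_index
        have h4 := (Zp ⊔ Z').card_mul_index
        rw [h, ← h3, hZpi] at h4
        exact Nat.eq_of_mul_eq_mul_right hp.out.pos h4
      refine hne (Subgroup.eq_of_le_of_card_ge (le_sup_right.trans h1.ge) ?_)
      rw [hZ', Subgroup.card_map_of_injective φ.injective]
    -- the two transvection groups generate no `p`-group
    have hnp : ∀ T : Subgroup (MulAut P), T ≤ F.autGroup P → IsPGroup p T →
        cj w0 hw0 ∈ T → sj w0 hw0 ∈ T → False := by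
      intro T hTA hTp ht hs
      obtain ⟨-, hsyl⟩ := isFullyAutomized_iff.1 (fullyNormalized_props d.pgroup hF hP.2.1).1
      obtain ⟨θ, -, hθT⟩ := hsyl.exists_conj_le hTA hTp
      have hind : autInducedBy S P ≤ Subgroup.zpowers (cj w0 hw0) := by
        intro γ hγ
        obtain ⟨g, hg, hgγ⟩ := exists_of_mem_autInducedBy hγ
        obtain ⟨w, hw, q1, hq1, rfl⟩ := hNW g hg
        obtain ⟨a, hwa, hza⟩ : ∃ a : ℕ, ∃ z ∈ Z, w = w0 ^ a * z := by
          haveI : (Z.subgroupOf W).Normal := ⟨fun u hu v => by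
            rw [Subgroup.mem_subgroupOf] at hu ⊢
            simp only [Subgroup.coe_mul, Subgroup.coe_inv]
            rw [d.central hu (d.le (d.W_le v.2)), mul_inv_cancel_right]
            exact hu⟩
          have : Finite W := finite_of_le (d.W_le.trans d.le)
          set π := QuotientGroup.mk' (Z.subgroupOf W)
          have hcard : Nat.card (W ⧸ Z.subgroupOf W) = p := by
            rw [← Subgroup.index_eq_card]; exact hW
          have hne1 : π ⟨w0, hw0⟩ ≠ 1 := fun h => hw0Z ((QuotientGroup.eq_one_iff _).1 h :)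
          obtain ⟨a, ha⟩ := mem_powers_iff_mem_zpowers.2
            (mem_zpowers_of_prime_card hcard hne1 (g' := π ⟨w, hw⟩))
          refine ⟨a, (w0 ^ a)⁻¹ * w, ?_, by group⟩
          have h2 : ((⟨w0, hw0⟩ : W) ^ a)⁻¹ * ⟨w, hw⟩ ∈ Z.subgroupOf W :=
            (QuotientGroup.eq (s := Z.subgroupOf W)).1 ((map_pow π _ _).trans ha :)
          simpa [Subgroup.mem_subgroupOf] using h2
        obtain ⟨hzZ, rfl⟩ := hza
        refine Subgroup.mem_zpowers_iff.2 ⟨(a : ℤ), ?_⟩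
        rw [zpow_natCast]
        refine MulEquiv.ext fun q => Subtype.ext ?_
        rw [hgγ q]
        have hpow : ∀ n : ℕ, (((cj w0 hw0) ^ n) q : Ω) = w0 ^ n * q * (w0 ^ n)⁻¹ := by
          intro n
          induction n with
          | zero => simp
          | succ n ih =>
            rw [pow_succ', MulAut.mul_apply]
            show w0 * _ * w0⁻¹ = _
            rw [ih, pow_succ']; group
        rw [hpow]
        calc w0 ^ a * (q : Ω) * (w0 ^ a)⁻¹ = w0 ^ a * (hwa * q * hwa⁻¹) * (w0 ^ a)⁻¹ := by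
              rw [← d.central hzZ (hPS q.2), mul_inv_cancel_right]
          _ = w0 ^ a * hwa * (q1 * q * q1⁻¹) * (w0 ^ a * hwa)⁻¹ := by
              rw [hab q1 hq1 q q.2, mul_inv_cancel_right]; group
          _ = w0 ^ a * hwa * q1 * q * (w0 ^ a * hwa * q1)⁻¹ := by group
      have hzT : Subgroup.zpowers (cj w0 hw0) ≤ T := Subgroup.zpowers_le.2 ht
      have hcard : Nat.card T ≤ Nat.card (Subgroup.zpowers (cj w0 hw0)) := by
        have h : T.map (MulAut.conj θ).toMonoidHom ≤ autInducedBy S P := by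
          rintro _ ⟨γ, hγ, rfl⟩
          exact hθT γ hγ
        have h2 := Subgroup.card_le_of_le (h.trans hind)
        rwa [Subgroup.card_map_of_injective (MulAut.conj θ).injective] at h2
      have hTeq := Subgroup.eq_of_le_of_card_ge hzT hcard
      have hfixall : ∀ γ ∈ T, ∀ q ∈ Zp, γ q = q := by
        intro γ hγ q hq
        rw [← hTeq] at hγ
        obtain ⟨k, rfl⟩ := Subgroup.mem_zpowers_iff.1 hγ
        have h : cj w0 hw0 ∈ MulAction.stabilizer (MulAut P) q := hcfix w0 hw0 q hq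
        exact zpow_mem h k
      obtain ⟨hsfull⟩ : Nonempty (∀ q, sj w0 hw0 q = q) := ⟨fun q => fix_closure _
        (s := (Zp : Set P) ∪ Z') (fun y hy => hy.elim (hfixall _ hs y) (hsfix w0 hw0 y)) q
        (by rw [Subgroup.closure_union, Subgroup.closure_eq, Subgroup.closure_eq, htop]; trivial)⟩
      refine hw0Z (d.mem_Z_of_comm hxS hxA (d.W_le hw0) ?_)
      have h1 := hsfull (φ ⟨x, hx⟩)
      rw [show sj w0 hw0 (φ ⟨x, hx⟩) = φ (cj w0 hw0 (φ⁻¹ (φ ⟨x, hx⟩))) from rfl,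
        MulAut.inv_apply_self] at h1
      have h2 := congrArg Subtype.val (φ.injective h1)
      change w0 * x * w0⁻¹ = x at h2
      exact mul_inv_eq_iff_eq_mul.1 h2
    set Cp := Zp ⊓ Z' with hCp
    have hfZp : f ∉ Zp := by
      intro hf
      have hfC : ∀ k : ℕ, f ^ k ∈ Cp := fun k => pow_mem (show f ∈ Cp from ⟨hf, hfZ'⟩) k
      obtain ⟨T, hTA, hTp, hT⟩ := exists_pgroup_of_chain hPp (F.autGroup P)
        (U := Cp) (V := Zp) (W := Zp) inf_le_left le_rfl
      refine hnp T hTA hTp (hT _ (hcA _ hw0) ⟨fun q hq => hcfix _ hw0 q hq.1, fun q hq => ?_,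
        fun q hq => ?_, fun q => (hcZD _ hw0 q).1⟩) (hT _ (hsA _ hw0) ⟨fun q hq => hsfix _ hw0 q hq.2,
        fun q _ => ?_, fun q _ => ?_, fun q => ?_⟩)
      · rw [hcfix _ hw0 q hq, mul_inv_cancel]; exact one_mem _
      · rw [hcfix _ hw0 q hq, mul_inv_cancel]; exact one_mem _
      all_goals obtain ⟨k, hk⟩ := hsshift _ hw0 q; rw [hk]
      · exact hfC k
      · exact (hfC k).1
      · exact (hfC k).1
    have heZ' : e ∉ Z' := by
      intro he
      have heC : ∀ k : ℕ, e ^ k ∈ Cp := fun k => pow_mem (show e ∈ Cp from ⟨heZ, he⟩) k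
      obtain ⟨T, hTA, hTp, hT⟩ := exists_pgroup_of_chain hPp (F.autGroup P)
        (U := Cp) (V := Z') (W := Z') inf_le_right le_rfl
      refine hnp T hTA hTp (hT _ (hcA _ hw0) ⟨fun q hq => hcfix _ hw0 q hq.1, fun q _ => ?_,
        fun q _ => ?_, fun q => ?_⟩) (hT _ (hsA _ hw0) ⟨fun q hq => hsfix _ hw0 q hq.2,
        fun q hq => ?_, fun q hq => ?_, fun q => ?_⟩)
      rotate_right 3
      · rw [hsfix _ hw0 q hq, mul_inv_cancel]; exact one_mem _
      · rw [hsfix _ hw0 q hq, mul_inv_cancel]; exact one_mem _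
      · obtain ⟨k, hk⟩ := hsshift _ hw0 q; rw [hk]; exact pow_mem hfZ' k
      all_goals obtain ⟨k, hk⟩ := hcshift _ hw0 q; rw [hk]
      · exact heC k
      · exact (heC k).2
      · exact (heC k).2
    -- decompositions
    have hCi : Cp.relIndex Zp = p := by
      rw [hCp, inf_comm, Subgroup.inf_relIndex_right]
      refine ((Nat.dvd_prime hp.out).1 (hZ'i ▸ Subgroup.relIndex_dvd_index_of_normal Z' Zp)).resolve_left ?_
      intro h
      exact heZ' (Subgroup.relIndex_eq_one.1 h heZ)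
    have hdecZ : ∀ q ∈ Zp, ∃ c ∈ Cp, ∃ k : ℕ, q = c * e ^ k := by
      intro q hq
      haveI : (Cp.subgroupOf Zp).Normal :=
        ⟨fun u hu v => by rw [show v * u * v⁻¹ = u from Subtype.ext (by simp [hcomm (v : P) u])]; exact hu⟩
      set π := QuotientGroup.mk' (Cp.subgroupOf Zp)
      have hcard : Nat.card (Zp ⧸ Cp.subgroupOf Zp) = p := by
        rw [← Subgroup.index_eq_card]; exact hCi
      have hne1 : π ⟨e, heZ⟩ ≠ 1 := fun h =>
        heZ' (((QuotientGroup.eq_one_iff _).1 h : (⟨e, heZ⟩ : Zp) ∈ Cp.subgroupOf Zp) : e ∈ Cp).2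
      obtain ⟨a, ha⟩ := mem_powers_iff_mem_zpowers.2
        (mem_zpowers_of_prime_card hcard hne1 (g' := π ⟨q, hq⟩))
      refine ⟨(e ^ a)⁻¹ * q, ?_, a, by rw [hcomm, mul_inv_cancel_left]⟩
      have h2 : ((⟨e, heZ⟩ : Zp) ^ a)⁻¹ * ⟨q, hq⟩ ∈ Cp.subgroupOf Zp :=
        (QuotientGroup.eq (s := Cp.subgroupOf Zp)).1 ((map_pow π _ _).trans ha :)
      simpa [Subgroup.mem_subgroupOf] using h2
    -- the elementary automorphisms
    have hfA : (f : Ω) ∉ A := fun h => hfZp ((hA_iff f).1 h)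
    obtain ⟨wu, hwu, hwuv⟩ := d.exists_dl_eq hE (hPS f.2) hfA hw0 hw0Z (u := (e : Ω)) hu0
    set u := cj wu hwu with hudef
    have hue : u e = e := hcfix _ hwu e heZ
    have huf : u f = e * f := by
      have h : u f * f⁻¹ = e := Subtype.ext ((hcdl _ hwu f).trans hwuv)
      rw [← h, inv_mul_cancel_right]
    have hyA : ((φ⁻¹ e : P) : Ω) ∉ A := fun h => heZ' ⟨φ⁻¹ e, (hA_iff _).1 h, MulAut.apply_inv_self _ φ e⟩
    obtain ⟨wv, hwv, hwvv⟩ := d.exists_dl_eq hE (hPS (φ⁻¹ e).2) hyA hw0 hw0Z (u := ((e⁻¹ : P) : Ω))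
      (by rw [Subgroup.coe_inv]; exact Subgroup.inv_mem _ hu0)
    set v := sj wv hwv with hvdef
    have hvf : v f = f := hsfix _ hwv f hfZ'
    have hve : v e = f⁻¹ * e := by
      have h : v e * e⁻¹ = f⁻¹ := by
        rw [hvdef, hsval _ hwv, hfdef, ← map_inv φ]
        exact congrArg φ (Subtype.ext ((hcdl _ hwv _).trans hwvv))
      rw [← h, inv_mul_cancel_right]
    set w := u * v * u with hwdef
    have hwe : w e = f⁻¹ := by
      rw [hwdef, MulAut.mul_apply, MulAut.mul_apply, hue, hve, map_mul, map_inv, huf, hue, mul_inv_rev,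
        inv_mul_cancel_right]
    have hwf : w f = e := by
      rw [hwdef, MulAut.mul_apply, MulAut.mul_apply, huf, map_mul, hvf, hve, mul_assoc, hcomm e f,
        inv_mul_cancel_left, hue]
    set τ := w * w with hτdef
    have hτe : τ e = e⁻¹ := by rw [hτdef, MulAut.mul_apply, hwe, map_inv, hwf]
    have hτf : τ f = f⁻¹ := by rw [hτdef, MulAut.mul_apply, hwf, hwe]
    have hτC : ∀ c ∈ Cp, τ c = c := fun c hc => by
      simp only [hτdef, hwdef, MulAut.mul_apply, hudef, hvdef, hcfix _ hwu c hc.1, hsfix _ hwv c hc.2]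
    have hτA : τ ∈ F.autGroup P := mul_mem (mul_mem (mul_mem (hcA _ hwu) (hsA _ hwv)) (hcA _ hwu))
      (mul_mem (mul_mem (hcA _ hwu) (hsA _ hwv)) (hcA _ hwu))
    have hdecP : ∀ q : P, ∃ z ∈ Zp, ∃ k : ℕ, q = z * f ^ k := by
      intro q
      set π := QuotientGroup.mk' Zp
      have hcard : Nat.card (P ⧸ Zp) = p := by rw [← Subgroup.index_eq_card]; exact hZpi
      have hne1 : π f ≠ 1 := fun h => hfZp ((QuotientGroup.eq_one_iff _).1 h)
      obtain ⟨a, ha⟩ := mem_powers_iff_mem_zpowers.2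
        (mem_zpowers_of_prime_card hcard hne1 (g' := π q))
      refine ⟨(f ^ a)⁻¹ * q, (QuotientGroup.eq (s := Zp)).1 ((map_pow π _ _).trans ha :), a,
        by rw [hcomm, mul_inv_cancel_left]⟩
    have hτZ : ∀ q ∈ Zp, τ q ∈ Zp := by
      intro q hq
      obtain ⟨c, hc, k, rfl⟩ := hdecZ q hq
      rw [map_mul, map_pow, hτC c hc, hτe]
      exact mul_mem hc.1 (pow_mem (inv_mem heZ) k)
    -- `τ` commutes with `Aut_S(P)`
    have hτc : ∀ w' (hw' : w' ∈ W), τ * cj w' hw' * τ⁻¹ = cj w' hw' := by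
      intro w' hw'
      rw [mul_inv_eq_iff_eq_mul]
      refine MulEquiv.ext fun q => ?_
      obtain ⟨z, hz, k, rfl⟩ := hdecP q
      obtain ⟨m, hm⟩ := hcshift w' hw' f
      have hcf : cj w' hw' f = e ^ m * f := by rw [← hm, inv_mul_cancel_right]
      simp only [MulAut.mul_apply, map_mul, map_pow, hcfix w' hw' z hz, hcfix w' hw' _ (hτZ z hz), hcf,
        hτe, hτf, map_inv, inv_pow]
      rw [← inv_pow (e ^ m * f) k, mul_inv_rev, hcomm f⁻¹]
    obtain ⟨Ψ, hΨ, hΨN, hΨe⟩ := exists_extend_of_congr_le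
      (fullyNormalized_props d.pgroup hF hP.2.1).2 ((mem_autGroup hPS).1 hτA) (by
        rintro _ ⟨γ, hγ, rfl⟩
        obtain ⟨g, hg, hgγ⟩ := exists_of_mem_autInducedBy hγ
        obtain ⟨w', hw', q1, hq1, rfl⟩ := hNW g hg
        have hγ' : γ = cj w' hw' := MulEquiv.ext fun q => Subtype.ext (by
          rw [hgγ q]
          show w' * q1 * (q : Ω) * (w' * q1)⁻¹ = w' * q * w'⁻¹
          calc w' * q1 * (q : Ω) * (w' * q1)⁻¹ = w' * (q1 * q * q1⁻¹) * w'⁻¹ := by group
            _ = _ := by rw [hab q1 hq1 q q.2, mul_inv_cancel_right])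
        show MulAut.congr τ γ ∈ _
        rw [congr_eq_conj, hγ', hτc w' hw']
        exact conjAut_mem_autInducedBy (hWN w' hw').1 (hWN w' hw').2)
    -- restrict to `W`
    have hΨZ : ∀ z (hz : z ∈ Z), Ψ ⟨z, le_normalizerIn hPS (hZP hz)⟩ ∈ Z := fun z hz => by
      rw [hΨe ⟨z, hZP hz⟩]
      exact hτZ ⟨z, hZP hz⟩ hz
    have hWN' : W ≤ normalizerIn S P := hWN
    set U := (W.subgroupOf (normalizerIn S P)).map Ψ with hU
    have hUS : U ≤ S := by rintro _ ⟨a, -, rfl⟩; exact val_mem hΨ a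
    have hUab : ∀ a ∈ U, ∀ b ∈ U, a * b = b * a := by
      rintro _ ⟨a, ha, rfl⟩ _ ⟨b, hb, rfl⟩
      rw [← map_mul, ← map_mul]
      exact congrArg Ψ (Subtype.ext (d.comm _ (d.W_le ha) _ (d.W_le hb)))
    have hUc : Nat.card U = Nat.card W := by
      rw [hU, Subgroup.card_map_of_injective (F.injective_of_mem hΨ),
        Nat.card_congr (Subgroup.subgroupOfEquivOfLe hWN').toEquiv]
    have hWc : Nat.card W = p * Nat.card Z := by
      have h := (Z.subgroupOf W).card_mul_index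
      rw [Nat.card_congr (Subgroup.subgroupOfEquivOfLe d.Z_le_W).toEquiv,
        show (Z.subgroupOf W).index = p from hW] at h
      rw [← h, mul_comm]
    have hUA : U ≤ A := by
      by_contra hUA
      obtain ⟨y, hy, hyA⟩ := SetLike.not_le_iff_exists.1 hUA
      have hyN : y ∈ normalizerIn S P := by obtain ⟨a, -, rfl⟩ := hy; exact hΨN a
      have hZU : Z ≤ U := by
        intro z hz
        have : Finite Z := finite_of_le d.Z_le_S
        have hinj : Function.Injective fun z : Z =>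
            (⟨Ψ ⟨z, le_normalizerIn hPS (hZP z.2)⟩, hΨZ z z.2⟩ : Z) := fun a b hh =>
          Subtype.ext (congrArg (fun t : normalizerIn S P => (t : Ω))
            (F.injective_of_mem hΨ (congrArg Subtype.val hh)) :)
        obtain ⟨a, ha⟩ := Finite.surjective_of_injective hinj ⟨z, hz⟩
        exact ⟨⟨a, le_normalizerIn hPS (hZP a.2)⟩, d.Z_le_W a.2, congrArg Subtype.val ha⟩
      -- write `y = w q` and move `P` onto `U`
      obtain ⟨wy, hwy, qy, hqy, rfl⟩ := hNW y hyN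
      have hqyA : qy ∉ A := fun h => hyA (A.mul_mem (d.W_le hwy) h)
      obtain ⟨a, ha, haW⟩ : ∃ a ∈ A, dl qy a ∈ W ∧ a ∉ W := by
        have hWA : W < A := lt_of_le_of_ne d.W_le fun h => by
          refine hxA ?_
          have hTS : S ≤ Subgroup.normalizer (P : Set Ω) := fun g hg => by
            obtain ⟨b, hb, i, rfl⟩ := d.gen hxS hxA hg
            exact mul_mem (hWN b (h.symm ▸ hb)).2 (Subgroup.le_normalizer (P.pow_mem hx i))
          have hPi : (P.subgroupOf S).index = p := by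
            have h1 := (P.subgroupOf S).card_mul_index
            rw [Nat.card_congr (Subgroup.subgroupOfEquivOfLe hPS).toEquiv,
              d.card_abelian hP hab hx hxA, ← hWc, h, ← d.card_A] at h1
            exact Nat.eq_of_mul_eq_mul_left Nat.card_pos h1
          exact d.uniq P hPS hab hPi ▸ hx
        have : Finite A := finite_of_le d.le
        have : Finite W := finite_of_le (d.W_le.trans d.le)
        set N1 := normalizerIn S P
        have hN1 : N1 < S := lt_of_le_of_ne (normalizerIn_le S P) fun h => by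
          obtain ⟨b, hb, hbW⟩ := SetLike.exists_of_lt hWA
          refine hbW ((d.mem_W_iff hxS hxA hb).2 ?_)
          rw [← hinf]
          exact ⟨d.dl_mem hxS hb, (d.mem_normalizer_iff' hPS hx hxA hb).1
            ((h.ge : S ≤ N1) (d.le hb)).2⟩
        obtain ⟨g, hg, hgN⟩ := SetLike.exists_of_lt (lt_normalizer_inf d.pgroup hN1)
        obtain ⟨a, ha, i, rfl⟩ := d.gen (hPS hqy) hqyA hg.1
        have hqN : qy ∈ N1 := le_normalizerIn hPS hqy
        have haN : a ∈ Subgroup.normalizer (N1 : Set Ω) := by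
          have h := (Subgroup.normalizer (N1 : Set Ω)).mul_mem hg.2
            ((Subgroup.normalizer (N1 : Set Ω)).inv_mem (Subgroup.le_normalizer (N1.pow_mem hqN i)))
          rwa [mul_inv_cancel_right] at h
        refine ⟨a, ha, ?_, fun h => hgN (N1.mul_mem (hWN a h) (N1.pow_mem hqN i))⟩
        have h1 : dl qy a ∈ N1 := N1.mul_mem (conj_mem_of_mem_normalizer haN hqN) (N1.inv_mem hqN)
        obtain ⟨w1, hw1, q2, hq2, heq⟩ := hNW _ h1
        have hA2 : q2 ∈ A := by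
          have : q2 = w1⁻¹ * dl qy a := by rw [heq, inv_mul_cancel_left]
          rw [this]
          exact A.mul_mem (A.inv_mem (d.W_le hw1)) (d.dl_mem (hPS hqy) ha)
        rw [heq]
        exact W.mul_mem hw1 (d.Z_le_W (hinf.le ⟨hA2, hq2⟩))
      -- `dl qy` maps onto `W / Z`
      have hdlZ : dl qy a ∉ Z := fun h => haW.2 ((d.mem_W_iff (hPS hqy) hqyA ha).2 h)
      obtain ⟨k, hk⟩ : ∃ k : ℕ, (dl qy a ^ k)⁻¹ * wy ∈ Z := by
        haveI : (Z.subgroupOf W).Normal := ⟨fun u hu v => by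
          rw [Subgroup.mem_subgroupOf] at hu ⊢
          simp only [Subgroup.coe_mul, Subgroup.coe_inv]
          rw [d.central hu (d.le (d.W_le v.2)), mul_inv_cancel_right]
          exact hu⟩
        have : Finite W := finite_of_le (d.W_le.trans d.le)
        set π := QuotientGroup.mk' (Z.subgroupOf W)
        have hcard : Nat.card (W ⧸ Z.subgroupOf W) = p := by
          rw [← Subgroup.index_eq_card]; exact hW
        have hne1 : π ⟨_, haW.1⟩ ≠ 1 := fun h => hdlZ ((QuotientGroup.eq_one_iff _).1 h :)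
        obtain ⟨k, hk⟩ := mem_powers_iff_mem_zpowers.2
          (mem_zpowers_of_prime_card hcard hne1 (g' := π ⟨wy, hwy⟩))
        refine ⟨k, ?_⟩
        have h2 : ((⟨_, haW.1⟩ : W) ^ k)⁻¹ * ⟨wy, hwy⟩ ∈ Z.subgroupOf W :=
          (QuotientGroup.eq (s := Z.subgroupOf W)).1 ((map_pow π _ _).trans hk :)
        simpa [Subgroup.mem_subgroupOf] using h2
      have hpow : ∀ n : ℕ, dl qy (a ^ n) = dl qy a ^ n := by
        intro n
        induction n with
        | zero => simp [dl]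
        | succ n ih => rw [pow_succ, d.dl_mul (hPS hqy) (A.pow_mem ha n) ha, ih, pow_succ]
      set b := a ^ k
      have hbS : b ∈ S := d.le (A.pow_mem ha k)
      set P' := P.map (MulAut.conj b).toMonoidHom with hP'
      have hy' : b * qy * b⁻¹ ∈ U := by
        have h1 : b * qy * b⁻¹ = dl qy b * qy := by rw [dl, inv_mul_cancel_right]
        rw [h1, hpow]
        have h2 : dl qy a ^ k * qy = ((dl qy a ^ k)⁻¹ * wy)⁻¹ * (wy * qy) := by
          rw [mul_inv_rev, inv_inv,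
            d.comm _ (A.inv_mem (d.W_le hwy)) _ (A.pow_mem (d.dl_mem (hPS hqy) ha) k)]
          group
        rw [h2]
        exact U.mul_mem (U.inv_mem (hZU hk)) hy
      have hP'U : P' = U := by
        set Y := Z ⊔ Subgroup.zpowers (b * qy * b⁻¹) with hY
        have hYU : Y ≤ U := sup_le hZU (Subgroup.zpowers_le.2 hy')
        have hZP' : Z ≤ P' := fun z hz => ⟨z, hZP hz, by
          show b * z * b⁻¹ = z
          rw [d.central hz hbS, mul_inv_cancel_right]⟩
        have hYP : Y ≤ P' := sup_le hZP' (Subgroup.zpowers_le.2 ⟨qy, hqy, rfl⟩)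
        have hZY : Z < Y := lt_of_le_of_ne le_sup_left fun h => hqyA (by
          have h1 : b * qy * b⁻¹ ∈ A := d.Z_le (h.symm ▸ Subgroup.mem_sup_right (Subgroup.mem_zpowers _))
          simpa [mul_assoc] using conj_mem_of_mem_normalizer (d.normal (S.inv_mem hbS)) h1)
        have h3 := GenExtra.card_lt_mul_le d.pgroup (hYU.trans hUS) hZY
        have : Finite U := finite_of_le hUS
        have : Finite P' := Finite.of_surjective (fun q : P => (⟨b * q * b⁻¹, q, q.2, rfl⟩ : P'))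
          fun ⟨_, q, hq, h⟩ => ⟨⟨q, hq⟩, Subtype.ext h⟩
        have hP'c : Nat.card P' = p * Nat.card Z := by
          rw [hP', Subgroup.card_map_of_injective (MulAut.conj b).injective, d.card_abelian hP hab hx hxA]
        rw [← eq_of_le_of_natCard_le hYP (hP'c.le.trans h3),
          eq_of_le_of_natCard_le hYU (by rw [hUc, hWc]; exact h3)]
      have hconj : F.IsConj P W := by
        refine isConj_trans (Q := U) ⟨_, F.conj_mem hPS hbS, ?_⟩
          (isConj_symm ⟨_, restrict_mem hWN' hΨ, ?_⟩)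
        · rw [← hP'U]
          ext z
          exact ⟨fun ⟨q, hq⟩ => ⟨q, q.2, hq⟩, fun ⟨q, hq, h⟩ => ⟨⟨q, hq⟩, h⟩⟩
        · rw [hU]
          ext z
          exact ⟨fun ⟨q, hq⟩ => ⟨⟨q, hWN' q.2⟩, q.2, hq⟩, fun ⟨q, hq, h⟩ => ⟨⟨q, hq⟩, h⟩⟩
      have h1 := hP.2.1.2 W hconj
      rw [show normalizerIn S W = S from inf_eq_left.2 d.W_normal] at h1
      have h2 : normalizerIn S P = S := by
        have : Finite (normalizerIn S P) := finite_of_le (normalizerIn_le S P)
        exact eq_of_le_of_natCard_le (normalizerIn_le S P) h1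
      obtain ⟨hdW, hne2⟩ := haW
      have haN : a ∈ normalizerIn S P := h2.symm ▸ d.le ha
      exact hne2 ((d.mem_W_iff hxS hxA ha).2 (hinf.le
        ⟨d.dl_mem hxS ha, (d.mem_normalizer_iff' hPS hx hxA ha).1 haN.2⟩))
    have hWnz : ¬ W ≤ Z := fun h => hw0Z (h hw0)
    obtain ⟨β, hβ, hβv⟩ := d.extend_A hF d.W_le hWnz d.W_normal (restrict_mem hWN' hΨ)
      (fun v' => by
        -- images in `A ∩ N_S(P)`
        obtain ⟨w', hw', q', hq', heq⟩ := hNW _ (hΨN ⟨v', hWN' v'.2⟩)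
        have hA2 : q' ∈ A := by
          have h : q' = w'⁻¹ * Ψ ⟨v', hWN' v'.2⟩ := by rw [heq, inv_mul_cancel_left]
          rw [h]
          exact A.mul_mem (A.inv_mem (d.W_le hw')) (hUA ⟨⟨v', hWN' v'.2⟩, v'.2, rfl⟩)
        show Ψ ⟨v', hWN' v'.2⟩ ∈ W
        rw [heq]
        exact W.mul_mem hw' (d.Z_le_W (hinf.le ⟨hA2, hq'⟩)))
    have hβZ : ∀ q : P, ∀ hq : (q : Ω) ∈ Z,
        ((β ⟨q, d.Z_le hq⟩ : A) : Ω) = ((τ q : P) : Ω) := by
      intro q hq
      rw [hβv ⟨q, d.Z_le_W hq⟩]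
      exact hΨe q _
    have hi : Inverts F Z β eA := by
      refine ⟨hβ, hu0, fun h => hu01 (congrArg Subtype.val h), Subtype.ext ?_, fun z hz => ?_⟩
      · rw [hβZ e hu0.1, hτe]; rfl
      · obtain ⟨c, hc, k, hck⟩ := hdecZ ⟨z, hZP hz⟩ hz
        rw [Subgroup.coe_mul, Subgroup.coe_inv, show z = ⟨((⟨z, hZP hz⟩ : P) : Ω), d.Z_le hz⟩ from rfl,
          hβZ ⟨z, hZP hz⟩ hz]
        have h : τ ⟨(z : Ω), hZP hz⟩ * (⟨(z : Ω), hZP hz⟩ : P)⁻¹ = (e ^ (2 * k))⁻¹ := by
          rw [hck, map_mul, map_pow, hτC c hc, hτe, mul_inv_rev, hcomm c, two_mul, pow_add,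
            mul_inv_rev, inv_pow, mul_assoc, hcomm c, mul_assoc, inv_mul_cancel, mul_one]
        have h' := congrArg Subtype.val h
        rw [Subgroup.coe_mul, Subgroup.coe_inv, Subgroup.coe_inv, SubmonoidClass.coe_pow] at h'
        rw [h']
        exact Subgroup.inv_mem _ (Subgroup.pow_mem _ hu0 _)
    refine ⟨β, eA, hi, fun q => ⟨fun hq => ?_, fun hq => ?_⟩⟩
    · obtain ⟨hqZ, _, hfix⟩ := mem_zFix.1 hq
      obtain ⟨c, hc, k, hck⟩ := hdecZ q hqZ
      have hτq : τ q = q := Subtype.ext (by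
        rw [← hβZ q hqZ]; exact congrArg Subtype.val hfix)
      rw [hck, map_mul, map_pow, hτC c hc, hτe, mul_right_inj, inv_pow] at hτq
      have h2 : (e ^ k) ^ 2 = 1 := by rw [sq]; nth_rewrite 1 [← hτq]; rw [inv_mul_cancel]
      have h3 : (e ^ k) ^ p = 1 := by rw [← pow_mul, mul_comm, pow_mul, hep, one_pow]
      have h4 : e ^ k = 1 := orderOf_eq_one_iff.1 (Nat.eq_one_of_dvd_coprimes
        ((Nat.coprime_primes hp.out Nat.prime_two).2 hp2)
        (orderOf_dvd_of_pow_eq_one h3) (orderOf_dvd_of_pow_eq_one h2))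
      rw [hck, h4, mul_one]
      exact hc
    · refine mem_zFix.2 ⟨hq.1, d.Z_le hq.1, Subtype.ext ?_⟩
      rw [hβZ q hq.1, hτC q hq]
  -- all moving automorphisms give the same fixed points
  obtain ⟨β, e', hi, hfix⟩ := hmain φ0 hφ0 ⟨q0, hq0, hq0m⟩
  refine ⟨β, e', hi, fun ψ hψ q hq => (hfix _).2 ?_⟩
  have hall : ∀ φ ∈ F.autGroup P, q ∈ Zp.map φ.toMonoidHom := by
    intro φ hφ
    by_cases hm : ∃ r ∈ Zp, φ r ∉ Zp
    · obtain ⟨β', e'', hi', hfix'⟩ := hmain φ hφ hm
      exact ((hfix' q).1 (d.zFix_le hF hAe hE hi hi' hq)).2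
    · push Not at hm
      have heq : Zp.map φ.toMonoidHom = Zp :=
        Subgroup.eq_of_le_of_card_ge (by rintro _ ⟨r, hr', rfl⟩; exact hm r hr')
          (Subgroup.card_map_of_injective φ.injective).ge
      rw [heq]
      exact ((hfix q).1 hq).1
  refine ⟨?_, ?_⟩
  · obtain ⟨r, hr', hre⟩ := hall ψ⁻¹ (inv_mem hψ)
    have h : ψ q = r := by
      rw [← hre]; exact MulAut.apply_inv_self _ ψ r
    rw [h]
    exact hr'
  · obtain ⟨r, hr', hre⟩ := hall (ψ⁻¹ * φ0) (mul_mem (inv_mem hψ) hφ0)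
    refine ⟨r, hr', ?_⟩
    rw [← hre]
    show φ0 r = ψ ((ψ⁻¹ * φ0) r)
    rw [MulAut.mul_apply, MulAut.apply_inv_self]

/-- Automorphisms of a nonabelian essential subgroup act on `Z` as automorphisms of `A`. -/
theorem AData.nonabelian_act (d : AData p S A Z W) (hF : F.IsSaturated p) (hP : F.IsEssential p P)
    (hna : ∃ a ∈ P, ∃ b ∈ P, a * b ≠ b * a) {x : Ω} (hx : x ∈ P) (hxA : x ∉ A) :
    ∀ α ∈ F.autGroup P, ∀ (q : P) (hq : (q : Ω) ∈ Z), ((α q : P) : Ω) ∈ Z ∧
      ∃ β ∈ F.autGroup A, ((β ⟨q, d.Z_le hq⟩ : A) : Ω) = ((α q : P) : Ω) := by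
  classical
  have hPS := hP.1.1
  have hxS := hPS hx
  have := finite_of_le hPS
  have := finite_mulAut hPS
  obtain ⟨hAP, hW⟩ := d.nonabelian_facts hF hP hna hx hxA
  have hZP := d.Z_le_P hP.1
  have hWP : W ≤ P := hAP ▸ inf_le_right
  have hWnz : ¬ W ≤ Z := fun h => hp.out.ne_one (by
    rw [← hW, Subgroup.relIndex_eq_one]; exact h)
  have hcen : ∀ q : P, q ∈ Subgroup.center P ↔ (q : Ω) ∈ Z := by
    intro q
    refine ⟨fun hq => ?_, fun hq => Subgroup.mem_center_iff.2 fun g =>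
      Subtype.ext (d.central hq (hPS g.2))⟩
    by_cases hqA : (q : Ω) ∈ A
    · exact d.mem_Z_of_comm hxS hxA hqA
        (congrArg Subtype.val (Subgroup.mem_center_iff.1 hq ⟨x, hx⟩)).symm
    · exact absurd (fun w hw => d.mem_Z_of_comm (hPS q.2) hqA (d.W_le hw)
        (congrArg Subtype.val (Subgroup.mem_center_iff.1 hq ⟨w, hWP hw⟩))) hWnz
  have hinv : ∀ α : MulAut P, ∀ q : P, (q : Ω) ∈ Z → ((α q : P) : Ω) ∈ Z := fun α q hq =>
    (hcen _).1 ((Subgroup.characteristic_iff_map_le.1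
      (inferInstance : (Subgroup.center P).Characteristic) α) ⟨q, (hcen q).2 hq, rfl⟩)
  let K : Subgroup (MulAut P) := F.autGroup P ⊓
    { carrier := {γ | ∀ q : P, (q : Ω) ∈ Z → γ q = q}
      one_mem' := fun _ _ => rfl
      mul_mem' := fun {γ δ} hγ hδ q hq => by
        show γ (δ q) = q
        rw [hδ q hq, hγ q hq]
      inv_mem' := fun {γ} hγ q hq => by
        show γ.symm q = q
        rw [MulEquiv.symm_apply_eq, hγ q hq] }
  have hKn : F.autGroup P ≤ Subgroup.normalizer (K : Set (MulAut P)) := fun δ hδ =>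
    mem_normalizer_of_conj_mem fun γ hγ => ⟨(F.autGroup P).mul_mem ((F.autGroup P).mul_mem hδ hγ.1) ((F.autGroup P).inv_mem hδ), fun q hq => by
      show δ (γ (δ⁻¹ q)) = q
      rw [hγ.2 _ (hinv _ q hq), MulAut.apply_inv_self]⟩
  obtain ⟨hrec, hsyl⟩ : F.IsReceptive P ∧ IsSylowIn p (autInducedBy S P) (F.autGroup P) :=
    ⟨(fullyNormalized_props d.pgroup hF hP.2.1).2,
      (isFullyAutomized_iff.1 (fullyNormalized_props d.pgroup hF hP.2.1).1).2⟩
  have hTK : autInducedBy S P ≤ K := fun γ hγ => by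
    refine ⟨autInducedBy_le_autGroup hPS hγ, fun q hq => ?_⟩
    obtain ⟨g, hg, hgγ⟩ := mem_autInducedBy.1 hγ
    exact Subtype.ext (by rw [hgγ q, d.central hq hg, mul_inv_cancel_right])
  intro α hα q hq
  refine ⟨hinv α q hq, ?_⟩
  obtain ⟨n, hn, hconj⟩ := IsSylowIn.exists_frattini hsyl inf_le_left hKn hα
  set α' := n * α with hα'def
  have hα'A : α' ∈ F.autGroup P := mul_mem hn.1 hα
  set N := normalizerIn S P with hN
  obtain ⟨Ψ, hΨ, hΨN, hΨe⟩ := exists_extend_of_congr_le hrec ((mem_autGroup hPS).1 hα'A) (by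
    rintro _ ⟨γ, hγ, rfl⟩
    show MulAut.congr α' γ ∈ _
    rw [congr_eq_conj]
    exact (hconj γ ⟨hγ, hTK hγ⟩).1)
  set V := N ⊓ A with hV
  have hNS : N ≤ S := normalizerIn_le S P
  have hVS : V ≤ S := inf_le_left.trans hNS
  have : Finite N := finite_of_le hNS
  have : Finite V := finite_of_le hVS
  have : Finite A := finite_of_le d.le
  have : Finite W := finite_of_le (d.W_le.trans d.le)
  have hWV : W < V := by
    obtain ⟨a, ha, haN, haP⟩ := d.exists_normalizing hF hP hx hxA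
    exact SetLike.lt_iff_le_and_exists.2 ⟨le_inf (hWP.trans (le_normalizerIn hPS)) d.W_le,
      a, (show a ∈ V from ⟨⟨d.le ha, haN⟩, ha⟩), fun h => haP (hWP h)⟩
  have hVn : S ≤ Subgroup.normalizer (V : Set Ω) := by
    intro g hg
    obtain ⟨a, ha, i, rfl⟩ := d.gen hxS hxA hg
    refine mul_mem (mem_normalizer_of_conj_mem fun v hv => ?_) (pow_mem ?_ i)
    · rw [d.comm a ha v hv.2, mul_inv_cancel_right]; exact hv
    · exact mem_normalizer_of_conj_mem fun v hv =>
        ⟨N.mul_mem (N.mul_mem (le_normalizerIn hPS hx) hv.1) (N.inv_mem (le_normalizerIn hPS hx)),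
          conj_mem_of_mem_normalizer (d.normal hxS) hv.2⟩
  have hVN : V ≤ N := inf_le_left
  set U := (V.subgroupOf N).map Ψ with hU
  have hUA : U ≤ A := by
    by_contra hUA
    obtain ⟨y, hy, hyA⟩ := SetLike.not_le_iff_exists.1 hUA
    have h1 := d.card_le_of_not_le (U := U) (by rintro _ ⟨a, -, rfl⟩; exact val_mem hΨ a)
      (by
        rintro _ ⟨a, ha, rfl⟩ _ ⟨b, hb, rfl⟩
        rw [← map_mul, ← map_mul]
        exact congrArg Ψ (Subtype.ext (d.comm _ ha.2 _ hb.2))) hy hyA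
    rw [hU, Subgroup.card_map_of_injective (F.injective_of_mem hΨ),
      Nat.card_congr (Subgroup.subgroupOfEquivOfLe hVN).toEquiv] at h1
    have h2 := GenExtra.card_lt_mul_le d.pgroup hVS hWV
    have h3 := (Z.subgroupOf W).card_mul_index
    rw [Nat.card_congr (Subgroup.subgroupOfEquivOfLe d.Z_le_W).toEquiv,
      show (Z.subgroupOf W).index = p from hW] at h3
    rw [← h3] at h2
    have : Finite Z := finite_of_le d.Z_le_S
    have h4 := h2.trans h1
    rw [mul_comm (Nat.card Z), ← mul_assoc] at h4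
    have h5 := Nat.le_of_mul_le_mul_right h4 Nat.card_pos
    have h6 : p * 1 < p * p := Nat.mul_lt_mul_of_pos_left hp.out.one_lt hp.out.pos
    omega
  have hVnz : ¬ V ≤ Z := fun h => hWnz (hWV.le.trans h)
  obtain ⟨β, hβ, hβv⟩ := d.extend_A hF inf_le_right hVnz hVn (restrict_mem hVN hΨ)
    fun v => ⟨hΨN _, hUA ⟨⟨v, hVN v.2⟩, v.2, rfl⟩⟩
  refine ⟨β, hβ, ?_⟩
  rw [hβv ⟨q, hWV.le (d.Z_le_W hq)⟩]
  show Ψ ⟨q, _⟩ = _
  rw [hΨe q (hVN (hWV.le (d.Z_le_W hq))), hα'def, MulAut.mul_apply, hn.2 _ (hinv α q hq)]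

/-- Conclusions when `A` is not essential and the core is trivial. -/
theorem AData.not_essential_structure (d : AData p S A Z W) (hF : F.IsSaturated p) (hp2 : p ≠ 2)
    (hcore : F.core = ⊥) (hAe : ¬ F.IsEssential p A) :
    ∃ P x, F.IsEssential p P ∧ x ∈ P ∧ x ∉ A ∧ P = Z ⊔ Subgroup.zpowers x ∧ Z.relIndex W = p ∧
      Z ≤ der S ∧ Nat.card Z = p := by
  classical
  have := finite_of_le d.le
  have := finite_of_le d.Z_le_S
  obtain ⟨x0, hx0, hx0A⟩ := d.exists_outside
  have hZ1 : Z ≠ ⊥ := by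
    have hnt : Nontrivial S := by
      obtain ⟨g, hg, k, hk, hne⟩ := d.nonab
      exact ⟨⟨g, hg⟩, ⟨k, hk⟩, fun h => hne (by have h2 : g = k := congrArg Subtype.val h; rw [h2])⟩
    have := d.pgroup.center_nontrivial
    obtain ⟨z, hz1⟩ := exists_ne (1 : Subgroup.center S)
    intro h
    have hzZ : ((z : S) : Ω) ∈ Z :=
      d.mem_Z (z : S).2 fun g hg => congrArg Subtype.val (Subgroup.mem_center_iff.1 z.2 ⟨g, hg⟩)
    rw [h, Subgroup.mem_bot] at hzZ
    exact hz1 (Subtype.ext (Subtype.ext hzZ))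
  have hnn : ∀ Q : Subgroup Ω, F.IsNormal Q → Q = ⊥ := fun Q hQ =>
    le_bot_iff.1 (hcore ▸ (le_sSup hQ : Q ≤ F.core))
  have hA' : ∀ {P}, F.IsEssential p P → P ≠ A := fun hP h => hAe (h ▸ hP)
  -- restriction of `Aut_F(S)` to `A`
  have hSA : ∀ α ∈ F.autGroup S, ∃ β ∈ F.autGroup A,
      ∀ a : A, ((β a : A) : Ω) = ((α ⟨a, d.le a.2⟩ : S) : Ω) := by
    intro α hα
    have hφ := restrict_mem d.le ((mem_autGroup le_rfl).1 hα)
    exact ⟨toIso _ hφ (d.range_eq hφ), (mem_autGroup d.le).2 (isIso_toIso _ _ _),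
      fun a => toIso_apply _ hφ (d.range_eq hφ) a⟩
  -- an abelian essential subgroup
  obtain ⟨P, hP, hab⟩ : ∃ P, F.IsEssential p P ∧ ∀ a ∈ P, ∀ b ∈ P, a * b = b * a := by
    by_contra hno
    refine hZ1 (hnn Z (isNormal_of_essential d.pgroup hF fun R hR => ?_))
    rcases hR with rfl | hR
    · refine ⟨d.Z_le_S, fun α hα q hq => ?_⟩
      obtain ⟨β, hβ, hβa⟩ := hSA α hα
      have h := d.autA_Z hF hAe hβ (a := ⟨q, d.Z_le hq⟩) hq
      rw [hβa] at h
      exact h
    · obtain ⟨x, hx, hxA, -, -⟩ := d.main hF hR (hA' hR)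
      have hna : ∃ a ∈ R, ∃ b ∈ R, a * b ≠ b * a := by
        by_contra h
        push Not at h
        exact hno ⟨R, hR, h⟩
      exact ⟨d.Z_le_P hR.1, fun α hα q hq => (d.nonabelian_act hF hR hna hx hxA α hα q hq).1⟩
  obtain ⟨x, hx, hxA⟩ := SetLike.not_le_iff_exists.1 (d.not_le hP (hA' hP))
  have hxS := hP.1.1 hx
  have hW := d.index_W_abelian hF hP hab hx hxA
  obtain ⟨D, hDeq, hDA, hD⟩ := d.commutator_eq hxS hxA
  have hE : Nat.card ↥(Z ⊓ der S) = p := by
    rw [show der S = D from hDeq.symm]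
    exact (d.card_facts hW hxS hxA hD hDA).1
  obtain ⟨β0, e0, hi0, -⟩ := d.abelian_inverts hF hp2 hAe hE hP hab hx hxA
  set C := zFix Z β0 with hC
  have hCZ : C ≤ Z := fun w hw => (mem_zFix.1 hw).1
  have hCn : F.IsNormal C := by
    refine isNormal_of_essential d.pgroup hF fun R hR => ?_
    rcases hR with rfl | hR
    · refine ⟨hCZ.trans d.Z_le_S, fun α hα q hq => ?_⟩
      obtain ⟨β, hβ, hβa⟩ := hSA α hα
      have h := d.autA_zFix hF hAe hE hi0 hβ (a := ⟨q, d.Z_le (hCZ hq)⟩) hq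
      rw [hβa] at h
      exact h
    · refine ⟨hCZ.trans (d.Z_le_P hR.1), fun α hα q hq => ?_⟩
      obtain ⟨y, hy, hyA, -, -⟩ := d.main hF hR (hA' hR)
      by_cases habR : ∀ a ∈ R, ∀ b ∈ R, a * b = b * a
      · obtain ⟨β, e, hi, hpres⟩ := d.abelian_inverts hF hp2 hAe hE hR habR hy hyA
        exact d.zFix_le hF hAe hE hi hi0 (hpres α hα q (d.zFix_le hF hAe hE hi0 hi hq))
      · push Not at habR
        obtain ⟨-, β, hβ, hβq⟩ := d.nonabelian_act hF hR habR hy hyA α hα q (hCZ hq)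
        rw [← hβq]
        exact d.autA_zFix hF hAe hE hi0 hβ hq
  have hC1 : C = ⊥ := hnn C hCn
  -- every element of `Z` lies in `Z ∩ S'`
  have hZle : Z ≤ der S := by
    intro w hw
    set z : A := ⟨w, d.Z_le hw⟩
    obtain ⟨⟨m, hm⟩, hep⟩ := d.mem_zpowers_inter hE hi0.e_mem hi0.e_ne (hi0.shift z hw)
    obtain ⟨k, hk⟩ : ∃ k : ℕ, 2 * k = p + 1 := by
      obtain ⟨i, hi⟩ := hp.out.odd_of_ne_two hp2
      exact ⟨i + 1, by omega⟩
    have hzc : ∀ a b : A, a * b = b * a := fun a b => Subtype.ext (d.comm _ a.2 _ b.2)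
    set j := m * k
    have hej : e0 ^ (2 * j) = e0 ^ m := by
      rw [show 2 * j = m * (2 * k) by simp only [j]; ring, hk, mul_add, mul_one, pow_add, mul_comm m p,
        pow_mul, hep, one_pow, one_mul]
    have hfix : β0 (z * e0 ^ j) = z * e0 ^ j := by
      have hβz : β0 z = e0 ^ m * z := by rw [← hm, inv_mul_cancel_right]
      rw [map_mul, map_pow, hi0.inv, hβz, ← hej, two_mul, pow_add, inv_pow, mul_assoc, hzc z,
        ← mul_assoc, hzc z, mul_assoc]
      group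
    have hmem : ((z * e0 ^ j : A) : Ω) ∈ C := mem_zFix.2 ⟨by
      rw [Subgroup.coe_mul, SubmonoidClass.coe_pow]
      exact Z.mul_mem hw (Z.pow_mem hi0.e_mem.1 j), (z * e0 ^ j).2, hfix⟩
    rw [hC1, Subgroup.mem_bot, Subgroup.coe_mul, SubmonoidClass.coe_pow] at hmem
    show ((z : A) : Ω) ∈ der S
    rw [eq_inv_of_mul_eq_one_left hmem]
    exact Subgroup.inv_mem _ (Subgroup.pow_mem _ hi0.e_mem.2 j)
  refine ⟨P, x, hP, hx, hxA, ?_, hW, hZle, by rwa [inf_eq_left.2 hZle] at hE⟩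
  refine le_antisymm (fun g hg => ?_) (sup_le (d.Z_le_P hP.1) (Subgroup.zpowers_le.2 hx))
  obtain ⟨a, ha, i, rfl⟩ := d.decomp hP.1.1 hx hxA hg
  exact Subgroup.mul_mem _ (Subgroup.mem_sup_left ((d.inf_eq_of_abelian hP hab hx hxA).le ha))
    (Subgroup.mem_sup_right (Subgroup.pow_mem _ (Subgroup.mem_zpowers x) i))

end Cfsg.Agent.Lib.LocalP2.AbelianIndexP
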