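import Cfsg.Agent.Lib.LocalP2.AbelianIndexPClass
import Cfsg.Agent.Lib.LocalP2.GenExtraClosedTools
import Cfsg.Agent.Lib.Fusion.Invariant

/-!
A system over a `p`-group with a unique abelian subgroup `A` of index `p` in which `A` is not essential:
inversion of `Z(S) ∩ S'` by automorphisms of `A`, and the fixed points of these inversions in `Z(S)`.
-/

set_option autoImplicit false

namespace Cfsg.Agent.Lib.LocalP2.AbelianIndexP

open Cfsg Cfsg.Agent.Lib.Fusion
open Cfsg.FusionSystem (centralizerIn normalizerIn extender)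
open scoped commutatorElement

variable {Ω : Type*} [Group Ω] {p : ℕ} [hp : Fact p.Prime] {S A Z W : Subgroup Ω} [Finite S]
  {F : FusionSystem S}

/-- `S' ≤ Ω`. -/
abbrev der (S : Subgroup Ω) : Subgroup Ω := (_root_.commutator ↥S).map S.subtype

theorem AData.centralizer_eq (d : AData p S A Z W) {V : Subgroup Ω} (hVA : V ≤ A) (hVZ : ¬ V ≤ Z) :
    centralizerIn S V = A := by
  refine le_antisymm (fun g hg => ?_) fun a ha => mem_centralizerIn.2
    ⟨d.le ha, fun v hv => d.comm v (hVA hv) a ha⟩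
  by_contra hgA
  exact hVZ fun v hv =>
    d.mem_Z_of_comm hg.1 hgA (hVA hv) ((mem_centralizerIn.1 hg).2 v hv)

theorem AData.A_not_le_Z (d : AData p S A Z W) {x : Ω} (hx : x ∈ S) (hxA : x ∉ A) : ¬ A ≤ Z := by
  intro h
  obtain ⟨g, hg, k, hk, hne⟩ := d.nonab
  obtain ⟨a, ha, i, rfl⟩ := d.gen hx hxA hg
  obtain ⟨b, hb, j, rfl⟩ := d.gen hx hxA hk
  apply hne
  calc a * x ^ i * (b * x ^ j) = a * (x ^ i * b) * x ^ j := by group
    _ = a * b * (x ^ i * x ^ j) := by rw [d.central (h hb) (S.pow_mem hx i)]; group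
    _ = b * a * (x ^ j * x ^ i) := by rw [d.comm a ha b hb, ← pow_add, ← pow_add, add_comm]
    _ = b * (x ^ j * a) * x ^ i := by rw [d.central (h ha) (S.pow_mem hx j)]; group
    _ = b * x ^ j * (a * x ^ i) := by group

theorem AData.exists_outside (d : AData p S A Z W) : ∃ x ∈ S, x ∉ A :=
  SetLike.exists_of_lt (lt_of_le_of_ne d.le fun e => hp.out.ne_one (by
    rw [← d.index, Subgroup.index_eq_one, Subgroup.subgroupOf_eq_top, e]))

/-- Maps of the system with source `A` have image `A`. -/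
theorem AData.range_eq (d : AData p S A Z W) {φ : A →* Ω} (hφ : φ ∈ F.Hom A) : φ.range = A := by
  refine d.uniq _ (range_le hφ) ?_ ?_
  · rintro _ ⟨a, rfl⟩ _ ⟨b, rfl⟩
    rw [← map_mul, ← map_mul]
    exact congrArg φ (Subtype.ext (d.comm _ a.2 _ b.2))
  · have hc : Nat.card φ.range = Nat.card A :=
      (Nat.card_congr (MonoidHom.ofInjective (F.injective_of_mem hφ)).toEquiv).symm
    have h1 := (φ.range.subgroupOf S).card_mul_index
    rw [Nat.card_congr (Subgroup.subgroupOfEquivOfLe (range_le hφ)).toEquiv, hc, ← d.card_A] at h1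
    have := finite_of_le d.le
    exact Nat.eq_of_mul_eq_mul_left Nat.card_pos h1

theorem AData.isCentric_A (d : AData p S A Z W) : F.IsCentric A := by
  refine ⟨d.le, fun Q hQ => ?_⟩
  obtain ⟨φ, hφ, rfl⟩ := hQ
  rw [d.range_eq hφ]
  obtain ⟨x, hx, hxA⟩ := d.exists_outside
  exact (d.centralizer_eq le_rfl (d.A_not_le_Z hx hxA)).le

theorem fullyNormalized_of_normal {V : Subgroup Ω} (hV : V ≤ S)
    (hn : S ≤ Subgroup.normalizer (V : Set Ω)) : F.IsFullyNormalized V :=
  ⟨hV, fun R _ => by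
    have : Finite (normalizerIn S V) := finite_of_le (normalizerIn_le S V)
    exact Subgroup.card_le_of_le ((normalizerIn_le S R).trans (le_inf le_rfl hn))⟩

/-- When `A` is not essential, `Aut_S(A)` is normal in its automizer. -/
theorem AData.normal_autA (d : AData p S A Z W) (hF : F.IsSaturated p) (hAe : ¬ F.IsEssential p A) :
    ∀ β ∈ F.autGroup A, ∀ t ∈ autInducedBy S A, β * t * β⁻¹ ∈ autInducedBy S A := by
  have := finite_mulAut d.le
  have := finite_of_le d.le
  by_contra hnot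
  refine hAe ⟨d.isCentric_A, fullyNormalized_of_normal d.le d.normal,
    inn_subgroupOf_normal A _, ?_⟩
  set I := (Inn A).subgroupOf (F.autGroup A) with hI
  haveI : I.Normal := inn_subgroupOf_normal A _
  have hIbot : I = ⊥ := by
    rw [eq_bot_iff]
    rintro u ⟨a, ha⟩
    refine Subgroup.mem_bot.2 (Subtype.ext ?_)
    change MulAut.conj a = ((u : F.autGroup A) : MulAut A) at ha
    rw [← ha]
    ext q
    simp only [MulAut.conj_apply, OneMemClass.coe_one, MulAut.one_apply, Subgroup.coe_mul,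
      Subgroup.coe_inv]
    rw [d.comm a a.2 q q.2, mul_inv_cancel_right]
  obtain ⟨-, hsyl⟩ := isFullyAutomized_iff.1
    (fullyNormalized_props d.pgroup hF (fullyNormalized_of_normal d.le d.normal)).1
  set π := QuotientGroup.mk' I
  have hπ : Function.Surjective π := QuotientGroup.mk'_surjective I
  have hπi : Function.Injective π := by
    rw [← MonoidHom.ker_eq_bot_iff, QuotientGroup.ker_mk', hIbot]
  set T : Sylow p (F.autGroup A ⧸ I) := hsyl.toSylow.mapSurjective hπ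
  have hTc : Nat.card (T : Subgroup (F.autGroup A ⧸ I)) ≤ p := by
    change Nat.card (((autInducedBy S A).subgroupOf (F.autGroup A)).map π) ≤ p
    rw [Subgroup.card_map_of_injective hπi,
      Nat.card_congr (Subgroup.subgroupOfEquivOfLe (autInducedBy_le_autGroup d.le)).toEquiv,
      autInducedBy_eq_range, ← Subgroup.index_ker]
    have hle : A.subgroupOf (normalizerIn S A) ≤
        (actHom (inf_le_right : normalizerIn S A ≤ _)).ker := fun g hg => by
      refine MonoidHom.mem_ker.2 (MulEquiv.ext fun q => Subtype.ext ?_)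
      refine (actHom_apply _ g q).trans ?_
      rw [d.comm (g : Ω) hg _ q.2, mul_inv_cancel_right]
      rfl
    have h1 : (A.subgroupOf (normalizerIn S A)).index = p := by
      rw [show normalizerIn S A = S from inf_eq_left.2 d.normal]
      exact d.index
    exact Nat.le_of_dvd hp.out.pos (h1 ▸ Subgroup.index_dvd_of_le hle)
  have hT1 : (T : Subgroup (F.autGroup A ⧸ I)) ≠ ⊥ := by
    obtain ⟨x, hx, hxA⟩ := d.exists_outside
    intro h
    change ((autInducedBy S A).subgroupOf (F.autGroup A)).map π = ⊥ at h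
    rw [Subgroup.map_eq_bot_iff, QuotientGroup.ker_mk', hIbot, le_bot_iff,
      Subgroup.subgroupOf_eq_bot] at h
    have hx1 : conjAut A (d.normal hx) = 1 := Subgroup.mem_bot.1 (h.le_bot
      ⟨conjAut_mem_autInducedBy hx (d.normal hx),
        autInducedBy_le_autGroup d.le (conjAut_mem_autInducedBy hx (d.normal hx))⟩)
    refine d.A_not_le_Z hx hxA fun a ha => d.mem_Z_of_comm hx hxA ha ?_
    have h2 := congrArg Subtype.val (DFunLike.congr_fun hx1 ⟨a, ha⟩)
    rw [conjAut_apply] at h2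
    exact (mul_inv_eq_iff_eq_mul.1 h2).symm
  refine ⟨Subgroup.normalizer ((T : Subgroup (F.autGroup A ⧸ I)) : Set _),
    isStronglyPEmbedded_of_controls (isSylowIn_top T) ?_ (fun htop => hnot ?_) ?_⟩
  · obtain ⟨k, hk⟩ := IsPGroup.iff_card.1 T.isPGroup'
    refine dvd_trans ?_ (Subgroup.card_subgroup_dvd_card (T : Subgroup (F.autGroup A ⧸ I)))
    rw [hk]
    exact dvd_pow_self p fun hk0 => hT1 (Subgroup.card_eq_one.1 (by rw [hk, hk0, pow_zero]))
  · intro β hβ t ht
    let β' : F.autGroup A := ⟨β, hβ⟩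
    let t' : F.autGroup A := ⟨t, autInducedBy_le_autGroup d.le ht⟩
    have hmem : π β' * π t' * (π β')⁻¹ ∈ (T : Subgroup (F.autGroup A ⧸ I)) :=
      (Subgroup.mem_normalizer_iff.1 (htop ▸ Subgroup.mem_top (π β')) _).1 ⟨t', ht, rfl⟩
    rw [← map_inv, ← map_mul, ← map_mul] at hmem
    obtain ⟨u, hu, hue⟩ := hmem
    rw [hπi hue] at hu
    exact hu
  · intro Q hQT hQ
    obtain ⟨k, hk⟩ := IsPGroup.iff_card.1 (T.isPGroup'.to_le hQT)
    have hk0 : k ≠ 0 := fun h => hQ (Subgroup.card_eq_one.1 (by rw [hk, h, pow_zero]))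
    have : (T : Subgroup (F.autGroup A ⧸ I)) = Q := (Subgroup.eq_of_le_of_card_ge hQT
      (hTc.trans (hk ▸ Nat.le_self_pow hk0 p))).symm
    rw [this]

/-- Automorphisms of `A` in the system preserve `Z`. -/
theorem AData.autA_Z (d : AData p S A Z W) (hF : F.IsSaturated p) (hAe : ¬ F.IsEssential p A)
    {β : MulAut A} (hβ : β ∈ F.autGroup A) {a : A} (ha : (a : Ω) ∈ Z) : ((β a : A) : Ω) ∈ Z := by
  obtain ⟨x, hx, hxA⟩ := d.exists_outside
  refine d.mem_Z_of_comm hx hxA (β a).2 ?_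
  obtain ⟨g, hg, hgx⟩ := mem_autInducedBy.1 (d.normal_autA hF hAe β⁻¹ (inv_mem hβ) _
    (conjAut_mem_autInducedBy hx (d.normal hx)))
  have h1 : (β⁻¹ * conjAut A (d.normal hx) * β⁻¹⁻¹) a = a := Subtype.ext (by
    rw [hgx a, d.central ha hg, mul_inv_cancel_right])
  have h2 : conjAut A (d.normal hx) (β a) = β a := by
    have h3 := congrArg β h1
    simpa using h3
  have h4 := congrArg Subtype.val h2
  rw [conjAut_apply, mul_inv_eq_iff_eq_mul] at h4
  exact h4.symm

/-- Automorphisms of `A` in the system preserve `S'`. -/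
theorem AData.autA_der (d : AData p S A Z W) (hF : F.IsSaturated p) (hAe : ¬ F.IsEssential p A)
    {β : MulAut A} (hβ : β ∈ F.autGroup A) {a : A} (ha : (a : Ω) ∈ der S) :
    ((β a : A) : Ω) ∈ der S := by
  obtain ⟨x, hx, hxA⟩ := d.exists_outside
  obtain ⟨D, hDeq, hDA, hD⟩ := d.commutator_eq hx hxA
  obtain ⟨b, hb, hba⟩ := (hD _).1 (hDeq.ge ha)
  let b' : A := ⟨b, hb⟩
  set t := conjAut A (d.normal hx)
  have ha' : a = b' * t b'⁻¹ := Subtype.ext (by
    rw [← hba]
    simp only [Subgroup.coe_mul, conjAut_apply, Subgroup.coe_inv, t, b', dl]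
    group)
  obtain ⟨g, hg, hgx⟩ := mem_autInducedBy.1 (d.normal_autA hF hAe β hβ t
    (conjAut_mem_autInducedBy hx (d.normal hx)))
  have h1 : β a = β b' * (β * t * β⁻¹) (β b')⁻¹ := by
    rw [ha', map_mul]; simp
  rw [h1, Subgroup.coe_mul, hgx]
  refine ⟨⁅(⟨_, d.le (β b').2⟩ : S), ⟨g, hg⟩⁆, Subgroup.commutator_mem_commutator
    (Subgroup.mem_top _) (Subgroup.mem_top _), ?_⟩
  simp [commutatorElement_def, mul_assoc]

/-- An automorphism of `A` in the system inverting `e ∈ Z ∩ S'` and trivial on `Z/(Z ∩ S')`. -/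
structure Inverts (F : FusionSystem S) (Z : Subgroup Ω) (β : MulAut A) (e : A) : Prop where
  mem : β ∈ F.autGroup A
  e_mem : (e : Ω) ∈ Z ⊓ der S
  e_ne : e ≠ 1
  inv : β e = e⁻¹
  shift : ∀ z : A, (z : Ω) ∈ Z → (((β z * z⁻¹ : A)) : Ω) ∈ Z ⊓ der S

/-- The fixed points in `Z`. -/
def zFix (Z : Subgroup Ω) (β : MulAut A) : Subgroup Ω :=
  ((Z.subgroupOf A) ⊓ β.toMonoidHom.eqLocus (MonoidHom.id A)).map A.subtype

omit hp [Finite S] in
theorem mem_zFix {β : MulAut A} {w : Ω} :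
    w ∈ zFix Z β ↔ w ∈ Z ∧ ∃ h : w ∈ A, β ⟨w, h⟩ = ⟨w, h⟩ := by
  constructor
  · rintro ⟨a, ⟨haZ, ha⟩, rfl⟩
    exact ⟨haZ, a.2, ha⟩
  · rintro ⟨hwZ, h, hfix⟩
    exact ⟨⟨w, h⟩, ⟨hwZ, hfix⟩, rfl⟩

theorem AData.mem_zpowers_inter (d : AData p S A Z W) (hE : Nat.card ↥(Z ⊓ der S) = p) {e u : A}
    (he : (e : Ω) ∈ Z ⊓ der S) (he1 : e ≠ 1) (hu : (u : Ω) ∈ Z ⊓ der S) :
    (∃ k : ℕ, u = e ^ k) ∧ e ^ p = 1 := by
  have hle : Z ⊓ der S ≤ S := inf_le_left.trans d.Z_le_S
  have := finite_of_le hle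
  have hep : (e : Ω) ^ p = 1 := by
    rw [← hE]
    exact congrArg Subtype.val (pow_card_eq_one' (x := (⟨e, he⟩ : ↥(Z ⊓ der S))))
  have he1' : (e : Ω) ≠ 1 := fun h => he1 (Subtype.ext h)
  have heq : Subgroup.zpowers (e : Ω) = Z ⊓ der S := eq_of_le_of_natCard_le
    (Subgroup.zpowers_le.2 he) (by rw [Nat.card_zpowers, orderOf_eq_prime hep he1', hE])
  obtain ⟨k, hk⟩ := Submonoid.mem_powers_iff _ _ |>.1
    ((orderOf_pos_iff.1 ((orderOf_eq_prime hep he1').symm ▸ hp.out.pos)).mem_powers_iff_mem_zpowers.2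
      (heq.ge hu))
  exact ⟨⟨k, Subtype.ext (by rw [SubmonoidClass.coe_pow, hk])⟩, Subtype.ext hep⟩

/-- All inverting automorphisms have the same fixed points in `Z`. -/
theorem AData.zFix_le (d : AData p S A Z W) (hF : F.IsSaturated p) (hAe : ¬ F.IsEssential p A)
    (hE : Nat.card ↥(Z ⊓ der S) = p) {β β' : MulAut A} {e e' : A} (hi : Inverts F Z β e)
    (hi' : Inverts F Z β' e') : zFix Z β ≤ zFix Z β' := by
  have := finite_of_le d.le
  have := finite_mulAut d.le
  intro w hw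
  obtain ⟨hwZ, hwA, hfix⟩ := mem_zFix.1 hw
  refine mem_zFix.2 ⟨hwZ, hwA, ?_⟩
  set z : A := ⟨w, hwA⟩
  set u : A := β' z * z⁻¹ with hudef
  have hu := hi'.shift z hwZ
  obtain ⟨⟨m, hm⟩, hep⟩ := d.mem_zpowers_inter hE hi'.e_mem hi'.e_ne hu
  obtain ⟨⟨m', hm'⟩, -⟩ := d.mem_zpowers_inter hE hi.e_mem hi.e_ne hi'.e_mem
  rw [← hudef] at hm
  -- the product fixes `e'`
  set g : F.autGroup A := ⟨β' * β, mul_mem hi'.mem hi.mem⟩
  have hge : (g : MulAut A) e' = e' := by
    show β' (β e') = e'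
    rw [show β e' = e'⁻¹ by rw [hm', map_pow, hi.inv, inv_pow], map_inv, hi'.inv, inv_inv]
  have hgz : (g : MulAut A) z = u * z := by
    show β' (β z) = u * z
    rw [hfix, hudef, inv_mul_cancel_right]
  have hgu : (g : MulAut A) u = u := by rw [hm, map_pow, hge]
  have hgn : ∀ n : ℕ, ((g : MulAut A) ^ n) z = u ^ n * z := by
    intro n
    induction n with
    | zero => simp
    | succ n ih =>
      rw [pow_succ', MulAut.mul_apply, ih, map_mul, map_pow, hgu, hgz, ← mul_assoc, ← pow_succ]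
  -- the pointwise stabilizer of `Z`
  let K : Subgroup (F.autGroup A) :=
    { carrier := {γ | ∀ a : A, (a : Ω) ∈ Z → (γ : MulAut A) a = a}
      one_mem' := fun _ _ => rfl
      mul_mem' := fun {γ δ} hγ hδ a ha => by
        show (γ : MulAut A) ((δ : MulAut A) a) = a
        rw [hδ a ha, hγ a ha]
      inv_mem' := fun {γ} hγ a ha => by
        show (γ : MulAut A).symm a = a
        rw [MulEquiv.symm_apply_eq, hγ a ha] }
  have hK : K.Normal := ⟨fun γ hγ δ a ha => by
    show (δ : MulAut A) ((γ : MulAut A) ((δ : MulAut A)⁻¹ a)) = a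
    rw [hγ _ (d.autA_Z hF hAe (inv_mem δ.2) ha), MulAut.apply_inv_self]⟩
  obtain ⟨-, hsyl⟩ := isFullyAutomized_iff.1
    (fullyNormalized_props d.pgroup hF (fullyNormalized_of_normal d.le d.normal)).1
  have hTK : (autInducedBy S A).subgroupOf (F.autGroup A) ≤ K := by
    intro γ hγ a ha
    obtain ⟨s, hs, hsx⟩ := mem_autInducedBy.1 (show (γ : MulAut A) ∈ autInducedBy S A from hγ)
    refine Subtype.ext ?_
    rw [hsx a, d.central ha hs, mul_inv_cancel_right]
  have hn : ¬ p ∣ K.index := fun h => hsyl.2.2 (h.trans (Subgroup.index_dvd_of_le hTK))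
  have h1 := Subgroup.pow_index_mem K g z hwZ
  rw [SubmonoidClass.coe_pow, hgn, mul_eq_right] at h1
  have hup : u ^ p = 1 := by rw [hm, ← pow_mul, mul_comm, pow_mul, hep, one_pow]
  have hu1 : u = 1 := orderOf_eq_one_iff.1 (Nat.eq_one_of_dvd_coprimes
    (hp.out.coprime_iff_not_dvd.2 hn) (orderOf_dvd_of_pow_eq_one hup) (orderOf_dvd_of_pow_eq_one h1))
  rw [hudef, mul_inv_eq_one] at hu1
  exact hu1

/-- The fixed points are invariant under the automizer of `A`. -/
theorem AData.autA_zFix (d : AData p S A Z W) (hF : F.IsSaturated p) (hAe : ¬ F.IsEssential p A)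
    (hE : Nat.card ↥(Z ⊓ der S) = p) {β : MulAut A} {e : A} (hi : Inverts F Z β e) {δ : MulAut A}
    (hδ : δ ∈ F.autGroup A) {a : A} (ha : (a : Ω) ∈ zFix Z β) : ((δ a : A) : Ω) ∈ zFix Z β := by
  have hZD : ∀ {u : A}, (u : Ω) ∈ Z ⊓ der S → ((δ u : A) : Ω) ∈ Z ⊓ der S := fun hu =>
    ⟨d.autA_Z hF hAe hδ hu.1, d.autA_der hF hAe hδ hu.2⟩
  have hi' : Inverts F Z (δ * β * δ⁻¹) (δ e) := by
    refine ⟨mul_mem (mul_mem hδ hi.mem) (inv_mem hδ), hZD hi.e_mem, fun h => hi.e_ne ?_,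
      by simp [hi.inv], fun z hz => ?_⟩
    · exact δ.injective (by rw [h, map_one])
    · have h1 : (δ * β * δ⁻¹) z * z⁻¹ = δ (β (δ⁻¹ z) * (δ⁻¹ z)⁻¹) := by simp
      rw [h1]
      exact hZD (hi.shift _ (d.autA_Z hF hAe (inv_mem hδ) hz))
  refine d.zFix_le hF hAe hE hi' hi (mem_zFix.2 ?_)
  obtain ⟨haZ, _, hfix⟩ := mem_zFix.1 ha
  refine ⟨d.autA_Z hF hAe hδ haZ, (δ a).2, ?_⟩
  show (δ * β * δ⁻¹) (δ a) = δ a
  simp only [MulAut.mul_apply, MulAut.inv_apply_self]
  rw [show β a = a from hfix]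

/-- Automorphisms of a normal subgroup between `Z` and `A` extend to `A`. -/
theorem AData.extend_A (d : AData p S A Z W) (hF : F.IsSaturated p) {V : Subgroup Ω} (hVA : V ≤ A)
    (hVZ : ¬ V ≤ Z) (hV : S ≤ Subgroup.normalizer (V : Set Ω)) {φ : V →* Ω} (hφ : φ ∈ F.Hom V)
    (hφV : ∀ v, φ v ∈ V) :
    ∃ β ∈ F.autGroup A, ∀ v : V, ((β ⟨v, hVA v.2⟩ : A) : Ω) = φ v := by
  have hVS := hVA.trans d.le
  have := finite_of_le hVS
  have := finite_of_le d.le
  have hr : φ.range = V := eq_of_le_of_natCard_le (by rintro _ ⟨v, rfl⟩; exact hφV v)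
    (Nat.card_congr (MonoidHom.ofInjective (F.injective_of_mem hφ)).toEquiv).le
  have he : IsIso F (toIso φ hφ hr) := isIso_toIso φ hφ hr
  obtain ⟨Ψ, hΨ, hΨe⟩ := receptive_extend
    (fullyNormalized_props d.pgroup hF (fullyNormalized_of_normal hVS hV)).2 he
  have hAE : A ≤ extender S V (V.subtype.comp (toIso φ hφ hr).toMonoidHom) :=
    (d.centralizer_eq hVA hVZ).ge.trans (centralizerIn_le_extender S V _)
  have hΨA := restrict_mem hAE hΨ
  refine ⟨toIso _ hΨA (d.range_eq hΨA), (mem_autGroup d.le).2 (isIso_toIso _ _ _), fun v => ?_⟩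
  rw [toIso_apply]
  exact hΨe v (hAE (hVA v.2))

/-- An abelian subgroup of `S` outside `A` is small modulo `Z`. -/
theorem AData.card_le_of_not_le (d : AData p S A Z W) {U : Subgroup Ω} (hUS : U ≤ S)
    (hab : ∀ a ∈ U, ∀ b ∈ U, a * b = b * a) {y : Ω} (hy : y ∈ U) (hyA : y ∉ A) :
    Nat.card U ≤ p * Nat.card Z := by
  have := finite_of_le hUS
  have := finite_of_le d.Z_le_S
  have hle : A ⊓ U ≤ Z := fun a ha => d.mem_Z_of_comm (hUS hy) hyA ha.1 (hab a ha.2 y hy)
  have h1 := (A.subgroupOf U).card_mul_index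
  have h2 : (A.subgroupOf U).index ≤ p := by
    rw [← d.index]
    exact Subgroup.relIndex_le_of_le_right hUS (by
      show (A.subgroupOf S).index ≠ 0
      rw [d.index]; exact hp.out.ne_zero)
  have h3 : Nat.card (A.subgroupOf U) ≤ Nat.card Z := by
    rw [← Subgroup.card_map_of_injective (K := A.subgroupOf U) U.subtype_injective,
      Subgroup.subgroupOf_map_subtype]
    exact Subgroup.card_le_of_le hle
  rw [← h1, mul_comm]
  exact Nat.mul_le_mul h2 h3

end Cfsg.Agent.Lib.LocalP2.AbelianIndexP
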