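import Cfsg.Agent.Lib.LocalP2.AbelianIndexP

/-! The data of `AbelianIndexP` from the usual hypotheses. -/

set_option autoImplicit false

namespace Cfsg.Agent.Lib.LocalP2.AbelianIndexP

open Cfsg
open scoped commutatorElement

variable {Ω : Type*} [Group Ω] {S : Subgroup Ω}

theorem mem_second_center {w : Ω} :
    w ∈ (Subgroup.upperCentralSeries ↥S 2).map S.subtype ↔
      w ∈ S ∧ ∀ g ∈ S, w * g * w⁻¹ * g⁻¹ ∈ S ⊓ Subgroup.centralizer (S : Set Ω) := by
  constructor
  · rintro ⟨v, hv, rfl⟩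
    refine ⟨v.2, fun g hg => ?_⟩
    have h := Subgroup.mem_upperCentralSeries_succ_iff.1 hv ⟨g, hg⟩
    rw [Subgroup.upperCentralSeries_one] at h
    exact ⟨(⁅v, (⟨g, hg⟩ : S)⁆ : S).2,
      fun s hs => congrArg Subtype.val (Subgroup.mem_center_iff.1 h ⟨s, hs⟩)⟩
  · rintro ⟨hw, h⟩
    refine ⟨⟨w, hw⟩, Subgroup.mem_upperCentralSeries_succ_iff.2 fun g => ?_, rfl⟩
    rw [Subgroup.upperCentralSeries_one, Subgroup.mem_center_iff]
    exact fun s => Subtype.ext ((h g g.2).2 s s.2)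

/-- The data from the hypotheses. -/
theorem setup {p : ℕ} (hS : IsPGroup p S) (hna : ¬ IsMulCommutative ↥S) (A : Subgroup Ω)
    (hA : A ≤ S ∧ IsMulCommutative ↥A ∧ (A.subgroupOf S).index = p)
    (huniq : ∀ B : Subgroup Ω, B ≤ S → IsMulCommutative ↥B → (B.subgroupOf S).index = p → B = A) :
    AData p S A (S ⊓ Subgroup.centralizer (S : Set Ω))
      ((Subgroup.upperCentralSeries ↥S 2).map S.subtype ⊓ A) where
  pgroup := hS
  le := hA.1
  comm := fun a ha b hb => congrArg Subtype.val (hA.2.1.is_comm.comm (⟨a, ha⟩ : A) ⟨b, hb⟩)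
  index := hA.2.2
  nonab := by
    by_contra h
    simp only [not_exists, not_and, not_not] at h
    exact hna ⟨⟨fun a b => Subtype.ext (h a a.2 b b.2)⟩⟩
  uniq := fun B hB hc hi => huniq B hB ⟨⟨fun a b => Subtype.ext (hc a a.2 b b.2)⟩⟩ hi
  eqZ := rfl
  memW := fun w => by
    rw [Subgroup.mem_inf, mem_second_center]
    exact ⟨fun h => ⟨h.2, h.1.2⟩, fun h => ⟨⟨hA.1 h.1, h.2⟩, h.1⟩⟩

/-- With an essential subgroup other than `A` the second centre lies in `A`. -/
theorem second_center_le_A [Finite S] {p : ℕ} [Fact p.Prime] {A : Subgroup Ω}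
    (d : AData p S A (S ⊓ Subgroup.centralizer (S : Set Ω))
      ((Subgroup.upperCentralSeries ↥S 2).map S.subtype ⊓ A))
    (hW : (S ⊓ Subgroup.centralizer (S : Set Ω)).relIndex
      ((Subgroup.upperCentralSeries ↥S 2).map S.subtype ⊓ A) = p) :
    (Subgroup.upperCentralSeries ↥S 2).map S.subtype ≤ A := fun w hw => by
  obtain ⟨hwS, hwc⟩ := mem_second_center.1 hw
  exact d.second_center_le hW hwS hwc

end Cfsg.Agent.Lib.LocalP2.AbelianIndexP
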