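import Cfsg.Agent.Lib.LocalChar.PReduced
import Cfsg.Agent.Lib.LocalChar.YL

/-! Characteristic `p`: transport along injective homomorphisms, subnormal intersections. -/

set_option autoImplicit false

namespace Cfsg.Agent.Lib.LocalP2

open Cfsg Cfsg.Agent.Lib.LocalChar

variable {G : Type*} [Group G] [Finite G] {p : ℕ} [hp : Fact p.Prime]

/-- Characteristic `p` of the image under an injective homomorphism passes to the source. -/
theorem isCharPOf_of_map {K : Type*} [Group K] [Finite K] {f : K →* G}
    (hf : Function.Injective f) {H : Subgroup K} (h : IsCharPOf p (H.map f)) : IsCharPOf p H := by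
  refine isCharPOf_of_forall fun x hx ho hc => hf ?_
  rw [map_one]
  refine h.eq_one (Subgroup.mem_map_of_mem f hx) (by rwa [orderOf_injective f hf]) fun a ha => ?_
  obtain ⟨b, hb, rfl⟩ := pCoreOf_le _ ha
  refine (hc b ?_).map f
  have hle : (pCoreOf p (H.map f)).comap f ≤ pCoreOf p H := by
    refine le_pCoreOf ?_ ?_ ?_
    · intro c hc'
      obtain ⟨d, hd, hde⟩ := pCoreOf_le _ (Subgroup.mem_comap.1 hc')
      rwa [← hf hde]
    · intro c hc'
      refine mem_nz_of_cj_le (cj_le_iff.2 fun d hd => ?_)
      rw [Subgroup.mem_comap, map_mul, map_mul, map_inv]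
      exact conj_mem_of_nz (le_nz_pCoreOf _ (Subgroup.mem_map_of_mem f hc')) hd
    · exact (isPGroup_pCoreOf _).comap_of_injective f hf
  exact hle ha

/-- Characteristic `p` passes from `D` to `D ⊓ L` for `L` subnormal. -/
theorem isCharPOf_inf_subnormal {D L : Subgroup G} (hD : IsCharPOf p D) (hL : L.IsSubnormal) :
    IsCharPOf p (L ⊓ D) := by
  induction hL with
  | top => rwa [top_inf_eq]
  | step A K hle _ hn ih =>
    exact ih.of_normal (inf_le_inf_right _ hle)
      (le_nz_inf (inf_le_left.trans (le_nz_pointwise hle hn))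
        (inf_le_right.trans Subgroup.le_normalizer))

theorem eq_one_of_centralizer_normal {M D : Subgroup G} (hD : IsCharPOf p D) {R : Subgroup G}
    (hR : R ≤ pCoreOf p M) (hDM : D ≤ M) (hn : M ≤ Subgroup.normalizer (D : Set G))
    (hle : M ⊓ Subgroup.centralizer (R : Set G) ≤ D) : IsCharPOf p M := by
  refine isCharPOf_of_forall fun x hx ho hc => ?_
  refine hD.eq_one (hle ⟨hx, Subgroup.mem_centralizer_iff.2 fun b hb => (hc b (hR hb)).eq.symm⟩) ho
    fun a ha => hc a ?_
  exact le_pCoreOf ((pCoreOf_le _).trans hDM) (hn.trans (nz_le_nz_pCoreOf _)) (isPGroup_pCoreOf _) ha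

end Cfsg.Agent.Lib.LocalP2
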