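import Mathlib
import Cfsg.Prelude.Def_DStar
import Cfsg.Agent.Lib.LocalP2.Replacement

/-! `D*(S)` for finite p-groups (helper19). -/

namespace Cfsg.Agent.Lib.LocalP2

open scoped commutatorElement

variable {S : Type*} [Group S]

theorem member_apply {A : Subgroup S} (hA : A ∈ Cfsg.dStarFamily S) {x : S} {Z : Subgroup S}
    (hcomm : ∀ a ∈ A, x * a * x⁻¹ * a⁻¹ ∈ Z) (hx : ∀ z ∈ Z, x * z = z * x)
    (hAZ : ∀ a ∈ A, ∀ z ∈ Z, a * z = z * a) : ∀ a ∈ A, a * x = x * a := by
  have hAc : ∀ a ∈ A, ∀ b ∈ A, a * b = b * a := fun a ha b hb =>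
    congrArg Subtype.val (hA.1.is_comm.comm (⟨a, ha⟩ : A) ⟨b, hb⟩)
  refine hA.2 x ?_
  rw [show A ⊔ Subgroup.zpowers x = Subgroup.closure ((A : Set S) ∪ {x}) by
    rw [Subgroup.closure_union, Subgroup.closure_eq, ← Subgroup.zpowers_eq_closure]]
  refine class_two_closure (Z := Z) ?_ ?_
  · rintro a (ha | rfl) b (hb | rfl)
    · rw [commutatorElement_eq_one_iff_commute.2 (hAc a ha b hb)]; exact Z.one_mem
    · rw [← commutatorElement_inv]; exact Z.inv_mem (hcomm a ha)
    · exact hcomm b hb
    · rw [commutatorElement_eq_one_iff_commute.2 (Commute.refl b)]; exact Z.one_mem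
  · rintro a (ha | rfl) z hz
    · exact hAZ a ha z hz
    · exact hx z hz

theorem member_commute_of_normalizes [Finite S] {p : ℕ} [Fact p.Prime] (hS : IsPGroup p S)
    {A B : Subgroup S} (hA : A ∈ Cfsg.dStarFamily S) (hB : IsMulCommutative B)
    (hAB : A ≤ Subgroup.normalizer (B : Set S)) : ∀ a ∈ A, ∀ b ∈ B, a * b = b * a := by
  have hBc : ∀ a ∈ B, ∀ b ∈ B, a * b = b * a := fun a ha b hb =>
    congrArg Subtype.val (hB.is_comm.comm (⟨a, ha⟩ : B) ⟨b, hb⟩)
  have hAA : A ≤ Subgroup.centralizer (A : Set S) :=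
    Subgroup.le_centralizer_iff_isMulCommutative.2 hA.1
  set C := B ⊓ Subgroup.centralizer (A : Set S) with hC
  by_cases hle : B ≤ C
  · exact fun a ha b hb => Subgroup.mem_centralizer_iff.1 (hle hb).2 a ha
  exfalso
  have hAC : A ≤ Subgroup.normalizer (C : Set S) :=
    (le_inf hAB (hAA.trans (Subgroup.le_normalizer))).trans Subgroup.inf_normalizer_le_normalizer_inf
  obtain ⟨b, hb, hbC, hx⟩ := exists_moved_within hS hAB hAC inf_le_left
    (le_inf inf_le_right (inf_le_left.trans hAA)) hle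
  exact hbC ⟨hb, Subgroup.mem_centralizer_iff.2 fun a ha =>
    member_apply hA hx (fun z hz => hBc b hb z hz.1)
      (fun a ha z hz => Subgroup.mem_centralizer_iff.1 hz.2 a ha) a ha⟩

theorem member_map {T : Type*} [Group T] (e : S ≃* T) {A : Subgroup S} (hA : A ∈ Cfsg.dStarFamily S) :
    A.map e.toMonoidHom ∈ Cfsg.dStarFamily T := by
  have := hA.1
  refine ⟨inferInstance, fun x hx => ?_⟩
  rintro _ ⟨a, ha, rfl⟩
  have hcl : ⁅⁅A ⊔ Subgroup.zpowers (e.symm x), A ⊔ Subgroup.zpowers (e.symm x)⁆,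
      A ⊔ Subgroup.zpowers (e.symm x)⁆ = ⊥ := by
    apply Subgroup.map_injective e.injective (f := e.toMonoidHom)
    simp only [Subgroup.map_commutator, Subgroup.map_sup, MonoidHom.map_zpowers, Subgroup.map_bot]
    simpa using hx
  have := congrArg e (hA.2 (e.symm x) hcl a ha)
  simpa using this

theorem member_conj {A : Subgroup S} (hA : A ∈ Cfsg.dStarFamily S) (g : S) :
    A.map (MulAut.conj g).toMonoidHom ∈ Cfsg.dStarFamily S := member_map (MulAut.conj g) hA

theorem member_subgroupOf {A M : Subgroup S} (hA : A ∈ Cfsg.dStarFamily S) (hle : A ≤ M) :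
    A.subgroupOf M ∈ Cfsg.dStarFamily M := by
  refine ⟨?_, fun x hx a ha => ?_⟩
  · refine IsMulCommutative.mk ⟨fun a b => Subtype.ext (Subtype.ext ?_)⟩
    have h := congrArg Subtype.val (hA.1.is_comm.comm (⟨((a : M) : S), Subgroup.mem_subgroupOf.1 a.2⟩ : A)
      ⟨((b : M) : S), Subgroup.mem_subgroupOf.1 b.2⟩)
    simpa using h
  · have hx' := congrArg (Subgroup.map M.subtype) hx
    simp only [Subgroup.map_commutator, Subgroup.map_sup, MonoidHom.map_zpowers, Subgroup.map_bot,
      Subgroup.map_subgroupOf_eq_of_le hle] at hx'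
    exact Subtype.ext (hA.2 (x : S) (by simpa using hx') a ha)

theorem member_le_normal_abelian {p : ℕ} [Fact p.Prime] :
    ∀ (n : ℕ) (S : Type*) [Group S] [Finite S], Nat.card S ≤ n → IsPGroup p S → ∀ A ∈ Cfsg.dStarFamily S,
      ∃ W : Subgroup S, A ≤ W ∧ W.Normal ∧ IsMulCommutative W := by
  intro n
  induction n with
  | zero => intro S _ _ h; exact absurd h (Nat.not_le.2 Nat.card_pos)
  | succ n ih =>
    intro S _ _ hcard hS A hA
    by_cases htop : A = ⊤
    · exact ⟨⊤, le_top, inferInstance, htop ▸ hA.1⟩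
    obtain ⟨M, hM, hAM⟩ := (eq_top_or_exists_le_coatom A).resolve_left htop
    have hnil : Group.IsNilpotent S := hS.isNilpotent
    have hMn : M.Normal := Subgroup.NormalizerCondition.normal_of_coatom M Group.normalizerCondition_of_isNilpotent hM
    have hlt : Nat.card ↥M ≤ n := by
      have h1 := M.card_mul_index
      have h2 : M.index ≠ 1 := fun h => hM.1 (Subgroup.index_eq_one.1 h)
      have h3 : M.index ≠ 0 := Subgroup.index_ne_zero_of_finite
      have h4 : 0 < Nat.card ↥M := Nat.card_pos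
      have : Nat.card ↥M * 2 ≤ Nat.card S := by rw [← h1]; exact Nat.mul_le_mul_left _ (by omega)
      omega
    have hconjM : ∀ g : S, A.map (MulAut.conj g).toMonoidHom ≤ M := by
      rintro g _ ⟨a, ha, rfl⟩; exact hMn.conj_mem a (hAM ha) g
    have hcomm : ∀ g h : S, ∀ a ∈ A.map (MulAut.conj g).toMonoidHom,
        ∀ b ∈ A.map (MulAut.conj h).toMonoidHom, a * b = b * a := by
      intro g h a ha b hb
      obtain ⟨W, hAW, hWn, hWc⟩ := ih M hlt (hS.to_subgroup M) _
        (member_subgroupOf (member_conj hA g) (hconjM g))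
      have hle : (A.map (MulAut.conj h).toMonoidHom).subgroupOf M ≤ Subgroup.normalizer (W : Set M) := by
        rw [Subgroup.normalizer_eq_top]; exact le_top
      have := member_commute_of_normalizes (hS.to_subgroup M) (member_subgroupOf (member_conj hA h) (hconjM h))
        hWc hle ⟨b, hconjM h hb⟩ hb ⟨a, hconjM g ha⟩ (hAW ha)
      exact (congrArg Subtype.val this).symm
    refine ⟨⨆ g : S, A.map (MulAut.conj g).toMonoidHom, ?_, ⟨?_⟩, ?_⟩
    · refine le_trans ?_ (le_iSup (fun g : S => A.map (MulAut.conj g).toMonoidHom) 1)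
      exact fun a ha => ⟨a, ha, by simp⟩
    · intro w hw g
      have : (⨆ h : S, A.map (MulAut.conj h).toMonoidHom).map (MulAut.conj g).toMonoidHom ≤
          ⨆ h : S, A.map (MulAut.conj h).toMonoidHom := by
        rw [Subgroup.map_iSup]
        refine iSup_le fun h => ?_
        rw [Subgroup.map_map,
          show (MulAut.conj g).toMonoidHom.comp (MulAut.conj h).toMonoidHom = (MulAut.conj (g * h)).toMonoidHom by
            ext; simp [mul_assoc]]
        exact le_iSup (fun h : S => A.map (MulAut.conj h).toMonoidHom) (g * h)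
      exact this ⟨w, hw, rfl⟩
    · rw [← Subgroup.le_centralizer_iff_isMulCommutative]
      refine iSup_le fun g => ?_
      rw [Subgroup.le_centralizer_iff]
      refine iSup_le fun h => ?_
      exact fun b hb => Subgroup.mem_centralizer_iff.2 fun a ha => hcomm g h a ha b hb

variable [Finite S] {p : ℕ} [Fact p.Prime]

theorem dStar_commutative (hS : IsPGroup p S) : IsMulCommutative (Cfsg.dStar S) := by
  rw [← Subgroup.le_centralizer_iff_isMulCommutative]
  refine sSup_le fun A hA => ?_
  rw [Subgroup.le_centralizer_iff]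
  refine sSup_le fun B hB => fun b hb => Subgroup.mem_centralizer_iff.2 fun a ha => ?_
  obtain ⟨W, hAW, hWn, hWc⟩ := member_le_normal_abelian (p := p) _ S le_rfl hS A hA
  exact (member_commute_of_normalizes hS hB hWc (by rw [Subgroup.normalizer_eq_top]; exact le_top)
    b hb a (hAW ha)).symm

theorem dStar_mem (hS : IsPGroup p S) : Cfsg.dStar S ∈ Cfsg.dStarFamily S := by
  refine ⟨dStar_commutative hS, fun x hx a ha => ?_⟩
  have hle : Cfsg.dStar S ≤ Subgroup.centralizer {x} := by
    refine sSup_le fun A hA b hb => Subgroup.mem_centralizer_singleton_iff.2 (hA.2 x ?_ b hb)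
    have hsup : A ⊔ Subgroup.zpowers x ≤ Cfsg.dStar S ⊔ Subgroup.zpowers x :=
      sup_le_sup_right (le_sSup hA) _
    exact le_bot_iff.1 ((Subgroup.commutator_mono (Subgroup.commutator_mono hsup hsup) hsup).trans hx.le)
  exact Subgroup.mem_centralizer_singleton_iff.1 (hle ha)

omit [Finite S] in
theorem dStar_map_le {T : Type*} [Group T] (e : S ≃* T) :
    (Cfsg.dStar S).map e.toMonoidHom ≤ Cfsg.dStar T := by
  rw [Cfsg.dStar, sSup_eq_iSup, Subgroup.map_iSup]
  refine iSup_le fun A => ?_
  rw [Subgroup.map_iSup]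
  exact iSup_le fun hA => le_sSup (member_map e hA)

omit [Finite S] in
theorem dStar_normal : (Cfsg.dStar S).Normal :=
  ⟨fun w hw g => dStar_map_le (MulAut.conj g) ⟨w, hw, rfl⟩⟩

end Cfsg.Agent.Lib.LocalP2
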