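import Cfsg.Agent.Lib.Fusion.Alperin
import Cfsg.Agent.Lib.Fusion.Embedded
import Cfsg.Agent.Lib.Fusion.Normal

/-!
No essential subgroup has, for every automorphism, a pair of commuting outer automorphisms
induced by `S` across the conjugation.
-/

set_option autoImplicit false
set_option linter.style.haveILetI false

namespace Cfsg.Agent.Lib.LocalP2

open Cfsg Cfsg.FusionSystem Cfsg.Agent.Lib.Fusion

/-- If for every `β ∈ Aut_F(A)` some outer element induced by `S` commutes with the `β`-conjugate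
of another one then `A` is not essential. -/
theorem not_essential_of_commute {Ω : Type*} [Group Ω] {p : ℕ} [Fact p.Prime] {S : Subgroup Ω}
    {F : FusionSystem S} [Finite S] {A : Subgroup Ω} (hS : IsPGroup p S) (hF : F.IsSaturated p)
    (hA : F.IsEssential p A)
    (h : ∀ β ∈ F.autGroup A, ∃ g, ∃ hg : g ∈ normalizerIn S A, ∃ g', ∃ hg' : g' ∈ normalizerIn S A,
      g ∉ A ∧ g' ∉ A ∧
      conjAut A hg.2 * (β * conjAut A hg'.2 * β⁻¹) = β * conjAut A hg'.2 * β⁻¹ * conjAut A hg.2) :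
    False := by
  have hAS := hA.1.1
  haveI := finite_mulAut hAS
  have hlt := ne_top_of_essential hS hF hA
  have hN := inn_subgroupOf_normal A (F.autGroup A)
  obtain ⟨hT, hT1, -⟩ := centric_setup hS hF hlt hA.2.1 hA.1 hN
  set π := QuotientGroup.mk' ((Inn A).subgroupOf (F.autGroup A)) with hπdef
  set T := ((autInducedBy S A).subgroupOf (F.autGroup A)).map π with hTdef
  obtain ⟨-, -, _, E, hE⟩ := id hA
  obtain ⟨-, E0, hE0, hctrl⟩ := exists_controls_of_stronglyEmbedded hT hE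
  apply hE0
  have hcg : ∀ g (hg : g ∈ normalizerIn S A), conjAut A hg.2 ∈ F.autGroup A := fun g hg =>
    autInducedBy_le_autGroup hAS (conjAut_mem_autInducedBy hg.1 hg.2)
  have hTmem : ∀ g (hg : g ∈ normalizerIn S A), π ⟨_, hcg g hg⟩ ∈ T := fun g hg =>
    Subgroup.mem_map_of_mem _ (Subgroup.mem_subgroupOf.2 (conjAut_mem_autInducedBy hg.1 hg.2))
  have hne1 : ∀ g (hg : g ∈ normalizerIn S A), g ∉ A → π ⟨_, hcg g hg⟩ ≠ 1 := by
    intro g hg hgA e
    rw [hπdef, QuotientGroup.mk'_apply, QuotientGroup.eq_one_iff, Subgroup.mem_subgroupOf] at e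
    exact hgA (mem_of_induced_inn (hA.1.2 A (isConj_refl hAS)) hAS hg e)
  have hNT : Subgroup.normalizer (T : Set _) ≤ E0 := hctrl T le_rfl hT1
  have hTE : T ≤ E0 := Subgroup.le_normalizer.trans hNT
  have hTs : IsSylowIn p T E0 := hT.mono_right hTE le_top
  rw [eq_top_iff]
  intro y _
  obtain ⟨β, rfl⟩ := QuotientGroup.mk'_surjective _ y
  obtain ⟨g, hg, g', hg', hgA, hg'A, hc0⟩ := h β β.2
  set t : F.autGroup A := ⟨_, hcg g hg⟩ with ht
  set u : F.autGroup A := ⟨_, hcg g' hg'⟩ with hu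
  have hcomm : t * (β * u * β⁻¹) = β * u * β⁻¹ * t := Subtype.ext hc0
  have hs1 : π (β * u * β⁻¹) ∈ E0 := by
    have hQ : Subgroup.zpowers (π t) ≤ T := Subgroup.zpowers_le.2 (hTmem g hg)
    refine hctrl _ hQ (fun e => hne1 g hg hgA (Subgroup.zpowers_eq_bot.1 e)) ?_
    rw [Subgroup.mem_normalizer_iff]
    have hc : Commute (π (β * u * β⁻¹)) (π t) := by
      rw [Commute, SemiconjBy, ← map_mul, ← map_mul, hcomm]
    intro x
    constructor
    · intro hx
      obtain ⟨i, rfl⟩ := Subgroup.mem_zpowers_iff.1 hx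
      rw [(hc.zpow_right i).eq, mul_inv_cancel_right]
      exact hx
    · intro hx
      obtain ⟨i, hi⟩ := Subgroup.mem_zpowers_iff.1 hx
      refine Subgroup.mem_zpowers_iff.2 ⟨i, ?_⟩
      calc π t ^ i = (π (β * u * β⁻¹))⁻¹ * (π (β * u * β⁻¹) * π t ^ i) := by group
        _ = (π (β * u * β⁻¹))⁻¹ * (π t ^ i * π (β * u * β⁻¹)) := by rw [(hc.zpow_right i).eq]
        _ = x := by rw [hi]; group
  have hTp : IsPGroup p T := hT.2.1
  have hpg : IsPGroup p (Subgroup.zpowers (π (β * u * β⁻¹))) := by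
    refine (hTp.map (MulAut.conj (π β)).toMonoidHom).to_le (Subgroup.zpowers_le.2 ⟨π u, hTmem g' hg', ?_⟩)
    simp [map_mul]
  obtain ⟨e, he, heT⟩ := hTs.exists_conj_le (Subgroup.zpowers_le.2 hs1) hpg
  have h1 := heT _ (Subgroup.mem_zpowers _)
  have hmem := mem_of_moves hT hT1 hctrl (e * π β) fun hbot => hne1 g' hg' hg'A (by
    have h2 : e * π (β * u * β⁻¹) * e⁻¹ ∈ T ⊓ cj (e * π β) T := ⟨h1, by
      show _ ∈ cj _ T
      rw [mem_cj]
      have h3 : (e * π β)⁻¹ * (e * π (β * u * β⁻¹) * e⁻¹) * (e * π β) = π u := by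
        rw [map_mul, map_mul, map_inv]; group
      rw [h3]
      exact hTmem g' hg'⟩
    rw [hbot, Subgroup.mem_bot, conj_eq_one_iff, map_mul, map_mul, map_inv, conj_eq_one_iff] at h2
    exact h2)
  have h4 := E0.mul_mem (E0.inv_mem he) hmem
  rwa [inv_mul_cancel_left] at h4

end Cfsg.Agent.Lib.LocalP2
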