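import Cfsg.Agent.Lib.PSLTwo.Classify
import Cfsg.Agent.Lib.LocalP2.RankTwoGroup
import Cfsg.Agent.Lib.Fusion.Basic
import Cfsg.Prelude.Def_Transfer

/-!
Automizers of planes in an extraspecial Sylow subgroup of order `p^3`: the normalizer of the Sylow
subgroup acts on the lines of its Frattini quotient.
-/

set_option autoImplicit false

namespace Cfsg.Agent.Lib.LocalP2.ExtraPlanes

open Matrix MulAction OnePoint
open scoped MatrixGroups commutatorElement Pointwise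

universe u

variable {p : ℕ} [hp : Fact p.Prime]

section Powers

variable {G : Type u} [Group G] {x z : G}

theorem pow_val_congr (hx : x ^ p = 1) {n : ℕ} {a : ZMod p} (h : (n : ZMod p) = a) : x ^ n = x ^ a.val := by
  subst h
  rw [ZMod.val_natCast]
  conv_lhs => rw [← Nat.mod_add_div n p, pow_add, pow_mul, hx, one_pow, mul_one]

theorem pow_val_add (hx : x ^ p = 1) (a b : ZMod p) : x ^ (a + b).val = x ^ a.val * x ^ b.val := by
  rw [← pow_add]
  exact (pow_val_congr hx (by simp)).symm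

theorem pow_val_mul (hx : x ^ p = 1) (a b : ZMod p) : x ^ (a * b).val = (x ^ a.val) ^ b.val := by
  rw [← pow_mul]
  exact (pow_val_congr hx (by simp)).symm

/-- The plane spanned by two commuting elements of order dividing `p`, in coordinates. -/
def emap (z x : G) (v : ZMod p × ZMod p) : G := z ^ v.1.val * x ^ v.2.val

theorem emap_add (hz : z ^ p = 1) (hx : x ^ p = 1) (hc : Commute z x) (v w : ZMod p × ZMod p) :
    emap z x (v + w) = emap z x v * emap z x w := by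
  simp only [emap, Prod.fst_add, Prod.snd_add, pow_val_add hz, pow_val_add hx]
  rw [mul_assoc, mul_assoc, ← mul_assoc (z ^ w.1.val), (hc.pow_pow w.1.val v.2.val).eq, mul_assoc]

theorem emap_z (z x : G) : emap z x ((1 : ZMod p), (0 : ZMod p)) = z := by
  simp [emap, ZMod.val_one]

theorem emap_x (z x : G) : emap z x ((0 : ZMod p), (1 : ZMod p)) = x := by
  simp [emap, ZMod.val_one]

end Powers

/-- Coordinates of an extraspecial Sylow subgroup of order `p^3`. -/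
structure Frame {G : Type u} [Group G] (P : Sylow p G) where
  z : G
  k : G → (Fin 2 → ZMod p)
  z_mem : z ∈ P
  z_pow : z ^ p = 1
  z_ne : z ≠ 1
  z_comm : ∀ q ∈ P, Commute z q
  k_mul : ∀ q ∈ P, ∀ r ∈ P, k (q * r) = k q + k r
  k_surj : ∀ v, ∃ q ∈ P, k q = v
  k_eq : ∀ q ∈ P, (k q = 0 ↔ q ∈ Subgroup.zpowers z)
  k_comm : ∀ q ∈ P, ∀ r ∈ P, ⁅q, r⁆ = z ^ (k q 0 * k r 1 - k q 1 * k r 0).val
  k_pow : ∀ q ∈ P, q ^ p = 1

theorem exists_frame {G : Type u} [Group G] [Finite G] (P : Sylow p G) (hE : Cfsg.IsExtraspecial p ↥P)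
    (hcard : Nat.card P = p ^ 3) (hexp : Monoid.exponent ↥P = p) : Nonempty (Frame P) := by
  obtain ⟨⟨-, -, hcomm⟩, hZc⟩ := hE
  set Z := (Subgroup.center ↥P).map (P : Subgroup G).subtype with hZ
  have hZcard : Nat.card Z = p := (Subgroup.card_map_of_injective (P : Subgroup G).subtype_injective).trans hZc
  have hpow : ∀ q ∈ P, q ^ p = 1 := fun q hq => by
    have := Monoid.pow_exponent_eq_one (⟨q, hq⟩ : ↥P)
    rw [hexp] at this
    exact congrArg Subtype.val this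
  have hZmem : ∀ c ∈ Z, ∀ q ∈ P, Commute c q := by
    rintro _ ⟨c, hc, rfl⟩ q hq
    exact congrArg Subtype.val ((Subgroup.mem_center_iff.1 hc ⟨q, hq⟩).symm)
  obtain ⟨k₀, hk₁, hk₂, hk₃⟩ := RankTwo.exists_coord (p := p) (X := (P : Subgroup G)) (D := Z)
    (Subgroup.map_subtype_le _) (fun x hx d hd => by
      rwa [(hZmem d hd x hx).symm.eq, mul_inv_cancel_right])
    (fun x hx => by rw [hpow x hx]; exact one_mem _)
    (by rw [hZcard, hcard]; ring)
  let k : G → (Fin 2 → ZMod p) := fun q => ![(k₀ q).1, (k₀ q).2]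
  obtain ⟨x₀, hx₀, hkx⟩ := hk₂ (1, 0)
  obtain ⟨y₀, hy₀, hky⟩ := hk₂ (0, 1)
  have hcz : ∀ q ∈ P, ∀ r ∈ P, ⁅q, r⁆ ∈ Z := fun q hq r hr => by
    refine ⟨⁅(⟨q, hq⟩ : ↥P), (⟨r, hr⟩ : ↥P)⁆, ?_, rfl⟩
    rw [← hcomm]
    exact Subgroup.commutator_mem_commutator (Subgroup.mem_top _) (Subgroup.mem_top _)
  have hleft : ∀ a ∈ P, ∀ b ∈ P, ∀ r ∈ P, ⁅a * b, r⁆ = ⁅a, r⁆ * ⁅b, r⁆ := fun a ha b hb r hr => by
    have h1 := hZmem _ (hcz b hb r hr) a ha
    have h2 : ⁅a * b, r⁆ = a * ⁅b, r⁆ * a⁻¹ * ⁅a, r⁆ := by simp only [commutatorElement_def]; group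
    rw [h2, ← h1.eq, mul_inv_cancel_right]
    exact (hZmem _ (hcz b hb r hr) _ (Subgroup.map_subtype_le _ (hcz a ha r hr))).eq
  have hright : ∀ a ∈ P, ∀ b ∈ P, ∀ r ∈ P, ⁅r, a * b⁆ = ⁅r, a⁆ * ⁅r, b⁆ := fun a ha b hb r hr => by
    have h1 := hZmem _ (hcz r hr b hb) a ha
    have h2 : ⁅r, a * b⁆ = ⁅r, a⁆ * (a * ⁅r, b⁆ * a⁻¹) := by simp only [commutatorElement_def]; group
    rw [h2, ← h1.eq, mul_inv_cancel_right]
  have hpl : ∀ a ∈ P, ∀ r ∈ P, ∀ n : ℕ, ⁅a ^ n, r⁆ = ⁅a, r⁆ ^ n := fun a ha r hr n => by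
    induction n with
    | zero => simp
    | succ n ih => rw [pow_succ, hleft _ (pow_mem ha n) _ ha r hr, ih, pow_succ]
  have hpr : ∀ a ∈ P, ∀ r ∈ P, ∀ n : ℕ, ⁅r, a ^ n⁆ = ⁅r, a⁆ ^ n := fun a ha r hr n => by
    induction n with
    | zero => simp
    | succ n ih => rw [pow_succ, hright _ (pow_mem ha n) _ ha r hr, ih, pow_succ]
  have hform : ∀ q ∈ P, ∃ c ∈ Z, q = x₀ ^ (k₀ q).1.val * y₀ ^ (k₀ q).2.val * c := fun q hq => by
    have h1 := pow_mem hx₀ (k₀ q).1.val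
    have h2 := pow_mem hy₀ (k₀ q).2.val
    have hkp : ∀ a ∈ P, ∀ n : ℕ, k₀ (a ^ n) = n • k₀ a := fun a ha n => by
      induction n with
      | zero =>
        have h := hk₁ 1 (one_mem _) 1 (one_mem _)
        rw [one_mul, left_eq_add] at h
        simpa using h
      | succ n ih => rw [pow_succ, hk₁ _ (pow_mem ha n) _ ha, ih, succ_nsmul]
    refine ⟨(x₀ ^ (k₀ q).1.val * y₀ ^ (k₀ q).2.val)⁻¹ * q, (hk₃ _ (mul_mem (inv_mem (mul_mem h1 h2)) hq)).1 ?_,
      (mul_inv_cancel_left _ _).symm⟩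
    have h3 : k₀ (x₀ ^ (k₀ q).1.val * y₀ ^ (k₀ q).2.val) = k₀ q := by
      rw [hk₁ _ h1 _ h2, hkp _ hx₀, hkp _ hy₀, hkx, hky]
      exact Prod.ext (by simp) (by simp)
    have h4 := hk₁ _ (mul_mem h1 h2) _ (mul_mem (inv_mem (mul_mem h1 h2)) hq)
    rw [mul_inv_cancel_left, h3, left_eq_add] at h4
    exact h4
  set z := ⁅x₀, y₀⁆ with hz
  have hzZ : z ∈ Z := hcz x₀ hx₀ y₀ hy₀
  have hz1 : z ^ p = 1 := hpow z (Subgroup.map_subtype_le _ hzZ)
  have hyx : ⁅y₀, x₀⁆ = z⁻¹ := (commutatorElement_inv x₀ y₀).symm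
  have hcomm' : ∀ q ∈ P, ∀ r ∈ P,
      ⁅q, r⁆ = z ^ (k q 0 * k r 1 - k q 1 * k r 0).val := fun q hq r hr => by
    obtain ⟨c, hc, hqc⟩ := hform q hq
    obtain ⟨e, he, hre⟩ := hform r hr
    set i := (k₀ q).1
    set j := (k₀ q).2
    set i' := (k₀ r).1
    set j' := (k₀ r).2
    have hP : ∀ a, a ∈ Z → a ∈ P := fun a ha => Subgroup.map_subtype_le _ ha
    have hc1 : ∀ a ∈ P, ⁅c, a⁆ = 1 := fun a ha => commutatorElement_eq_one_iff_commute.2 (hZmem c hc a ha)
    have he1 : ∀ a ∈ P, ⁅a, e⁆ = 1 := fun a ha =>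
      commutatorElement_eq_one_iff_commute.2 (hZmem e he a ha).symm
    have hxi := pow_mem hx₀ i.val
    have hyj := pow_mem hy₀ j.val
    have hxi' := pow_mem hx₀ i'.val
    have hyj' := pow_mem hy₀ j'.val
    have hq0 : ⁅q, r⁆ = ⁅x₀ ^ i.val * y₀ ^ j.val, x₀ ^ i'.val * y₀ ^ j'.val⁆ := by
      rw [hqc, hleft _ (mul_mem hxi hyj) _ (hP c hc) r hr, hc1 r hr, mul_one, hre,
        hright _ (mul_mem hxi' hyj') _ (hP e he) _ (mul_mem hxi hyj), he1 _ (mul_mem hxi hyj), mul_one]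
    rw [hq0, hleft _ hxi _ hyj _ (mul_mem hxi' hyj'), hright _ hxi' _ hyj' _ hxi, hright _ hxi' _ hyj' _ hyj,
      hpl _ hx₀ _ hxi', hpr _ hx₀ _ hx₀, commutatorElement_self, one_pow, one_pow, one_mul,
      hpl _ hy₀ _ hyj', hpr _ hy₀ _ hy₀, commutatorElement_self, one_pow, one_pow, mul_one,
      hpl _ hx₀ _ hyj', hpr _ hy₀ _ hx₀, hpl _ hy₀ _ hxi', hpr _ hx₀ _ hy₀, hyx, ← hz]
    simp only [k, Matrix.cons_val_zero, Matrix.cons_val_one]
    rw [sub_eq_add_neg, pow_val_add hz1, ← pow_mul, ← pow_mul]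
    congr 1
    · exact pow_val_congr hz1 (by simp [i, j', mul_comm])
    · rw [← pow_val_congr hz1 (n := (p - 1) * (i'.val * j.val)) (by
        rw [Nat.cast_mul, Nat.cast_mul, Nat.cast_sub hp.out.one_le, ZMod.natCast_self]
        simp [i', j, mul_comm]), pow_mul, pow_mul, pow_mul]
      congr 2
      exact inv_eq_of_mul_eq_one_left (by rw [← pow_succ, Nat.sub_add_cancel hp.out.one_le, hz1])
  have hz2 : z ≠ 1 := fun h => by
    have htriv : commutator ↥P = ⊥ := by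
      rw [commutator_def, eq_bot_iff, Subgroup.commutator_le]
      intro a _ b _
      refine Subgroup.mem_bot.2 (Subtype.ext ?_)
      have h5 := hcomm' a a.2 b b.2
      rw [h, one_pow] at h5
      exact h5
    rw [← hcomm, htriv, Subgroup.card_bot] at hZc
    exact hp.out.one_lt.ne hZc
  have hZz : Subgroup.zpowers z = Z := by
    have := (Finite.of_injective _ (Subgroup.inclusion_injective
      (Subgroup.map_subtype_le (Subgroup.center ↥P))) : Finite Z)
    refine Subgroup.eq_of_le_of_card_ge (Subgroup.zpowers_le.2 hzZ) ?_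
    rw [Nat.card_zpowers, orderOf_eq_prime hz1 hz2, hZcard]
  refine ⟨⟨z, k, Subgroup.map_subtype_le _ hzZ, hz1, hz2, hZmem z hzZ, fun q hq r hr => ?_, fun v => ?_,
    fun q hq => ?_, hcomm', hpow⟩⟩
  · simp only [k, hk₁ q hq r hr, Prod.fst_add, Prod.snd_add]
    ext i; fin_cases i <;> simp
  · obtain ⟨q, hq, hqv⟩ := hk₂ (v 0, v 1)
    refine ⟨q, hq, ?_⟩
    simp only [k, hqv]
    ext i; fin_cases i <;> simp
  · rw [hZz, ← hk₃ q hq]
    refine ⟨fun h => Prod.ext ?_ ?_, fun h => ?_⟩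
    · simpa [k] using congrFun h 0
    · simpa [k] using congrFun h 1
    · simp only [k, h]; ext i; fin_cases i <;> simp

section Torus

variable {G : Type u} [Group G] {z x : G}

/-- A linear map on the plane spanned by `z` and `x` realized by conjugation. -/
def Realized (z x : G) (f : ZMod p × ZMod p → ZMod p × ZMod p) : Prop :=
  ∃ g : G, ∀ v, g * emap z x v * g⁻¹ = emap z x (f v)

theorem Realized.comp {f f' : ZMod p × ZMod p → ZMod p × ZMod p} (h : Realized z x f) (h' : Realized z x f') :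
    Realized z x (f ∘ f') := by
  obtain ⟨g, hg⟩ := h
  obtain ⟨g', hg'⟩ := h'
  refine ⟨g * g', fun v => ?_⟩
  rw [Function.comp_apply, ← hg (f' v), ← hg' v]
  group

theorem realized_emap (hz : z ^ p = 1) (hx : x ^ p = 1) (hc : Commute z x) {g : G} {a b c d : ZMod p}
    (h1 : g * z * g⁻¹ = emap z x (a, b)) (h2 : g * x * g⁻¹ = emap z x (c, d)) (v : ZMod p × ZMod p) :
    g * emap z x v * g⁻¹ = emap z x (v.1 * a + v.2 * c, v.1 * b + v.2 * d) := by
  have hn : ∀ (w : ZMod p × ZMod p) (n : ℕ), emap z x w ^ n = emap z x (n • w) := fun w n => by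
    induction n with
    | zero => simp [emap]
    | succ n ih => rw [pow_succ, ih, succ_nsmul, emap_add hz hx hc]
  show g * (z ^ v.1.val * x ^ v.2.val) * g⁻¹ = _
  rw [← conj_mul, ← conj_pow, ← conj_pow, h1, h2, hn, hn, ← emap_add hz hx hc]
  congr 1
  exact Prod.ext (by simp) (by simp)

end Torus

variable {G : Type u} [Group G] [Finite G] {P : Sylow p G}

/-- A plane with an automizer moving `z` along `x` gives a torus in the normalizer of `P`. -/
theorem exists_torus (D : Frame P) {x g : G} (hxP : x ∈ P) (hkx : D.k x ≠ 0) {s : ZMod p} (hs : s ≠ 0)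
    (hgx : g * x * g⁻¹ = x) (hgz : g * D.z * g⁻¹ = D.z * x ^ s.val) (a : ZMod p) (ha : a ≠ 0) :
    ∃ h ∈ Subgroup.normalizer ((P : Subgroup G) : Set G), h * D.z * h⁻¹ = D.z ^ a.val ∧
      ∃ i : ℕ, h * x * h⁻¹ = D.z ^ i * x ^ a⁻¹.val := by
  have hz := D.z_pow
  have hx := D.k_pow x hxP
  have hc : Commute D.z x := D.z_comm x hxP
  have hgv : ∀ v, g * emap D.z x v * g⁻¹ = emap D.z x (v.1, v.2 + s * v.1) := fun v => by
    rw [realized_emap hz hx hc (a := 1) (b := s) (c := 0) (d := 1)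
      (by rw [hgz]; simp [emap, ZMod.val_one]) (by rw [hgx]; exact (emap_x D.z x).symm)]
    congr 1
    exact Prod.ext (by ring) (by ring)
  have hy : ∃ y ∈ P, D.k y 0 * D.k x 1 - D.k y 1 * D.k x 0 ≠ 0 := by
    by_contra h
    push Not at h
    obtain ⟨y1, hy1, hk1⟩ := D.k_surj ![1, 0]
    obtain ⟨y2, hy2, hk2⟩ := D.k_surj ![0, 1]
    have e1 := h y1 hy1
    have e2 := h y2 hy2
    rw [hk1] at e1
    rw [hk2] at e2
    refine hkx (funext fun i => ?_)
    fin_cases i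
    · simpa using e2
    · simpa using e1
  obtain ⟨y, hyP, hy⟩ := hy
  set r := D.k y 0 * D.k x 1 - D.k y 1 * D.k x 0
  have hPv : ∀ q ∈ P, ∀ v, q * emap D.z x v * q⁻¹ =
      emap D.z x (v.1 + (D.k q 0 * D.k x 1 - D.k q 1 * D.k x 0) * v.2, v.2) := fun q hq v => by
    rw [realized_emap hz hx hc (a := 1) (b := 0) (c := D.k q 0 * D.k x 1 - D.k q 1 * D.k x 0) (d := 1)
      (by rw [← (D.z_comm q hq).eq, mul_inv_cancel_right]; exact (emap_z D.z x).symm)
      (by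
        have h := D.k_comm q hq x hxP
        rw [commutatorElement_def, mul_inv_eq_iff_eq_mul] at h
        simpa [emap, ZMod.val_one] using h)]
    congr 1
    exact Prod.ext (by ring) (by ring)
  have hU : ∀ t : ZMod p, Realized D.z x (fun v => (v.1 + t * v.2, v.2)) := fun t => by
    refine ⟨y ^ (t / r).val, fun v => ?_⟩
    have h : ∀ n : ℕ, y ^ n * emap D.z x v * (y ^ n)⁻¹ = emap D.z x (v.1 + (n : ZMod p) * r * v.2, v.2) := fun n => by
      induction n with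
      | zero => simp
      | succ n ih =>
        rw [pow_succ', show y * y ^ n * emap D.z x v * (y * y ^ n)⁻¹ =
          y * (y ^ n * emap D.z x v * (y ^ n)⁻¹) * y⁻¹ by group, ih, hPv y hyP]
        congr 1
        exact Prod.ext (by push_cast; simp only [r]; ring) rfl
    rw [h]
    congr 1
    exact Prod.ext (by rw [ZMod.natCast_zmod_val, div_mul_cancel₀ _ hy]) rfl
  have hL : ∀ t : ZMod p, Realized D.z x (fun v => (v.1, v.2 + t * v.1)) := fun t => by
    refine ⟨g ^ (t / s).val, fun v => ?_⟩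
    have h : ∀ n : ℕ, g ^ n * emap D.z x v * (g ^ n)⁻¹ = emap D.z x (v.1, v.2 + (n : ZMod p) * s * v.1) := fun n => by
      induction n with
      | zero => simp
      | succ n ih =>
        rw [pow_succ', show g * g ^ n * emap D.z x v * (g * g ^ n)⁻¹ =
          g * (g ^ n * emap D.z x v * (g ^ n)⁻¹) * g⁻¹ by group, ih, hgv]
        congr 1
        exact Prod.ext rfl (by push_cast; ring)
    rw [h]
    congr 1
    exact Prod.ext rfl (by rw [ZMod.natCast_zmod_val, div_mul_cancel₀ _ hs])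
  have hW : ∀ c : ZMod p, c ≠ 0 → Realized D.z x (fun v => (c * v.2, -v.1 / c)) := fun c hc0 => by
    obtain ⟨h', hh'⟩ := (hU c).comp ((hL (-1 / c)).comp (hU c))
    refine ⟨h', fun v => (hh' v).trans (congrArg _ ?_)⟩
    refine Prod.ext ?_ ?_
    · simp only [Function.comp_apply]; field_simp; ring
    · simp only [Function.comp_apply]; field_simp; ring
  obtain ⟨h₀, hh₀⟩ := (hW a ha).comp (hW (-1) (neg_ne_zero.2 one_ne_zero))
  have hh : ∀ v, h₀ * emap D.z x v * h₀⁻¹ = emap D.z x (a * v.1, v.2 / a) := fun v =>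
    (hh₀ v).trans (congrArg _ (Prod.ext (by simp only [Function.comp_apply]; ring)
      (by simp only [Function.comp_apply]; ring)))
  let K : Subgroup G :=
    { carrier := {q | ∃ t : ZMod p, ∀ v, q * emap D.z x v * q⁻¹ = emap D.z x (v.1 + t * v.2, v.2)}
      one_mem' := ⟨0, fun v => by simp⟩
      mul_mem' := fun {q q'} ⟨t, ht⟩ ⟨t', ht'⟩ => ⟨t + t', fun v => by
        rw [show q * q' * emap D.z x v * (q * q')⁻¹ = q * (q' * emap D.z x v * q'⁻¹) * q⁻¹ by group, ht', ht]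
        congr 1
        exact Prod.ext (by ring) rfl⟩
      inv_mem' := fun {q} ⟨t, ht⟩ => ⟨-t, fun v => by
        have h := ht (v.1 + -t * v.2, v.2)
        simp only at h
        rw [show v.1 + -t * v.2 + t * v.2 = v.1 by ring] at h
        rw [← h]
        group⟩ }
  have hPK : (P : Subgroup G) ≤ K := fun q hq => ⟨_, fun v => hPv q hq v⟩
  have hPK' : MulAut.conj h₀ • (P : Subgroup G) ≤ K := by
    rintro _ ⟨q, hq, rfl⟩
    obtain ⟨t, ht⟩ := hPK hq
    refine ⟨a * a * t, fun v => ?_⟩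
    have h1 := hh (v.1 / a, a * v.2)
    rw [show (a * (v.1 / a), a * v.2 / a) = v from
      Prod.ext (by field_simp) (by field_simp)] at h1
    show (h₀ * q * h₀⁻¹) * emap D.z x v * (h₀ * q * h₀⁻¹)⁻¹ = _
    rw [← h1, show h₀ * q * h₀⁻¹ * (h₀ * emap D.z x (v.1 / a, a * v.2) * h₀⁻¹) * (h₀ * q * h₀⁻¹)⁻¹ =
      h₀ * (q * emap D.z x (v.1 / a, a * v.2) * q⁻¹) * h₀⁻¹ by group, ht, hh]
    congr 1
    exact Prod.ext (by field_simp) (by field_simp)
  let P₁ : Sylow p K := P.subtype hPK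
  let P₂ : Sylow p K := (MulAut.conj h₀ • P).subtype hPK'
  obtain ⟨c, hc'⟩ := MulAction.exists_smul_eq K P₂ P₁
  have hn : (c : G) * h₀ ∈ Subgroup.normalizer ((P : Subgroup G) : Set G) := by
    refine Fusion.mem_normalizer_of_conj_mem fun q hq => ?_
    have hmem : (⟨h₀ * q * h₀⁻¹, hPK' ⟨q, hq, rfl⟩⟩ : K) ∈ (P₂ : Subgroup K) := by
      show h₀ * q * h₀⁻¹ ∈ MulAut.conj h₀ • (P : Subgroup G)
      exact ⟨q, hq, rfl⟩
    have h2 : MulAut.conj c • (⟨h₀ * q * h₀⁻¹, hPK' ⟨q, hq, rfl⟩⟩ : K) ∈ ((c • P₂ : Sylow p K) : Subgroup K) := by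
      rw [Sylow.coe_subgroup_smul]
      exact Subgroup.smul_mem_pointwise_smul _ _ _ hmem
    rw [hc'] at h2
    have h3 : (c : G) * (h₀ * q * h₀⁻¹) * (c : G)⁻¹ ∈ (P : Subgroup G) := h2
    rw [show (c : G) * h₀ * q * ((c : G) * h₀)⁻¹ = (c : G) * (h₀ * q * h₀⁻¹) * (c : G)⁻¹ by group]
    exact h3
  obtain ⟨t, ht⟩ := c.2
  have hv : ∀ v, (c : G) * h₀ * emap D.z x v * ((c : G) * h₀)⁻¹ = emap D.z x (a * v.1 + t * (v.2 / a), v.2 / a) :=
    fun v => by
    rw [show (c : G) * h₀ * emap D.z x v * ((c : G) * h₀)⁻¹ =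
      (c : G) * (h₀ * emap D.z x v * h₀⁻¹) * (c : G)⁻¹ by group, hh, ht]
  refine ⟨_, hn, ?_, ⟨(t * a⁻¹).val, ?_⟩⟩
  · have h := hv ((1 : ZMod p), (0 : ZMod p))
    rw [emap_z] at h
    rw [h]
    simp [emap]
  · have h := hv ((0 : ZMod p), (1 : ZMod p))
    rw [emap_x] at h
    rw [h]
    simp [emap]

/-- The action of the normalizer on the coordinates. -/
theorem exists_actMat (D : Frame P) : ∃ φ : Subgroup.normalizer ((P : Subgroup G) : Set G) →* GL (Fin 2) (ZMod p),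
    (∀ (n : Subgroup.normalizer ((P : Subgroup G) : Set G)), ∀ q ∈ P, D.k ((n : G) * q * (n : G)⁻¹) = (φ n).1 *ᵥ D.k q) ∧
      ¬ p ∣ Nat.card φ.range ∧ ∀ (n : Subgroup.normalizer ((P : Subgroup G) : Set G)) (a : ZMod p),
        (n : G) * D.z * (n : G)⁻¹ = D.z ^ a.val → (φ n).1.det = a := by
  classical
  set N := Subgroup.normalizer ((P : Subgroup G) : Set G)
  have hN : ∀ (n : N) {q : G}, q ∈ P → (n : G) * q * (n : G)⁻¹ ∈ P := fun n q hq =>
    (Subgroup.mem_normalizer_iff.1 n.2 q).1 hq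
  have hkz : D.k D.z = 0 := (D.k_eq _ D.z_mem).2 (Subgroup.mem_zpowers _)
  have hk1 : D.k 1 = 0 := (D.k_eq _ (one_mem _)).2 (one_mem _)
  choose sec hsec hksec using D.k_surj
  have hcongr : ∀ q ∈ P, ∀ r ∈ P, D.k q = D.k r → ∀ n : N,
      D.k ((n : G) * q * (n : G)⁻¹) = D.k ((n : G) * r * (n : G)⁻¹) := fun q hq r hr h n => by
    have h1 : D.k (r⁻¹ * q) = 0 := by
      have h3 := D.k_mul r hr (r⁻¹ * q) (mul_mem (inv_mem hr) hq)
      rw [mul_inv_cancel_left, h, left_eq_add] at h3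
      exact h3
    obtain ⟨i, hi⟩ := Subgroup.mem_zpowers_iff.1 ((D.k_eq _ (mul_mem (inv_mem hr) hq)).1 h1)
    -- the centre is normalized
    have hnz : (n : G) * D.z * (n : G)⁻¹ ∈ Subgroup.zpowers D.z := by
      obtain ⟨y1, hy1, hk1'⟩ := D.k_surj ![1, 0]
      obtain ⟨y2, hy2, hk2'⟩ := D.k_surj ![0, 1]
      have hz12 : ⁅y1, y2⁆ = D.z := by
        rw [D.k_comm y1 hy1 y2 hy2, hk1', hk2']
        simp [ZMod.val_one]
      rw [← hz12, show (n : G) * ⁅y1, y2⁆ * (n : G)⁻¹ = ⁅(n : G) * y1 * (n : G)⁻¹, (n : G) * y2 * (n : G)⁻¹⁆ by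
        simp only [commutatorElement_def]; group, D.k_comm _ (hN n hy1) _ (hN n hy2), hz12]
      exact pow_mem (Subgroup.mem_zpowers _) _
    have h2 : (n : G) * (r⁻¹ * q) * (n : G)⁻¹ ∈ Subgroup.zpowers D.z := by
      rw [← hi, ← conj_zpow]
      exact zpow_mem hnz i
    have h3 := (D.k_eq _ (hN n (mul_mem (inv_mem hr) hq))).2 h2
    have h4 := D.k_mul _ (hN n hr) _ (hN n (mul_mem (inv_mem hr) hq))
    rw [h3, add_zero, conj_mul, mul_inv_cancel_left] at h4
    exact h4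
  let T : N → ((Fin 2 → ZMod p) →+ (Fin 2 → ZMod p)) := fun n => AddMonoidHom.mk'
    (fun v => D.k ((n : G) * sec v * (n : G)⁻¹)) fun v w => by
      rw [← D.k_mul _ (hN n (hsec v)) _ (hN n (hsec w)), conj_mul]
      exact hcongr _ (hsec _) _ (mul_mem (hsec v) (hsec w))
        (by rw [D.k_mul _ (hsec v) _ (hsec w), hksec, hksec, hksec]) n
  let L : N → ((Fin 2 → ZMod p) →ₗ[ZMod p] (Fin 2 → ZMod p)) := fun n => (T n).toZModLinearMap p
  have hL : ∀ (n : N), ∀ q ∈ P, L n (D.k q) = D.k ((n : G) * q * (n : G)⁻¹) := fun n q hq =>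
    hcongr _ (hsec _) q hq (hksec _) n
  have hLmul : ∀ m n : N, L (m * n) = L m ∘ₗ L n := fun m n => LinearMap.ext fun v => by
    show D.k _ = L m (D.k ((n : G) * sec v * (n : G)⁻¹))
    rw [hL m _ (hN n (hsec v))]
    congr 1
    rw [Subgroup.coe_mul]
    group
  let A : N →* Matrix (Fin 2) (Fin 2) (ZMod p) :=
    { toFun := fun n => LinearMap.toMatrix' (L n)
      map_one' := by
        rw [show L 1 = LinearMap.id from LinearMap.ext fun v => by
          show D.k _ = v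
          simp [hksec], LinearMap.toMatrix'_id]
      map_mul' := fun m n => by rw [hLmul, LinearMap.toMatrix'_comp] }
  have hmv : ∀ (n : N), ∀ q ∈ P, D.k ((n : G) * q * (n : G)⁻¹) = (A.toHomUnits n).1 *ᵥ D.k q := fun n q hq => by
    show _ = LinearMap.toMatrix' (L n) *ᵥ D.k q
    rw [LinearMap.toMatrix'_mulVec, hL n q hq]
  refine ⟨A.toHomUnits, hmv, ?_, fun n a hn => ?_⟩
  · have hker : ((P : Subgroup G).subgroupOf N) ≤ A.toHomUnits.ker := by
      intro n hn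
      rw [MonoidHom.mem_ker]
      refine Units.ext (Matrix.ext_iff_mulVec.2 fun v => ?_)
      have h1 := hmv n (sec v) (hsec v)
      rw [hksec] at h1
      rw [← h1, Units.val_one, Matrix.one_mulVec]
      have hn' : (n : G) ∈ P := hn
      have h5 := D.k_mul _ (mul_mem hn' (hsec v)) _ (inv_mem hn')
      have h6 := D.k_mul (n : G) hn' _ (inv_mem hn')
      rw [mul_inv_cancel, hk1] at h6
      rw [h5, D.k_mul _ hn' _ (hsec v), add_comm (D.k (n : G)), add_assoc, ← h6, add_zero, hksec]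
    intro hdvd
    refine P.not_dvd_index (dvd_trans ?_ (Subgroup.relIndex_dvd_index_of_le (Subgroup.le_normalizer (H := (P : Subgroup G)))))
    refine hdvd.trans ?_
    rw [← Subgroup.index_ker]
    exact Subgroup.index_dvd_of_le hker
  · obtain ⟨y1, hy1, hk1'⟩ := D.k_surj ![1, 0]
    obtain ⟨y2, hy2, hk2'⟩ := D.k_surj ![0, 1]
    have hz12 : ⁅y1, y2⁆ = D.z := by
      rw [D.k_comm y1 hy1 y2 hy2, hk1', hk2']
      simp [ZMod.val_one]
    rw [← hz12, show (n : G) * ⁅y1, y2⁆ * (n : G)⁻¹ = ⁅(n : G) * y1 * (n : G)⁻¹, (n : G) * y2 * (n : G)⁻¹⁆ by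
      simp only [commutatorElement_def]; group, D.k_comm _ (hN n hy1) _ (hN n hy2), hz12, hmv n y1 hy1,
      hmv n y2 hy2, hk1', hk2'] at hn
    have h := (pow_inj_mod (x := D.z)).1 hn
    rw [orderOf_eq_prime D.z_pow D.z_ne, Nat.mod_eq_of_lt (ZMod.val_lt _), Nat.mod_eq_of_lt (ZMod.val_lt _)] at h
    rw [← ZMod.val_injective p h, Matrix.det_fin_two]
    simp [Matrix.mulVec_eq_sum]
    ring

end Cfsg.Agent.Lib.LocalP2.ExtraPlanes
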