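import Cfsg.Agent.Lib.LocalP2.ExtraPlanes

/-!
Lines with large tori bound the prime: a `p'`-subgroup of `PGL₂(p)` fixing many points by elements of
large order.
-/

set_option autoImplicit false

namespace Cfsg.Agent.Lib.LocalP2.ExtraPlanes

open Matrix MulAction OnePoint Cfsg.Agent.Lib.PSLTwo
open scoped MatrixGroups

universe u

variable {p : ℕ} [hp : Fact p.Prime]

/-- The point of the projective line on a vector. -/
def pt (v : Fin 2 → ZMod p) : OnePoint (ZMod p) := if v 1 = 0 then ∞ else ((v 0 / v 1 : ZMod p) : OnePoint (ZMod p))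

theorem smul_pt (g : GL (Fin 2) (ZMod p)) {v : Fin 2 → ZMod p} (hv : v ≠ 0) {c : ZMod p} (hc : c ≠ 0)
    (h : g.1 *ᵥ v = c • v) : g • pt v = pt v := by
  have h0 := congrFun h 0
  have h1 := congrFun h 1
  simp [Matrix.mulVec_eq_sum, Fin.sum_univ_two] at h0 h1
  by_cases hv1 : v 1 = 0
  · have hv0 : v 0 ≠ 0 := fun hv0 => hv (funext fun i => by fin_cases i <;> simp [hv0, hv1])
    rw [pt, if_pos hv1, smul_infty_eq_self_iff]
    rw [hv1] at h1
    simp [hv0] at h1
    exact h1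
  · rw [pt, if_neg hv1, smul_some_eq_ite]
    have hne : g 1 0 * (v 0 / v 1) + g 1 1 ≠ 0 := by
      intro hz
      field_simp at hz
      exact (mul_ne_zero hc hv1) (by linear_combination hz - h1)
    rw [if_neg hne, OnePoint.coe_eq_coe, div_eq_iff hne]
    field_simp
    linear_combination v 1 * h0 - v 0 * h1

theorem det_eq_zero_of_pt {v w : Fin 2 → ZMod p} (h : pt v = pt w) : v 0 * w 1 - v 1 * w 0 = 0 := by
  by_cases hv : v 1 = 0 <;> by_cases hw : w 1 = 0 <;> simp [pt, hv, hw] at h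
  · simp [hv, hw]
  · field_simp at h
    linear_combination h

/-- Powers of a matrix with given eigenvalue and determinant are scalar only for few exponents. -/
theorem dvd_of_mk_pow {a : (ZMod p)ˣ} {M : GL (Fin 2) (ZMod p)} {v : Fin 2 → ZMod p} (hv : v ≠ 0)
    (hev : M.1 *ᵥ v = (a⁻¹ : (ZMod p)ˣ).1 • v) (hdet : M.1.det = a.1) {k : ℕ}
    (hk : (ProjGenLinGroup.mk M : PGL(2, ZMod p)) ^ k = 1) : orderOf a ∣ 3 * k := by
  rw [← map_pow, PSLTwo.mk_eq_one_iff] at hk
  obtain ⟨h1, h2, h3⟩ := hk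
  have hmv : ∀ j : ℕ, (M ^ j).1 *ᵥ v = ((a⁻¹ : (ZMod p)ˣ).1 ^ j) • v := by
    intro j
    induction j with
    | zero => rw [pow_zero, pow_zero, Units.val_one, Matrix.one_mulVec, one_smul]
    | succ j ih =>
      rw [pow_succ', Units.val_mul, ← Matrix.mulVec_mulVec, ih, Matrix.mulVec_smul, hev, smul_smul, pow_succ]
  have hscal : ∀ w : Fin 2 → ZMod p, (M ^ k).1 *ᵥ w = (M ^ k).1 0 0 • w := fun w => by
    rw [Matrix.mulVec_fin_two, h1, h2, ← h3]
    ext i
    fin_cases i <;> simp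
  have hc : (M ^ k).1 0 0 = (a⁻¹ : (ZMod p)ˣ).1 ^ k := smul_left_injective _ hv ((hscal v).symm.trans (hmv k))
  have hd : (M ^ k).1.det = a.1 ^ k := by rw [Units.val_pow_eq_pow_val, Matrix.det_pow, hdet]
  rw [Matrix.det_fin_two, h1, h2, ← h3, hc] at hd
  have hu : (a⁻¹) ^ k * (a⁻¹) ^ k = a ^ k := Units.ext (by
    rw [Units.val_mul, Units.val_pow_eq_pow_val, Units.val_pow_eq_pow_val]; linear_combination hd)
  refine orderOf_dvd_of_pow_eq_one ?_
  calc a ^ (3 * k) = a ^ k * (a ^ k * a ^ k) := by rw [← pow_add, ← pow_add]; congr 1; ring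
    _ = ((a⁻¹) ^ k * (a⁻¹) ^ k) * (a ^ k * a ^ k) := by rw [hu]
    _ = 1 := by rw [inv_pow]; group

theorem orderOf_altFour : ∀ g : alternatingGroup (Fin 4), g ^ 2 = 1 ∨ g ^ 3 = 1 := by decide +kernel

theorem orderOf_symFour : ∀ g : Equiv.Perm (Fin 4), g ^ 3 = 1 ∨ g ^ 4 = 1 := by decide +kernel

theorem orderOf_altFive : ∀ g : alternatingGroup (Fin 5), g ^ 2 = 1 ∨ g ^ 3 = 1 ∨ g ^ 5 = 1 := by decide +kernel

theorem card_four_symFour :
    (Finset.univ.filter fun g : Equiv.Perm (Fin 4) => g ^ 2 ≠ 1 ∧ g ^ 4 = 1).card ≤ 6 := by decide +kernel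

theorem not_dvd_small (h7 : 7 < p) : ∀ k ∈ ({1, 2, 3, 5} : Finset ℕ), ¬ p - 1 ∣ 3 * k := by
  intro k hk h
  have h1 := Nat.le_of_dvd (by simp at hk; omega) h
  have h2 : p ≤ 16 := by simp at hk; omega
  have hpp := hp.out
  simp at hk
  interval_cases p <;> rcases hk with rfl | rfl | rfl | rfl <;> revert h hpp <;> norm_num

theorem eq_thirteen {q : ℕ} (h7 : 7 < q) (hq : q.Prime) (hd : q - 1 ∣ 3 * 4) : q = 13 := by
  have h1 := Nat.le_of_dvd (by norm_num) hd
  have h2 : q ≤ 13 := by omega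
  interval_cases q <;> revert hd hq <;> norm_num

/-- The bound, for tori on three lines or more. -/
theorem exceptional (h7 : 7 < p) (H : Subgroup PGL(2, ZMod p)) (hH : ¬ p ∣ Nat.card H) {ι : Type}
    (L : ι → OnePoint (ZMod p)) (hL : Function.Injective L) (t : ι → H)
    (hfix : ∀ i, (t i : PGL(2, ZMod p)) • L i = L i) (hk : ∀ i (k : ℕ), (t i) ^ k = 1 → p - 1 ∣ 3 * k)
    (h3 : ∃ a b c : ι, a ≠ b ∧ a ≠ c ∧ b ≠ c) :
    p = 13 ∧ ∀ [Fintype ι], Fintype.card ι ≤ 12 := by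
  classical
  obtain ⟨E, _, _, _, hE⟩ := exists_quadExt (ZMod p)
  obtain ⟨a, b, c, hab, hac, hbc⟩ := h3
  have P := (poles (E := E) (p := p) hE).subgroup H
  have hne : ∀ i, t i ≠ 1 := fun i h => not_dvd_small h7 1 (by simp) (hk i 1 (by rw [pow_one, h]))
  have hne2 : ∀ i, t i ^ 2 ≠ 1 := fun i h => not_dvd_small h7 2 (by simp) (hk i 2 h)
  let X : ι → OnePoint E := fun i => inc E (L i)
  have hX : Function.Injective X := inc_injective.comp hL
  have hfX : ∀ i, t i • X i = X i := fun i => by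
    show (t i : PGL(2, ZMod p)) • inc E (L i) = inc E (L i)
    rw [← inc_smul, hfix i]
  have hpair : ∀ {g : H} {x y w : OnePoint E}, g ≠ 1 → x ≠ y → g • x = x → g • y = y → g • w = w →
      w = x ∨ w = y := fun hg hxy h1 h2 h3 => P.pair_inj hg hxy h1 h2 h3
  rcases P.kind with ⟨x, hx⟩ | ⟨x, y, hxy, hset, k, -, -, -, -⟩ | ⟨-, -, ⟨e⟩⟩ | ⟨-, -, ⟨e⟩⟩ | ⟨-, -, ⟨e⟩⟩ |
    ⟨x, y, hxy, -, q, m, hq, hpq, hU, -, -, -, -, -⟩
  · exfalso
    obtain ⟨i, j, hij, hi, hj⟩ : ∃ i j, i ≠ j ∧ X i ≠ x ∧ X j ≠ x := by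
      by_cases h1 : X a = x
      · exact ⟨b, c, hbc, fun h => hab (hX (h1.trans h.symm)), fun h => hac (hX (h1.trans h.symm))⟩
      by_cases h2 : X b = x
      · exact ⟨a, c, hac, h1, fun h => hbc (hX (h2.trans h.symm))⟩
      · exact ⟨a, b, hab, h1, h2⟩
    have hcomm : Commute (t i) (t j) := by
      have h1 := P.comm (t i) (t j) x (hx _) (hx _)
      have h2 : t i * t j * (t i)⁻¹ * (t j)⁻¹ = 1 := by
        by_contra hne'
        exact hH ((orderOf_eq_prime h1 hne').symm.dvd.trans (orderOf_dvd_natCard _))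
      rw [mul_inv_eq_one, mul_inv_eq_iff_eq_mul] at h2
      exact h2
    have h5 : t i • (t j • X i) = t j • X i := by rw [← mul_smul, hcomm.eq, mul_smul, hfX i]
    rcases hpair (hne i) hi (hfX i) (hx _) h5 with h | h
    · exact hne j (P.three (t j) x (X j) (X i) hj.symm hi.symm (fun h' => hij (hX h').symm) (hx _) (hfX j) h)
    · exact hi (smul_left_cancel (t j) (h.trans (hx _).symm))
  · exfalso
    have hxy' : ∀ i, X i = x ∨ X i = y := fun i => by
      have hsq : ∀ w : OnePoint E, (w = x ∨ w = y) → t i ^ 2 • w = w := by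
        intro w hw
        rw [pow_two, mul_smul]
        rcases hset (t i) with ⟨h1, h2⟩ | ⟨h1, h2⟩ <;> rcases hw with rfl | rfl <;> simp [h1, h2]
      exact hpair (hne2 i) hxy (hsq x (Or.inl rfl)) (hsq y (Or.inr rfl))
        (by rw [pow_two, mul_smul, hfX i, hfX i])
    rcases hxy' a with ha | ha <;> rcases hxy' b with hb | hb <;> rcases hxy' c with hc | hc <;>
      first | exact hab (hX (ha.trans hb.symm)) | exact hac (hX (ha.trans hc.symm)) | exact hbc (hX (hb.trans hc.symm))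
  · exfalso
    rcases orderOf_altFour (e (t a)) with h | h <;> rw [← map_pow, EmbeddingLike.map_eq_one_iff] at h
    · exact hne2 a h
    · exact not_dvd_small h7 3 (by simp) (hk a 3 h)
  · have h4 : ∀ i, t i ^ 4 = 1 := fun i => by
      rcases orderOf_symFour (e (t i)) with h | h <;> rw [← map_pow, EmbeddingLike.map_eq_one_iff] at h
      · exact absurd (hk i 3 h) (not_dvd_small h7 3 (by simp))
      · exact h
    refine ⟨?_, fun {_} => ?_⟩
    · exact eq_thirteen h7 hp.out (hk a 4 (h4 a))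
    have hfib : ∀ g ∈ Finset.univ.image (fun i => e (t i)),
        (Finset.univ.filter fun i => e (t i) = g).card ≤ 2 := by
      intro g _
      by_contra hlt
      obtain ⟨i, j, l, hi, hj, hl, hij, hil, hjl⟩ := Finset.two_lt_card_iff.1 (not_le.1 hlt)
      simp only [Finset.mem_filter, Finset.mem_univ, true_and] at hi hj hl
      have hji : t j = t i := e.injective (hj.trans hi.symm)
      have hli : t l = t i := e.injective (hl.trans hi.symm)
      exact hne i (P.three (t i) (X i) (X j) (X l) (hX.ne hij) (hX.ne hil) (hX.ne hjl) (hfX i)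
        (by rw [← hji]; exact hfX j) (by rw [← hli]; exact hfX l))
    have hsub : Finset.univ.image (fun i => e (t i)) ⊆
        Finset.univ.filter (fun g : Equiv.Perm (Fin 4) => g ^ 2 ≠ 1 ∧ g ^ 4 = 1) := by
      intro g hg
      obtain ⟨i, -, rfl⟩ := Finset.mem_image.1 hg
      refine Finset.mem_filter.2 ⟨Finset.mem_univ _, ?_, ?_⟩
      · rw [← map_pow, Ne, EmbeddingLike.map_eq_one_iff]; exact hne2 i
      · rw [← map_pow, h4 i, map_one]
    have h1 := Finset.card_le_mul_card_image (Finset.univ : Finset ι) 2 hfib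
    have h2 := (Finset.card_le_card hsub).trans card_four_symFour
    rw [Finset.card_univ] at h1
    omega
  · exfalso
    rcases orderOf_altFive (e (t a)) with h | h | h <;> rw [← map_pow, EmbeddingLike.map_eq_one_iff] at h
    · exact hne2 a h
    · exact not_dvd_small h7 3 (by simp) (hk a 3 h)
    · exact not_dvd_small h7 5 (by simp) (hk a 5 h)
  · exfalso
    obtain ⟨u, hu1, hu⟩ : ∃ u : H, u ≠ 1 ∧ u ^ p = 1 := by
      by_contra hno
      push Not at hno
      have : Subsingleton {g : H // g • x = x ∧ g ^ p = 1} := ⟨fun a b => Subtype.ext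
        ((by_contra fun h => hno a.1 h a.2.2 : a.1 = 1).trans (by_contra fun h => hno b.1 h b.2.2 : b.1 = 1).symm)⟩
      have := Finite.card_le_one_iff_subsingleton.mpr this
      omega
    exact hH ((orderOf_eq_prime hu hu1).symm.dvd.trans (orderOf_dvd_natCard u))

variable {G : Type u} [Group G] [Finite G] {P : Sylow p G}

/-- Tori on the lines of a family of planes bound the prime. -/
theorem bound (h7 : 7 < p) (D : Frame P) {ι : Type} (x : ι → G) (hxP : ∀ i, x i ∈ P)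
    (hind : ∀ i j, i ≠ j → D.k (x i) 0 * D.k (x j) 1 - D.k (x i) 1 * D.k (x j) 0 ≠ 0)
    (hg : ∀ i, ∃ (g : G) (s : ZMod p), s ≠ 0 ∧ g * x i * g⁻¹ = x i ∧ g * D.z * g⁻¹ = D.z * x i ^ s.val)
    (hne : ∀ i, D.k (x i) ≠ 0) (h3 : ∃ a b c : ι, a ≠ b ∧ a ≠ c ∧ b ≠ c) :
    p = 13 ∧ ∀ [Fintype ι], Fintype.card ι ≤ 12 := by
  obtain ⟨φ, hφ, hcop, hdet⟩ := exists_actMat D
  obtain ⟨a, ha⟩ := IsCyclic.exists_ofOrder_eq_natCard (α := (ZMod p)ˣ)
  rw [Nat.card_eq_fintype_card, ZMod.card_units] at ha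
  have ha0 : (a.1 : ZMod p) ≠ 0 := a.ne_zero
  choose g s hs hgx hgz using hg
  have htor : ∀ i, ∃ n : Subgroup.normalizer ((P : Subgroup G) : Set G),
      (φ n).1 *ᵥ D.k (x i) = (a⁻¹ : (ZMod p)ˣ).1 • D.k (x i) ∧ (φ n).1.det = a.1 := fun i => by
    obtain ⟨h, hh, hhz, j, hhx⟩ := exists_torus D (hxP i) (hne i) (hs i) (hgx i) (hgz i) a.1 ha0
    refine ⟨⟨h, hh⟩, ?_, hdet _ _ hhz⟩
    rw [← hφ ⟨h, hh⟩ (x i) (hxP i), hhx, D.k_mul _ (pow_mem D.z_mem j) _ (pow_mem (hxP i) _),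
      (D.k_eq _ (pow_mem D.z_mem j)).2 (pow_mem (Subgroup.mem_zpowers _) j), zero_add]
    have hpw : ∀ m : ℕ, D.k (x i ^ m) = m • D.k (x i) := fun m => by
      induction m with
      | zero => rw [pow_zero, zero_smul]; exact (D.k_eq _ (one_mem _)).2 (one_mem _)
      | succ m ih => rw [pow_succ, D.k_mul _ (pow_mem (hxP i) m) _ (hxP i), ih, succ_nsmul]
    rw [hpw, ← Nat.cast_smul_eq_nsmul (ZMod p), ZMod.natCast_zmod_val, Units.val_inv_eq_inv_val]
  choose n hn hnd using htor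
  set H := φ.range.map (ProjGenLinGroup.mk : GL (Fin 2) (ZMod p) →* PGL(2, ZMod p))
  have hH : ¬ p ∣ Nat.card H := fun h => hcop (h.trans (Subgroup.card_map_dvd _ _))
  refine exceptional h7 H hH (fun i => pt (D.k (x i))) (fun i j h => ?_)
    (fun i => ⟨ProjGenLinGroup.mk (φ (n i)), φ (n i), ⟨n i, rfl⟩, rfl⟩) (fun i => ?_) (fun i k hk => ?_) h3
  · by_contra hij
    exact hind i j hij (det_eq_zero_of_pt h)
  · show (ProjGenLinGroup.mk (φ (n i)) : PGL(2, ZMod p)) • pt (D.k (x i)) = _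
    rw [mk_smul_self]
    exact smul_pt _ (hne i) (Units.ne_zero _) (hn i)
  · rw [← ha]
    exact dvd_of_mk_pow (hne i) (hn i) (hnd i) (congrArg Subtype.val hk)

end Cfsg.Agent.Lib.LocalP2.ExtraPlanes
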