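import Cfsg.Agent.Lib.FusionEssential.OrderFourth
import Cfsg.Agent.Lib.SchurMult.SmallSylow
import Cfsg.Agent.Lib.Involution.Basic
import Cfsg.Agent.Lib.Struct4.FrobeniusCons

/-!
Recognition of `D₈ × A` and `p^{1+2}_+ × A`, `A` elementary abelian, from two generators over a central
elementary abelian subgroup.
-/

set_option autoImplicit false

namespace Cfsg.Agent.Lib.LocalP2.GenExtra

open Cfsg
open scoped commutatorElement

/-- Two generators of exponent `p` over a central elementary abelian subgroup. -/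
structure Shape (p : ℕ) (P : Type*) [Group P] where
  a : P
  e : P
  d : P
  Z : Subgroup P
  comm : ⁅a, e⁆ = d
  d_ne : d ≠ 1
  d_mem : d ∈ Z
  Z_le : Z ≤ Subgroup.center P
  Z_pow : ∀ z ∈ Z, z ^ p = 1
  a_pow : a ^ p = 1
  e_pow : e ^ p = 1
  gen : Z ⊔ Subgroup.closure {a, e} = ⊤

variable {P : Type*} [Group P] [Finite P] {p : ℕ} [hp : Fact p.Prime]

omit [Finite P] hp in
theorem Shape.commute_d (T : Shape p P) (g : P) : Commute T.d g :=
  (Subgroup.mem_center_iff.1 (T.Z_le T.d_mem) g).symm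

/-- Splitting off a complement of the commutator in the central subgroup. -/
theorem Shape.exists_split (T : Shape p P) :
    ∃ (A : Type) (_ : CommGroup A), (∀ x : A, x ^ p = 1) ∧
      Nonempty (P ≃* ↥(Subgroup.closure ({T.a, T.e} : Set P)) × A) := by
  classical
  obtain ⟨a, e, d, Z, hde, hd1, hdZ, hZc, hZp, hap, hep, hgen⟩ := T
  have hcd : ∀ g : P, Commute d g := fun g => (Subgroup.mem_center_iff.1 (hZc hdZ) g).symm
  obtain ⟨A0, ⟨hA0Z, hdA0⟩, hmax⟩ := Set.Finite.exists_maximal
    (Set.toFinite {A : Subgroup P | A ≤ Z ∧ d ∉ A})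
    ⟨⊥, bot_le, fun h => hd1 (Subgroup.mem_bot.1 h)⟩
  have hA0n : ∀ x ∈ A0, ∀ g, g * x = x * g := fun x hx g => Subgroup.mem_center_iff.1 (hZc (hA0Z hx)) g
  set E := Subgroup.closure ({a, e} : Set P) with hE
  have haE : a ∈ E := Subgroup.subset_closure (by simp)
  have heE : e ∈ E := Subgroup.subset_closure (by simp)
  have hdE : d ∈ E := hde ▸ by
    rw [commutatorElement_def]
    exact mul_mem (mul_mem (mul_mem haE heE) (inv_mem haE)) (inv_mem heE)
  -- `Z = A0 ⟨d⟩`
  have hZA : ∀ z ∈ Z, z ∈ A0 ⊔ Subgroup.zpowers d := by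
    intro z hz
    by_contra hz'
    have hlt : A0 < A0 ⊔ Subgroup.zpowers z :=
      lt_of_le_of_ne le_sup_left fun h => hz' (Subgroup.mem_sup_left
        (h ▸ Subgroup.mem_sup_right (Subgroup.mem_zpowers z)))
    have hdm : d ∈ A0 ⊔ Subgroup.zpowers z := by
      by_contra h
      exact hlt.not_ge (hmax ⟨sup_le hA0Z (Subgroup.zpowers_le.2 hz), h⟩ le_sup_left)
    have : A0.Normal := ⟨fun x hx g => by rw [hA0n x hx g, mul_inv_cancel_right]; exact hx⟩
    obtain ⟨x, hx, y, hy, hxy⟩ := Subgroup.mem_sup_of_normal_left.1 hdm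
    obtain ⟨k, rfl⟩ := Subgroup.mem_zpowers_iff.1 hy
    have hk : ¬ (p : ℤ) ∣ k := by
      rintro ⟨j, rfl⟩
      refine hdA0 ?_
      rw [← hxy, zpow_mul, zpow_natCast, hZp z hz, one_zpow, mul_one]
      exact hx
    obtain ⟨u, v, huv⟩ : IsCoprime (p : ℤ) k := (Prime.coprime_iff_not_dvd
      (Nat.prime_iff_prime_int.1 hp.out)).2 hk
    refine hz' ?_
    have h1 : z = (x⁻¹ * d) ^ v := by
      rw [← hxy, inv_mul_cancel_left, ← zpow_mul]
      calc z = z ^ (u * (p : ℤ) + v * k) := by rw [huv, zpow_one]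
        _ = z ^ (k * v) := by
          rw [zpow_add, mul_comm u, zpow_mul, zpow_natCast, hZp z hz, one_zpow, one_mul, mul_comm]
    rw [h1]
    exact zpow_mem (mul_mem (inv_mem (Subgroup.mem_sup_left hx))
      (Subgroup.mem_sup_right (Subgroup.mem_zpowers d))) v
  let μ : ↥E × ↥A0 →* P := MonoidHom.noncommCoprod E.subtype A0.subtype
    fun x y => hA0n y y.2 x
  have hsurj : Function.Surjective μ := by
    rw [← MonoidHom.range_eq_top, eq_top_iff, ← hgen]
    have hEr : ∀ x ∈ E, x ∈ μ.range := fun x hx => ⟨(⟨x, hx⟩, 1), mul_one x⟩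
    refine sup_le (fun z hz => ?_) hEr
    have : A0 ⊔ Subgroup.zpowers d ≤ μ.range := by
      refine sup_le (fun x hx => ⟨(1, ⟨x, hx⟩), one_mul x⟩) (Subgroup.zpowers_le.2 ?_)
      exact hEr d hdE
    exact this (hZA z hz)
  -- the centre of `E` meets `A0` trivially
  have hdis : ∀ x ∈ E, x ∈ A0 → x = 1 := by
    intro x hxE hxA
    -- normal form in `E`
    have hform : ∃ i j k : ℤ, x = e ^ i * a ^ j * d ^ k := by
      have hae : ∀ i : ℤ, a * e ^ i * a⁻¹ = e ^ i * d ^ i := by
        intro i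
        have h1 : a * e * a⁻¹ = e * d := by
          rw [← (hcd e).eq, ← hde, commutatorElement_def, inv_mul_cancel_right]
        rw [← conj_zpow, h1, (hcd e).symm.mul_zpow]
      have hai : ∀ j i : ℤ, a ^ j * e ^ i = e ^ i * a ^ j * d ^ (j * i) := by
        intro j
        induction j using Int.induction_on with
        | zero => simp
        | succ n ih =>
          intro i
          calc a ^ ((n : ℤ) + 1) * e ^ i = a ^ (n : ℤ) * (a * e ^ i * a⁻¹) * a := by
                rw [zpow_add_one]; group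
            _ = a ^ (n : ℤ) * e ^ i * d ^ i * a := by rw [hae, ← mul_assoc]
            _ = e ^ i * a ^ (n : ℤ) * d ^ ((n : ℤ) * i) * d ^ i * a := by rw [ih]
            _ = e ^ i * a ^ ((n : ℤ) + 1) * d ^ (((n : ℤ) + 1) * i) := by
                rw [mul_assoc _ (d ^ ((n : ℤ) * i)), ← zpow_add, mul_assoc _ _ a,
                  ((hcd a).zpow_left _).eq, ← mul_assoc, mul_assoc (e ^ i), ← zpow_add_one, add_mul,
                  one_mul]
        | pred n ih =>
          intro i
          have hai' : a⁻¹ * e ^ i * a = e ^ i * d ^ (-i) := by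
            have h := hae i
            rw [mul_inv_eq_iff_eq_mul] at h
            calc a⁻¹ * e ^ i * a = a⁻¹ * (e ^ i * d ^ i * a) * d ^ (-i) := by
                  rw [mul_assoc (e ^ i), ((hcd a).zpow_left i).eq]; group
              _ = e ^ i * d ^ (-i) := by rw [← h]; group
          calc a ^ (-(n : ℤ) - 1) * e ^ i = a ^ (-(n : ℤ)) * (a⁻¹ * e ^ i * a) * a⁻¹ := by
                rw [zpow_sub_one]; group
            _ = a ^ (-(n : ℤ)) * e ^ i * d ^ (-i) * a⁻¹ := by rw [hai', ← mul_assoc]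
            _ = e ^ i * a ^ (-(n : ℤ)) * d ^ (-(n : ℤ) * i) * d ^ (-i) * a⁻¹ := by rw [ih]
            _ = e ^ i * a ^ (-(n : ℤ) - 1) * d ^ ((-(n : ℤ) - 1) * i) := by
                rw [mul_assoc _ (d ^ (-(n : ℤ) * i)), ← zpow_add, mul_assoc _ _ a⁻¹,
                  ((hcd a⁻¹).zpow_left _).eq, ← mul_assoc, mul_assoc (e ^ i), ← zpow_sub_one,
                  show ((-(n : ℤ) - 1) * i) = -(n : ℤ) * i + -i by ring]
      have hmul : ∀ i j k i' j' k' : ℤ, e ^ i * a ^ j * d ^ k * (e ^ i' * a ^ j' * d ^ k') =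
          e ^ (i + i') * a ^ (j + j') * d ^ (k + j * i' + k') := by
        intro i j k i' j' k'
        calc e ^ i * a ^ j * d ^ k * (e ^ i' * a ^ j' * d ^ k')
            = e ^ i * a ^ j * (d ^ k * (e ^ i' * a ^ j')) * d ^ k' := by group
          _ = e ^ i * (a ^ j * e ^ i') * (a ^ j' * d ^ k) * d ^ k' := by
              rw [((hcd _).zpow_left k).eq]; group
          _ = e ^ (i + i') * a ^ j * (d ^ (j * i') * a ^ j') * d ^ (k + k') := by
              rw [hai]; group
          _ = e ^ (i + i') * a ^ (j + j') * d ^ (k + j * i' + k') := by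
              rw [((hcd _).zpow_left (j * i')).eq]; group
      refine Subgroup.closure_induction (p := fun x _ => ∃ i j k : ℤ, x = e ^ i * a ^ j * d ^ k)
        ?_ ⟨0, 0, 0, by simp⟩ ?_ ?_ hxE
      · rintro y (rfl | rfl)
        · exact ⟨0, 1, 0, by simp⟩
        · exact ⟨1, 0, 0, by simp⟩
      · rintro y z _ _ ⟨i, j, k, rfl⟩ ⟨i', j', k', rfl⟩
        exact ⟨_, _, _, hmul i j k i' j' k'⟩
      · rintro y _ ⟨i, j, k, rfl⟩
        refine ⟨-i, -j, j * i - k, (eq_inv_of_mul_eq_one_right ?_).symm⟩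
        rw [hmul, show k + j * -i + (j * i - k) = 0 by ring]
        simp
    obtain ⟨i, j, k, rfl⟩ := hform
    have hdp : ∀ m : ℤ, d ^ m = 1 → (p : ℤ) ∣ m := by
      intro m hm
      rw [← orderOf_eq_prime (hZp d hdZ) hd1]
      exact orderOf_dvd_iff_zpow_eq_one.2 hm
    have hz := hA0n _ hxA
    have hi : (p : ℤ) ∣ i := by
      refine hdp i ?_
      have h := hz a
      have h1 : a * e ^ i = e ^ i * a * d ^ i := by
        have h2 : a * e * a⁻¹ = e * d := by
          rw [← (hcd e).eq, ← hde, commutatorElement_def, inv_mul_cancel_right]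
        have h3 : a * e ^ i * a⁻¹ = e ^ i * d ^ i := by rw [← conj_zpow, h2, (hcd e).symm.mul_zpow]
        rw [mul_inv_eq_iff_eq_mul] at h3
        rw [h3, mul_assoc, ((hcd a).zpow_left i).eq, ← mul_assoc]
      have h4 : a * (e ^ i * a ^ j * d ^ k) = e ^ i * a ^ j * d ^ k * a * d ^ i := by
        calc a * (e ^ i * a ^ j * d ^ k) = a * e ^ i * (a ^ j * d ^ k) := by group
          _ = e ^ i * a * (d ^ i * (a ^ j * d ^ k)) := by rw [h1, mul_assoc]
          _ = e ^ i * a ^ j * (a * d ^ k) * d ^ i := by rw [((hcd _).zpow_left i).eq]; group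
          _ = _ := by rw [← ((hcd a).zpow_left k).eq]; group
      rw [h] at h4
      exact mul_eq_left.1 h4.symm
    obtain ⟨i', rfl⟩ := hi
    rw [zpow_mul, zpow_natCast, hep, one_zpow, one_mul] at hz hxA ⊢
    have hj : (p : ℤ) ∣ j := by
      have h : e * a ^ j = a ^ j * e := by
        have h := hz e
        rwa [mul_assoc (a ^ j), ((hcd e).zpow_left k).eq, ← mul_assoc, ← mul_assoc,
          mul_left_inj] at h
      refine hdp j ?_
      have h2 : e * a * e⁻¹ = d⁻¹ * a := by rw [← hde, commutatorElement_def]; group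
      have h3 : e * a ^ j * e⁻¹ = d⁻¹ ^ j * a ^ j := by
        rw [← conj_zpow, h2, ((hcd a).inv_left).mul_zpow]
      rw [h, mul_inv_cancel_right, right_eq_mul, inv_zpow, inv_eq_one] at h3
      exact h3
    obtain ⟨j', rfl⟩ := hj
    rw [zpow_mul, zpow_natCast, hap, one_zpow, one_mul] at hxA ⊢
    have hk : (p : ℤ) ∣ k := by
      by_contra hk
      obtain ⟨u, v, huv⟩ : IsCoprime (p : ℤ) k := (Prime.coprime_iff_not_dvd
        (Nat.prime_iff_prime_int.1 hp.out)).2 hk
      refine hdA0 ?_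
      have h : d = (d ^ k) ^ v := by
        calc d = d ^ (u * (p : ℤ) + v * k) := by rw [huv, zpow_one]
          _ = (d ^ k) ^ v := by
            rw [zpow_add, mul_comm u, zpow_mul, zpow_natCast, hZp d hdZ, one_zpow, one_mul, mul_comm,
              zpow_mul]
      rw [h]
      exact zpow_mem hxA v
    obtain ⟨k', rfl⟩ := hk
    rw [zpow_mul, zpow_natCast, hZp d hdZ, one_zpow]
  have hinj : Function.Injective μ := by
    rw [injective_iff_map_eq_one]
    rintro ⟨x, y⟩ h
    have h1 : (x : P) * y = 1 := h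
    have hx : (x : P) = 1 := hdis x x.2 (by rw [eq_inv_of_mul_eq_one_left h1]; exact inv_mem y.2)
    have hy : (y : P) = 1 := by rw [hx, one_mul] at h1; exact h1
    exact Prod.ext (Subtype.ext hx) (Subtype.ext hy)
  obtain ⟨A, iA, -, ⟨f⟩⟩ := Struct4.exists_type0 A0
  let iC : CommGroup A :=
    { iA with
      mul_comm := fun u v => f.symm.injective (by
        rw [map_mul, map_mul]
        exact Subtype.ext (hA0n _ (f.symm v).2 _)) }
  refine ⟨A, iC, fun u => f.symm.injective ?_, ⟨?_⟩⟩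
  · rw [map_one, map_pow]
    exact Subtype.ext (hZp _ (hA0Z (f.symm u).2))
  · exact (MulEquiv.ofBijective μ ⟨hinj, hsurj⟩).symm.trans ((MulEquiv.refl _).prodCongr f)

/-- The case `p = 2`. -/
theorem shape_two (T : Shape 2 P) :
    ∃ (A : Type) (_ : CommGroup A), (∀ a : A, a ^ 2 = 1) ∧ Nonempty (P ≃* DihedralGroup 4 × A) := by
  obtain ⟨A, iA, hA, ⟨f⟩⟩ := T.exists_split
  refine ⟨A, iA, hA, ?_⟩
  have hne : ∀ x : P, Commute x T.e → T.a ≠ x := by
    rintro x hx rfl
    exact T.d_ne (T.comm ▸ commutatorElement_eq_one_iff_commute.2 hx)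
  have ha : orderOf T.a = 2 := orderOf_eq_prime T.a_pow (hne 1 (Commute.one_left _))
  have he : orderOf T.e = 2 := orderOf_eq_prime T.e_pow fun h => T.d_ne (by
    rw [← T.comm, h, commutatorElement_one_right])
  have hae : T.a ≠ T.e := hne T.e (Commute.refl _)
  have hsq : (T.a * T.e) ^ 2 = T.d := by
    rw [← T.comm, commutatorElement_def,
      inv_eq_of_mul_eq_one_right ((sq T.a).symm.trans T.a_pow),
      inv_eq_of_mul_eq_one_right ((sq T.e).symm.trans T.e_pow), sq]
    group
  have hord : orderOf (T.a * T.e) = 4 := by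
    refine (orderOf_eq_prime_pow (p := 2) (n := 1) ?_ ?_).trans (by norm_num)
    · rw [pow_one, hsq]; exact T.d_ne
    · rw [show 2 ^ (1 + 1) = 2 * 2 from rfl, pow_mul, hsq]
      exact T.Z_pow _ T.d_mem
  obtain ⟨g⟩ := Involution.closure_pair_dihedral ha he hae
  rw [hord] at g
  exact ⟨f.trans (g.prodCongr (MulEquiv.refl A))⟩

/-- The case of odd `p` in which every element has order at most `p`. -/
theorem shape_odd (T : Shape p P) (hP : IsPGroup p P) (hexp : ∀ x : P, x ^ p = 1) :
    ∃ (E : Type) (_ : Group E) (A : Type) (_ : CommGroup A), Cfsg.IsExtraspecial p E ∧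
      Nat.card E = p ^ 3 ∧ Monoid.exponent E = p ∧ (∀ a : A, a ^ p = 1) ∧ Nonempty (P ≃* E × A) := by
  obtain ⟨A, iA, hA, ⟨f⟩⟩ := T.exists_split
  set E := Subgroup.closure ({T.a, T.e} : Set P) with hE
  have haE : T.a ∈ E := Subgroup.subset_closure (by simp)
  have heE : T.e ∈ E := Subgroup.subset_closure (by simp)
  have hnc : ¬ Commute T.a T.e := fun h => T.d_ne (T.comm ▸ commutatorElement_eq_one_iff_commute.2 h)
  have he1 : T.e ≠ 1 := fun h => hnc (h ▸ Commute.one_right _)
  have hd := orderOf_eq_prime (T.Z_pow _ T.d_mem) T.d_ne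
  have hfree : ∀ (H : Subgroup P) (x : P), x ^ p = 1 → x ∉ H → ∀ j, 0 < j → j < p → x ^ j ∉ H := by
    intro H x hx hxH j hj hjp hjH
    refine hxH ?_
    have hcop : j.Coprime (orderOf x) := by
      rw [orderOf_eq_prime hx (fun h => hxH (h ▸ one_mem H))]
      exact ((hp.out.coprime_iff_not_dvd).2 (Nat.not_dvd_of_pos_of_lt hj hjp)).symm
    obtain ⟨m, hm⟩ := exists_pow_eq_self_of_coprime hcop
    rw [← hm]
    exact pow_mem hjH m
  have hed : T.e ∉ Subgroup.zpowers T.d := by
    intro h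
    obtain ⟨k, hk⟩ := Subgroup.mem_zpowers_iff.1 h
    exact hnc (hk ▸ ((T.commute_d T.a).symm.zpow_right k))
  have h2 := SchurMult.card_sup_zpowers (Subgroup.zpowers T.d) T.e hp.out.pos
    (Subgroup.centralizer_le_normalizer _ (Subgroup.mem_centralizer_iff.2 fun z hz => by
      obtain ⟨k, rfl⟩ := Subgroup.mem_zpowers_iff.1 hz
      exact ((T.commute_d T.e).zpow_left k).eq)) T.e_pow (hfree _ _ T.e_pow hed)
  set E2 := Subgroup.zpowers T.d ⊔ Subgroup.zpowers T.e with hE2
  have hconj : T.a * T.e * T.a⁻¹ = T.d * T.e := by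
    rw [← T.comm, commutatorElement_def, inv_mul_cancel_right]
  have han : T.a ∈ Subgroup.normalizer (E2 : Set P) := by
    refine Fusion.mem_normalizer_of_conj_mem fun x hx => ?_
    have : E2.map (MulAut.conj T.a).toMonoidHom ≤ E2 := by
      rw [hE2, Subgroup.map_sup, MonoidHom.map_zpowers, MonoidHom.map_zpowers]
      refine sup_le (Subgroup.zpowers_le.2 ?_) (Subgroup.zpowers_le.2 ?_)
      · show T.a * T.d * T.a⁻¹ ∈ _
        rw [← (T.commute_d T.a).eq, mul_inv_cancel_right]
        exact Subgroup.mem_sup_left (Subgroup.mem_zpowers _)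
      · show T.a * T.e * T.a⁻¹ ∈ _
        rw [hconj]
        exact Subgroup.mul_mem_sup (Subgroup.mem_zpowers _) (Subgroup.mem_zpowers _)
    exact this ⟨x, hx, rfl⟩
  have haE2 : T.a ∉ E2 := by
    intro h
    refine hnc (Subgroup.mem_centralizer_singleton_iff.1
      ((sup_le (Subgroup.zpowers_le.2 ?_) (Subgroup.zpowers_le.2 ?_) : E2 ≤ Subgroup.centralizer {T.e}) h))
    · exact Subgroup.mem_centralizer_singleton_iff.2 (T.commute_d T.e).eq
    · exact Subgroup.mem_centralizer_singleton_iff.2 rfl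
  have h3 := SchurMult.card_sup_zpowers E2 T.a hp.out.pos han T.a_pow (hfree _ _ T.a_pow haE2)
  have hEeq : E2 ⊔ Subgroup.zpowers T.a = E := by
    apply le_antisymm
    · refine sup_le (sup_le (Subgroup.zpowers_le.2 ?_) (Subgroup.zpowers_le.2 heE))
        (Subgroup.zpowers_le.2 haE)
      rw [← T.comm, commutatorElement_def]
      exact mul_mem (mul_mem (mul_mem haE heE) (inv_mem haE)) (inv_mem heE)
    · rw [hE, Subgroup.closure_le]
      rintro x (rfl | rfl)
      · exact Subgroup.mem_sup_right (Subgroup.mem_zpowers _)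
      · exact Subgroup.mem_sup_left (Subgroup.mem_sup_right (Subgroup.mem_zpowers _))
  have hcard : Nat.card E = p ^ 3 := by
    rw [← hEeq, h3, h2, Nat.card_zpowers, hd]; ring
  obtain ⟨E', iE, hfin, ⟨g⟩⟩ := Struct4.exists_type0 E
  have hcard' : Nat.card E' = p ^ 3 := by rw [← Nat.card_congr g.toEquiv, hcard]
  have hexp' : ∀ x : E', x ^ p = 1 := fun x => g.symm.injective (by
    rw [map_one, map_pow]; exact Subtype.ext (hexp _))
  refine ⟨E', iE, A, iA, ?_, hcard', ?_, hA, ⟨f.trans (g.prodCongr (MulEquiv.refl A))⟩⟩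
  · refine FusionEssential.isExtraspecial_of_cube ((hP.to_subgroup E).of_equiv g) hcard' ?_ hexp'
    intro h
    have h' := congrArg g.symm (h.1.1 (g ⟨T.a, haE⟩) (g ⟨T.e, heE⟩))
    simp only [map_mul, MulEquiv.symm_apply_apply] at h'
    exact hnc (congrArg Subtype.val h')
  · have : Nontrivial E' := by
      have : 1 < Nat.card E' := by rw [hcard']; exact Nat.one_lt_pow (by norm_num) hp.out.one_lt
      exact Finite.one_lt_card_iff_nontrivial.1 this
    exact (Monoid.exponent_eq_prime_iff hp.out).2 fun x hx => orderOf_eq_prime (hexp' x) hx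

end Cfsg.Agent.Lib.LocalP2.GenExtra
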