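import Cfsg.Agent.Lib.LocalP2.GenExtraClosedTools
import Cfsg.Agent.Lib.LocalP2.GenExtraShape

/-!
A strongly closed subgroup whose commutator subgroup has order `p` and contains all `p`-th powers is
normal, unless it is `D₈ × A` or `p^{1+2}_+ × A` with `A` elementary abelian.
-/

set_option autoImplicit false

namespace Cfsg.Agent.Lib.LocalP2.GenExtra

open Cfsg Cfsg.Agent.Lib.Fusion
open Cfsg.FusionSystem (centralizerIn normalizerIn)
open scoped commutatorElement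

variable {Ω : Type*} [Group Ω] {S : Subgroup Ω} [Finite S] {F : FusionSystem S} {p : ℕ}
  [Fact p.Prime] {P : Subgroup Ω}

set_option maxHeartbeats 1600000 in
/-- The exceptional shape of a non-normal strongly closed subgroup. -/
theorem shape_of_not_normal (hS : IsPGroup p S) (hF : F.IsSaturated p) (hP : F.StronglyClosed P)
    (hnn : ¬ F.IsNormal P) {d : Ω} (hdP : d ∈ P) (hdo : orderOf d = p)
    (hdS : ∀ s ∈ S, Commute s d)
    (hcomm : ∀ x ∈ P, ∀ y ∈ P, ⁅x, y⁆ ∈ Subgroup.zpowers d)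
    (hpow : ∀ x ∈ P, x ^ p ∈ Subgroup.zpowers d) :
    ∃ _ : Shape p P, p ≠ 2 → ∀ x : P, x ^ p = 1 := by
  classical
  have hp := (Fact.out : p.Prime)
  have : Finite P := finite_of_le hP.1
  have hPn := le_normalizer_of_stronglyClosed hP
  have hPp : IsPGroup p P := hS.to_le hP.1
  -- commutators in `P` are central in `S`
  have hLS : ∀ u ∈ Subgroup.zpowers d, ∀ s ∈ S, Commute s u := by
    rintro u hu s hs
    obtain ⟨k, rfl⟩ := Subgroup.mem_zpowers_iff.1 hu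
    exact (hdS s hs).zpow_right k
  have hcc : ∀ x ∈ P, ∀ y ∈ P, ∀ s ∈ S, Commute s ⁅x, y⁆ := fun x hx y hy =>
    hLS _ (hcomm x hx y hy)
  have hmulL : ∀ x ∈ P, ∀ y ∈ P, ∀ z ∈ P, ⁅x * y, z⁆ = ⁅x, z⁆ * ⁅y, z⁆ := by
    intro x hx y hy z hz
    calc ⁅x * y, z⁆ = x * ⁅y, z⁆ * x⁻¹ * ⁅x, z⁆ := by simp [commutatorElement_def]; group
      _ = ⁅y, z⁆ * ⁅x, z⁆ := by rw [(hcc y hy z hz x (hP.1 hx)).eq, mul_inv_cancel_right]
      _ = _ := (hcc x hx z hz _ (hP.1 (mul_mem (mul_mem (mul_mem hy hz) (inv_mem hy)) (inv_mem hz)))).eq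
  have hmulR : ∀ x ∈ P, ∀ y ∈ P, ∀ z ∈ P, ⁅x, y * z⁆ = ⁅x, y⁆ * ⁅x, z⁆ := by
    intro x hx y hy z hz
    calc ⁅x, y * z⁆ = ⁅x, y⁆ * (y * ⁅x, z⁆ * y⁻¹) := by simp [commutatorElement_def]; group
      _ = _ := by rw [(hcc x hx z hz y (hP.1 hy)).eq, mul_inv_cancel_right]
  have hconj : ∀ x ∈ P, ∀ y ∈ P, ∀ s ∈ S, ⁅s * x * s⁻¹, s * y * s⁻¹⁆ = ⁅x, y⁆ := by
    intro x hx y hy s hs
    calc ⁅s * x * s⁻¹, s * y * s⁻¹⁆ = s * ⁅x, y⁆ * s⁻¹ := by simp [commutatorElement_def]; group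
      _ = _ := by rw [(hcc x hx y hy s hs).eq, mul_inv_cancel_right]
  -- a centric radical subgroup not containing `P`
  obtain ⟨R, hc, hr, hn, hPR⟩ : ∃ R, F.IsCentric R ∧ F.IsRadical p R ∧ F.IsFullyNormalized R ∧
      ¬ P ≤ R := by
    by_contra h
    push Not at h
    exact hnn (isNormal_of_le_radical hS hF hP h)
  have hRS := hc.1
  have : Finite R := finite_of_le hRS
  have hRp : IsPGroup p R := hS.to_le hRS
  have hC : centralizerIn S R ≤ R := hc.2 R (isConj_refl hRS)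
  have hdR : d ∈ R := hC (mem_centralizerIn.2 ⟨hP.1 hdP, fun x hx => (hdS x (hRS hx)).eq⟩)
  have := finite_mulAut hRS
  set A := F.autGroup R with hAdef
  set Qo : Subgroup Ω := P ⊓ R
  set Qs : Subgroup R := P.subgroupOf R
  set dR : R := ⟨d, hdR⟩ with hdRdef
  set L : Subgroup R := Subgroup.zpowers dR
  have hmemQ : ∀ x : R, x ∈ Qs ↔ (x : Ω) ∈ P := fun x => Iff.rfl
  have hmemL : ∀ x : R, x ∈ L ↔ (x : Ω) ∈ Subgroup.zpowers d := by
    intro x
    constructor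
    · intro h
      obtain ⟨k, rfl⟩ := Subgroup.mem_zpowers_iff.1 h
      exact Subgroup.mem_zpowers_iff.2 ⟨k, by simp [hdRdef]⟩
    · intro h
      obtain ⟨k, hk⟩ := Subgroup.mem_zpowers_iff.1 h
      exact Subgroup.mem_zpowers_iff.2 ⟨k, Subtype.ext (by simpa [hdRdef] using hk)⟩
  have hdRp : dR ^ p = 1 := Subtype.ext (by simp [hdRdef, ← hdo, pow_orderOf_eq_one])
  have hd1 : d ≠ 1 := fun h => hp.one_lt.ne (by rw [← hdo, h, orderOf_one])
  have hdR1 : dR ≠ 1 := fun h => hd1 (congrArg Subtype.val h)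
  have hdRQ : dR ∈ Qs := hdP
  have hLQ : L ≤ Qs := Subgroup.zpowers_le.2 hdRQ
  have hLgen : ∀ u ∈ L, u ≠ 1 → ∃ k : ℕ, u ^ k = dR := fun u hu hu1 =>
    MetaOddLike.exists_pow hp hu hdRp hu1
  have hinv : ∀ α ∈ A, ∀ x : R, x ∈ Qs → α x ∈ Qs := fun α hα x hx =>
    map_mem_of_stronglyClosed hP ((mem_autGroup hRS).1 hα) x hx
  have hdZR : ∀ x : R, Commute dR x := fun x => Subtype.ext (hdS x (hRS x.2)).eq.symm
  -- `N_P(R)` and its automorphisms
  set N : Subgroup Ω := P ⊓ Subgroup.normalizer (R : Set Ω)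
  have hcA : ∀ g (hg : g ∈ N), conjAut R hg.2 ∈ A := fun g hg =>
    autInducedBy_le_autGroup hRS (conjAut_mem_autInducedBy (hP.1 hg.1) hg.2)
  have hval : ∀ g (hg : g ∈ N) (x : R), ((conjAut R hg.2 x * x⁻¹ : R) : Ω) = ⁅g, (x : Ω)⁆ :=
    fun g hg x => by simp [commutatorElement_def]
  have hcL : ∀ g (hg : g ∈ N), ∀ x ∈ Qs, conjAut R hg.2 x * x⁻¹ ∈ L := fun g hg x hx => by
    rw [hmemL, hval g hg]
    exact hcomm g hg.1 _ hx
  have hcQ : ∀ g (hg : g ∈ N) (x : R), conjAut R hg.2 x * x⁻¹ ∈ Qs := fun g hg x => by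
    rw [hmemQ, hval g hg]
    exact commutator_mem_of_normalizes hg.1 (hPn (hRS x.2))
  have hcdR : ∀ g (hg : g ∈ N), ∀ x ∈ L, conjAut R hg.2 x = x := by
    intro g hg x hx
    apply Subtype.ext
    rw [conjAut_apply, (hLS _ ((hmemL x).1 hx) g (hP.1 hg.1)).eq, mul_inv_cancel_right]
  have hcfix : ∀ g (hg : g ∈ N) (x : R), conjAut R hg.2 x = x ↔ ⁅g, (x : Ω)⁆ = 1 := by
    intro g hg x
    rw [← hval g hg x, OneMemClass.coe_eq_one, mul_inv_eq_one]
  have hfinish : ∀ (U V W : Subgroup R), U ≤ V → V ≤ W → (∀ α ∈ A, ∀ x ∈ U, α x ∈ U) →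
      (∀ α ∈ A, ∀ x ∈ V, α x ∈ V) → (∀ α ∈ A, ∀ x ∈ W, α x ∈ W) →
      ∀ g (hg : g ∈ N), Stab U V W (conjAut R hg.2) → g ∈ R := by
    intro U V W hUV hVW hU hV hW g hg hst
    let D : ℕ → Subgroup R := fun i => match i with
      | 0 => ⊥
      | 1 => U
      | 2 => V
      | 3 => W
      | _ => ⊤
    obtain ⟨K, hK, hKp, hKmem⟩ := chainStabilizer (p := p) A 4 D rfl rfl (fun α hα i x hx => by
      match i with
      | 0 => rw [Subgroup.mem_bot.1 hx, map_one]; exact one_mem _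
      | 1 => exact hU α hα x hx
      | 2 => exact hV α hα x hx
      | 3 => exact hW α hα x hx
      | _ + 4 => exact Subgroup.mem_top _) hRp
    refine mem_of_induced_inn hC hRS ⟨hP.1 hg.1, hg.2⟩
      (mem_inn_of_radical hr hK hKp (α := ⟨_, hcA g hg⟩) ((hKmem _).2 fun i hi x hx => ?_))
    match i with
    | 0 =>
      show conjAut R hg.2 x * x⁻¹ ∈ ⊥
      rw [hst.1 x hx, mul_inv_cancel]; exact one_mem _
    | 1 => exact hst.2.1 x hx
    | 2 => exact hst.2.2.1 x hx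
    | 3 => exact hst.2.2.2 x
    | n + 4 => omega
  -- outside `R` no element centralizes `P ∩ R`
  have hfixQ : ∀ g (hg : g ∈ N), (∀ x ∈ Qs, ⁅g, (x : Ω)⁆ = 1) → g ∈ R := fun g hg h =>
    hfinish Qs Qs Qs le_rfl le_rfl hinv hinv hinv g hg
      ⟨fun x hx => (hcfix g hg x).2 (h x hx),
        fun x hx => by rw [(hcfix g hg x).2 (h x hx), mul_inv_cancel]; exact one_mem _,
        fun x hx => by rw [(hcfix g hg x).2 (h x hx), mul_inv_cancel]; exact one_mem _,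
        hcQ g hg⟩
  obtain ⟨g0, hg0, hg0R⟩ : ∃ g ∈ N, g ∉ R := by
    by_contra h
    push Not at h
    exact hPR (le_of_centric_radical_aux hS hRS hP.1 (hRS.trans hPn) fun g hg hgN => h g ⟨hg, hgN⟩)
  -- some image of `d` is moved
  obtain ⟨φ, hφ, hmv0⟩ : ∃ φ ∈ A, conjAut R hg0.2 (φ dR) ≠ φ dR := by
    by_contra h
    push Not at h
    set U := Subgroup.closure {x : R | ∃ φ ∈ A, φ dR = x}
    have hUQ : U ≤ Qs := (Subgroup.closure_le _).2 fun x ⟨φ, hφ, hx⟩ => hx ▸ hinv φ hφ dR hdRQ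
    have hLU : L ≤ U :=
      Subgroup.zpowers_le.2 (Subgroup.subset_closure ⟨1, one_mem A, rfl⟩)
    refine hg0R (hfinish U U Qs le_rfl hUQ ?_ ?_ hinv g0 hg0
      ⟨fix_closure _ fun x ⟨φ, hφ, hx⟩ => hx ▸ h φ hφ, fun x hx => ?_,
        fun x hx => hLU (hcL g0 hg0 x hx), hcQ g0 hg0⟩)
    · intro α hα x hx
      refine (Subgroup.closure_le (K := U.comap α.toMonoidHom)).2 ?_ hx
      rintro y ⟨φ, hφ, rfl⟩
      exact Subgroup.subset_closure ⟨α * φ, mul_mem hα hφ, rfl⟩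
    · intro α hα x hx
      refine (Subgroup.closure_le (K := U.comap α.toMonoidHom)).2 ?_ hx
      rintro y ⟨φ, hφ, rfl⟩
      exact Subgroup.subset_closure ⟨α * φ, mul_mem hα hφ, rfl⟩
    · have hs : ∀ y ∈ {x : R | ∃ φ ∈ A, φ dR = x}, conjAut R hg0.2 y = y := by
        rintro y ⟨φ, hφ, rfl⟩
        exact h φ hφ
      rw [fix_closure _ hs x hx, mul_inv_cancel]
      exact one_mem _
  set e := φ dR with hedef
  have heQ : e ∈ Qs := hinv φ hφ dR hdRQ
  have heP : (e : Ω) ∈ P := heQ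
  have heL : e ∉ L := fun h => hmv0 (hcdR g0 hg0 e h)
  have hep : e ^ p = 1 := by rw [hedef, ← map_pow, hdRp, map_one]
  have he1 : e ≠ 1 := fun h => heL (h ▸ one_mem L)
  have heZR : ∀ x : R, Commute e x := fun x => by
    have h := (hdZR (φ⁻¹ x)).map φ.toMonoidHom
    simpa [hedef] using h
  have hφi : φ⁻¹ ∈ A := inv_mem hφ
  have hab : ∀ x ∈ Qs, ∀ y ∈ Qs, x * y = y * x := by
    intro x hx y hy
    by_contra hne
    have hu : ⁅x, y⁆ ∈ L := by
      rw [hmemL, show ((⁅x, y⁆ : R) : Ω) = ⁅(x : Ω), (y : Ω)⁆ from map_commutatorElement R.subtype x y]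
      exact hcomm _ hx _ hy
    obtain ⟨k, hk⟩ := hLgen _ hu (fun h => hne (commutatorElement_eq_one_iff_mul_comm.1 h))
    refine heL ?_
    rw [hedef, ← hk, map_pow, map_commutatorElement]
    refine pow_mem ?_ k
    rw [hmemL, show ((⁅φ x, φ y⁆ : R) : Ω) = ⁅(φ x : Ω), (φ y : Ω)⁆ from
      map_commutatorElement R.subtype _ _]
    exact hcomm _ (hinv φ hφ x hx) _ (hinv φ hφ y hy)
  have hQp : ∀ x ∈ Qs, x ^ p = 1 := by
    intro x hx
    by_contra hne
    have hu : x ^ p ∈ L := by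
      rw [hmemL, SubmonoidClass.coe_pow]
      exact hpow _ hx
    obtain ⟨k, hk⟩ := hLgen _ hu hne
    refine heL ?_
    rw [hedef, ← hk, map_pow, map_pow]
    refine pow_mem ?_ k
    rw [hmemL, SubmonoidClass.coe_pow]
    exact hpow _ (hinv φ hφ x hx)
  have hLfix : ∀ α : MulAut R, α e = e → ∀ x ∈ Subgroup.zpowers e, α x = x := by
    intro α h x hx
    obtain ⟨k, rfl⟩ := Subgroup.mem_zpowers_iff.1 hx
    rw [map_zpow, h]
  have hβval : ∀ b (hb : b ∈ N) (x : R),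
      (φ * conjAut R hb.2 * φ⁻¹) x * x⁻¹ = φ (conjAut R hb.2 (φ⁻¹ x) * (φ⁻¹ x)⁻¹) := by
    intro b hb x
    rw [map_mul, map_inv, MulAut.apply_inv_self]
    rfl
  have hβE : ∀ b (hb : b ∈ N), ∀ x ∈ Qs, (φ * conjAut R hb.2 * φ⁻¹) x * x⁻¹ ∈ Subgroup.zpowers e := by
    intro b hb x hx
    rw [hβval b hb]
    obtain ⟨k, hk⟩ := Subgroup.mem_zpowers_iff.1 (hcL b hb _ (hinv _ hφi x hx))
    rw [← hk, map_zpow]
    exact Subgroup.mem_zpowers_iff.2 ⟨k, rfl⟩
  have hβQ : ∀ b (hb : b ∈ N) (x : R), (φ * conjAut R hb.2 * φ⁻¹) x * x⁻¹ ∈ Qs := fun b hb x => by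
    rw [hβval b hb]; exact hinv φ hφ _ (hcQ b hb _)
  have hβe : ∀ b (hb : b ∈ N), (φ * conjAut R hb.2 * φ⁻¹) e = e := by
    intro b hb
    show φ (conjAut R hb.2 (φ⁻¹ e)) = e
    rw [hedef, MulAut.inv_apply_self, hcdR b hb dR (Subgroup.mem_zpowers dR)]
  -- conjugate transvections generating a `p`-group commute
  have hcommute : ∀ g (hg : g ∈ N) b (hb : b ∈ N) (U V : Subgroup R), U ≤ V → V ≤ Qs →
      Stab U V Qs (conjAut R hg.2) → Stab U V Qs (φ * conjAut R hb.2 * φ⁻¹) → ∀ x,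
      conjAut R hg.2 ((φ * conjAut R hb.2 * φ⁻¹) x) = (φ * conjAut R hb.2 * φ⁻¹) (conjAut R hg.2 x) := by
    intro g hg b hb U V hUV hVW h1 h2 x
    obtain ⟨T, hTA, hTp, hT⟩ := exists_pgroup_of_chain hRp A hUV hVW
    obtain ⟨θ, -, y, z, hy, hz, hyP, hzP, hye, hze⟩ := exists_common hS hF hP hn hTA hTp (one_mem A) hφ
      hg.1 hb.1 hg.2 hb.2 (by simpa using hT _ (hcA g hg) h1)
      (hT _ (mul_mem (mul_mem hφ (hcA b hb)) hφi) h2)
    have hcm : Commute (conjAut R hy) (conjAut R hz) := by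
      refine MulEquiv.ext fun w => Subtype.ext ?_
      simp only [MulAut.mul_apply, conjAut_apply]
      have hyz := hcc y hyP z hzP
      calc y * (z * (w : Ω) * z⁻¹) * y⁻¹ = ⁅y, z⁆ * (z * (y * (w : Ω) * y⁻¹) * z⁻¹) * ⁅y, z⁆⁻¹ := by
            simp [commutatorElement_def]; group
        _ = z * (y * (w : Ω) * y⁻¹) * z⁻¹ := by
            rw [← (hyz _ (hRS (conj_mem_of_mem_normalizer hz (conj_mem_of_mem_normalizer hy w.2)))).eq,
              mul_inv_cancel_right]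
    rw [hye, hze] at hcm
    have h3 : conjAut R hg.2 * (φ * conjAut R hb.2 * φ⁻¹) =
        (φ * conjAut R hb.2 * φ⁻¹) * conjAut R hg.2 := by
      have h4 := congrArg (fun t => θ⁻¹ * t * θ) hcm.eq
      simpa [mul_assoc] using h4
    exact DFunLike.congr_fun h3 x
  have hkey : ∀ g (hg : g ∈ N), g ∉ R → ∀ b (hb : b ∈ N), b ∉ R →
      (conjAut R hg.2 e = e ↔ (φ * conjAut R hb.2 * φ⁻¹) dR = dR) := by
    intro g hg hgR b hb hbR
    have hEQ : Subgroup.zpowers e ≤ Qs := Subgroup.zpowers_le.2 heQ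
    have hswap : ∀ x ∈ Qs, (∀ y, conjAut R hg.2 ((φ * conjAut R hb.2 * φ⁻¹) y) =
        (φ * conjAut R hb.2 * φ⁻¹) (conjAut R hg.2 y)) →
        conjAut R hg.2 ((φ * conjAut R hb.2 * φ⁻¹) x * x⁻¹) * (conjAut R hg.2 x * x⁻¹) =
          (φ * conjAut R hb.2 * φ⁻¹) (conjAut R hg.2 x * x⁻¹) *
            ((φ * conjAut R hb.2 * φ⁻¹) x * x⁻¹) := by
      intro x hx h
      rw [map_mul, map_mul, map_inv, map_inv, h x]
      group
    constructor
    · intro h
      have hcV : ∀ x ∈ Subgroup.zpowers e ⊔ L, conjAut R hg.2 x = x := by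
        rw [show Subgroup.zpowers e ⊔ L = Subgroup.closure {e, dR} by
          rw [Subgroup.zpowers_eq_closure, show L = Subgroup.closure {dR} from
            Subgroup.zpowers_eq_closure dR, ← Subgroup.closure_union, Set.singleton_union]]
        refine fix_closure _ ?_
        rintro y (rfl | rfl)
        · exact h
        · exact hcdR g hg _ (Subgroup.mem_zpowers dR)
      have hc := hcommute g hg b hb (Subgroup.zpowers e) (Subgroup.zpowers e ⊔ L) le_sup_left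
        (sup_le hEQ hLQ)
        ⟨hLfix _ h, fun x hx => by rw [hcV x hx, mul_inv_cancel]; exact one_mem _,
          fun x hx => Subgroup.mem_sup_right (hcL g hg x hx), hcQ g hg⟩
        ⟨hLfix _ (hβe b hb), fun x hx => hβE b hb x (sup_le hEQ hLQ hx),
          fun x hx => Subgroup.mem_sup_left (hβE b hb x hx), hβQ b hb⟩
      obtain ⟨x, hx, hxm⟩ : ∃ x ∈ Qs, conjAut R hg.2 x ≠ x := by
        by_contra h'
        push Not at h'
        exact hgR (hfixQ g hg fun x hx => (hcfix g hg x).1 (h' x hx))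
      have h1 := hswap x hx hc
      rw [hLfix _ h _ (hβE b hb x hx), hab _ (hinv _ (mul_mem (mul_mem hφ (hcA b hb)) hφi) _
        (hLQ (hcL g hg x hx))) _ (hEQ (hβE b hb x hx))] at h1
      have h2 := mul_left_cancel h1
      obtain ⟨k, hk⟩ := hLgen _ (hcL g hg x hx) (fun h' => hxm (mul_inv_eq_one.1 h'))
      rw [← hk, map_pow, ← h2]
    · intro h
      have hβL : ∀ x ∈ L, (φ * conjAut R hb.2 * φ⁻¹) x = x := by
        intro x hx
        obtain ⟨k, rfl⟩ := Subgroup.mem_zpowers_iff.1 hx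
        rw [map_zpow, h]
      have hβV : ∀ x ∈ L ⊔ Subgroup.zpowers e, (φ * conjAut R hb.2 * φ⁻¹) x = x := by
        rw [show L ⊔ Subgroup.zpowers e = Subgroup.closure {dR, e} by
          rw [Subgroup.zpowers_eq_closure, show L = Subgroup.closure {dR} from
            Subgroup.zpowers_eq_closure dR, ← Subgroup.closure_union, Set.singleton_union]]
        refine fix_closure _ ?_
        rintro y (rfl | rfl)
        · exact h
        · exact hβe b hb
      have hc := hcommute g hg b hb L (L ⊔ Subgroup.zpowers e) le_sup_left (sup_le hLQ hEQ)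
        ⟨hcdR g hg, fun x hx => hcL g hg x (sup_le hLQ hEQ hx),
          fun x hx => Subgroup.mem_sup_left (hcL g hg x hx), hcQ g hg⟩
        ⟨hβL, fun x hx => by rw [hβV x hx, mul_inv_cancel]; exact one_mem _,
          fun x hx => Subgroup.mem_sup_right (hβE b hb x hx), hβQ b hb⟩
      obtain ⟨y, hy, hym⟩ : ∃ y ∈ Qs, conjAut R hb.2 y ≠ y := by
        by_contra h'
        push Not at h'
        exact hbR (hfixQ b hb fun x hx => (hcfix b hb x).1 (h' x hx))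
      have hx : φ y ∈ Qs := hinv φ hφ y hy
      have h1 := hswap _ hx hc
      rw [hβL _ (hcL g hg _ hx), hab _ (hinv _ (hcA g hg) _ (hEQ (hβE b hb _ hx))) _
        (hLQ (hcL g hg _ hx))] at h1
      have h2 := mul_left_cancel h1
      obtain ⟨k, hk⟩ := hLgen _ (hcL b hb y hy) (fun h' => hym (mul_inv_eq_one.1 h'))
      have h3 : (φ * conjAut R hb.2 * φ⁻¹) (φ y) * (φ y)⁻¹ = φ (conjAut R hb.2 y * y⁻¹) := by
        rw [hβval b hb, MulAut.inv_apply_self]
      rw [h3] at h2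
      rw [show e = φ dR from rfl, ← hk, map_pow, map_pow, h2]
  have hmove : ∀ g (hg : g ∈ N), g ∉ R → ⁅g, (e : Ω)⁆ ≠ 1 := fun g hg hgR h => hmv0
    ((hkey g0 hg0 hg0R g0 hg0 hg0R).2 ((hkey g hg hgR g0 hg0 hg0R).1 ((hcfix g hg e).2 h)))
  -- the normalised element `a`
  obtain ⟨a, ha, haR, hae⟩ : ∃ a ∈ N, a ∉ R ∧ ⁅a, (e : Ω)⁆ = d := by
    obtain ⟨k, hk⟩ := MetaOddLike.exists_pow hp (hcomm g0 hg0.1 _ heP)
      (by rw [← hdo, pow_orderOf_eq_one]) (hmove g0 hg0 hg0R)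
    have h1 : ⁅g0 ^ k, (e : Ω)⁆ = d := by
      rw [Thompson.commutator_pow_left ((hcc g0 hg0.1 _ heP g0 (hP.1 hg0.1)).symm), hk]
    refine ⟨g0 ^ k, pow_mem hg0 k, fun hR' => hd1 ?_, h1⟩
    rw [← h1, commutatorElement_eq_one_iff_mul_comm]
    exact congrArg Subtype.val (hab ⟨_, hR'⟩ (pow_mem hg0.1 k) e heQ)
  have hQoS : Qo ≤ S := inf_le_right.trans hRS
  have : Finite Qo := finite_of_le hQoS
  have hQoab : ∀ x ∈ Qo, ∀ y ∈ Qo, x * y = y * x := fun x hx y hy =>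
    congrArg Subtype.val (hab ⟨x, hx.2⟩ hx.1 ⟨y, hy.2⟩ hy.1)
  have hQop : ∀ x ∈ Qo, x ^ p = 1 := fun x hx => congrArg Subtype.val (hQp ⟨x, hx.2⟩ hx.1)
  have hcentQ : P ⊓ Subgroup.centralizer (Qo : Set Ω) ≤ Qo := by
    refine le_inf inf_le_left (le_of_centric_radical_aux hS hRS (inf_le_left.trans hP.1) ?_ ?_)
    · intro r hr
      have : Finite ↥(P ⊓ Subgroup.centralizer (Qo : Set Ω)) := finite_of_le (inf_le_left.trans hP.1)
      refine mem_normalizer_of_conj_mem fun x hx =>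
        ⟨conj_mem_of_mem_normalizer (hPn (hRS hr)) hx.1, Subgroup.mem_centralizer_iff.2 fun q hq => ?_⟩
      have hq' : r⁻¹ * q * r ∈ Qo := by
        refine ⟨?_, R.mul_mem (R.mul_mem (R.inv_mem hr) hq.2) hr⟩
        simpa using conj_mem_of_mem_normalizer (hPn (hRS (R.inv_mem hr))) hq.1
      have h := Subgroup.mem_centralizer_iff.1 hx.2 _ hq'
      calc q * (r * x * r⁻¹) = r * ((r⁻¹ * q * r) * x) * r⁻¹ := by group
        _ = r * x * r⁻¹ * q := by rw [h]; group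
    · intro g hg hgN
      refine hfixQ g ⟨hg.1, hgN⟩ fun x hx => ?_
      rw [commutatorElement_eq_one_iff_mul_comm]
      exact (Subgroup.mem_centralizer_iff.1 hg.2 _ ⟨hx, x.2⟩).symm
  have heQo : (e : Ω) ∈ Qo := ⟨heQ, e.2⟩
  have haP : a ∈ P := ha.1
  -- `N = (P ∩ R)⟨a⟩`
  have hNform : ∀ g ∈ N, ∃ q ∈ Qo, ∃ i : ℕ, g = q * a ^ i := by
    intro g hg
    obtain ⟨i, hi⟩ : ∃ i : ℕ, d ^ i = ⁅g, (e : Ω)⁆ :=
      Submonoid.mem_powers_iff _ _ |>.1 (((orderOf_pos_iff.1 (hdo ▸ hp.pos)).mem_powers_iff_mem_zpowers).2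
        (hcomm g hg.1 _ heP))
    have hmem : g * (a ^ i)⁻¹ ∈ N := mul_mem hg (inv_mem (pow_mem ha i))
    refine ⟨g * (a ^ i)⁻¹, ⟨hmem.1, ?_⟩, i, by simp⟩
    by_contra hR'
    refine hmove _ hmem hR' ?_
    have h1 := hmulL _ hmem.1 _ (pow_mem ha.1 i) _ heP
    rw [inv_mul_cancel_right, Thompson.commutator_pow_left
      ((hcc a ha.1 _ heP a (hP.1 ha.1)).symm), hae, hi] at h1
    exact (mul_eq_right.1 h1.symm)
  have hNS : N ≤ S := inf_le_left.trans hP.1
  have : Finite N := finite_of_le hNS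
  have hNcard : Nat.card N ≤ Nat.card Qo * p := by
    have hap : a ^ p ∈ Qo := by
      refine ⟨pow_mem ha.1 p, ?_⟩
      obtain ⟨k, hk⟩ := Subgroup.mem_zpowers_iff.1 (hpow a ha.1)
      exact hk ▸ R.zpow_mem hdR k
    have hmod : ∀ g ∈ N, ∃ q : Qo, ∃ i : Fin p, g = (q : Ω) * a ^ (i : ℕ) := by
      intro g hg
      obtain ⟨q, hq, i, rfl⟩ := hNform g hg
      refine ⟨⟨q * (a ^ p) ^ (i / p), mul_mem hq (pow_mem hap _)⟩, ⟨i % p, Nat.mod_lt _ hp.pos⟩, ?_⟩
      rw [mul_assoc, ← pow_mul, ← pow_add, Nat.div_add_mod]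
    have h := Nat.card_le_card_of_surjective (α := {x : Qo × Fin p // (x.1 : Ω) * a ^ (x.2 : ℕ) ∈ N})
      (β := N) (fun x => ⟨_, x.2⟩) fun g => by
        obtain ⟨q, i, hgi⟩ := hmod g g.2
        exact ⟨⟨(q, i), hgi ▸ g.2⟩, Subtype.ext hgi.symm⟩
    refine h.trans ((Finite.card_subtype_le _).trans_eq ?_)
    rw [Nat.card_prod, Nat.card_fin]
  -- the subgroup `H` of `P ∩ R` centralized by `a`
  set Z := P ⊓ Subgroup.centralizer (P : Set Ω) with hZdef
  have hZQ : Z ≤ Qo := (inf_le_inf_left P (Subgroup.centralizer_le (fun x hx => hx.1))).trans hcentQ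
  set H := Qo ⊓ Subgroup.centralizer {a}
  have hmemH : ∀ x ∈ Qo, ⁅a, x⁆ = 1 → x ∈ H := fun x hx h =>
    ⟨hx, Subgroup.mem_centralizer_singleton_iff.2 (commutatorElement_eq_one_iff_mul_comm.1 h).symm⟩
  have hHa : ∀ x ∈ H, ⁅a, x⁆ = 1 := fun x hx => commutatorElement_eq_one_iff_mul_comm.2
    (Subgroup.mem_centralizer_singleton_iff.1 hx.2).symm
  have haRconj : ∀ r ∈ R, a⁻¹ * (r * a * r⁻¹) ∈ Qo := by
    intro r hr
    refine ⟨P.mul_mem (P.inv_mem haP) (conj_mem_of_mem_normalizer (hPn (hRS hr)) ha.1), ?_⟩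
    have : a⁻¹ * (r * a * r⁻¹) = (a⁻¹ * r * a⁻¹⁻¹) * r⁻¹ := by group
    rw [this]
    exact R.mul_mem (conj_mem_of_mem_normalizer (inv_mem ha.2) hr) (R.inv_mem hr)
  have hQconj : ∀ r ∈ R, ∀ q ∈ Qo, r * q * r⁻¹ ∈ Qo := fun r hr q hq =>
    ⟨conj_mem_of_mem_normalizer (hPn (hRS hr)) hq.1, R.mul_mem (R.mul_mem hr hq.2) (R.inv_mem hr)⟩
  set W := ⁅Qo, R⁆ ⊔ Z
  have hWH : W ≤ H := by
    refine sup_le (Subgroup.commutator_le.2 fun q hq r hr => ?_) fun z hz =>
      ⟨hZQ hz, Subgroup.mem_centralizer_singleton_iff.2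
        (Subgroup.mem_centralizer_iff.1 hz.2 a ha.1).symm⟩
    have hq' := hQconj r hr q hq
    have h1 : ⁅q, r⁆ = q * (r * q * r⁻¹)⁻¹ := by simp [commutatorElement_def]; group
    rw [h1]
    refine hmemH _ (mul_mem hq (inv_mem hq')) ?_
    have h2 : ⁅a, r * q * r⁻¹⁆ = ⁅a, q⁆ := by
      have h3 : ⁅r * a * r⁻¹, r * q * r⁻¹⁆ = ⁅a, r * q * r⁻¹⁆ := by
        have h4 := hmulL a ha.1 _ (haRconj r hr).1 _ hq'.1
        rw [mul_inv_cancel_left, commutatorElement_eq_one_iff_mul_comm.2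
          (hQoab _ (haRconj r hr) _ hq'), mul_one] at h4
        exact h4
      rw [← h3]
      exact hconj a ha.1 q hq.1 r (hRS hr)
    have h5 := hmulR a ha.1 _ (mul_mem hq (inv_mem hq')).1 _ hq'.1
    rw [inv_mul_cancel_right, h2] at h5
    exact mul_eq_right.1 h5.symm
  have hCN : P ⊓ Subgroup.centralizer (W : Set Ω) ≤ N := by
    intro g hg
    refine ⟨hg.1, ?_⟩
    have hinvg : g⁻¹ ∈ Subgroup.normalizer (R : Set Ω) := by
      refine mem_normalizer_of_conj_mem fun r hr => ?_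
      have hh : g⁻¹ * (r * g * r⁻¹) ∈ P :=
        mul_mem (inv_mem hg.1) (conj_mem_of_mem_normalizer (hPn (hRS hr)) hg.1)
      have hmem : g⁻¹ * (r * g * r⁻¹) ∈ Qo := by
        refine hcentQ ⟨hh, Subgroup.mem_centralizer_iff.2 fun q' hq' => ?_⟩
        set q := r⁻¹ * q' * r with hqdef
        have hq : q ∈ Qo := by
          have := hQconj r⁻¹ (R.inv_mem hr) q' hq'
          simpa [hqdef] using this
        have hrq : r * q * r⁻¹ = q' := by rw [hqdef]; group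
        have hw : ⁅q, r⁆ ∈ W :=
          (le_sup_left : ⁅Qo, R⁆ ≤ W) (Subgroup.commutator_mem_commutator hq hr)
        have h1 : q = ⁅q, r⁆ * q' := by rw [← hrq, commutatorElement_def]; group
        have h2 : ⁅g, q⁆ = ⁅g, q'⁆ := by
          rw [h1, hmulR g hg.1 _ (hWH hw).1.1 _ hq'.1, commutatorElement_eq_one_iff_mul_comm.2
            (Subgroup.mem_centralizer_iff.1 hg.2 _ hw).symm, one_mul]
        have h3 := hconj g hg.1 q hq.1 r (hRS hr)
        rw [hrq, h2] at h3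
        have h4 := hmulL g hg.1 _ hh _ hq'.1
        rw [mul_inv_cancel_left, h3] at h4
        exact (commutatorElement_eq_one_iff_mul_comm.1 (mul_eq_left.1 h4.symm)).symm
      have h5 := R.mul_mem hmem.2 hr
      rw [inv_inv]
      rwa [show g⁻¹ * (r * g * r⁻¹) * r = g⁻¹ * r * g by group] at h5
    simpa using inv_mem hinvg
  have heH : (e : Ω) ∉ H := fun h => hd1 (hae ▸ hHa _ h)
  have hHW : H = W := by
    have hHlt : H < Qo := lt_of_le_of_ne inf_le_left fun h => heH (h ▸ heQo)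
    have h1 := card_lt_mul_le hS hQoS hHlt
    have h2 := card_mul_centre_le hPp hdP hdo hcomm
      (hWH.trans (inf_le_left.trans inf_le_left)) le_sup_right
    have h3 := card_sq_le hPp hdP hdo hcomm (inf_le_left : Qo ≤ P) hQoab
    have h4 : Nat.card ↥(P ⊓ Subgroup.centralizer (W : Set Ω)) ≤ Nat.card Qo * p :=
      (Subgroup.card_le_of_le hCN).trans hNcard
    have h5 : Nat.card Qo * Nat.card Qo ≤ Nat.card Qo * (p * Nat.card W) :=
      calc Nat.card Qo * Nat.card Qo ≤ Nat.card Z * Nat.card P := h3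
        _ = Nat.card P * Nat.card Z := mul_comm _ _
        _ ≤ _ := h2
        _ ≤ Nat.card Qo * p * Nat.card W := Nat.mul_le_mul_right _ h4
        _ = _ := mul_assoc _ _ _
    have h6 := (Nat.le_of_mul_le_mul_left h5 Nat.card_pos)
    have : Finite H := finite_of_le (inf_le_left.trans hQoS)
    exact (eq_of_le_of_natCard_le hWH (Nat.le_of_mul_le_mul_left (h1.trans h6) hp.pos)).symm
  have hsplitE : ∀ q ∈ Qo, ∃ i : ℕ, ∃ h ∈ H, q = (e : Ω) ^ i * h := by
    intro q hq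
    obtain ⟨i, hi⟩ : ∃ i : ℕ, d ^ i = ⁅a, q⁆ :=
      Submonoid.mem_powers_iff _ _ |>.1 (((orderOf_pos_iff.1 (hdo ▸ hp.pos)).mem_powers_iff_mem_zpowers).2
        (hcomm a ha.1 _ hq.1))
    have hm : ((e : Ω) ^ i)⁻¹ * q ∈ Qo := mul_mem (inv_mem (pow_mem heQo i)) hq
    refine ⟨i, _, hmemH _ hm ?_, by simp⟩
    have h1 := hmulR a ha.1 _ (pow_mem heP i) _ hm.1
    rw [mul_inv_cancel_left, Thompson.commutator_pow_right
      ((hcc a ha.1 _ heP _ (hRS e.2)).symm), hae, hi] at h1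
    exact (left_eq_mul.1 h1)
  have hHZ : H = Z := by
    refine le_antisymm ?_ (le_sup_right.trans hWH)
    have hHR : H ≤ R := inf_le_left.trans inf_le_right
    have hZR : Z ≤ R := hZQ.trans inf_le_right
    have : (Z.subgroupOf R).Normal := ⟨fun z hz r => by
      have hz' : (z : Ω) ∈ Z := hz
      show (r : Ω) * z * (r : Ω)⁻¹ ∈ Z
      refine ⟨conj_mem_of_mem_normalizer (hPn (hRS r.2)) hz'.1,
        Subgroup.mem_centralizer_iff.2 fun y hy => ?_⟩
      have hy' : (r : Ω)⁻¹ * y * r ∈ P := by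
        simpa using conj_mem_of_mem_normalizer (hPn (hRS (R.inv_mem r.2))) hy
      have h := Subgroup.mem_centralizer_iff.1 hz'.2 _ hy'
      calc y * ((r : Ω) * z * (r : Ω)⁻¹) = r * (((r : Ω)⁻¹ * y * r) * z) * (r : Ω)⁻¹ := by group
        _ = r * z * (r : Ω)⁻¹ * y := by rw [h]; group⟩
    have : Group.IsNilpotent R := hRp.isNilpotent
    have hle : H.subgroupOf R ≤ ⁅H.subgroupOf R, (⊤ : Subgroup R)⁆ ⊔ Z.subgroupOf R := by
      have hQR : ⁅Qo, R⁆ ≤ ⁅H, R⁆ := by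
        refine Subgroup.commutator_le.2 fun q hq r hr => ?_
        obtain ⟨i, h, hh, rfl⟩ := hsplitE q hq
        have hc1 : ∀ x ∈ R, Commute ((e : Ω) ^ i) x := fun x hx =>
          Commute.pow_left (congrArg Subtype.val (heZR ⟨x, hx⟩).eq :) i
        have h1 : ⁅(e : Ω) ^ i * h, r⁆ = ⁅h, r⁆ := by
          have h2 := hc1 r hr
          calc ⁅(e : Ω) ^ i * h, r⁆ = (e : Ω) ^ i * ⁅h, r⁆ * ((e : Ω) ^ i)⁻¹ * ⁅(e : Ω) ^ i, r⁆ := by
                simp [commutatorElement_def]; group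
            _ = ⁅h, r⁆ := by
              rw [commutatorElement_eq_one_iff_mul_comm.2 h2.eq, mul_one,
                (hc1 ⁅h, r⁆ (R.mul_mem (R.mul_mem (R.mul_mem (hHR hh) hr) (R.inv_mem (hHR hh)))
                  (R.inv_mem hr))).eq, mul_inv_cancel_right]
        rw [h1]
        exact Subgroup.commutator_mem_commutator hh hr
      intro x hx
      have h1 : (x : Ω) ∈ ⁅H, R⁆ ⊔ Z :=
        sup_le_sup_right hQR Z (hHW.le (show (x : Ω) ∈ H from hx))
      have h2 : ⁅H, R⁆ ⊔ Z = (⁅H.subgroupOf R, (⊤ : Subgroup R)⁆ ⊔ Z.subgroupOf R).map R.subtype := by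
        rw [Subgroup.map_sup, Subgroup.map_commutator, Subgroup.subgroupOf_map_subtype,
          Subgroup.subgroupOf_map_subtype, inf_eq_left.2 hHR, inf_eq_left.2 hZR, ← MonoidHom.range_eq_map,
          R.range_subtype]
      rw [h2] at h1
      obtain ⟨y, hy, hyx⟩ := h1
      exact (Subtype.ext hyx : y = x) ▸ hy
    intro x hx
    exact le_of_le_commutator hle (show (⟨x, hHR hx⟩ : R) ∈ H.subgroupOf R from hx)
  have hPN : P ≤ N := fun g hg => hCN ⟨hg, Subgroup.mem_centralizer_iff.2 fun w hw =>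
    (Subgroup.mem_centralizer_iff.1 ((hHW.symm.trans hHZ).le hw).2 g hg).symm⟩
  have hQdec : ∀ q ∈ Qo, ∃ i : ℕ, ∃ z ∈ Z, q = (e : Ω) ^ i * z := fun q hq => by
    obtain ⟨i, z, hz, h⟩ := hsplitE q hq
    exact ⟨i, z, hHZ.le hz, h⟩
  have hpowmul : ∀ x ∈ P, ∀ q ∈ Qo, (x * q) ^ p = x ^ p * ⁅q⁻¹, x⁻¹⁆ ^ p.choose 2 := by
    intro x hx q hq
    rw [Thompson.mul_pow_class_two (Thompson.mul_comm_eq x q)
      (hcc _ (inv_mem hq.1) _ (inv_mem hx) x (hP.1 hx)).symm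
      (hcc _ (inv_mem hq.1) _ (inv_mem hx) q (hP.1 hq.1)).symm, hQop q hq, mul_one]
  have hcommp : ∀ x ∈ P, ∀ y ∈ P, ⁅x, y⁆ ^ p = 1 := fun x hx y hy => by
    obtain ⟨k, hk⟩ := Subgroup.mem_zpowers_iff.1 (hcomm x hx y hy)
    rw [← hk, ← zpow_natCast, ← zpow_mul, mul_comm, zpow_mul, zpow_natCast, ← hdo,
      pow_orderOf_eq_one, one_zpow]
  have hodd : p ≠ 2 → a ^ p = 1 := by
    intro hp2
    -- an element inverting `d` and `e`
    set u := conjAut R ha.2 with hudef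
    have hu : ∀ x : R, u x = ⟨a * x * a⁻¹, conj_mem_of_mem_normalizer ha.2 x.2⟩ := fun x =>
      Subtype.ext (conjAut_apply R ha.2 x)
    have hue : u e = dR * e := by
      refine Subtype.ext ?_
      rw [hudef, conjAut_apply]
      show a * (e : Ω) * a⁻¹ = d * e
      rw [← hae, commutatorElement_def, inv_mul_cancel_right]
    have hud : u dR = dR := hcdR a ha dR (Subgroup.mem_zpowers dR)
    set y0 := φ⁻¹ dR with hy0
    have hy0Q : y0 ∈ Qs := hinv _ hφi dR hdRQ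
    have hy0P : (y0 : Ω) ∈ P := hy0Q
    have hy01 : ⁅a, (y0 : Ω)⁆ ≠ 1 := fun h => hd1 (hae ▸ (hcfix a ha e).1 ((hkey a ha haR a ha haR).2 (by
      show φ (u y0) = dR
      rw [hudef, (hcfix a ha y0).2 h, hy0, MulAut.apply_inv_self])))
    obtain ⟨j, hj⟩ := MetaOddLike.exists_pow hp (u := ⁅a, (y0 : Ω)⁆) (d := d⁻¹)
      (by rw [Subgroup.zpowers_inv]; exact hcomm a ha.1 _ hy0P)
      (by rw [inv_pow, ← hdo, pow_orderOf_eq_one, inv_one]) hy01
    have hb : a ^ j ∈ N := pow_mem ha j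
    set v := φ * conjAut R hb.2 * φ⁻¹ with hvdef
    have hvA : v ∈ A := mul_mem (mul_mem hφ (hcA _ hb)) hφi
    have hve : v e = e := hβe _ hb
    have hvd : v dR = e⁻¹ * dR := by
      have h1 : v dR * dR⁻¹ = e⁻¹ := by
        rw [hvdef, hβval _ hb, hedef, ← map_inv φ]
        refine congrArg φ (Subtype.ext ?_)
        rw [hval _ hb]
        show ⁅a ^ j, (y0 : Ω)⁆ = d⁻¹
        rw [Thompson.commutator_pow_left ((hcc a ha.1 _ hy0P a (hP.1 ha.1)).symm), hj]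
      rw [← h1, inv_mul_cancel_right]
    have huA : u ∈ A := hcA a ha
    set w := u * v * u with hwdef
    have hde : dR * e = e * dR := (hdZR e).eq
    have hwd : w dR = e⁻¹ := by
      rw [hwdef, MulAut.mul_apply, MulAut.mul_apply, hud, hvd, map_mul, map_inv, hue, hud, mul_inv_rev,
        inv_mul_cancel_right]
    have hwe : w e = dR := by
      rw [hwdef, MulAut.mul_apply, MulAut.mul_apply, hue, map_mul, hve, hvd, mul_assoc, hde,
        inv_mul_cancel_left, hud]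
    set ψ := w * w with hψdef
    have hψA : ψ ∈ A := mul_mem (mul_mem (mul_mem huA hvA) huA) (mul_mem (mul_mem huA hvA) huA)
    have hψd : ψ dR = dR⁻¹ := by rw [hψdef, MulAut.mul_apply, hwd, map_inv, hwe]
    have hψe : ψ e = e⁻¹ := by rw [hψdef, MulAut.mul_apply, hwe, hwd]
    -- `ψ` commutes with `u` on `P ∩ R`
    have hψu : ∀ x ∈ Qs, ψ (u x) = u (ψ x) := by
      intro x hx
      obtain ⟨i, z, hz, hxe⟩ := hQdec (x : Ω) ⟨hx, x.2⟩
      set z0 : R := ⟨z, (hZQ hz).2⟩ with hz0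
      have hxe' : x = e ^ i * z0 := Subtype.ext (by simpa [hz0] using hxe)
      have huz : u z0 = z0 := (hcfix a ha z0).2 (commutatorElement_eq_one_iff_mul_comm.2
        (Subgroup.mem_centralizer_iff.1 hz.2 a ha.1))
      have hz0Q : z0 ∈ Qs := hz.1
      obtain ⟨m, hm⟩ := Subgroup.mem_zpowers_iff.1 (hβE _ hb z0 hz0Q)
      rw [← hvdef] at hm
      set z1 := dR ^ m * z0 with hz1
      have hvz1 : v z1 = z1 := by
        have h1 : v z0 = e ^ m * z0 := by rw [hm, inv_mul_cancel_right]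
        rw [hz1, map_mul, map_zpow, hvd, h1, ((heZR dR).inv_left).mul_zpow, inv_zpow,
          (((heZR (dR ^ m)).zpow_left m).inv_left).eq]
        group
      have huz1 : u z1 = z1 := by rw [hz1, map_mul, map_zpow, hud, huz]
      have hψz1 : ψ z1 = z1 := by
        simp only [hψdef, hwdef, MulAut.mul_apply, huz1, hvz1]
      have hx1 : x = e ^ i * ((dR ^ m)⁻¹ * z1) := by rw [hxe', hz1, inv_mul_cancel_left]
      rw [hx1]
      simp only [map_mul, map_pow, map_inv, map_zpow, hue, hud, huz1, hψd, hψe, hψz1,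
        (hdZR e).mul_pow, ((hdZR e).inv_left.inv_right).mul_pow, inv_pow, mul_inv_rev, inv_zpow]
      rw [((hdZR (e ^ i)⁻¹).pow_left i).inv_left.eq]
    have hψi : ψ⁻¹ ∈ A := inv_mem hψA
    set α1 := ψ * u * ψ⁻¹ with hα1
    have hα1Q : ∀ x ∈ Qs, α1 x = u x := by
      intro x hx
      show ψ (u (ψ⁻¹ x)) = u x
      rw [hψu _ (hinv _ hψi x hx), MulAut.apply_inv_self]
    have hα1L : ∀ x ∈ L, α1 x = x := fun x hx => by rw [hα1Q x (hLQ hx), hudef, hcdR a ha x hx]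
    obtain ⟨T, hTA, hTp, hT⟩ := exists_pgroup_of_chain hRp A (le_refl L) hLQ
    have h1 : Stab L L Qs u := ⟨hcdR a ha, fun x hx => hcL a ha x (hLQ hx),
      fun x hx => hcL a ha x hx, hcQ a ha⟩
    have h2 : Stab L L Qs α1 := by
      refine ⟨hα1L, fun x hx => by rw [hα1L x hx, mul_inv_cancel]; exact one_mem _,
        fun x hx => by rw [hα1Q x hx]; exact hcL a ha x hx, fun x => ?_⟩
      have h : α1 x * x⁻¹ = ψ (u (ψ⁻¹ x) * (ψ⁻¹ x)⁻¹) := by
        rw [map_mul, map_inv, MulAut.apply_inv_self]; rfl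
      rw [h]
      exact hinv ψ hψA _ (hcQ a ha _)
    obtain ⟨θ, hθ, x, y, hx, hy, hxP, hyP, hxe, hye⟩ := exists_common hS hF hP hn hTA hTp
      (one_mem A) hψA ha.1 ha.1 ha.2 ha.2 (by simpa [← hudef] using hT u huA h1)
      (hT α1 (mul_mem (mul_mem hψA huA) hψi) h2)
    have hθi : θ⁻¹ ∈ A := inv_mem hθ
    have hsame : ∀ q : R, q ∈ Qs → conjAut R hx q = conjAut R hy q := by
      intro q hq
      rw [hxe, hye]
      show θ (((1 : MulAut R) * u * 1⁻¹) (θ⁻¹ q)) = θ (α1 (θ⁻¹ q))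
      rw [hα1Q _ (hinv _ hθi q hq)]
      simp
    have hq1 : x⁻¹ * y ∈ Qo := hcentQ ⟨P.mul_mem (P.inv_mem hxP) hyP,
      Subgroup.mem_centralizer_iff.2 fun q hq => by
        have h := congrArg Subtype.val (hsame ⟨q, hq.2⟩ hq.1)
        rw [conjAut_apply, conjAut_apply] at h
        calc q * (x⁻¹ * y) = x⁻¹ * (x * q * x⁻¹) * y := by group
          _ = x⁻¹ * (y * q * y⁻¹) * y := by rw [h]
          _ = x⁻¹ * y * q := by group⟩
    set q1 : R := ⟨x⁻¹ * y, hq1.2⟩ with hq1def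
    have hyx : conjAut R hy = conjAut R hx * MulAut.conj q1 := by
      ext t
      simp [hq1def, mul_assoc]
    have hα1eq : α1 = u * MulAut.conj (θ⁻¹ q1) := by
      have h3 : MulAut.conj (θ⁻¹ q1) = θ⁻¹ * MulAut.conj q1 * θ := by ext t; simp
      rw [hye, hxe] at hyx
      have h4 := congrArg (fun t => θ⁻¹ * t * θ) hyx
      rw [h3, hα1]
      simpa [mul_assoc] using h4
    set q2 : R := θ⁻¹ q1
    have hq2 : q2 ∈ Qs := hinv _ hθi q1 hq1.1
    have hs : a * q2 ∈ N := mul_mem ha ⟨hq2, Subgroup.le_normalizer q2.2⟩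
    have hα1c : α1 = conjAut R hs.2 := by
      rw [hα1eq]
      ext t
      simp [hudef, mul_assoc]
    obtain ⟨a', ha', ha'P, ha'e, ha'pow⟩ := exists_move hS hF hP hn hψA ha.1 ha.2
      (by rw [show ψ * conjAut R ha.2 * ψ⁻¹ = α1 from rfl, hα1c]
          exact conjAut_mem_autInducedBy (hP.1 hs.1) hs.2)
    rw [show ψ * conjAut R ha.2 * ψ⁻¹ = α1 from rfl, hα1c] at ha'e
    have hq3 : a⁻¹ * a' ∈ Qo := by
      refine ⟨P.mul_mem (P.inv_mem haP) ha'P, ?_⟩
      have h5 : (a * (q2 : Ω))⁻¹ * a' ∈ R := hC (mem_centralizerIn.2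
        ⟨S.mul_mem (S.inv_mem (hP.1 hs.1)) (hP.1 ha'P), fun t ht => by
          have h := congrArg Subtype.val (DFunLike.congr_fun ha'e ⟨t, ht⟩)
          rw [conjAut_apply, conjAut_apply] at h
          calc t * ((a * (q2 : Ω))⁻¹ * a') = (a * (q2 : Ω))⁻¹ * ((a * q2) * t * (a * q2)⁻¹) * a' := by
                group
            _ = (a * (q2 : Ω))⁻¹ * (a' * t * a'⁻¹) * a' := by rw [h]
            _ = (a * (q2 : Ω))⁻¹ * a' * t := by group⟩)
      have h6 := R.mul_mem q2.2 h5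
      rwa [mul_inv_rev, mul_assoc, mul_inv_cancel_left] at h6
    have hap' : a' ^ p = a ^ p := by
      have h7 := hpowmul a ha.1 _ hq3
      rwa [mul_inv_cancel_left, Thompson.pow_choose_two_eq_one hp2
        (hcommp _ (inv_mem hq3.1) _ (inv_mem haP)), mul_one] at h7
    obtain ⟨k, hk⟩ := Subgroup.mem_zpowers_iff.1 (hpow a ha.1)
    have hapR : a ^ p ∈ R := hk ▸ R.zpow_mem hdR k
    have h8 := ha'pow p hapR
    rw [hap', show (⟨a ^ p, hapR⟩ : R) = dR ^ k from Subtype.ext (by simp [hdRdef, hk]), map_zpow,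
      hψd, inv_zpow, Subgroup.coe_inv, Subgroup.coe_zpow] at h8
    simp only [hdRdef, hk] at h8
    have h9 : (a ^ p) ^ 2 = 1 := by rw [sq]; nth_rewrite 1 [h8]; exact inv_mul_cancel _
    have h10 : (a ^ p) ^ p = 1 := by
      rw [← hk, ← zpow_natCast, ← zpow_mul, mul_comm, zpow_mul, zpow_natCast, ← hdo,
        pow_orderOf_eq_one, one_zpow]
    exact orderOf_eq_one_iff.1 (Nat.eq_one_of_dvd_coprimes
      ((Nat.coprime_primes hp Nat.prime_two).2 hp2)
      (orderOf_dvd_of_pow_eq_one h10) (orderOf_dvd_of_pow_eq_one h9))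
  obtain ⟨a₁, ha₁, ha₁R, ha₁e, ha₁p⟩ :
      ∃ a₁ ∈ P, a⁻¹ * a₁ ∈ Qo ∧ ⁅a₁, (e : Ω)⁆ = d ∧ a₁ ^ p = 1 := by
    by_cases hap1 : a ^ p = 1
    · exact ⟨a, ha.1, by simp [Qo], hae, hap1⟩
    · have hp2 : p = 2 := by_contra fun h => hap1 (hodd h)
      subst hp2
      refine ⟨a * e, mul_mem ha.1 heP, by simpa using heQo, ?_, ?_⟩
      · rw [hmulL a ha.1 _ heP _ heP, commutatorElement_self, mul_one, hae]
      · have he2 : (e : Ω) * e = 1 := by rw [← sq]; exact hQop _ heQo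
        have hd2 : d * d = 1 := by rw [← sq, ← hdo, pow_orderOf_eq_one]
        have had : a ^ 2 = d := by
          obtain ⟨k, hk⟩ := Subgroup.mem_zpowers_iff.1 (hpow a ha.1)
          rcases Int.even_or_odd' k with ⟨m, rfl | rfl⟩
          · exact absurd (by rw [← hk, zpow_mul, zpow_ofNat, sq, hd2, one_zpow]) hap1
          · rw [← hk, zpow_add, zpow_mul, zpow_ofNat, sq, hd2, one_zpow, one_mul, zpow_one]
        have hea : (e : Ω) * a = d⁻¹ * (a * e) := by rw [← hae, commutatorElement_def]; group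
        calc (a * (e : Ω)) ^ 2 = a * ((e : Ω) * a) * e := by rw [sq]; group
          _ = d⁻¹ * (a * a) * ((e : Ω) * e) := by
              rw [hea, ← mul_assoc a d⁻¹, ((hdS a (hP.1 ha.1)).inv_right).eq]; group
          _ = 1 := by rw [← sq a, had, he2, mul_one, inv_mul_cancel]
  -- assemble
  have hform : ∀ x ∈ P, ∃ q ∈ Qo, ∃ i : ℕ, x = q * a ^ i := fun x hx => hNform x (hPN hx)
  let T : Shape p P :=
    { a := ⟨a₁, ha₁⟩
      e := ⟨e, heP⟩
      d := ⟨d, hdP⟩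
      Z := Subgroup.center P
      comm := Subtype.ext ((map_commutatorElement P.subtype _ _).trans ha₁e)
      d_ne := fun h => hd1 (congrArg Subtype.val h)
      d_mem := Subgroup.mem_center_iff.2 fun g => Subtype.ext (hdS g (hP.1 g.2)).eq
      Z_le := le_rfl
      Z_pow := fun z hz => Subtype.ext (hQop _ (hZQ ⟨z.2, Subgroup.mem_centralizer_iff.2 fun g hg =>
        congrArg Subtype.val (Subgroup.mem_center_iff.1 hz ⟨g, hg⟩)⟩))
      a_pow := Subtype.ext ha₁p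
      e_pow := Subtype.ext (hQop _ heQo)
      gen := by
        set K := Subgroup.center P ⊔ Subgroup.closure {(⟨a₁, ha₁⟩ : P), ⟨e, heP⟩}
        have hQK : ∀ q (hq : q ∈ Qo), (⟨q, hq.1⟩ : P) ∈ K := by
          intro q hq
          obtain ⟨i, z, hz, rfl⟩ := hQdec q hq
          have h1 : (⟨z, hz.1⟩ : P) ∈ Subgroup.center P := Subgroup.mem_center_iff.2 fun g =>
            Subtype.ext (Subgroup.mem_centralizer_iff.1 hz.2 g g.2)
          exact mul_mem (pow_mem (Subgroup.mem_sup_right (Subgroup.subset_closure (by simp))) i :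
            (⟨e, heP⟩ : P) ^ i ∈ K) (Subgroup.mem_sup_left h1)
        have haK : (⟨a, ha.1⟩ : P) ∈ K := by
          have h := mul_mem (Subgroup.mem_sup_right (Subgroup.subset_closure (by simp)) :
            (⟨a₁, ha₁⟩ : P) ∈ K) (inv_mem (hQK _ ha₁R))
          rwa [show (⟨a₁, ha₁⟩ : P) * (⟨a⁻¹ * a₁, ha₁R.1⟩)⁻¹ = ⟨a, ha.1⟩ from
            Subtype.ext (by simp)] at h
        refine eq_top_iff.2 fun x _ => ?_
        obtain ⟨q, hq, i, hxq⟩ := hform x x.2
        have h : x = ⟨q, hq.1⟩ * ⟨a, ha.1⟩ ^ i := Subtype.ext hxq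
        rw [h]
        exact mul_mem (hQK q hq) (pow_mem haK i) }
  refine ⟨T, fun hp2 x => Subtype.ext ?_⟩
  obtain ⟨q, hq, i, hxq⟩ := hform x x.2
  have hc' : q * a ^ i = a ^ i * ((a ^ i)⁻¹ * q * a ^ i) := by group
  have hq' : (a ^ i)⁻¹ * q * a ^ i ∈ Qo := by
    refine ⟨P.mul_mem (P.mul_mem (P.inv_mem (pow_mem haP i)) hq.1) (pow_mem haP i), ?_⟩
    simpa using conj_mem_of_mem_normalizer (inv_mem (pow_mem ha.2 i)) hq.2
  rw [SubmonoidClass.coe_pow, hxq, hc', hpowmul _ (pow_mem ha.1 i) _ hq', ← pow_mul, mul_comm,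
    pow_mul, hodd hp2, one_pow, Thompson.pow_choose_two_eq_one hp2
      (hcommp _ (inv_mem hq'.1) _ (inv_mem (pow_mem haP i))), one_mul]
  rfl

end Cfsg.Agent.Lib.LocalP2.GenExtra
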