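import Cfsg.Agent.Lib.LocalP2.HSubgroup
import Cfsg.Agent.Lib.Hall.Huppert
import Cfsg.Agent.Lib.LocalChar.Core
import Cfsg.Agent.S0065

/-! Normal p-subgroups whose subgroups of fixed order are normal, supersolvable extensions (helper19). -/

namespace Cfsg.Agent.Lib.LocalP2

open Subgroup
open scoped commutatorElement

universe u

/-- Elements relevant to supersolvable action: in the derived group or a `(q-1)`-th power. -/
def SSElem (G : Type u) [Group G] (q : ℕ) (y : G) : Prop :=
  y ∈ commutator G ∨ ∃ x : G, y = x ^ (q - 1)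

variable {G : Type u} [Group G] [Finite G] {q : ℕ} [Fact q.Prime]

theorem ssElem_map {H : Type*} [Group H] (f : G →* H) {y : G} (h : SSElem G q y) :
    f y ∈ commutator H ∨ ∃ x : H, f y = x ^ (q - 1) := by
  rcases h with h | ⟨x, rfl⟩
  · left
    have := mem_map_of_mem f h
    rw [_root_.commutator_def, map_commutator] at this
    exact commutator_mono le_top le_top this
  · exact Or.inr ⟨f x, map_pow f x _⟩

/-- Such `q'`-elements centralize every normal cyclic q-subgroup. -/
theorem centralize_cyclic_normal (N : Subgroup G) [N.Normal] [IsCyclic N] (hN : IsPGroup q N)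
    {y : G} (hy : (orderOf y).Coprime q) (hy' : SSElem G q y) :
    ∀ n ∈ N, y * n * y⁻¹ = n := by
  have hq : q.Prime := Fact.out
  intro n hn
  rcases hy' with h | ⟨x, rfl⟩
  · have := (mem_centralizer_iff.mp (Lib.Hall.commutator_le_centralizer_cyclic N h) n hn)
    rw [← this]; group
  · obtain ⟨k, hk⟩ := IsPGroup.iff_card.1 hN
    set β : MulAut N := MulAut.conjNormal x with hβ
    have hα : β ^ (q - 1) = 1 := by
      rcases k with _ | k
      · have : Subsingleton N := (Nat.card_eq_one_iff_unique.1 (by simpa using hk)).1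
        exact MulEquiv.ext fun _ => Subsingleton.elim _ _
      · have h1 : (β ^ (q - 1)) ^ q ^ k = 1 := by
          rw [← pow_mul]
          refine orderOf_dvd_iff_pow_eq_one.1 ((_root_.orderOf_dvd_natCard β).trans ?_)
          rw [IsCyclic.card_mulAut, hk, Nat.totient_prime_pow_succ hq, mul_comm]
        have h2 : orderOf (β ^ (q - 1)) ∣ orderOf (x ^ (q - 1)) := by
          rw [hβ, ← map_pow]; exact orderOf_map_dvd _ _
        exact orderOf_eq_one_iff.1
          (Nat.eq_one_of_dvd_coprimes (hy.pow_right k) h2 (orderOf_dvd_of_pow_eq_one h1))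
    have h3 := congrArg Subtype.val (DFunLike.congr_fun hα ⟨n, hn⟩)
    rw [hβ, ← map_pow, MulAut.conjNormal_apply] at h3
    exact h3

/-- If `q'`-elements of the derived group and `(q-1)`-th powers centralize a normal q-subgroup with
supersolvable quotient, the group is supersolvable. -/
theorem ss_of_pgroup_cond : ∀ (n : ℕ) (G : Type u) [Group G] [Finite G], Nat.card G = n →
    ∀ (Q : Subgroup G) [Q.Normal], IsPGroup q Q →
    (∀ y : G, (orderOf y).Coprime q → SSElem G q y → ∀ z ∈ Q, y * z = z * y) →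
    Cfsg.IsSupersolvable (G ⧸ Q) → Cfsg.IsSupersolvable G := by
  intro n
  induction n using Nat.strong_induction_on with
  | _ n ih => ?_
  intro G _ _ hn Q _ hQ hcond hss
  have hq : q.Prime := Fact.out
  by_cases hbot : Q = ⊥
  · subst hbot
    exact Lib.Hall.ss_of_surjective QuotientGroup.quotientBot.toMonoidHom QuotientGroup.quotientBot.surjective hss
  -- a minimal normal subgroup inside Q
  classical
  obtain ⟨V, ⟨hVn, hVQ, hVne⟩, hVmin⟩ : ∃ V : Subgroup G, (V.Normal ∧ V ≤ Q ∧ V ≠ ⊥) ∧
      ∀ W : Subgroup G, W.Normal → W ≤ V → W ≠ ⊥ → W = V := by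
    have hex : ∃ k, ∃ V : Subgroup G, (V.Normal ∧ V ≤ Q ∧ V ≠ ⊥) ∧ Nat.card V = k :=
      ⟨_, Q, ⟨inferInstance, le_rfl, hbot⟩, rfl⟩
    obtain ⟨V, hV, hVc⟩ := Nat.find_spec hex
    refine ⟨V, hV, fun W hW hWV hW1 => ?_⟩
    have := Nat.find_min' hex ⟨W, ⟨hW, hWV.trans hV.2.1, hW1⟩, rfl⟩
    exact Subgroup.eq_of_le_of_card_ge hWV (hVc ▸ this)
  haveI := hVn
  have hVp : IsPGroup q V := hQ.to_le hVQ
  haveI := hVp.isNilpotent
  haveI : Nontrivial V := (nontrivial_iff_ne_bot V).mpr hVne
  -- V is elementary abelian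
  have hVab : ∀ a ∈ V, ∀ b ∈ V, a * b = b * a := by
    haveI : ((center V).map V.subtype).Normal := ConjAct.normal_of_characteristic_of_normal
    have hne : (center V).map V.subtype ≠ ⊥ := by
      rw [Ne, map_eq_bot_iff_of_injective _ V.subtype_injective]
      exact (nontrivial_iff_ne_bot _).mp hVp.center_nontrivial
    have heq := hVmin _ inferInstance (map_subtype_le _) hne
    intro a ha b hb
    obtain ⟨a', ha', rfl⟩ := (heq.symm ▸ ha : a ∈ (center V).map V.subtype)
    exact (congrArg Subtype.val (mem_center_iff.1 ha' ⟨b, hb⟩)).symm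
  have hVexp : ∀ a ∈ V, a ^ q = 1 := by
    let W : Subgroup G :=
      { carrier := {a | a ∈ V ∧ a ^ q = 1}
        one_mem' := ⟨one_mem _, one_pow _⟩
        mul_mem' := fun {a b} ha hb => ⟨mul_mem ha.1 hb.1, by
          rw [Commute.mul_pow (hVab a ha.1 b hb.1), ha.2, hb.2, one_mul]⟩
        inv_mem' := fun {a} ha => ⟨inv_mem ha.1, by rw [inv_pow, ha.2, inv_one]⟩ }
    have hWn : W.Normal := ⟨fun a ha g => ⟨hVn.conj_mem a ha.1 g, by rw [conj_pow, ha.2]; group⟩⟩
    have hWne : W ≠ ⊥ := by
      obtain ⟨v, hv⟩ := exists_prime_orderOf_dvd_card' (G := V) q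
        ((hVp.card_eq_or_dvd).resolve_left fun h => hVne (card_eq_one.1 h))
      intro h
      have hmem : (v : G) ∈ W := ⟨v.2, by
        have := pow_orderOf_eq_one v
        rw [hv] at this
        exact congrArg Subtype.val this⟩
      rw [h, mem_bot] at hmem
      rw [show v = 1 from Subtype.ext hmem, orderOf_one] at hv
      exact hq.one_lt.ne hv
    intro a ha
    exact ((hVmin W hWn (fun a ha => ha.1) hWne).symm ▸ ha : a ∈ W).2
  -- the kernel of the action, and the q-part of the image
  set C := centralizer (V : Set G) with hC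
  haveI : C.Normal := normal_centralizer
  have hcondV : ∀ y : G, (orderOf y).Coprime q → SSElem G q y → y ∈ C := fun y hy hy' =>
    mem_centralizer_iff.2 fun z hz => (hcond y hy hy' z (hVQ hz)).symm
  -- a normal q-subgroup of the image fixes everything
  have hker : ∀ R : Subgroup G, R.Normal → C ≤ R → IsPGroup q (R.map (QuotientGroup.mk' C)) → R ≤ C := by
    intro R hR hCR hRp
    obtain ⟨S⟩ := (inferInstance : Nonempty (Sylow q R))
    have hS : IsPGroup q ((S : Subgroup R).map R.subtype) := S.2.map _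
    -- R = C·S
    have hsup : R ≤ C ⊔ (S : Subgroup R).map R.subtype := by
      have h1 : ((C ⊔ (S : Subgroup R).map R.subtype).subgroupOf R).index ∣ (S : Subgroup R).index :=
        index_dvd_of_le fun s hs => mem_subgroupOf.2 (mem_sup_right (mem_map_of_mem _ hs))
      have h2 : ((C ⊔ (S : Subgroup R).map R.subtype).subgroupOf R).index ∣ Nat.card (R.map (QuotientGroup.mk' C)) := by
        refine (index_dvd_of_le (show C.subgroupOf R ≤ (C ⊔ (S : Subgroup R).map R.subtype).subgroupOf R from
          comap_mono le_sup_left)).trans (dvd_of_eq ?_)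
        rw [show (C.subgroupOf R) = ((QuotientGroup.mk' C).comp R.subtype).ker from by
          ext x; simp [mem_subgroupOf, QuotientGroup.eq_one_iff], index_ker, MonoidHom.range_comp, range_subtype]
      obtain ⟨k, hk⟩ := IsPGroup.iff_card.1 hRp
      have h3 : ((C ⊔ (S : Subgroup R).map R.subtype).subgroupOf R).index = 1 :=
        Nat.eq_one_of_dvd_coprimes ((hq.coprime_iff_not_dvd.2 S.not_dvd_index).pow_left k) (hk ▸ h2) h1
      exact relIndex_eq_one.1 h3
    -- the fixed points of S on V form a nontrivial normal subgroup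
    let F : Subgroup G := V ⊓ centralizer ((S : Subgroup R).map R.subtype : Set G)
    have hF : F = V ⊓ centralizer (R : Set G) := by
      refine le_antisymm (le_inf inf_le_left fun v hv => ?_) (inf_le_inf_left _ (centralizer_le (map_subtype_le _)))
      have : R ≤ centralizer ({v} : Set G) := hsup.trans (sup_le
        (fun c hc => mem_centralizer_singleton_iff.2 ((mem_centralizer_iff.1 hc v hv.1).symm))
        (fun s hs => mem_centralizer_singleton_iff.2 (mem_centralizer_iff.1 hv.2 s hs)))
      exact mem_centralizer_iff.2 fun r hr => mem_centralizer_singleton_iff.1 (this hr)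
    have hFn : F.Normal := by rw [hF]; infer_instance
    have hFne : F ≠ ⊥ := by
      set S' := (S : Subgroup R).map R.subtype
      let T := V ⊔ S'
      have hT : IsPGroup q T :=
        hVp.to_sup_of_normal_left hS
      haveI := hT.isNilpotent
      have hne : V.subgroupOf T ≠ ⊥ := by
        rw [Ne, subgroupOf_eq_bot, disjoint_iff, inf_eq_left.2 le_sup_left]; exact hVne
      haveI := hT
      haveI : Fact q.Prime := ⟨hq⟩
      have hTV : (V.subgroupOf T).Normal := inferInstance
      -- count fixed points of T on V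
      by_contra hFb
      obtain ⟨z, hz, hz1⟩ : ∃ z, z ∈ V.subgroupOf T ⊓ center T ∧ z ≠ 1 := by
        have := S0065.inf_center_ne_bot hTV hne
        obtain ⟨z, hz, hz1⟩ := (bot_or_exists_ne_one _).resolve_left this
        exact ⟨z, hz, hz1⟩
      have hzF : (z : G) ∈ F := ⟨mem_subgroupOf.1 hz.1, mem_centralizer_iff.2 fun s hs =>
        congrArg Subtype.val (mem_center_iff.1 hz.2 ⟨s, mem_sup_right hs⟩)⟩
      rw [hFb, mem_bot] at hzF
      exact hz1 (Subtype.ext hzF)
    have := hVmin F hFn inf_le_left hFne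
    intro r hr
    rw [hC, mem_centralizer_iff]
    intro v hv
    rw [← this, hF] at hv
    exact (mem_centralizer_iff.1 hv.2 r hr).symm
  -- the image is abelian
  have hcomm : commutator G ≤ C := by
    refine le_trans le_sup_left (hker (commutator G ⊔ C) inferInstance le_sup_right ?_)
    rw [Subgroup.map_sup, (map_eq_bot_iff C).2 (by rw [QuotientGroup.ker_mk']), sup_bot_eq]
    rintro ⟨_, c, hc, rfl⟩
    obtain ⟨k, hk⟩ := Lib.Transfer.exists_pow_coprime (p := q) c
    refine ⟨k, Subtype.ext ?_⟩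
    show (QuotientGroup.mk' C c) ^ q ^ k = 1
    rw [← map_pow]
    exact (QuotientGroup.eq_one_iff _).2 (hcondV _ hk (Or.inl (pow_mem hc _)))
  -- q-elements centralize V
  have hqel : ∀ x : G, (∃ k : ℕ, x ^ q ^ k ∈ C) → x ∈ C := by
    rintro x ⟨k, hk⟩
    have hn : (C ⊔ zpowers x).Normal := by
      refine ⟨fun a ha g => ?_⟩
      have : g * a * g⁻¹ = ⁅g, a⁆ * a := by rw [commutatorElement_def]; group
      rw [this]
      exact mul_mem (mem_sup_left (hcomm (commutator_mem_commutator (mem_top g) (mem_top a)))) ha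
    refine hker _ hn le_sup_left ?_ (mem_sup_right (mem_zpowers x))
    rw [Subgroup.map_sup, (map_eq_bot_iff C).2 (by rw [QuotientGroup.ker_mk']), bot_sup_eq, MonoidHom.map_zpowers]
    obtain ⟨i, -, hi⟩ := (Nat.dvd_prime_pow hq).1 (orderOf_dvd_of_pow_eq_one
      (x := QuotientGroup.mk' C x) (n := q ^ k) (by rw [← map_pow]; exact (QuotientGroup.eq_one_iff _).2 hk))
    exact IsPGroup.of_card (n := i) (by rw [Nat.card_zpowers, hi])
  -- (q-1)-th powers centralize V
  have hexp : ∀ g : G, g ^ (q - 1) ∈ C := by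
    intro g
    obtain ⟨k, hk⟩ := Lib.Transfer.exists_pow_coprime (p := q) (g ^ (q - 1))
    refine hqel _ ⟨k, hcondV _ hk (Or.inr ⟨g ^ q ^ k, ?_⟩)⟩
    rw [← pow_mul, ← pow_mul, mul_comm]
  letI : CommGroup V :=
    { (inferInstance : Group V) with mul_comm := fun a b => Subtype.ext (hVab _ a.2 _ b.2) }
  have hscalar : ∀ x : G, ∃ a : ℕ, ∀ v ∈ V, x * v * x⁻¹ = v ^ a := by
    intro x
    let φ : V →* V := (MulAut.conjNormal (H := V) x).toMonoidHom
    have hit : ∀ (j : ℕ) (v : V), φ^[j] v = MulAut.conjNormal (x ^ j) v := by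
      intro j
      induction j with
      | zero => intro v; simp
      | succ j ihj => intro v; rw [Function.iterate_succ_apply', ihj, pow_succ', map_mul]; rfl
    obtain ⟨v, a, hv1, hva⟩ := Lib.Hall.exists_eigen (p := q) (N := V)
      (fun n => Subtype.ext (by simpa using hVexp n n.2)) φ (fun v => by
        rw [hit]
        refine Subtype.ext ?_
        rw [MulAut.conjNormal_apply, ← mem_centralizer_iff.1 (hexp x) v v.2]
        group)
    let W : Subgroup G :=
      { carrier := {b | b ∈ V ∧ x * b * x⁻¹ = b ^ a}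
        one_mem' := ⟨one_mem V, by simp⟩
        mul_mem' := fun {b c} hb hc => ⟨mul_mem hb.1 hc.1, by
          rw [Commute.mul_pow (hVab b hb.1 c hc.1), ← hb.2, ← hc.2]; group⟩
        inv_mem' := fun {b} hb => ⟨inv_mem hb.1, by rw [inv_pow, ← hb.2]; group⟩ }
    have hWn : W.Normal := by
      refine ⟨fun b hb g => ⟨hVn.conj_mem b hb.1 g, ?_⟩⟩
      rw [conj_pow, ← hb.2]
      have hc : ⁅x, g⁆ ∈ C := hcomm (commutator_mem_commutator (mem_top x) (mem_top g))
      have hmem : g * (x * b * x⁻¹) * g⁻¹ ∈ V := hVn.conj_mem _ (hVn.conj_mem b hb.1 x) g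
      have h1 := mem_centralizer_iff.1 hc _ hmem
      calc x * (g * b * g⁻¹) * x⁻¹ = ⁅x, g⁆ * (g * (x * b * x⁻¹) * g⁻¹) * ⁅x, g⁆⁻¹ := by
            rw [commutatorElement_def]; group
        _ = g * (x * b * x⁻¹) * g⁻¹ := by rw [← h1]; group
    have hWne : W ≠ ⊥ := fun h => hv1 (Subtype.ext (by
      have hm : (v : G) ∈ W := ⟨v.2, by
        have := congrArg Subtype.val hva
        simpa [φ, MulAut.conjNormal_apply] using this⟩
      rw [h, mem_bot] at hm
      exact hm))
    refine ⟨a, fun b hb => ?_⟩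
    exact ((hVmin W hWn (fun b hb => hb.1) hWne).symm ▸ hb : b ∈ W).2
  -- V has prime order
  obtain ⟨v, hv, hv1⟩ := (bot_or_exists_ne_one V).resolve_left hVne
  have hzn : (zpowers v).Normal := by
    refine ⟨fun b hb g => ?_⟩
    obtain ⟨a, ha⟩ := hscalar g
    rw [ha b (zpowers_le.2 hv hb)]
    exact pow_mem hb a
  set N := zpowers v with hN
  haveI := hzn
  have hNc : Nat.card N = q := by rw [hN, Nat.card_zpowers, orderOf_eq_prime (hVexp v hv) hv1]
  have hNQ : N ≤ Q := zpowers_le.2 (hVQ hv)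
  -- pass to the quotient
  let f := QuotientGroup.mk' N
  have hf : Function.Surjective f := QuotientGroup.mk'_surjective N
  haveI : (Q.map f).Normal := Subgroup.Normal.map inferInstance f hf
  refine Lib.Hall.ss_of_prime_normal hq hNc (ih (Nat.card (G ⧸ N)) ?_ (G ⧸ N) rfl (Q.map f) (hQ.map f) ?_ ?_)
  · rw [← hn, ← index_eq_card, ← index_mul_card N, hNc]
    exact lt_mul_of_one_lt_right (Nat.pos_of_ne_zero index_ne_zero_of_finite) hq.one_lt
  · intro ybar hybar hy' z hz
    obtain ⟨z0, hz0, rfl⟩ := hz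
    obtain ⟨y0, hy0, hy0e⟩ : ∃ y0 : G, SSElem G q y0 ∧ f y0 = ybar := by
      rcases hy' with hy' | ⟨x, hx⟩
      · have h1 : commutator (G ⧸ N) = (commutator G).map f := by
          rw [_root_.commutator_def, _root_.commutator_def, map_commutator, map_top_of_surjective f hf]
        rw [h1] at hy'
        obtain ⟨y0, hy0, he⟩ := hy'
        exact ⟨y0, Or.inl hy0, he⟩
      · obtain ⟨x0, rfl⟩ := hf x
        exact ⟨x0 ^ (q - 1), Or.inr ⟨x0, rfl⟩, by rw [hx, map_pow]⟩
    obtain ⟨k, hk⟩ := Lib.Transfer.exists_pow_coprime (p := q) y0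
    have hss' : SSElem G q (y0 ^ q ^ k) := by
      rcases hy0 with h | ⟨x, rfl⟩
      · exact Or.inl (pow_mem h _)
      · exact Or.inr ⟨x ^ q ^ k, by rw [← pow_mul, ← pow_mul, mul_comm]⟩
    have hc : Commute (ybar ^ q ^ k) (f z0) := by
      rw [← hy0e, ← map_pow]
      exact (Commute.map (show Commute (y0 ^ q ^ k) z0 from hcond _ hk hss' z0 hz0) f)
    obtain ⟨m, hm⟩ := exists_pow_eq_self_of_coprime (n := q ^ k) (x := ybar) (hybar.symm.pow_left k)
    have := hc.pow_left m
    rwa [hm] at this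
  · refine Lib.Hall.ss_of_surjective
      (QuotientGroup.quotientQuotientEquivQuotient N Q hNQ).symm.toMonoidHom
      (QuotientGroup.quotientQuotientEquivQuotient N Q hNQ).symm.surjective hss

/-- Small elements of a normal q-subgroup with all subgroups of a fixed order normal. -/
theorem cond_of_fixed_order {Q : Subgroup G} [Q.Normal] (hQ : IsPGroup q Q) {d : ℕ}
    (hd : q ^ d < Nat.card Q) (hd2 : q = 2 → 2 ≤ d ∨ Nat.card Q = 4) (hd1 : 1 ≤ d) (hnc : ¬ IsCyclic Q)
    (hnorm : ∀ E : Subgroup G, E ≤ Q → Nat.card E = q ^ d → E.Normal) :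
    ∀ y : G, (orderOf y).Coprime q → SSElem G q y → ∀ z ∈ Q, y * z = z * y := by
  have hq : q.Prime := Fact.out
  intro y hy hy'
  obtain ⟨r, hr⟩ := IsPGroup.iff_card.1 hQ
  have hdr : d + 1 ≤ r := by rw [hr] at hd; exact (Nat.pow_lt_pow_iff_right hq.one_lt).1 hd
  suffices hfix : ∀ z ∈ Q, y * z * y⁻¹ = z from fun z hz => mul_inv_eq_iff_eq_mul.1 (hfix z hz)
  refine Lib.LocalFusion.centralizes_of_fix_small hy Q hQ (by rw [normalizer_eq_top]; exact mem_top y) fun a ha hsmall => ?_
  obtain ⟨j, hj⟩ : ∃ j, orderOf a = q ^ j := by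
    obtain ⟨j, hj⟩ := IsPGroup.iff_orderOf.1 hQ ⟨a, ha⟩
    exact ⟨j, by rwa [Subgroup.orderOf_mk] at hj⟩
  have hjd : j ≤ d := by
    by_contra hjd
    push Not at hjd
    rcases hsmall with h1 | ⟨h2, h4⟩
    · have := orderOf_dvd_of_pow_eq_one h1
      rw [hj] at this
      have := (Nat.pow_dvd_pow_iff_le_right hq.one_lt).1 (this.trans (pow_one q).symm.dvd)
      omega
    · subst h2
      have h5 := orderOf_dvd_of_pow_eq_one h4
      rw [hj, show (4 : ℕ) = 2 ^ 2 from rfl] at h5
      have h6 := (Nat.pow_dvd_pow_iff_le_right Nat.one_lt_two).1 h5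
      have h7 := (hd2 rfl).resolve_left (by omega)
      refine hnc ?_
      have he : zpowers a = Q := by
        refine Subgroup.eq_of_le_of_card_ge (zpowers_le.2 ha) ?_
        rw [Nat.card_zpowers, hj, show j = 2 by omega, h7]
        norm_num
      subst he
      infer_instance
  have hz : Nat.card ((zpowers a).subgroupOf Q) = q ^ j := by
    rw [Nat.card_congr (subgroupOfEquivOfLe (zpowers_le.2 ha)).toEquiv, Nat.card_zpowers, hj]
  obtain ⟨E₀, hE₀, hzE⟩ := Sylow.exists_subgroup_card_pow_prime_le q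
    (hr ▸ pow_dvd_pow q (Nat.le_of_succ_le hdr) : q ^ d ∣ Nat.card Q) _ hz hjd
  have hEm : Nat.card (E₀.map Q.subtype) = q ^ d := by
    rw [card_map_of_injective Q.subtype_injective, hE₀]
  have haE : a ∈ E₀.map Q.subtype := ⟨⟨a, ha⟩, hzE (mem_zpowers a), rfl⟩
  haveI hEn := hnorm _ (map_subtype_le E₀) hEm
  by_cases hcyc : IsCyclic (E₀.map Q.subtype)
  · exact centralize_cyclic_normal _ (hQ.to_le (map_subtype_le _)) hy hy' a haE
  obtain ⟨U₀, hU₀, hEU⟩ := Sylow.exists_subgroup_card_pow_prime_le q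
    (hr ▸ pow_dvd_pow q hdr : q ^ (d + 1) ∣ Nat.card Q) E₀ hE₀ (Nat.le_succ d)
  set U := U₀.map Q.subtype with hUdef
  have hEUm : E₀.map Q.subtype ≤ U := map_mono hEU
  have hUp : IsPGroup q U := hQ.to_le (map_subtype_le _)
  have hUc : Nat.card U = q ^ (d + 1) := by rw [hUdef, card_map_of_injective Q.subtype_injective, hU₀]
  have hmax : ∀ M : Subgroup G, M ≤ U → IsCoatom (M.subgroupOf U) → M.Normal := by
    intro M hMU hM
    refine hnorm M (hMU.trans (map_subtype_le _)) ?_
    obtain ⟨-, hi⟩ := Lib.PGroupFrattini.coatom_index hUp hM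
    have h1 := card_mul_index (M.subgroupOf U)
    rw [hi, Nat.card_congr (subgroupOfEquivOfLe hMU).toEquiv, hUc, pow_succ] at h1
    exact Nat.eq_of_mul_eq_mul_right hq.pos h1
  have hUnc : ¬ IsCyclic U := fun hUc' => hcyc (isCyclic_of_injective (inclusion hEUm) (inclusion_injective hEUm))
  have hUn : U.Normal := by
    refine ⟨fun x hx g => ?_⟩
    have hne : (zpowers (⟨x, hx⟩ : U)) ≠ ⊤ := fun h => hUnc (isCyclic_iff_exists_zpowers_eq_top.2 ⟨_, h⟩)
    obtain ⟨K, hK, hle⟩ := (eq_top_or_exists_le_coatom (zpowers (⟨x, hx⟩ : U))).resolve_left hne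
    have hsub : (K.map U.subtype).subgroupOf U = K := by
      rw [subgroupOf, comap_map_eq_self_of_injective U.subtype_injective]
    exact map_subtype_le K ((hmax (K.map U.subtype) (map_subtype_le K) (hsub.symm ▸ hK)).conj_mem x
      ⟨_, hle (mem_zpowers _), rfl⟩ g)
  haveI := hUn
  -- powers of y are still admissible
  have hcent := Lib.Coprime.le_centralizer_of_frattini (A := zpowers y) (K := U)
    (by rw [normalizer_eq_top]; exact le_top) ?_ ?_
  · rw [← mem_centralizer_iff.1 (hcent (mem_zpowers y)) a (hEUm haE)]; group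
  · obtain ⟨k, hk⟩ := IsPGroup.iff_card.1 (hUp.to_subgroup (frattini U))
    rw [Nat.card_zpowers, hk]
    exact Nat.Coprime.pow_right k hy
  · intro b hb z hz
    refine commutator_mem_frattini_map (U.mul_mem (hUn.conj_mem z hz b) (U.inv_mem hz)) fun M hMU hM => ?_
    haveI := hmax M hMU hM
    obtain ⟨-, hi⟩ := Lib.PGroupFrattini.coatom_index hUp hM
    let f := QuotientGroup.mk' M
    haveI : (U.map f).Normal := Subgroup.Normal.map hUn f (QuotientGroup.mk'_surjective M)
    have hc : Nat.card (U.map f) = q := by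
      rw [← hi, show U.map f = (f.comp U.subtype).range by rw [MonoidHom.range_comp, range_subtype],
        ← index_ker]
      congr 1
      ext x
      simp [f, mem_subgroupOf, QuotientGroup.eq_one_iff]
    haveI : IsCyclic (U.map f) := isCyclic_of_prime_card hc
    have hyb := centralize_cyclic_normal (U.map f) (IsPGroup.of_card (n := 1) (by rw [hc, pow_one]))
      (hy.coprime_dvd_left (orderOf_map_dvd f y)) (ssElem_map f hy') (f z) (mem_map_of_mem f hz)
    obtain ⟨i, rfl⟩ := mem_zpowers_iff.1 hb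
    rw [← QuotientGroup.eq_one_iff]
    show f (y ^ i * z * (y ^ i)⁻¹ * z⁻¹) = 1
    have hcm : Commute (f y) (f z) := mul_inv_eq_iff_eq_mul.1 hyb
    simp only [map_mul, map_inv, map_zpow]
    rw [(hcm.zpow_left i).eq]
    group

end Cfsg.Agent.Lib.LocalP2
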