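import Cfsg.Agent.S0016
import Cfsg.Agent.S0519
import Cfsg.Agent.Lib.Thompson.RankTwo

/-! Faithful irreducible modules for `p`-groups that are not cyclic, quaternion, dihedral or semidihedral are imprimitive. -/

set_option autoImplicit false

namespace Cfsg.Agent.Lib.LocalP2.IrredImprimitive

open Subgroup

variable {G : Type*} [Group G] [Finite G] {p : ℕ}

theorem quaternion_comm {n : ℕ} (h : ∀ a b : QuaternionGroup (2 ^ n), a * b = b * a) :
    IsCyclic (QuaternionGroup (2 ^ n)) := by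
  rcases n with _ | n
  · exact QuaternionGroup.quaternionGroup_one_isCyclic
  exfalso
  have h1 := h (.a 1) (.xa 0)
  rw [QuaternionGroup.a_mul_xa, QuaternionGroup.xa_mul_a, QuaternionGroup.xa.injEq] at h1
  have h2 : ((2 : ℕ) : ZMod (2 * 2 ^ (n + 1))) = 0 := by
    push_cast
    linear_combination -h1
  have h3 := Nat.le_of_dvd two_pos ((CharP.cast_eq_zero_iff (ZMod (2 * 2 ^ (n + 1))) (2 * 2 ^ (n + 1)) 2).1 h2)
  have h4 : 1 < 2 ^ (n + 1) := Nat.one_lt_two_pow n.succ_ne_zero
  omega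

/-- A `p`-group with every abelian subgroup cyclic is cyclic or quaternion. -/
theorem cyclic_or_quaternion [hp : Fact p.Prime] (hG : IsPGroup p G)
    (h : ∀ B : Subgroup G, IsMulCommutative B → IsCyclic B) :
    IsCyclic G ∨ ∃ n : ℕ, Nonempty (G ≃* QuaternionGroup n) := by
  rcases subsingleton_or_nontrivial G with hs | hs
  · exact Or.inl inferInstance
  obtain ⟨z, -, hzc, hzo⟩ := Lib.Thompson.exists_central_order_p hG (N := (⊤ : Subgroup G))
    (bot_lt_top (α := Subgroup G)).ne'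
  have key : ∀ H : Subgroup G, Nat.card H = p → H = zpowers z := by
    intro H hH
    haveI : IsCyclic H := isCyclic_of_prime_card hH
    set C := H ⊔ zpowers z
    have hHC : H ≤ C := le_sup_left
    have hcomm : IsMulCommutative C := by
      rw [show C = closure ((H : Set G) ∪ {z}) by
        rw [Subgroup.closure_union, Subgroup.closure_eq, ← zpowers_eq_closure]]
      refine isMulCommutative_closure ?_
      rintro u (hu | hu) v (hv | hv)
      · obtain ⟨g, hg⟩ := IsCyclic.exists_generator (α := H)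
        obtain ⟨i, hi⟩ := hg ⟨u, hu⟩
        obtain ⟨j, hj⟩ := hg ⟨v, hv⟩
        have hi' : ((g ^ i : H) : G) = u := congrArg Subtype.val hi
        have hj' : ((g ^ j : H) : G) = v := congrArg Subtype.val hj
        rw [← hi', ← hj', ← coe_mul, ← coe_mul, ← zpow_add, ← zpow_add, add_comm]
      · rw [Set.mem_singleton_iff.1 hv]; exact mem_center_iff.1 hzc u
      · rw [Set.mem_singleton_iff.1 hu]; exact (mem_center_iff.1 hzc v).symm
      · rw [Set.mem_singleton_iff.1 hu, Set.mem_singleton_iff.1 hv]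
    obtain ⟨c, hc⟩ := (C.isCyclic_iff_exists_zpowers_eq_top).1 (h C hcomm)
    have hcC : c ∈ C := hc ▸ mem_zpowers c
    have hexp : ∀ u ∈ C, u ^ p = 1 := by
      intro u hu
      have : C ≤ closure ((H : Set G) ∪ {z}) := by
        rw [Subgroup.closure_union, Subgroup.closure_eq, ← zpowers_eq_closure]
      refine closure_induction (p := fun u _ => u ∈ C ∧ u ^ p = 1) ?_ ⟨one_mem _, one_pow _⟩ ?_ ?_
        (this hu) |>.2
      · rintro v (hv | hv)
        · refine ⟨hHC hv, ?_⟩
          rw [← hH]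
          exact congrArg Subtype.val (pow_card_eq_one' (G := H) (x := ⟨v, hv⟩))
        · rw [Set.mem_singleton_iff.1 hv]
          exact ⟨mem_sup_right (mem_zpowers z), by rw [← hzo]; exact pow_orderOf_eq_one z⟩
      · rintro a b - - ⟨ha, ha1⟩ ⟨hb, hb1⟩
        refine ⟨mul_mem ha hb, ?_⟩
        rw [(show Commute a b from congrArg Subtype.val
          (hcomm.is_comm.comm (⟨a, ha⟩ : C) ⟨b, hb⟩)).mul_pow, ha1, hb1, one_mul]
      · rintro a - ⟨ha, ha1⟩
        exact ⟨inv_mem ha, by rw [inv_pow, ha1, inv_one]⟩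
    have hcard : Nat.card C ≤ p := by
      rw [← hc, Nat.card_zpowers]
      exact orderOf_le_of_pow_eq_one hp.out.pos (hexp c hcC)
    have h1 := eq_of_le_of_card_ge hHC (hcard.trans hH.ge)
    have h2 := eq_of_le_of_card_ge (le_sup_right : zpowers z ≤ C)
      (hcard.trans (by rw [Nat.card_zpowers, hzo]))
    exact h1.trans h2.symm
  rcases S0016.result p hG (fun H K hH hK => (key H hH).trans (key K hK).symm) with h | ⟨-, n, h⟩
  · exact Or.inl h
  · exact Or.inr ⟨2 ^ n, h⟩

/-- A normal elementary abelian subgroup of order `p ^ 2`. -/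
theorem exists_normal_sq [hp : Fact p.Prime] (hG : IsPGroup p G) (hnc : ¬ IsCyclic G)
    (hnq : ∀ n : ℕ, ¬ Nonempty (G ≃* QuaternionGroup n))
    (hnd : ∀ n : ℕ, ¬ Nonempty (G ≃* DihedralGroup n)) (hnsd : ¬ Cfsg.IsQuasiDihedral G) :
    ∃ E : Subgroup G, E.Normal ∧ Nat.card E = p ^ 2 ∧ (∀ x ∈ E, ∀ y ∈ E, x * y = y * x) ∧
      ∀ x ∈ E, x ^ p = 1 := by
  obtain ⟨A, hAn, hAc, hA⟩ : ∃ A : Subgroup G, A.Normal ∧ IsMulCommutative A ∧ ¬ IsCyclic A := by
    by_contra! hall
    by_cases hm : ∃ B : Subgroup G, IsMulCommutative B ∧ ¬ IsCyclic B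
    · obtain ⟨-, ⟨n, h⟩ | ⟨n, -, h⟩ | h⟩ := S0519.result p hG hall hm
      exacts [hnq n h, hnd n h, hnsd h]
    · push Not at hm
      rcases cyclic_or_quaternion hG hm with h | ⟨n, h⟩
      exacts [hnc h, hnq n h]
  have hcm : ∀ x ∈ A, ∀ y ∈ A, x * y = y * x := fun x hx y hy =>
    congrArg Subtype.val (hAc.is_comm.comm (⟨x, hx⟩ : A) ⟨y, hy⟩)
  let O : Subgroup G :=
    { carrier := {x | x ∈ A ∧ x ^ p = 1}
      one_mem' := ⟨A.one_mem, one_pow _⟩
      mul_mem' := fun {a b} ha hb => ⟨A.mul_mem ha.1 hb.1, by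
        rw [(show Commute a b from hcm a ha.1 b hb.1).mul_pow, ha.2, hb.2, one_mul]⟩
      inv_mem' := fun {a} ha => ⟨A.inv_mem ha.1, by rw [inv_pow, ha.2, inv_one]⟩ }
  have hOn : O.Normal := ⟨fun x hx g => ⟨hAn.conj_mem x hx.1 g, by rw [conj_pow, hx.2, mul_one, mul_inv_cancel]⟩⟩
  have hAO : ∀ H : Subgroup A, Nat.card H = p → H.map A.subtype ≤ O := by
    rintro H hH _ ⟨x, hx, rfl⟩
    refine ⟨x.2, ?_⟩
    rw [← map_pow, show x ^ p = 1 from congrArg Subtype.val
      (hH ▸ pow_card_eq_one' (G := H) (x := ⟨x, hx⟩) : (⟨x, hx⟩ : H) ^ p = 1), map_one]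
  have hO : p ^ 2 ≤ Nat.card O := by
    by_contra hlt
    refine hA ((S0016.result p (hG.to_subgroup A) fun H K hH hK => ?_).elim id fun ⟨_, n, ⟨e⟩⟩ => ?_)
    · apply map_injective A.subtype_injective
      have hc : ∀ H : Subgroup A, Nat.card H = p → H.map A.subtype = O := fun H hH => by
        refine eq_of_le_of_card_ge (hAO H hH) ?_
        rw [card_map_of_injective A.subtype_injective, hH]
        obtain ⟨k, hk⟩ := (hG.to_subgroup O).exists_card_eq
        rw [hk] at hlt ⊢
        have hk2 : k < 2 := (Nat.pow_lt_pow_iff_right hp.out.one_lt).1 (not_le.1 hlt)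
        calc p ^ k ≤ p ^ 1 := Nat.pow_le_pow_right hp.out.pos (by omega)
          _ = p := pow_one p
      rw [hc H hH, hc K hK]
    · have := quaternion_comm (n := n) fun a b => e.symm.injective (by
        rw [map_mul, map_mul]; exact hAc.is_comm.comm _ _)
      exact e.isCyclic.2 this
  obtain ⟨E, hEO, hEn, hEc⟩ := Lib.Thompson.exists_normal_le_card hG (N := O) 2 hO
  exact ⟨E, hEn, hEc, fun x hx y hy => hcm x (hEO hx).1 y (hEO hy).1, fun x hx => (hEO hx).2⟩

end Cfsg.Agent.Lib.LocalP2.IrredImprimitive
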