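import Cfsg.Agent.Lib.LocalP2.Isolated
import Cfsg.Agent.Lib.LocalChar.YL
import Cfsg.Agent.Lib.FPF.Frobenius

/-! An isolated `p`-element centralising every `p'`-subgroup it normalises is central. -/

set_option autoImplicit false

namespace Cfsg.Agent.Lib.LocalP2

open Cfsg Cfsg.Agent.Lib.LocalChar
open scoped Pointwise

universe u

theorem central_of_isolated : ∀ (n : ℕ) (G : Type u) [Group G] [Finite G], Nat.card G = n →
    ∀ (p : ℕ) [Fact p.Prime] (x : G), (∃ k : ℕ, orderOf x = p ^ k) → IsIsolated x →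
      (∀ H : Subgroup G, (Nat.card H).Coprime p → (∀ h ∈ H, x * h * x⁻¹ ∈ H) →
        ∀ h ∈ H, x * h = h * x) → x ∈ Subgroup.center G := by
  intro n
  induction n using Nat.strong_induction_on with
  | _ n ih => ?_
  intro G _ _ hn p _ x hxp hiso hb
  set M := Subgroup.centralizer ({x} : Set G) with hMdef
  by_contra hnc
  have hxM : x ∈ M := Subgroup.mem_centralizer_singleton_iff.2 rfl
  have hprop : ∀ U : Subgroup G, U ≠ ⊤ → x ∈ U → U ≤ M := by
    intro U hU hxU u hu
    have hlt : Nat.card U < n := hn ▸ (by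
      by_contra hle
      exact hU (Subgroup.eq_top_of_card_eq U (le_antisymm (Subgroup.card_le_card_group U) (not_lt.1 hle))))
    have hc := ih _ hlt U rfl p ⟨x, hxU⟩ (by simpa only [Subgroup.orderOf_mk] using hxp)
      (fun g hg => Subtype.ext (hiso g (congrArg Subtype.val hg.eq)))
      (fun H hH hxH h hh => by
        refine Subtype.ext (hb (H.map U.subtype) ?_ ?_ h ⟨h, hh, rfl⟩)
        · rwa [Subgroup.card_map_of_injective U.subtype_injective]
        · rintro _ ⟨v, hv, rfl⟩; exact ⟨_, hxH v hv, rfl⟩)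
    exact Subgroup.mem_centralizer_singleton_iff.2
      (congrArg Subtype.val (Subgroup.mem_center_iff.1 hc ⟨u, hu⟩))
  set Z := Subgroup.center G with hZ
  have hZM : Z ≤ M := fun z hz =>
    Subgroup.mem_centralizer_singleton_iff.2 (Subgroup.mem_center_iff.1 hz x).symm
  have hMtop : M ≠ ⊤ := fun h => hnc (Subgroup.mem_center_iff.2 fun g =>
    Subgroup.mem_centralizer_singleton_iff.1 (h.ge (Subgroup.mem_top g)))
  have hTI : ∀ g : G, g ∉ M → ∀ y ∈ M, g⁻¹ * y * g ∈ M → y ∈ Z := by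
    intro g hg y hy hy'
    by_contra hyZ
    have hle := hprop (Subgroup.centralizer ({y} : Set G))
      (fun h => hyZ (Subgroup.mem_center_iff.2 fun u =>
        Subgroup.mem_centralizer_singleton_iff.1 (h.ge (Subgroup.mem_top u))))
      (Subgroup.mem_centralizer_singleton_iff.2 (Subgroup.mem_centralizer_singleton_iff.1 hy).symm)
    have h1 : g * x * g⁻¹ ∈ Subgroup.centralizer ({y} : Set G) := by
      refine Subgroup.mem_centralizer_singleton_iff.2 ?_
      have h2 : Commute x (g⁻¹ * y * g) := (Subgroup.mem_centralizer_singleton_iff.1 hy').symm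
      have h3 := h2.map (MulAut.conj g).toMonoidHom
      simp only [MulEquiv.coe_toMonoidHom, MulAut.conj_apply] at h3
      rw [show g * (g⁻¹ * y * g) * g⁻¹ = y by group] at h3
      exact h3.eq
    have h4 := hiso g (Subgroup.mem_centralizer_singleton_iff.1 (hle h1)).symm
    exact hg (Subgroup.mem_centralizer_singleton_iff.2 (mul_inv_eq_iff_eq_mul.1 h4))
  set f := QuotientGroup.mk' Z
  set Mb := M.map f with hMb
  have hcomap : Mb.comap f = M := by
    rw [hMb, Subgroup.comap_map_eq_self]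
    rw [QuotientGroup.ker_mk']; exact hZM
  have hFC : IsFrobeniusComplement Mb := by
    refine ⟨fun h => hnc ?_, fun h => hMtop ?_, fun g hg => ?_⟩
    · have h1 : f x ∈ Mb := ⟨x, hxM, rfl⟩
      rw [h, Subgroup.mem_bot] at h1
      exact (QuotientGroup.eq_one_iff x).1 h1
    · rw [← hcomap, h, Subgroup.comap_top]
    · obtain ⟨g, rfl⟩ := QuotientGroup.mk'_surjective Z g
      rw [eq_bot_iff]
      rintro y ⟨⟨a, ha, rfl⟩, hy⟩
      have hy' : (f g)⁻¹ * f a * f g ∈ Mb := by
        have := Subgroup.mem_pointwise_smul_iff_inv_smul_mem.1 hy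
        simpa [mul_assoc, MulAut.smul_def, f] using this
      rw [← map_inv, ← map_mul, ← map_mul, ← Subgroup.mem_comap, hcomap] at hy'
      exact Subgroup.mem_bot.2 ((QuotientGroup.eq_one_iff a).2
        (hTI g (fun h => hg ⟨g, h, rfl⟩) a ha hy'))
  obtain ⟨Nb, -, hNn, hcompl⟩ := Lib.FPF.exists_frobenius_kernel hFC
  set K := Nb.comap f with hK
  haveI hKn : K.Normal := hNn.comap f
  have hZK : Z ≤ K := fun z hz => by
    rw [hK, Subgroup.mem_comap, show f z = 1 from (QuotientGroup.eq_one_iff z).2 hz]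
    exact Subgroup.one_mem _
  obtain ⟨P, hP⟩ := (isPGroup_zpowers_of_orderOf hxp).exists_le_sylow
  have hPM : (P : Subgroup G) ≤ M := fun r hr =>
    Subgroup.mem_centralizer_singleton_iff.2 (mul_inv_eq_iff_eq_mul.1
      (isolated_comm_of_pGroup hiso P.isPGroup' (hP (Subgroup.mem_zpowers x)) hr))
  have hidx : (Nat.card Nb).Coprime p := by
    rw [← hcompl.index_eq_card,
      ← Subgroup.index_comap_of_surjective Mb (QuotientGroup.mk'_surjective Z), hcomap]
    exact Nat.Coprime.coprime_dvd_left (Subgroup.index_dvd_of_le hPM) (coprime_of_not_dvd P.not_dvd_index)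
  have hKZ : ∀ a ∈ K, a ^ Nat.card Nb ∈ Z := fun a ha => by
    rw [← QuotientGroup.eq_one_iff, ← QuotientGroup.mk'_apply, map_pow]
    have := pow_card_eq_one' (x := (⟨f a, ha⟩ : Nb))
    exact congrArg Subtype.val this
  have hpZ : ∀ a ∈ K, (∃ j : ℕ, a ^ p ^ j = 1) → a ∈ Z := fun a ha ⟨j, hj⟩ =>
    mem_of_pow_coprime hidx ⟨j, by rw [hj]; exact Z.one_mem⟩ (hKZ a ha)
  obtain ⟨P₀⟩ := (inferInstance : Nonempty (Sylow p ↥K))
  have hP₀ : Subgroup.normalizer ((P₀ : Subgroup ↥K) : Set ↥K) ≤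
      Subgroup.centralizer ((P₀ : Subgroup ↥K) : Set ↥K) := fun c _ => by
    refine Subgroup.mem_centralizer_iff.2 fun z hz => Subtype.ext ?_
    obtain ⟨j, hj⟩ := P₀.isPGroup' ⟨z, hz⟩
    exact (Subgroup.mem_center_iff.1 (hpZ z z.2 ⟨j, by
      simpa using congrArg (fun u : ↥(P₀ : Subgroup ↥K) => ((u : ↥K) : G)) hj⟩) c).symm
  have hres : (Nat.card ↥(resOf p K)).Coprime p := by
    have h1 : resOf p K ≤ (MonoidHom.transferSylow P₀ hP₀).ker.map K.subtype :=
      resOf_le_iff.2 fun a ha ho => ⟨⟨a, ha⟩, by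
        rw [SetLike.mem_coe, MonoidHom.mem_ker]
        refine Subtype.ext (eq_one_of_isPGroup_of_coprime P₀.isPGroup' (SetLike.coe_mem _) ?_)
        rw [Subgroup.orderOf_coe]
        exact Nat.Coprime.coprime_dvd_left (orderOf_map_dvd _ _) (by rwa [Subgroup.orderOf_mk]), rfl⟩
    refine Nat.Coprime.coprime_dvd_left (Subgroup.card_dvd_of_le h1) ?_
    rw [Subgroup.card_map_of_injective K.subtype_injective]
    exact ((Nat.Prime.coprime_iff_not_dvd Fact.out).2
      (MonoidHom.not_dvd_card_ker_transferSylow P₀ hP₀)).symm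
  have hresM : resOf p K ≤ M := fun a ha => Subgroup.mem_centralizer_singleton_iff.2
    (hb _ hres (fun h hh => conj_mem_of_nz
      (nz_le_nz_resOf K (by rw [Subgroup.normalizer_eq_top]; exact Subgroup.mem_top x)) hh) a ha).symm
  have hKM : K ≤ M := by
    intro a ha
    obtain ⟨u, v, hu, hv, rfl, ⟨k, hk⟩, hvo⟩ := exists_ppart (p := p) a
    have hz : Subgroup.zpowers (u * v) ≤ K := Subgroup.zpowers_le.2 ha
    exact M.mul_mem (hZM (hpZ u (hz hu) ⟨k, hk ▸ pow_orderOf_eq_one u⟩))
      (hresM (mem_resOf (hz hv) hvo))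
  have hle : Nb ≤ Mb := by
    intro y hy
    obtain ⟨a, rfl⟩ := QuotientGroup.mk'_surjective Z y
    exact ⟨a, hKM hy, rfl⟩
  refine hFC.2.1 (top_le_iff.1 ?_)
  rw [← hcompl.sup_eq_top]
  exact sup_le hle le_rfl

end Cfsg.Agent.Lib.LocalP2
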