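import Cfsg.Agent.S0120
import Cfsg.Agent.Lib.Transfer.Fusion

/-! Frobenius' criterion in terms of elements of order p (odd p) (helper19). -/

namespace Cfsg.Agent.Lib.LocalP2

open Subgroup

/-- For odd `p`: if every normalizer of a `p`-subgroup fixes its elements of order dividing `p`, the group has a
normal `p`-complement. -/
theorem hasNormalPComplement_of_omega_fixed {G : Type*} [Group G] [Finite G] {p : ℕ} [Fact p.Prime] (hp : p ≠ 2)
    (h : ∀ R : Subgroup G, IsPGroup p R → ∀ g ∈ normalizer (R : Set G), (orderOf g).Coprime p →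
      ∀ r ∈ R, r ^ p = 1 → g * r * g⁻¹ = r) : HasNormalPComplement p G := by
  refine Lib.Transfer.frobenius_criterion fun R hR g hg hgo => ?_
  have ha : Nat.Coprime (orderOf (normalizerMonoidHom R ⟨g, hg⟩)) p := by
    refine hgo.coprime_dvd_left ?_
    have h1 := orderOf_map_dvd (normalizerMonoidHom R) ⟨g, hg⟩
    rwa [orderOf_mk] at h1
  have ha1 : normalizerMonoidHom R ⟨g, hg⟩ = 1 := by
    refine S0120.result hp hR _ ha fun x hx => Subtype.ext ?_
    have := h R hR g hg hgo x x.2 (by simpa using congrArg Subtype.val hx)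
    simpa using this
  rw [mem_centralizer_iff]
  intro x hx
  have h2 := congrArg Subtype.val (DFunLike.congr_fun ha1 (⟨x, hx⟩ : R))
  simp only [MulAut.one_apply] at h2
  have h3 : g * x * g⁻¹ = x := by simpa using h2
  exact (mul_inv_eq_iff_eq_mul.1 h3).symm

end Cfsg.Agent.Lib.LocalP2
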