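import Mathlib

/-! Quadratic abelian subgroups of a unipotent linear group: the limit along a quadratic element. -/

set_option autoImplicit false

open Polynomial

noncomputable section

namespace Cfsg.Agent.Lib.LocalP2.QuadLimit

variable {R : Type*} [Ring R]

/-- Polynomials with coefficients in `Y`. -/
def polys (Y : AddSubgroup R) : AddSubgroup R[X] where
  carrier := {w | ∀ n, w.coeff n ∈ Y}
  zero_mem' := fun n => by simp
  add_mem' := fun ha hb n => by simpa using Y.add_mem (ha n) (hb n)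
  neg_mem' := fun ha n => by simpa using Y.neg_mem (ha n)

/-- Multiplication by the variable. -/
noncomputable def shiftHom : R[X] →+ R[X] := AddMonoidHom.mulLeft X

structure Fam (R : Type*) [Ring R] where
  ψ : R[X] →+ R[X]
  χ : R[X] →+ R[X]
  N : ℕ
  ψ_X : ∀ w, ψ (X * w) = X * ψ w
  χ_X : ∀ w, χ (X * w) = X * χ w
  χψ : ∀ w, χ (ψ w) = X ^ N * w

namespace Fam

variable (F : Fam R)

theorem ψ_pow (n : ℕ) (w : R[X]) : F.ψ (X ^ n * w) = X ^ n * F.ψ w := by
  induction n with
  | zero => simp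
  | succ n ih => rw [pow_succ', mul_assoc, F.ψ_X, ih, ← mul_assoc]

theorem χ_pow (n : ℕ) (w : R[X]) : F.χ (X ^ n * w) = X ^ n * F.χ w := by
  induction n with
  | zero => simp
  | succ n ih => rw [pow_succ', mul_assoc, F.χ_X, ih, ← mul_assoc]

theorem X_cancel {n : ℕ} {v w : R[X]} (h : X ^ n * v = X ^ n * w) : v = w := by
  ext k
  have := congrArg (fun q => q.coeff (k + n)) h
  simpa [coeff_X_pow_mul] using this

theorem ψ_inj {v w : R[X]} (h : F.ψ v = F.ψ w) : v = w :=
  X_cancel (n := F.N) (by rw [← F.χψ, ← F.χψ, h])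

/-- The saturated family. -/
def sat (Y : AddSubgroup R) : AddSubgroup R[X] :=
  ((polys Y).map F.ψ).comap (AddMonoidHom.mulLeft (X ^ F.N))

theorem mem_sat {Y : AddSubgroup R} {v : R[X]} :
    v ∈ F.sat Y ↔ ∃ w ∈ polys Y, F.ψ w = X ^ F.N * v := Iff.rfl

/-- The limit. -/
noncomputable def lim (Y : AddSubgroup R) : AddSubgroup R := (F.sat Y).map (lcoeff R 0).toAddMonoidHom

theorem mem_lim {Y : AddSubgroup R} {u : R} : u ∈ F.lim Y ↔ ∃ v ∈ F.sat Y, v.coeff 0 = u := Iff.rfl

theorem lim_mono {Y Y' : AddSubgroup R} (h : Y ≤ Y') : F.lim Y ≤ F.lim Y' := by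
  rintro u ⟨v, ⟨w, hw, e⟩, rfl⟩
  exact ⟨v, ⟨w, fun n => h (hw n), e⟩, rfl⟩

theorem sat_of_X_mul {Y : AddSubgroup R} {v : R[X]} (h : X * v ∈ F.sat Y) : v ∈ F.sat Y := by
  obtain ⟨w, hw, e⟩ := F.mem_sat.1 h
  have e1 : X ^ F.N * w = X ^ F.N * (X * F.χ v) := by
    rw [← F.χψ, e, F.χ_pow, F.χ_X]
  have e2 := X_cancel e1
  refine F.mem_sat.2 ⟨F.χ v, fun n => ?_, ?_⟩
  · have := hw (n + 1)
    rwa [e2, coeff_X_mul] at this
  · apply X_cancel (n := 1)
    rw [pow_one, ← F.ψ_X, ← e2, e, ← mul_assoc, ← mul_assoc]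
    congr 1
    first | exact (Commute.self_pow (X : R[X]) _).eq | exact (Commute.self_pow (X : R[X]) _).eq.symm

set_option maxHeartbeats 800000 in
theorem card_lim (Y : AddSubgroup R) [Finite Y] : Nat.card (F.lim Y) = Nat.card Y := by
  set P := polys Y
  set L := P.map F.ψ
  set S := F.sat Y
  set σ : R[X] →+ R[X] := shiftHom
  have hσ : Function.Injective σ := fun v w h => X_cancel (n := 1) (by simpa [σ, shiftHom] using h)
  have hXP : ∀ w ∈ P, X * w ∈ P := fun w hw n => by
    cases n with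
    | zero => simpa using Y.zero_mem
    | succ n => rw [coeff_X_mul]; exact hw n
  have hLS : L ≤ S := by
    rintro v ⟨w, hw, rfl⟩
    refine F.mem_sat.2 ⟨X ^ F.N * w, ?_, F.ψ_pow _ _⟩
    have : ∀ n, X ^ n * w ∈ P := fun n => by
      induction n with
      | zero => simpa using hw
      | succ n ih => rw [pow_succ', mul_assoc]; exact hXP _ ih
    exact this _
  have hσL : L.map σ ≤ L := by
    rintro v ⟨u, ⟨w, hw, rfl⟩, rfl⟩
    exact ⟨X * w, hXP w hw, by simp [σ, shiftHom, F.ψ_X]⟩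
  have hσS : S.map σ ≤ S := by
    rintro v ⟨u, hu, rfl⟩
    obtain ⟨w, hw, e⟩ := F.mem_sat.1 hu
    refine F.mem_sat.2 ⟨X * w, hXP w hw, ?_⟩
    simp only [σ, shiftHom, AddMonoidHom.coe_mulLeft, F.ψ_X, e, ← mul_assoc]
    congr 1
    first | exact (Commute.self_pow (X : R[X]) _).eq | exact (Commute.self_pow (X : R[X]) _).eq.symm
  -- the index of `σ L` in `L`
  have hcL : (L.map σ).relIndex L = Nat.card Y := by
    let f : P →+ R := (lcoeff R 0).toAddMonoidHom.comp P.subtype
    have hrange : f.range = Y := by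
      ext y
      constructor
      · rintro ⟨w, rfl⟩; exact w.2 0
      · intro hy
        refine ⟨⟨C y, fun n => ?_⟩, by simp [f]⟩
        rw [coeff_C]; split <;> simp [hy]
    have hker : f.ker = (P.map σ).addSubgroupOf P := by
      ext ⟨w, hw⟩
      rw [AddMonoidHom.mem_ker, AddSubgroup.mem_addSubgroupOf]
      constructor
      · intro h
        refine ⟨w.divX, fun n => by rw [coeff_divX]; exact hw _, ?_⟩
        have h0 : w.coeff 0 = 0 := h
        show X * w.divX = w
        conv_rhs => rw [← X_mul_divX_add w, h0, map_zero, add_zero]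
      · rintro ⟨u, -, e⟩
        show w.coeff 0 = 0
        have e' : X * u = w := e
        rw [← e', mul_coeff_zero, coeff_X_zero, zero_mul]
    have h1 : (P.map σ).relIndex P = Nat.card Y := by
      show ((P.map σ).addSubgroupOf P).index = _
      rw [← hker, AddSubgroup.index_ker, hrange]
    rw [← h1, ← AddSubgroup.relIndex_map_map_of_injective (P.map σ) P (f := F.ψ) fun v w h => F.ψ_inj h,
      AddSubgroup.map_map]
    congr 1
    rw [show σ.comp F.ψ = F.ψ.comp σ from AddMonoidHom.ext fun w => by simp [σ, shiftHom, F.ψ_X],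
      ← AddSubgroup.map_map]
  -- `L` has finite index in `S`
  have hfin : L.relIndex S ≠ 0 := by
    classical
    let wit : S → R[X] := fun v => (F.mem_sat.1 v.2).choose
    have hwit : ∀ v : S, wit v ∈ P ∧ F.ψ (wit v) = X ^ F.N * (v : R[X]) :=
      fun v => (F.mem_sat.1 v.2).choose_spec
    let g : S ⧸ L.addSubgroupOf S → (Fin F.N → Y) := fun q i =>
      ⟨(wit q.out).coeff i, (hwit q.out).1 i⟩
    have hg : Function.Injective g := by
      intro q r h
      rw [← q.out_eq, ← r.out_eq]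
      refine QuotientAddGroup.eq.2 (AddSubgroup.mem_addSubgroupOf.2 ?_)
      set d := -wit q.out + wit r.out with hd
      have hdP : d ∈ P := P.add_mem (P.neg_mem (hwit _).1) (hwit _).1
      have hdiv : X ^ F.N ∣ d := by
        rw [X_pow_dvd_iff]
        intro k hk
        have hk' : (wit q.out).coeff k = (wit r.out).coeff k :=
          congrArg Subtype.val (congrFun h ⟨k, hk⟩)
        simp [hd, hk']
      obtain ⟨d', hd'⟩ := hdiv
      have hd'P : d' ∈ P := fun n => by
        have := hdP (n + F.N)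
        rwa [hd', coeff_X_pow_mul] at this
      refine ⟨d', hd'P, X_cancel (n := F.N) ?_⟩
      rw [← F.ψ_pow, ← hd', hd, map_add, map_neg, (hwit _).2, (hwit _).2]
      simp [mul_add]
    have : Finite (S ⧸ L.addSubgroupOf S) := Finite.of_injective g hg
    exact AddSubgroup.index_ne_zero_of_finite
  -- conclusion
  have h2 : (S.map σ).relIndex S = Nat.card Y := by
    have a := AddSubgroup.relIndex_mul_relIndex (L.map σ) L S hσL hLS
    have b := AddSubgroup.relIndex_mul_relIndex (L.map σ) (S.map σ) S (AddSubgroup.map_mono hLS) hσS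
    rw [AddSubgroup.relIndex_map_map_of_injective L S (f := σ) hσ] at b
    rw [hcL] at a
    rw [← a, mul_comm (Nat.card Y)] at b
    exact Nat.eq_of_mul_eq_mul_left (Nat.pos_of_ne_zero hfin) b
  let f : S →+ R := (lcoeff R 0).toAddMonoidHom.comp S.subtype
  have hrange : f.range = F.lim Y := by
    ext u
    constructor
    · rintro ⟨v, rfl⟩; exact ⟨v, v.2, rfl⟩
    · rintro ⟨v, hv, rfl⟩; exact ⟨⟨v, hv⟩, rfl⟩
  have hker : f.ker = (S.map σ).addSubgroupOf S := by
    ext ⟨v, hv⟩
    rw [AddMonoidHom.mem_ker, AddSubgroup.mem_addSubgroupOf]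
    constructor
    · intro h
      have h0 : v.coeff 0 = 0 := h
      have e : X * v.divX = v := by
        conv_rhs => rw [← X_mul_divX_add v, h0, map_zero, add_zero]
      exact ⟨v.divX, F.sat_of_X_mul (e.symm ▸ hv), e⟩
    · rintro ⟨u, -, e⟩
      show v.coeff 0 = 0
      have e' : X * u = v := e
      rw [← e', mul_coeff_zero, coeff_X_zero, zero_mul]
  rw [← hrange, ← AddSubgroup.index_ker, hker]
  exact h2

end Fam

variable {z : R} (hz : z * z = 0)

/-- `x ↦ (s + z) x (s - z)`. -/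
noncomputable def two (hz : z * z = 0) : Fam R where
  ψ := (AddMonoidHom.mulLeft (X + C z)).comp (AddMonoidHom.mulRight (X - C z))
  χ := (AddMonoidHom.mulLeft (X - C z)).comp (AddMonoidHom.mulRight (X + C z))
  N := 4
  ψ_X := fun w => by
    simp only [AddMonoidHom.coe_comp, Function.comp_apply, AddMonoidHom.coe_mulLeft,
      AddMonoidHom.mulRight_apply]
    rw [← mul_assoc, ← mul_assoc, ← (commute_X (X + C z)).eq]
    simp only [mul_assoc]
  χ_X := fun w => by
    simp only [AddMonoidHom.coe_comp, Function.comp_apply, AddMonoidHom.coe_mulLeft,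
      AddMonoidHom.mulRight_apply]
    rw [← mul_assoc, ← mul_assoc, ← (commute_X (X - C z)).eq]
    simp only [mul_assoc]
  χψ := fun w => by
    simp only [AddMonoidHom.coe_comp, Function.comp_apply, AddMonoidHom.coe_mulLeft,
      AddMonoidHom.mulRight_apply]
    have e1 : (X - C z) * (X + C z) = X ^ 2 := by
      rw [sub_mul, mul_add, mul_add, ← C_mul, hz, map_zero, (commute_X (C z)).eq]; abel_nf; simp [sq]
    calc (X - C z) * ((X + C z) * (w * (X - C z)) * (X + C z))
        = (X - C z) * (X + C z) * (w * ((X - C z) * (X + C z))) := by simp only [mul_assoc]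
      _ = X ^ 4 * w := by
          rw [e1, ← (commute_X_pow w 2).eq, ← mul_assoc, ← pow_add]

theorem two_ψ (hz : z * z = 0) (w : R[X]) : (two hz).ψ w = (X + C z) * (w * (X - C z)) := rfl

/-- `c ↦ (s + z) c`. -/
noncomputable def one (hz : z * z = 0) : Fam R where
  ψ := AddMonoidHom.mulLeft (X + C z)
  χ := AddMonoidHom.mulLeft (X - C z)
  N := 2
  ψ_X := fun w => by
    simp only [AddMonoidHom.coe_mulLeft]
    rw [← mul_assoc, ← (commute_X (X + C z)).eq, mul_assoc]
  χ_X := fun w => by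
    simp only [AddMonoidHom.coe_mulLeft]
    rw [← mul_assoc, ← (commute_X (X - C z)).eq, mul_assoc]
  χψ := fun w => by
    simp only [AddMonoidHom.coe_mulLeft]
    have e1 : (X - C z) * (X + C z) = X ^ 2 := by
      rw [sub_mul, mul_add, mul_add, ← C_mul, hz, map_zero, (commute_X (C z)).eq]; abel_nf; simp [sq]
    rw [← mul_assoc, e1]

theorem polys_mul_eq_zero {Y Y' : AddSubgroup R} (h : ∀ x ∈ Y, ∀ y ∈ Y', x * y = 0)
    {v w : R[X]} (hv : v ∈ polys Y) (hw : w ∈ polys Y') : v * w = 0 := by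
  ext n
  rw [coeff_mul, coeff_zero]
  exact Finset.sum_eq_zero fun ij _ => h _ (hv ij.1) _ (hw ij.2)

theorem two_mul_eq_zero (hz : z * z = 0) {Y : AddSubgroup R} (h : ∀ x ∈ Y, ∀ y ∈ Y, x * y = 0)
    {u u' : R} (hu : u ∈ (two hz).lim Y) (hu' : u' ∈ (two hz).lim Y) : u * u' = 0 := by
  obtain ⟨v, ⟨w, hw, e⟩, rfl⟩ := hu
  obtain ⟨v', ⟨w', hw', e'⟩, rfl⟩ := hu'
  have e1 : (X - C z) * (X + C z) = X ^ 2 := by
    rw [sub_mul, mul_add, mul_add, ← C_mul, hz, map_zero, (commute_X (C z)).eq]; abel_nf; simp [sq]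
  have h0 : X ^ 8 * (v * v') = 0 := by
    calc X ^ 8 * (v * v') = (X ^ 4 * v) * (X ^ 4 * v') := by
          rw [mul_assoc (X ^ 4) v, ← mul_assoc v, ← (commute_X_pow v 4).eq, mul_assoc (X ^ 4) v,
            ← mul_assoc (X ^ 4) (X ^ 4), ← pow_add]
      _ = (two hz).ψ w * (two hz).ψ w' := congrArg₂ (· * ·) e.symm e'.symm
      _ = (X + C z) * (w * ((X - C z) * (X + C z)) * (w' * (X - C z))) := by
          simp only [two_ψ, mul_assoc]
      _ = 0 := by
          rw [e1, ← (commute_X_pow w 2).eq, mul_assoc (X ^ 2) w, ← mul_assoc w w',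
            polys_mul_eq_zero h hw hw', zero_mul, mul_zero, mul_zero]
  have h1 : v * v' = 0 := Fam.X_cancel (n := 8) (by rw [h0, mul_zero])
  show v.coeff 0 * v'.coeff 0 = 0
  rw [← mul_coeff_zero, h1, coeff_zero]

theorem two_one_mul_eq_zero (hz : z * z = 0) {Y Y' : AddSubgroup R} (h : ∀ x ∈ Y, ∀ y ∈ Y', x * y = 0)
    {u c : R} (hu : u ∈ (two hz).lim Y) (hc : c ∈ (one hz).lim Y') : u * c = 0 := by
  obtain ⟨v, ⟨w, hw, e⟩, rfl⟩ := hu
  obtain ⟨v', ⟨w', hw', e'⟩, rfl⟩ := hc
  have e1 : (X - C z) * (X + C z) = X ^ 2 := by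
    rw [sub_mul, mul_add, mul_add, ← C_mul, hz, map_zero, (commute_X (C z)).eq]; abel_nf; simp [sq]
  have h0 : X ^ 6 * (v * v') = 0 := by
    calc X ^ 6 * (v * v') = (X ^ 4 * v) * (X ^ 2 * v') := by
          rw [mul_assoc (X ^ 4) v, ← mul_assoc v, ← (commute_X_pow v 2).eq, mul_assoc (X ^ 2) v,
            ← mul_assoc (X ^ 4) (X ^ 2), ← pow_add]
      _ = (two hz).ψ w * (one hz).ψ w' := congrArg₂ (· * ·) e.symm e'.symm
      _ = (X + C z) * (w * ((X - C z) * (X + C z)) * w') := by
          simp only [two_ψ, one, AddMonoidHom.coe_mulLeft, mul_assoc]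
      _ = 0 := by
          rw [e1, ← (commute_X_pow w 2).eq, mul_assoc (X ^ 2) w,
            polys_mul_eq_zero h hw hw', mul_zero, mul_zero]
  have h1 : v * v' = 0 := Fam.X_cancel (n := 6) (by rw [h0, mul_zero])
  show v.coeff 0 * v'.coeff 0 = 0
  rw [← mul_coeff_zero, h1, coeff_zero]

/-- The shape of the elements of the limit. -/
theorem two_lim_form (hz : z * z = 0) {Y : AddSubgroup R} {u : R} (hu : u ∈ (two hz).lim Y) :
    ∃ a ∈ Y, ∃ b ∈ Y, ∃ c ∈ Y, u = a + (z * b - b * z) - z * c * z := by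
  obtain ⟨v, ⟨w, hw, e⟩, rfl⟩ := hu
  refine ⟨w.coeff 2, hw 2, w.coeff 3, hw 3, w.coeff 4, hw 4, ?_⟩
  have e4 := congrArg (fun q => q.coeff 4) e
  simp only [two_ψ, two] at e4
  have hr : ∀ k, (w * (X - C z)).coeff (k + 1) = w.coeff k - w.coeff (k + 1) * z := fun k => by
    simp [mul_sub, coeff_mul_X, coeff_mul_C]
  have hl : ((X + C z) * (w * (X - C z))).coeff (3 + 1) =
      (w * (X - C z)).coeff 3 + z * (w * (X - C z)).coeff (3 + 1) := by
    simp [add_mul, coeff_X_mul, coeff_C_mul]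
  have hr' : (v : R[X]).coeff 0 = (X ^ 4 * v).coeff (0 + 4) := (coeff_X_pow_mul _ _ _).symm
  show v.coeff 0 = _
  rw [hr']
  show (X ^ 4 * v).coeff 4 = _
  have e4' : ((X + C z) * (w * (X - C z))).coeff 4 = (X ^ 4 * v).coeff 4 := e4
  rw [← e4', hl, hr 2, hr 3]
  noncomm_ring

theorem C_mem_sat_of_fixed (hz : z * z = 0) {Y : AddSubgroup R} {y : R} (hy : y ∈ Y)
    (h1 : z * y - y * z ∈ Y) (h2 : z * y * z ∈ Y) : (C y : R[X]) ∈ (two hz).sat Y := by
  refine ⟨(X - C z) * (C y * (X + C z)), fun n => ?_, ?_⟩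
  · have e : (X - C z) * (C y * (X + C z)) =
        X ^ 2 * C y + X * C (-(z * y - y * z)) + C (-(z * y * z)) := by
      have c1 : ∀ r : R, C r * (X : R[X]) = X * C r := fun r => (commute_X (C r)).eq.symm
      have c2 : ∀ (r : R) (q : R[X]), C r * (X * q) = X * (C r * q) := fun r q => by
        rw [← mul_assoc, c1, mul_assoc]
      simp only [map_neg, map_sub, map_mul, sub_mul, mul_add, mul_neg, mul_sub, sq, c1, c2, mul_assoc]
      abel
    rw [e, coeff_add, coeff_add]
    refine Y.add_mem (Y.add_mem ?_ ?_) ?_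
    · rw [coeff_X_pow_mul']; split
      · rw [coeff_C]; split <;> simp [hy]
      · exact Y.zero_mem
    · rcases n with - | n
      · simp
      · rw [coeff_X_mul, coeff_C]; split
        · exact Y.neg_mem h1
        · exact Y.zero_mem
    · rw [coeff_C]; split
      · exact Y.neg_mem h2
      · exact Y.zero_mem
  · show (two hz).ψ _ = X ^ (two hz).N * C y
    have e1 : (X + C z) * (X - C z) = X ^ 2 := by
      rw [add_mul, mul_sub, mul_sub, ← C_mul, hz, map_zero, (commute_X (C z)).eq]; abel_nf; simp [sq]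
    have e2 : (X + C z) * (X - C z) = (X : R[X]) ^ 2 := e1
    have e3 : (X - C z) * (X + C z) = (X : R[X]) ^ 2 := by
      rw [sub_mul, mul_add, mul_add, ← C_mul, hz, map_zero, (commute_X (C z)).eq]; abel_nf; simp [sq]
    calc (two hz).ψ ((X - C z) * (C y * (X + C z)))
        = (X + C z) * (X - C z) * (C y * ((X + C z) * (X - C z))) := by
          simp only [two_ψ, mul_assoc]
      _ = X ^ 4 * C y := by rw [e2, ← (commute_X_pow (C y) 2).eq, ← mul_assoc, ← pow_add]

theorem mem_two_lim_of_fixed (hz : z * z = 0) {Y : AddSubgroup R} {y : R} (hy : y ∈ Y)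
    (h1 : z * y - y * z ∈ Y) (h2 : z * y * z ∈ Y) : y ∈ (two hz).lim Y :=
  ⟨C y, C_mem_sat_of_fixed hz hy h1 h2, by simp⟩

/-- The top coefficient `- z x z`, and the middle one once the top one is fixed. -/
theorem mem_two_lim_lead (hz : z * z = 0) {Y : AddSubgroup R} {x : R} (hx : x ∈ Y) :
    -(z * x * z) ∈ (two hz).lim Y ∧
      ((C (-(z * x * z)) : R[X]) ∈ (two hz).sat Y → z * x - x * z ∈ (two hz).lim Y) := by
  have hsat : (two hz).ψ (C x) ∈ (two hz).sat Y :=
    (two hz).mem_sat.2 ⟨X ^ (two hz).N * C x, fun n => by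
      rw [coeff_X_pow_mul']; split
      · rw [coeff_C]; split <;> simp [hx]
      · exact Y.zero_mem, (two hz).ψ_pow _ _⟩
  have e : (two hz).ψ (C x) = X * (X * C x + C (z * x - x * z)) + C (-(z * x * z)) := by
    have c1 : ∀ r : R, C r * (X : R[X]) = X * C r := fun r => (commute_X (C r)).eq.symm
    have c2 : ∀ (r : R) (q : R[X]), C r * (X * q) = X * (C r * q) := fun r q => by
      rw [← mul_assoc, c1, mul_assoc]
    simp only [two_ψ, map_neg, map_sub, map_mul, add_mul, mul_add, mul_sub, c1, c2, mul_assoc]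
    abel
  refine ⟨⟨_, hsat, ?_⟩, fun h => ⟨X * C x + C (z * x - x * z), (two hz).sat_of_X_mul ?_, by simp⟩⟩
  · show ((two hz).ψ (C x)).coeff 0 = _
    rw [e]; simp
  · have := AddSubgroup.sub_mem _ hsat h
    rwa [e, add_sub_cancel_right] at this

end Cfsg.Agent.Lib.LocalP2.QuadLimit
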