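import Mathlib

/-! Three mutually normalising quadratic abelian unipotent groups. -/

set_option autoImplicit false

namespace Cfsg.Agent.Lib.LocalP2.QuadTriple

variable {R : Type*} [Ring R] {S : Submonoid R}

/-- `A` is a quadratic subgroup. -/
def Quad (A : AddSubgroup R) : Prop := ∀ x ∈ A, ∀ y ∈ A, x * y = 0

/-- `1 + B` normalises `1 + A`. -/
def Nor (A B : AddSubgroup R) : Prop :=
  ∀ x ∈ A, ∀ y ∈ B, ∃ x' ∈ A, (1 + y) * (1 + x) * (1 - y) = 1 + x'

variable {A B C : AddSubgroup R}

theorem pair (hA : Quad A) (hB : Quad B) (hAB : Nor A B) (hBA : Nor B A) {x y : R} (hx : x ∈ A)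
    (hy : y ∈ B) : x * y - y * x ∈ A ∧ x * y - y * x ∈ B ∧ x * y * x = 0 ∧ y * x * y = 0 := by
  have xx : x * x = 0 := hA x hx x hx
  have yy : y * y = 0 := hB y hy y hy
  have xx' : ∀ q, x * (x * q) = 0 := fun q => by rw [← mul_assoc, xx, zero_mul]
  have yy' : ∀ q, y * (y * q) = 0 := fun q => by rw [← mul_assoc, yy, zero_mul]
  obtain ⟨x', hx', e1⟩ := hAB (-x) (A.neg_mem hx) y hy
  obtain ⟨y', hy', e2⟩ := hBA y hy x hx
  set u := (1 + x) * (1 + y) * (1 - x) * (1 - y) - 1 with hu
  have hform : u = x * y - y * x + (y * x * y - x * y * x) + x * y * x * y := by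
    simp only [hu, add_mul, mul_add, sub_mul, mul_sub, one_mul, mul_one, mul_assoc, xx, xx', yy, yy',
      mul_zero, zero_mul, add_zero, zero_add, sub_zero, zero_sub]
    abel
  have huA : u ∈ A := by
    have e : (1 + x) * (1 + y) * (1 - x) * (1 - y) = (1 + x) * (1 + x') := by
      rw [← e1]; simp only [mul_assoc, sub_eq_add_neg]
    rw [hu, e, mul_add, add_mul, add_mul, one_mul, one_mul, mul_one, hA x hx x' hx', add_zero]
    have : 1 + x + x' - 1 = x + x' := by abel
    rw [this]
    exact A.add_mem hx hx'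
  have huB : u ∈ B := by
    rw [hu, e2, add_mul, one_mul, mul_sub, mul_one, hB y' hy' y hy, sub_zero]
    have : 1 - y + y' - 1 = y' - y := by abel
    rw [this]
    exact B.sub_mem hy' hy
  have hxu : -(x * y * x) + x * y * x * y = 0 := by
    have := hA x hx u huA
    rw [hform] at this
    simp only [mul_add, mul_sub, mul_assoc, xx', zero_sub, zero_add, add_zero] at this
    rw [← this]
    simp only [mul_assoc]
    abel
  have huy : -(y * x * y) - x * y * x * y = 0 := by
    have := hB u huB y hy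
    rw [hform] at this
    simp only [add_mul, sub_mul, mul_assoc, yy, mul_zero, sub_zero, zero_sub, zero_add, add_zero] at this
    rw [← this]
    simp only [mul_assoc]
    abel
  have hxyxy : x * y * x * y = 0 := by
    have h := congrArg (fun q => q * y) hxu
    simp only [add_mul, neg_mul, mul_assoc, yy, mul_zero, add_zero, zero_mul, neg_eq_zero] at h
    simpa [mul_assoc] using h
  have h1 : x * y * x = 0 := by simpa [hxyxy] using hxu
  have h2 : y * x * y = 0 := by simpa [hxyxy] using huy
  have he : x * y - y * x = u := by rw [hform, h1, h2, zero_mul, sub_zero, add_zero, add_zero]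
  exact ⟨he ▸ huA, he ▸ huB, h1, h2⟩

theorem mem_of_mul (S1 : ∀ x ∈ A, 1 + x ∈ S) {x : R} (hx : x ∈ A) : 1 - x ∈ S := by
  rw [sub_eq_add_neg]; exact S1 _ (A.neg_mem hx)

/-- A square zero sum of elements of three mutually normalising quadratic groups. -/
theorem triple (hA : Quad A) (hB : Quad B) (hC : Quad C) (hAB : Nor A B) (hBA : Nor B A)
    (hAC : Nor A C) (hCA : Nor C A) (hBC : Nor B C) (hCB : Nor C B)
    (SA : ∀ x ∈ A, 1 + x ∈ S) (SB : ∀ x ∈ B, 1 + x ∈ S) (SC : ∀ x ∈ C, 1 + x ∈ S)
    {e3 : ℕ} (h3 : ((3 * e3 : ℕ) : R) = 1) {e2 : ℕ} (h2 : ((2 * e2 : ℕ) : R) = 1)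
    {a b c : R} (ha : a ∈ A) (hb : b ∈ B) (hc : c ∈ C) (hu : (a + b + c) * (a + b + c) = 0) :
    1 + (a + b + c) ∈ S := by
  obtain ⟨k1, k2, aba, bab⟩ := pair hA hB hAB hBA ha hb
  obtain ⟨l1, l3, aca, cac⟩ := pair hA hC hAC hCA ha hc
  obtain ⟨m2, m3, bcb, cbc⟩ := pair hB hC hBC hCB hb hc
  set k := a * b - b * a with hk
  set l := a * c - c * a with hl
  set m := b * c - c * b with hm
  have div2 : ∀ r : R, r = (2 : R) * ((e2 : R) * r) := fun r => by
    rw [← mul_assoc, show (2 : R) * (e2 : R) = ((2 * e2 : ℕ) : R) by push_cast; rfl, h2, one_mul]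
  have half : ∀ (H : AddSubgroup R) (r : R), r ∈ H → (e2 : R) * r ∈ H := fun H r hr => by
    rw [← nsmul_eq_mul]; exact H.nsmul_mem hr e2
  have third : ∀ (H : AddSubgroup R) (r : R), r + r + r ∈ H → r ∈ H := fun H r hr => by
    have := H.nsmul_mem hr e3
    have e : e3 • (r + r + r) = r := by
      calc e3 • (r + r + r) = ((3 * e3 : ℕ) : R) * r := by
            rw [show r + r + r = 3 • r by abel, ← mul_nsmul, nsmul_eq_mul]
        _ = r := by rw [h3, one_mul]
    rwa [e] at this
  -- the pairwise parts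
  set k' := (e2 : R) * k
  set l' := (e2 : R) * l
  set m' := (e2 : R) * m
  have k'1 : k' ∈ A := half A k k1
  have k'2 : k' ∈ B := half B k k2
  have l'1 : l' ∈ A := half A l l1
  have l'3 : l' ∈ C := half C l l3
  have m'2 : m' ∈ B := half B m m2
  have m'3 : m' ∈ C := half C m m3
  set Q := (1 - k') * (1 - l') * (1 - m') with hQdef
  have hQ : Q = 1 - (k' + l' + m') := by
    simp only [hQdef, sub_mul, mul_sub, one_mul, mul_one, hA k' k'1 l' l'1, hB k' k'2 m' m'2,
      hC l' l'3 m' m'3, zero_mul, sub_zero]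
    abel
  set P := (1 + a) * (1 + b) * (1 + c) with hPdef
  have hP : P = 1 + (a + b + c) + (a * b + a * c + b * c) + a * b * c := by
    simp only [hPdef, add_mul, mul_add, one_mul, mul_one, mul_assoc]
    abel
  have hPQ : P * Q ∈ S :=
    S.mul_mem (S.mul_mem (S.mul_mem (SA a ha) (SB b hb)) (SC c hc))
      (S.mul_mem (S.mul_mem (mem_of_mul SA k'1) (mem_of_mul SA l'1)) (mem_of_mul SB m'2))
  -- relations
  have hsum : a * b + a * c + b * c = k' + l' + m' := by
    have e1 : (a * b + a * c + b * c) + (a * b + a * c + b * c) = k + l + m := by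
      have h := hu
      simp only [add_mul, mul_add, hA a ha a ha, hB b hb b hb, hC c hc c hc, zero_add, add_zero] at h
      have : (a * b + a * c + b * c) + (a * b + a * c + b * c) =
          k + l + m + ((b * a + c * a) + (a * b + c * b) + (a * c + b * c)) := by
        simp only [hk, hl, hm]; abel
      rw [this, h, add_zero]
    calc a * b + a * c + b * c = ((2 * e2 : ℕ) : R) * (a * b + a * c + b * c) := by rw [h2, one_mul]
      _ = (e2 : R) * ((a * b + a * c + b * c) + (a * b + a * c + b * c)) := by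
          push_cast; simp only [two_mul, mul_add, add_mul]; abel
      _ = _ := by rw [e1, mul_add, mul_add]
  obtain ⟨da, db, -, -⟩ : k * c - c * k ∈ A ∧ k * c - c * k ∈ C ∧ True ∧ True :=
    ⟨(pair hA hC hAC hCA k1 hc).1, (pair hA hC hAC hCA k1 hc).2.1, trivial, trivial⟩
  have dB : k * c - c * k ∈ B := (pair hB hC hBC hCB k2 hc).1
  have ea : a * m - m * a ∈ A := (pair hA hB hAB hBA ha m2).1
  have eB : a * m - m * a ∈ B := (pair hA hB hAB hBA ha m2).2.1
  have eC : a * m - m * a ∈ C := (pair hA hC hAC hCA ha m3).2.1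
  have fA : b * l - l * b ∈ A := (pair hB hA hBA hAB hb l1).2.1
  have fB : b * l - l * b ∈ B := (pair hB hA hBA hAB hb l1).1
  have fC : b * l - l * b ∈ C := (pair hB hC hBC hCB hb l3).2.1
  -- P3 lies in every group
  set P3 := b * a * c + c * a * b with hP3
  have hD : ∀ H : AddSubgroup R, k * c - c * k ∈ H → a * m - m * a ∈ H → b * l - l * b ∈ H →
      P3 ∈ H := by
    intro H hd he hf
    refine third H _ ?_
    have h3' : (a + b + c) * (a + b + c) * (a + b + c) = 0 := by rw [hu, zero_mul]
    simp only [add_mul, mul_add, hA a ha a ha, hB b hb b hb, hC c hc c hc, aba, bab, aca, cac, bcb, cbc,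
      zero_mul, zero_add, add_zero, mul_assoc, mul_zero] at h3'
    have e : P3 + P3 + P3 = (b * l - l * b) - (k * c - c * k) +
        (a * (b * c) + (a * (c * b) + (b * (a * c) + (b * (c * a) + (c * (a * b) + c * (b * a)))))) := by
      simp only [hP3, hk, hl, mul_sub, sub_mul, mul_assoc]
      abel
    rw [e]
    refine H.add_mem (H.sub_mem hf hd) ?_
    have : a * (b * c) + (a * (c * b) + (b * (a * c) + (b * (c * a) + (c * (a * b) + c * (b * a))))) = 0 := by
      rw [← h3']; abel
    rw [this]; exact H.zero_mem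
  have hP3A : P3 ∈ A := hD A da ea fA
  have hP3B : P3 ∈ B := hD B dB eB fB
  have hP3C : P3 ∈ C := hD C db eC fC
  -- products
  have hcomm : ∀ r : R, (e2 : R) * r = r * (e2 : R) := fun r => (Nat.cast_commute e2 r).eq
  have hmv : ∀ r q : R, r * ((e2 : R) * q) = (e2 : R) * (r * q) := fun r q => by
    rw [← mul_assoc, ← hcomm, mul_assoc]
  have z1 : a * k = 0 := hA a ha k k1
  have z2 : a * l = 0 := hA a ha l l1
  have z3 : b * k = 0 := hB b hb k k2
  have z4 : b * m = 0 := hB b hb m m2
  have z5 : c * l = 0 := hC c hc l l3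
  have z6 : c * m = 0 := hC c hc m m3
  have hqq : (k' + l' + m') * (k' + l' + m') = 0 := by
    simp only [add_mul, mul_add, hA k' k'1 k' k'1, hA k' k'1 l' l'1, hA l' l'1 k' k'1, hA l' l'1 l' l'1,
      hB k' k'2 m' m'2, hB m' m'2 k' k'2, hB m' m'2 m' m'2, hC l' l'3 m' m'3, hC m' m'3 l' l'3, add_zero]
  have hbck : b * (c * k) = 0 := by
    have e : c * k = k * c - (k * c - c * k) := by abel
    rw [e, mul_sub, ← mul_assoc, z3, zero_mul, hB b hb _ dB, sub_zero]
  have habcq : a * b * c * (k' + l' + m') = 0 := by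
    simp only [k', l', m', mul_add, mul_assoc, hmv, z5, z6, hbck, mul_zero, add_zero]
  have huq : (a + b + c) * (k' + l' + m') = (e2 : R) * (a * m + b * l + c * k) := by
    simp only [k', l', m', mul_add, add_mul, hmv, z1, z2, z3, z4, z5, z6, mul_zero, zero_add, add_zero]
    abel
  have hT : a * b * c + a * b * c - (a * m + b * l + c * k) = -(P3 + P3) := by
    have h3' : (a + b + c) * (a + b + c) * (a + b + c) = 0 := by rw [hu, zero_mul]
    simp only [add_mul, mul_add, hA a ha a ha, hB b hb b hb, hC c hc c hc, aba, bab, aca, cac, bcb, cbc,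
      zero_mul, zero_add, add_zero, mul_assoc, mul_zero] at h3'
    have : a * b * c + a * b * c - (a * m + b * l + c * k) + (P3 + P3) =
        a * (b * c) + (a * (c * b) + (b * (a * c) + (b * (c * a) + (c * (a * b) + c * (b * a))))) := by
      simp only [hP3, hk, hl, hm, mul_sub, mul_assoc]
      abel
    rw [eq_neg_iff_add_eq_zero, this, ← h3']
    abel
  have hval : P * Q = 1 + (a + b + c) - P3 := by
    have e : (e2 : R) * (a * b * c + a * b * c) = a * b * c := by
      rw [mul_add, ← add_mul]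
      calc ((e2 : R) + (e2 : R)) * (a * b * c) = ((2 * e2 : ℕ) : R) * (a * b * c) := by
            push_cast; rw [two_mul]
        _ = _ := by rw [h2, one_mul]
    have e' : (e2 : R) * (P3 + P3) = P3 := by
      rw [mul_add, ← add_mul]
      calc ((e2 : R) + (e2 : R)) * P3 = ((2 * e2 : ℕ) : R) * P3 := by
            push_cast; rw [two_mul]
        _ = _ := by rw [h2, one_mul]
    have key : a * b * c - (e2 : R) * (a * m + b * l + c * k) = -P3 := by
      conv_lhs => rw [← e, ← mul_sub, hT, mul_neg, e']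
    rw [hP, hQ, hsum]
    calc (1 + (a + b + c) + (k' + l' + m') + a * b * c) * (1 - (k' + l' + m'))
        = 1 + (a + b + c) + (k' + l' + m') + a * b * c - (k' + l' + m') -
            (a + b + c) * (k' + l' + m') - (k' + l' + m') * (k' + l' + m') -
            a * b * c * (k' + l' + m') := by simp only [mul_sub, mul_one, add_mul, one_mul]; abel
      _ = 1 + (a + b + c) + (a * b * c - (e2 : R) * (a * m + b * l + c * k)) := by
          rw [huq, hqq, habcq]; abel
      _ = _ := by rw [key]; abel
  have hlast : P * Q * (1 + P3) = 1 + (a + b + c) := by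
    rw [hval]
    simp only [sub_mul, add_mul, mul_add, one_mul, mul_one, hA a ha P3 hP3A, hB b hb P3 hP3B,
      hC c hc P3 hP3C, hA P3 hP3A P3 hP3A, add_zero]
    abel
  rw [← hlast]
  exact S.mul_mem hPQ (SA _ hP3A)

end Cfsg.Agent.Lib.LocalP2.QuadTriple
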