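import Cfsg.Agent.Lib.PStab.Section
import Cfsg.Agent.Lib.PStab.Dickson
import Cfsg.Agent.Lib.Fusion.Normal
import Cfsg.Agent.Lib.Transfer.Basic
import Cfsg.Prelude.Def_LocalEven

/-! Normalizer `p`-stability passes to the quotient by a normal `p`-subgroup centralized by all
`p'`-elements (helper19). -/

set_option autoImplicit false

namespace Cfsg.Agent.Lib.LocalP2

open Cfsg Subgroup Cfsg.Agent.Lib.PStab
open scoped MatrixGroups commutatorElement

universe u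

variable {G : Type u} [Group G] [Finite G] {p : ℕ} [hp : Fact p.Prime]

/-- `H` acts on `P` as a `p`-group. -/
def PMod (p : ℕ) (H P : Subgroup G) : Prop := ∀ d ∈ H, ∃ n : ℕ, d ^ p ^ n ∈ centralizer (P : Set G)

/-- `H` is generated by elements acting quadratically on the `p`-group `P` and does not act as a `p`-group. -/
def QuadBad (p : ℕ) (P : Subgroup G) : Prop :=
  IsPGroup p P ∧ ∃ H : Subgroup G, H ≤ normalizer (P : Set G) ∧
    H ≤ closure {a : G | a ∈ H ∧ ∀ x ∈ P, Commute a ⁅a, x⁆} ∧ ¬ PMod p H P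

theorem commute_of_quad {G : Type*} [Group G] {P : Subgroup G} {a : G}
    (hq : ⁅⁅P, zpowers a⁆, zpowers a⁆ = ⊥) : ∀ x ∈ P, Commute a ⁅a, x⁆ := by
  intro x hx
  have h1 : ⁅⁅x, a⁆, a⁆ = 1 := by
    rw [← Subgroup.mem_bot, ← hq]
    exact commutator_mem_commutator (commutator_mem_commutator hx (mem_zpowers a)) (mem_zpowers a)
  have h2 : Commute ⁅x, a⁆ a := commutatorElement_eq_one_iff_commute.mp h1
  rw [← commutatorElement_inv x a]
  exact h2.symm.inv_right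

theorem quad_of_fix {G : Type*} [Group G] {P : Subgroup G} {a : G}
    (h : ∀ x ∈ P, a * (x⁻¹ * (a * x * a⁻¹)) * a⁻¹ = x⁻¹ * (a * x * a⁻¹)) :
    ⁅⁅P, zpowers a⁆, zpowers a⁆ = ⊥ := by
  rw [commutator_eq_bot_iff_le_centralizer, commutator_le]
  rintro x hx _ ⟨i, rfl⟩
  refine mem_centralizer_iff.mpr fun b hb => ?_
  obtain ⟨j, rfl⟩ := mem_zpowers_iff.mp hb
  refine Commute.eq (Commute.zpow_left ?_ j)
  set y := x⁻¹
  set d := y⁻¹ * (a * y * a⁻¹) with hd
  have hcm : Commute a d := mul_inv_eq_iff_eq_mul.mp (h y (inv_mem hx))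
  have key : ∀ i : ℤ, a ^ i * y * (a ^ i)⁻¹ = y * d ^ i := by
    intro i
    induction i with
    | zero => simp
    | succ i ih =>
      have e : a * y * a⁻¹ = y * d := by rw [hd]; group
      calc a ^ ((i : ℤ) + 1) * y * (a ^ ((i : ℤ) + 1))⁻¹ = a * (a ^ (i : ℤ) * y * (a ^ (i : ℤ))⁻¹) * a⁻¹ := by group
        _ = (a * y * a⁻¹) * (a * d ^ (i : ℤ) * a⁻¹) := by rw [ih]; group
        _ = y * d * d ^ (i : ℤ) := by rw [e, (hcm.zpow_right (i : ℤ)).eq, mul_inv_cancel_right]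
        _ = _ := by group
    | pred i ih =>
      have e : a⁻¹ * y * a = y * d⁻¹ := by
        calc a⁻¹ * y * a = a⁻¹ * (y * d) * a * (a⁻¹ * d⁻¹ * a) := by group
          _ = _ := by rw [(hcm.inv_right).inv_left.eq, hd]; group
      calc a ^ (-(i : ℤ) - 1) * y * (a ^ (-(i : ℤ) - 1))⁻¹ = a⁻¹ * (a ^ (-(i : ℤ)) * y * (a ^ (-(i : ℤ)))⁻¹) * a := by group
        _ = (a⁻¹ * y * a) * (a⁻¹ * d ^ (-(i : ℤ)) * a) := by rw [ih]; group
        _ = y * d⁻¹ * d ^ (-(i : ℤ)) := by rw [e, (hcm.inv_left.zpow_right (-(i : ℤ))).eq, inv_mul_cancel_right]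
        _ = _ := by group
  have : ⁅x, a ^ i⁆ = d ^ i := by
    rw [commutatorElement_def, show x * a ^ i * x⁻¹ * (a ^ i)⁻¹ = y⁻¹ * (a ^ i * y * (a ^ i)⁻¹) by simp [y, mul_assoc],
      key, inv_mul_cancel_left]
  rw [this]
  exact hcm.zpow_right i

theorem exists_gen_not_mem {P H : Subgroup G} (hHN : H ≤ normalizer (P : Set G))
    (hgen : H ≤ closure {a : G | a ∈ H ∧ ∀ x ∈ P, Commute a ⁅a, x⁆}) (hbad : ¬ PMod p H P) :
    ∃ (a : G) (ha : a ∈ H), (∀ x ∈ P, Commute a ⁅a, x⁆) ∧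
      ∀ D : Subgroup H, D.Normal → (∀ d ∈ D, ∃ n, (d : G) ^ p ^ n ∈ centralizer (P : Set G)) →
        (⟨a, ha⟩ : H) ∉ D := by
  by_contra hcon
  push Not at hcon
  refine hbad fun d hd => ?_
  set K0 := (centralizer (P : Set G)).subgroupOf H
  have hK0 : K0.Normal := by
    refine ⟨fun c hc g => mem_subgroupOf.mpr (mem_centralizer_iff.mpr fun x hx => ?_)⟩
    have hx' : (g : G)⁻¹ * x * g ∈ P := (mem_normalizer_iff''.mp (hHN g.2) x).mp hx
    have h1 := mem_centralizer_iff.mp (mem_subgroupOf.mp hc) _ hx'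
    simp only [Subgroup.coe_mul, Subgroup.coe_inv]
    calc x * ((g : G) * c * (g : G)⁻¹) = (g : G) * ((g : G)⁻¹ * x * g * c) * (g : G)⁻¹ := by group
      _ = (g : G) * (c * ((g : G)⁻¹ * x * g)) * (g : G)⁻¹ := by rw [h1]
      _ = _ := by group
  set R := ((pCore p (H ⧸ K0)).comap (QuotientGroup.mk' K0)).map H.subtype
  have hle : closure {a : G | a ∈ H ∧ ∀ x ∈ P, Commute a ⁅a, x⁆} ≤ R := by
    rw [closure_le]
    rintro a ⟨ha, hq⟩
    obtain ⟨D, hDn, hDp, haD⟩ := hcon a ha hq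
    refine ⟨⟨a, ha⟩, ?_, rfl⟩
    have hpD : IsPGroup p (D.map (QuotientGroup.mk' K0)) := by
      rintro ⟨_, d, hd', rfl⟩
      obtain ⟨n, hn⟩ := hDp d hd'
      exact ⟨n, Subtype.ext ((map_pow (QuotientGroup.mk' K0) d (p ^ n)).symm.trans
        ((QuotientGroup.eq_one_iff _).mpr (by simpa [K0, mem_subgroupOf] using hn)))⟩
    have := hDn.map (QuotientGroup.mk' K0) (QuotientGroup.mk'_surjective _)
    exact Hall.le_pCore hpD (mem_map_of_mem _ haD)
  obtain ⟨d', hd', hde⟩ := hle (hgen hd)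
  obtain ⟨n, hn⟩ := (Hall.isPGroup_pCore p) ⟨_, hd'⟩
  refine ⟨n, ?_⟩
  have h1 : (QuotientGroup.mk' K0 d') ^ p ^ n = 1 := congrArg Subtype.val hn
  rw [← map_pow, QuotientGroup.mk'_apply, QuotientGroup.eq_one_iff] at h1
  rw [← hde]
  simpa [K0, mem_subgroupOf] using h1

theorem eq_one_of_sq {P : Subgroup G} (hP : IsPGroup p P) (hp2 : p ≠ 2) {x : G} (hx : x ∈ P) (h : x * x = 1) :
    x = 1 := by
  have hc : (orderOf x).Coprime p := by
    refine Nat.Coprime.coprime_dvd_left (orderOf_dvd_of_pow_eq_one (by rw [sq, h]) : orderOf x ∣ 2) ?_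
    exact (Nat.coprime_primes Nat.prime_two hp.out).mpr (Ne.symm hp2)
  have h1 := Lib.Transfer.eq_one_of_isPGroup_of_coprime (g := (⟨x, hx⟩ : P)) hP (by rwa [orderOf_mk])
  simpa using congrArg Subtype.val h1

theorem commute_of_sq {P : Subgroup G} (hP : IsPGroup p P) (hp2 : p ≠ 2) {x y : G} (hx : x ∈ P)
    (h : Commute (x ^ 2) y) : Commute x y := by
  obtain ⟨n, hn⟩ := hP ⟨x, hx⟩
  have hn' : x ^ p ^ n = 1 := congrArg Subtype.val hn
  obtain ⟨k, hk⟩ := (hp.out.odd_of_ne_two hp2).pow (n := n)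
  have : x = (x ^ 2) ^ (k + 1) := by
    rw [← pow_mul, show 2 * (k + 1) = p ^ n + 1 by omega, pow_succ, hn', one_mul]
  rw [this]
  exact h.pow_left _

theorem sl_eq_one_of_fix {p : ℕ} [Fact p.Prime] {g : SL(2, ZMod p)} {w : Fin 2 → ZMod p} (hw : w ≠ 0)
    (h : ∀ l : SL(2, ZMod p), Matrix.mulVec (g : Matrix (Fin 2) (Fin 2) (ZMod p))
      (Matrix.mulVec (l : Matrix (Fin 2) (Fin 2) (ZMod p)) w) = Matrix.mulVec (l : Matrix (Fin 2) (Fin 2) (ZMod p)) w) :
    g = 1 := by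
  obtain ⟨a, b, hab, ha, hb⟩ : ∃ a b : Fin 2 → ZMod p, a 0 * b 1 - a 1 * b 0 ≠ 0 ∧
      (∃ l : SL(2, ZMod p), Matrix.mulVec (l : Matrix (Fin 2) (Fin 2) (ZMod p)) w = a) ∧
      ∃ l : SL(2, ZMod p), Matrix.mulVec (l : Matrix (Fin 2) (Fin 2) (ZMod p)) w = b := by
    by_cases h1 : w 1 = 0
    · refine ⟨w, Matrix.mulVec (uy (1 : ZMod p) : Matrix (Fin 2) (Fin 2) (ZMod p)) w, ?_, ⟨1, by simp⟩, _, rfl⟩
      have h0 : w 0 ≠ 0 := fun h0 => hw (funext fun i => by fin_cases i <;> assumption)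
      simp [coe_uy, Matrix.mulVec, dotProduct, Fin.sum_univ_two, h1]
      exact h0
    · refine ⟨Matrix.mulVec (ux (1 : ZMod p) : Matrix (Fin 2) (Fin 2) (ZMod p)) w, w, ?_, ⟨_, rfl⟩, 1, by simp⟩
      simp [coe_ux, Matrix.mulVec, dotProduct, Fin.sum_univ_two]
      ring_nf
      simpa using h1
  obtain ⟨la, rfl⟩ := ha
  obtain ⟨lb, rfl⟩ := hb
  have e1 := h la
  have e2 := h lb
  set a := Matrix.mulVec (la : Matrix (Fin 2) (Fin 2) (ZMod p)) w
  set b := Matrix.mulVec (lb : Matrix (Fin 2) (Fin 2) (ZMod p)) w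
  have k1 := congrFun e1 0
  have k2 := congrFun e1 1
  have k3 := congrFun e2 0
  have k4 := congrFun e2 1
  simp only [Matrix.mulVec, dotProduct, Fin.sum_univ_two] at k1 k2 k3 k4
  apply sl_ext <;> simp only [Matrix.SpecialLinearGroup.coe_one, Matrix.one_apply_eq,
    Matrix.one_apply_ne (show (0 : Fin 2) ≠ 1 by decide), Matrix.one_apply_ne (show (1 : Fin 2) ≠ 0 by decide)]
  · exact mul_right_cancel₀ hab (by linear_combination b 1 * k1 - a 1 * k3)
  · exact mul_right_cancel₀ hab (by linear_combination a 0 * k3 - b 0 * k1)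
  · exact mul_right_cancel₀ hab (by linear_combination b 1 * k2 - a 1 * k4)
  · exact mul_right_cancel₀ hab (by linear_combination a 0 * k4 - b 0 * k2)

theorem isNormalizerPStable_quotient (hp2 : p ≠ 2) (Cn : Subgroup G) [Cn.Normal] (hC : IsPGroup p Cn)
    (hcent : ∀ g : G, (orderOf g).Coprime p → g ∈ centralizer (Cn : Set G)) (hst : IsNormalizerPStable p G) :
    IsNormalizerPStable p (G ⧸ Cn) := by
  classical
  set q := QuotientGroup.mk' Cn with hq
  suffices hno : ∀ Pb : Subgroup (G ⧸ Cn), ¬ QuadBad p Pb by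
    intro Pb hPb g hg hquad
    by_contra hnot
    refine hno Pb ⟨hPb, closure {b | ∃ h ∈ normalizer (Pb : Set (G ⧸ Cn)), b = h * g * h⁻¹}, ?_, ?_, fun hpm => hnot ?_⟩
    · rw [closure_le]
      rintro _ ⟨h, hh, rfl⟩
      exact mul_mem (mul_mem hh hg) (inv_mem hh)
    · refine closure_mono ?_
      rintro b ⟨h, hh, rfl⟩
      refine ⟨subset_closure ⟨h, hh, rfl⟩, fun x hx => ?_⟩
      have hx' : h⁻¹ * x * h ∈ Pb := (mem_normalizer_iff''.mp hh x).mp hx
      have := (commute_of_quad hquad _ hx').map (MulAut.conj h).toMonoidHom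
      simpa [map_commutatorElement, mul_assoc] using this
    · set N := normalizer (Pb : Set (G ⧸ Cn))
      set H := closure {b | ∃ h ∈ N, b = h * g * h⁻¹}
      have hHn : (H.subgroupOf N).Normal := by
        refine normal_subgroupOf_of_le_normalizer fun h hh => Fusion.mem_normalizer_of_conj_mem fun x hx => ?_
        have hle : H.map (MulAut.conj h).toMonoidHom ≤ H := by
          rw [MonoidHom.map_closure, closure_le]
          rintro _ ⟨_, ⟨k, hk, rfl⟩, rfl⟩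
          refine subset_closure ⟨h * k, mul_mem hh hk, ?_⟩
          simp [mul_assoc]
        exact hle ⟨x, hx, rfl⟩
      set K0 := (centralizer (Pb : Set (G ⧸ Cn))).subgroupOf N
      have hp' : IsPGroup p ((H.subgroupOf N).map (QuotientGroup.mk' K0)) := by
        rintro ⟨_, d, hd, rfl⟩
        obtain ⟨n, hn⟩ := hpm d hd
        exact ⟨n, Subtype.ext ((map_pow (QuotientGroup.mk' K0) d (p ^ n)).symm.trans
          ((QuotientGroup.eq_one_iff _).mpr (by simpa [K0, mem_subgroupOf] using hn)))⟩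
      have := hHn.map (QuotientGroup.mk' K0) (QuotientGroup.mk'_surjective _)
      exact Hall.le_pCore hp' ⟨⟨g, hg⟩, subset_closure ⟨1, one_mem _, by simp⟩, rfl⟩
  intro Pb
  induction hcard : Nat.card Pb using Nat.strong_induction_on generalizing Pb with
  | _ m ih => ?_
  rintro ⟨hPb, H, hHN, hgen, hbad⟩
  obtain ⟨a₀, ha₀, hqa, hD⟩ := exists_gen_not_mem hHN hgen hbad
  letI := fratQAddCommGroup hPb
  obtain ⟨Lb, π, θ, hLH, hπ, hθ, hact⟩ := exists_sl2_natural hPb hp2 hHN ha₀ hqa hD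
  have hne : Pb ≠ ⊥ := fun h => hbad fun d _ => ⟨0, mem_centralizer_iff.mpr fun x hx => by
    rw [h, SetLike.mem_coe, mem_bot] at hx; rw [hx, one_mul, mul_one]⟩
  -- two-elements of `H` centralize the Frattini subgroup
  have hphi : ∀ t ∈ H, (orderOf t).Coprime p → t ∈ centralizer ((frattini Pb).map Pb.subtype : Set (G ⧸ Cn)) := by
    set P' := (frattini Pb).map Pb.subtype
    have hlt : P' < Pb := by
      have hPb' : Nontrivial Pb := (nontrivial_iff_ne_bot Pb).mpr hne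
      refine lt_of_le_of_ne (map_subtype_le _) fun h => ?_
      have := frattini_nongenerating (K := (⊥ : Subgroup Pb)) (by
        rw [bot_sup_eq]
        exact map_injective Pb.subtype_injective (h.trans (by rw [← MonoidHom.range_eq_map, range_subtype])))
      exact (bot_ne_top) this
    have hHN' : H ≤ normalizer (P' : Set (G ⧸ Cn)) := fun h hh => Fusion.mem_normalizer_of_conj_mem fun x hx => by
      obtain ⟨y, hy, rfl⟩ := hx
      refine ⟨Fusion.conjAut Pb (hHN hh) y, ?_, Fusion.conjAut_apply _ _ _⟩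
      have := (Subgroup.characteristic_iff_map_eq.mp (inferInstance : (frattini Pb).Characteristic)) (Fusion.conjAut Pb (hHN hh))
      exact this.le ⟨y, hy, rfl⟩
    have hpm : PMod p H P' := by
      by_contra hc
      refine ih (Nat.card P') (hcard ▸ lt_of_le_of_ne (card_le_of_le hlt.le)
        fun e => hlt.ne (eq_of_le_of_card_ge hlt.le e.ge)) P' rfl
        ⟨hPb.to_le hlt.le, H, hHN', hgen.trans (closure_mono ?_), hc⟩
      exact fun b hb => ⟨hb.1, fun x hx => hb.2 x (hlt.le hx)⟩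
    intro t ht hcop
    obtain ⟨n, hn⟩ := hpm t ht
    obtain ⟨k, hk⟩ := exists_pow_eq_self_of_coprime (n := p ^ n) (x := t) ((hcop.pow_right n).symm)
    rw [← hk]
    exact pow_mem hn k
  -- lift to `G`
  set P := Pb.comap q with hPdef
  have hP : IsPGroup p P := hPb.comap_of_ker_isPGroup q (by rwa [hq, QuotientGroup.ker_mk'])
  have hmemP : ∀ {g : G}, g ∈ P ↔ q g ∈ Pb := mem_comap
  set L := Lb.comap q with hLdef
  have hLN : L ≤ normalizer (P : Set G) := fun l hl => Fusion.mem_normalizer_of_conj_mem fun x hx => by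
    rw [hmemP, map_mul, map_mul, map_inv]
    exact Fusion.conj_mem_of_mem_normalizer (hHN (hLH hl)) hx
  set π' : L →* SL(2, ZMod p) := π.comp (q.subgroupComap Lb) with hπ'
  have hπs : Function.Surjective π' :=
    hπ.comp (q.subgroupComap_surjective_of_surjective _ (QuotientGroup.mk'_surjective _))
  let f : P → FratQ Pb := fun x => fq (⟨q x, x.2⟩ : Pb)
  have fmul : ∀ x y : P, f (x * y) = f x + f y := fun x y =>
    (congrArg fq (Subtype.ext (map_mul q _ _))).trans (fq_mul _ _)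
  have f0 : f 1 = 0 := (congrArg fq (Subtype.ext (map_one q))).trans rfl
  have finv : ∀ x : P, f x⁻¹ = - f x := fun x => eq_neg_of_add_eq_zero_left (by rw [← fmul, inv_mul_cancel, f0])
  have hconjP : ∀ (l : L) (x : P), (l : G) * x * (l : G)⁻¹ ∈ P := fun l x =>
    Fusion.conj_mem_of_mem_normalizer (hLN l.2) x.2
  have feq : ∀ (l : L) (x : P) (w : Fin 2 → ZMod p), f x = θ w →
      f ⟨_, hconjP l x⟩ = θ (Matrix.mulVec (π' l : Matrix (Fin 2) (Fin 2) (ZMod p)) w) := by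
    intro l x w hw
    have hl : q l ∈ normalizer (Pb : Set (G ⧸ Cn)) := hHN (hLH l.2)
    have h1 : fq (conjIn (⟨q l, hl⟩ : normalizer (Pb : Set (G ⧸ Cn))) ⟨q x, x.2⟩) = f ⟨_, hconjP l x⟩ :=
      congrArg fq (Subtype.ext (by simp [conjIn]))
    rw [← h1, ← fratRep_fq hPb]
    show fratRep hPb _ (f x) = _
    rw [hw]
    exact hact ⟨q l, l.2⟩ hl w
  -- the Sylow 2-subgroup above the centre of `SL(2, p)`
  have h2ne : (2 : ZMod p) ≠ 0 := by
    intro h
    have h' : ((2 : ℕ) : ZMod p) = 0 := by exact_mod_cast h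
    exact hp2 (Nat.prime_dvd_prime_iff_eq hp.out Nat.prime_two |>.mp ((ZMod.natCast_eq_zero_iff _ _).mp h'))
  have hneg : ∀ g : SL(2, ZMod p), g * -1 = -1 * g := fun g => by rw [mul_neg_one, neg_one_mul]
  set Zc := zpowers (-1 : SL(2, ZMod p)) with hZc
  have hZcn : Zc.Normal := ⟨fun z hz g => by
    obtain ⟨i, rfl⟩ := mem_zpowers_iff.mp hz
    rw [((show Commute g (-1) from hneg g).zpow_right i).eq, mul_inv_cancel_right]
    exact hz⟩
  have hm2 : (-1 : SL(2, ZMod p)) ^ 2 = 1 := neg_one_sq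
  set M := Zc.comap π' with hM
  have : M.Normal := hZcn.comap π'
  have : Fact (Nat.Prime 2) := ⟨Nat.prime_two⟩
  obtain ⟨T⟩ : Nonempty (Sylow 2 M) := inferInstance
  set T' := (T : Subgroup M).map M.subtype with hT'
  set L1 := normalizer (T' : Set L) with hL1
  have hfrat : L1 ⊔ M = ⊤ := Sylow.normalizer_sup_eq_top T
  have hT'M : T' ≤ M := map_subtype_le _
  obtain ⟨τ, hτT, hτ⟩ : ∃ τ ∈ T', π' τ = -1 := by
    let ψ : M →* Zc := π'.subgroupComap Zc
    have hψ : Function.Surjective ψ := π'.subgroupComap_surjective_of_surjective _ hπs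
    have htop : ((T.mapSurjective hψ : Sylow 2 Zc) : Subgroup Zc) = ⊤ := by
      refine ((T.mapSurjective hψ).3 ?_ le_top).symm
      refine IsPGroup.of_equiv ?_ topEquiv.symm
      rintro ⟨z, hz⟩
      obtain ⟨i, rfl⟩ := mem_zpowers_iff.mp hz
      refine ⟨1, Subtype.ext ?_⟩
      rw [SubmonoidClass.coe_pow, OneMemClass.coe_one, pow_one, ← zpow_natCast, ← zpow_mul, mul_comm, zpow_mul,
        zpow_natCast, hm2, one_zpow]
    have h2 : (⟨-1, mem_zpowers _⟩ : Zc) ∈ (T : Subgroup M).map ψ := by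
      rw [← Sylow.coe_mapSurjective hψ T, htop]; exact mem_top _
    obtain ⟨t, ht, hte⟩ := h2
    exact ⟨t, ⟨t, ht, rfl⟩, congrArg Subtype.val hte⟩
  have hT'L1 : T' ≤ L1 := le_normalizer
  have hL1s : ∀ g : SL(2, ZMod p), ∃ l ∈ L1, π' l = g := by
    intro g
    obtain ⟨l, rfl⟩ := hπs g
    obtain ⟨u, hu, v, hv, rfl⟩ := Subgroup.mem_sup_of_normal_right.mp (hfrat ▸ mem_top l)
    obtain ⟨i, hi⟩ := mem_zpowers_iff.mp (show π' v ∈ Zc from hv)
    refine ⟨u * τ ^ i, mul_mem hu (zpow_mem (hT'L1 hτT) i), ?_⟩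
    rw [map_mul, map_mul, map_zpow, hτ, hi]
  have hT2 : ∀ o : L, o ∈ T' → (orderOf (o : G)).Coprime p := by
    intro o ho
    obtain ⟨n, hn⟩ := (T.2.map M.subtype) ⟨o, ho⟩
    have h1 : o ^ 2 ^ n = 1 := congrArg Subtype.val hn
    have h2 : (o : G) ^ 2 ^ n = 1 := by rw [← SubmonoidClass.coe_pow, h1, OneMemClass.coe_one]
    refine Nat.Coprime.coprime_dvd_left (orderOf_dvd_of_pow_eq_one h2) ?_
    exact ((Nat.coprime_primes Nat.prime_two hp.out).mpr (Ne.symm hp2)).pow_left n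
  have hfix : ∀ o : L, o ∈ T' → ∀ x : P, f x = 0 → (o : G) * x * (o : G)⁻¹ = x := by
    intro o ho x hx
    have hoc := hT2 o ho
    have hqx : q x ∈ (frattini Pb).map Pb.subtype := by
      have h0 : (QuotientGroup.mk (⟨q x, x.2⟩ : Pb) : Pb ⧸ frattini Pb) = 1 := Additive.ofMul.injective hx
      exact ⟨⟨q x, x.2⟩, (QuotientGroup.eq_one_iff _).mp h0, rfl⟩
    have hqo : q o ∈ centralizer ((frattini Pb).map Pb.subtype : Set (G ⧸ Cn)) :=
      hphi _ (hLH o.2) (hoc.coprime_dvd_left (orderOf_map_dvd q _))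
    set k := (x : G)⁻¹ * ((o : G) * x * (o : G)⁻¹) with hk
    have hkC : k ∈ Cn := by
      rw [← QuotientGroup.eq_one_iff]
      show q k = 1
      rw [hk, map_mul, map_inv, map_mul, map_mul, map_inv, ← mem_centralizer_iff.mp hqo _ hqx]
      group
    have hok : Commute (o : G) k := (mem_centralizer_iff.mp (hcent _ hoc) k hkC).symm
    have key : ∀ j : ℕ, (o : G) ^ j * x * ((o : G) ^ j)⁻¹ = x * k ^ j := by
      intro j
      induction j with
      | zero => simp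
      | succ j ihj =>
        calc (o : G) ^ (j + 1) * x * ((o : G) ^ (j + 1))⁻¹
            = (o : G) * ((o : G) ^ j * x * ((o : G) ^ j)⁻¹) * (o : G)⁻¹ := by rw [pow_succ']; group
          _ = ((o : G) * x * (o : G)⁻¹) * ((o : G) * k ^ j * (o : G)⁻¹) := by rw [ihj]; group
          _ = x * k * k ^ j := by rw [(hok.pow_right j).eq, mul_inv_cancel_right, hk]; group
          _ = _ := by rw [pow_succ', mul_assoc]
    have h1 := key (orderOf (o : G))
    rw [pow_orderOf_eq_one, one_mul, inv_one, mul_one, left_eq_mul] at h1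
    have hkd : (orderOf k).Coprime p := hoc.coprime_dvd_left (orderOf_dvd_of_pow_eq_one h1)
    have hk1 := Lib.Transfer.eq_one_of_isPGroup_of_coprime (g := (⟨k, hkC⟩ : Cn)) hC (by rwa [orderOf_mk])
    have hk2 : k = 1 := by simpa using congrArg Subtype.val hk1
    rw [hk, inv_mul_eq_one] at hk2
    exact hk2.symm
  -- the fixed points of `T' ⊓ ker π'` in the plane
  set O := (T' ⊓ π'.ker).map L.subtype with hO
  let Q1' : Subgroup P :=
    { carrier := {x | ∃ w, f x = θ w}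
      one_mem' := ⟨0, by rw [f0, map_zero]⟩
      mul_mem' := by rintro x y ⟨w, hw⟩ ⟨w', hw'⟩; exact ⟨w + w', by rw [fmul, hw, hw', map_add]⟩
      inv_mem' := by rintro x ⟨w, hw⟩; exact ⟨-w, by rw [finv, hw, map_neg]⟩ }
  set Q1 := Q1'.map P.subtype with hQ1
  have hQ1P : Q1 ≤ P := map_subtype_le _
  have hQ1f : ∀ {x : G}, x ∈ Q1 → ∃ (hx : x ∈ P) (w : Fin 2 → ZMod p), f ⟨x, hx⟩ = θ w := by
    rintro _ ⟨x, ⟨w, hw⟩, rfl⟩
    exact ⟨x.2, w, hw⟩
  have hL1Q1 : ∀ (l : L) {x : G}, x ∈ Q1 → (l : G) * x * (l : G)⁻¹ ∈ Q1 := by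
    intro l x hx
    obtain ⟨hxP, w, hw⟩ := hQ1f hx
    exact ⟨⟨_, hconjP l ⟨x, hxP⟩⟩, ⟨_, feq l ⟨x, hxP⟩ w hw⟩, rfl⟩
  set P_O := Q1 ⊓ centralizer (O : Set G) with hPO
  have hPOc : ∀ {x : G}, x ∈ P_O → ∀ o : L, o ∈ T' → π' o = 1 → (o : G) * x * (o : G)⁻¹ = x :=
    fun {x} hx o ho ho1 => mul_inv_eq_iff_eq_mul.mpr (mem_centralizer_iff.mp hx.2 _ ⟨o, ⟨ho, ho1⟩, rfl⟩)
  have hL1PO : ∀ l ∈ L1, ∀ {x : G}, x ∈ P_O → (l : G) * x * (l : G)⁻¹ ∈ P_O := by
    intro l hl x hx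
    refine ⟨hL1Q1 l hx.1, mem_centralizer_iff.mpr ?_⟩
    rintro _ ⟨o, ⟨ho, ho1⟩, rfl⟩
    have h1 : l⁻¹ * o * l ∈ T' := (mem_normalizer_iff''.mp hl o).mp ho
    have h2 : π' (l⁻¹ * o * l) = 1 := by
      rw [map_mul, map_mul, map_inv, show π' o = 1 from ho1]; group
    have h3 := hPOc hx _ h1 h2
    simp only [Subgroup.coe_mul, Subgroup.coe_inv] at h3
    show (o : G) * ((l : G) * x * (l : G)⁻¹) = (l : G) * x * (l : G)⁻¹ * o
    calc (o : G) * ((l : G) * x * (l : G)⁻¹)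
        = (l : G) * ((l : G)⁻¹ * o * l * x * ((l : G)⁻¹ * o * l)⁻¹) * (l : G)⁻¹ * o := by group
      _ = _ := by rw [h3]
  have hcommτ : ∀ l ∈ L1, ∀ {x : G}, x ∈ P_O →
      ((l : G) * τ * (l : G)⁻¹) * x * ((l : G) * τ * (l : G)⁻¹)⁻¹ = (τ : G) * x * (τ : G)⁻¹ := by
    intro l hl x hx
    set o := τ⁻¹ * (l * τ * l⁻¹) with ho
    have hoT : o ∈ T' := mul_mem (inv_mem hτT) ((mem_normalizer_iff.mp hl τ).mp hτT)
    have ho1 : π' o = 1 := by
      rw [ho, map_mul, map_mul, map_mul, map_inv, map_inv, hτ, hneg, mul_inv_cancel_right, inv_mul_cancel]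
    have h3 := hPOc hx o hoT ho1
    rw [ho] at h3
    simp only [Subgroup.coe_mul, Subgroup.coe_inv] at h3
    conv_rhs => rw [← h3]
    group
  obtain ⟨x₀, hx₀, hx₀P, w₀, hw₀, hw₀0⟩ : ∃ x ∈ P_O, ∃ (hx : x ∈ P) (w : Fin 2 → ZMod p),
      f ⟨x, hx⟩ = θ w ∧ w ≠ 0 := by
    by_contra hcon
    push Not at hcon
    have hOQ : O ≤ normalizer (Q1 : Set G) := by
      rintro _ ⟨o, -, rfl⟩
      exact Fusion.mem_normalizer_of_conj_mem fun x hx => hL1Q1 o hx
    have hcop : (Nat.card O).Coprime (Nat.card Q1) := by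
      obtain ⟨i, hi⟩ := IsPGroup.iff_card.mp (hP.to_le hQ1P)
      obtain ⟨j, hj⟩ := IsPGroup.iff_card.mp (((T.2.map M.subtype).to_le (inf_le_left : T' ⊓ π'.ker ≤ T')).map L.subtype)
      rw [hi, hO, hj]
      exact Nat.Coprime.pow _ _ ((Nat.coprime_primes Nat.prime_two hp.out).mpr (Ne.symm hp2))
    have hsol : Group.IsSolvable Q1 := by
      have : Group.IsNilpotent Q1 := (hP.to_le hQ1P).isNilpotent
      infer_instance
    have htop := Coprime.commutator_sup_centralizer hOQ hcop (Or.inr hsol)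
    let Z0 : Subgroup G :=
      { carrier := {x | ∃ hx : x ∈ P, f ⟨x, hx⟩ = 0}
        one_mem' := ⟨one_mem _, f0⟩
        mul_mem' := by
          rintro x y ⟨hx, h1⟩ ⟨hy, h2⟩
          exact ⟨mul_mem hx hy, (fmul ⟨x, hx⟩ ⟨y, hy⟩).trans (by rw [h1, h2, add_zero])⟩
        inv_mem' := by
          rintro x ⟨hx, h1⟩
          exact ⟨inv_mem hx, (finv ⟨x, hx⟩).trans (by rw [h1, neg_zero])⟩ }
    have hle : Q1 ≤ Z0 := by
      rw [← htop]
      refine sup_le ?_ fun x hx => ?_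
      · rw [commutator_le]
        rintro x hx _ ⟨o, ⟨-, ho1⟩, rfl⟩
        obtain ⟨hxP, w, hw⟩ := hQ1f hx
        have h1 := feq o ⟨x, hxP⟩⁻¹ (-w) (by rw [finv, hw, map_neg])
        rw [show π' o = 1 from ho1, Matrix.SpecialLinearGroup.coe_one, Matrix.one_mulVec, map_neg] at h1
        have hm : ⁅x, L.subtype o⁆ = x * ((o : G) * x⁻¹ * (o : G)⁻¹) := by
          simp [commutatorElement_def, mul_assoc]
        refine ⟨hm ▸ mul_mem hxP (hconjP o ⟨x, hxP⟩⁻¹), ?_⟩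
        refine Eq.trans (congrArg f (Subtype.ext hm : _ = (⟨x, hxP⟩ * ⟨_, hconjP o ⟨x, hxP⟩⁻¹⟩ : P))) ?_
        rw [fmul, hw, h1, add_neg_cancel]
      · obtain ⟨hxP, w, hw⟩ := hQ1f hx.1
        refine ⟨hxP, ?_⟩
        rw [hw, hcon x hx hxP w hw, map_zero]
    obtain ⟨x, hx⟩ := fq_surjective Pb (θ ![1, 0])
    obtain ⟨g, hg⟩ := QuotientGroup.mk'_surjective Cn (x : G ⧸ Cn)
    have hgP : g ∈ P := by rw [hmemP]; show QuotientGroup.mk' Cn g ∈ Pb; rw [hg]; exact x.2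
    have hgf : f ⟨g, hgP⟩ = θ ![1, 0] := by
      show fq (⟨q g, _⟩ : Pb) = _
      rw [← hx]; exact congrArg fq (Subtype.ext hg)
    obtain ⟨h1, h2⟩ := hle (⟨⟨g, hgP⟩, ⟨_, hgf⟩, rfl⟩ : g ∈ Q1)
    rw [hgf] at h2
    have h3 := hθ (h2.trans (map_zero θ).symm)
    simpa using congrFun h3 0
  -- the inverted subgroup
  set E0 := {y : G | ∃ x ∈ P_O, y = x⁻¹ * ((τ : G) * x * (τ : G)⁻¹)} with hE0
  set P2 := closure E0 with hP2
  have hP2PO : P2 ≤ P_O := by
    rw [hP2, closure_le]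
    rintro _ ⟨x, hx, rfl⟩
    exact mul_mem (inv_mem hx) (hL1PO τ (hT'L1 hτT) hx)
  have hP2P : P2 ≤ P := hP2PO.trans (inf_le_left.trans hQ1P)
  have hL1P2 : ∀ l ∈ L1, ∀ {x : G}, x ∈ P2 → (l : G) * x * (l : G)⁻¹ ∈ P2 := by
    intro l hl x hx
    have hle : P2.map (MulAut.conj (l : G)).toMonoidHom ≤ P2 := by
      rw [hP2, MonoidHom.map_closure, closure_le]
      rintro _ ⟨_, ⟨x, hx, rfl⟩, rfl⟩
      refine subset_closure ⟨(l : G) * x * (l : G)⁻¹, hL1PO l hl hx, ?_⟩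
      have := hcommτ l hl (hL1PO l hl hx)
      rw [← this]
      simp [mul_assoc]
    exact hle ⟨x, hx, rfl⟩
  have hinv : ∀ e ∈ E0, (τ : G) * e * (τ : G)⁻¹ = e⁻¹ := by
    rintro _ ⟨x, hx, rfl⟩
    have h2 : ((τ : G) * τ) * x * ((τ : G) * τ)⁻¹ = x := by
      have := hPOc hx (τ * τ) (mul_mem hτT hτT) (by rw [map_mul, hτ, ← sq, hm2])
      simpa using this
    calc (τ : G) * (x⁻¹ * ((τ : G) * x * (τ : G)⁻¹)) * (τ : G)⁻¹
        = ((τ : G) * x⁻¹ * (τ : G)⁻¹) * (((τ : G) * τ) * x * ((τ : G) * τ)⁻¹) := by group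
      _ = _ := by rw [h2]; group
  have hE0P2 : E0 ⊆ P2 := subset_closure
  have hZcent : ∀ z ∈ P2, ∀ hz : z ∈ P, f ⟨z, hz⟩ = 0 → ∀ y ∈ P2, Commute z y := by
    intro z hzP2 hzP hz0 y hy
    suffices hle : P2 ≤ centralizer {z} from (mem_centralizer_singleton_iff.mp (hle hy)).symm
    rw [hP2, closure_le]
    intro e he
    refine mem_centralizer_singleton_iff.mpr ?_
    have hzfix := hfix τ hτT ⟨z, hzP⟩ hz0
    have heP := hP2P (hE0P2 he)
    have hez : f ⟨e * z * e⁻¹, mul_mem (mul_mem heP hzP) (inv_mem heP)⟩ = 0 := by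
      rw [show (⟨e * z * e⁻¹, _⟩ : P) = ⟨e, heP⟩ * ⟨z, hzP⟩ * (⟨e, heP⟩ : P)⁻¹ from rfl, fmul, fmul, finv, hz0, add_zero,
        add_neg_cancel]
    have h1 := hfix τ hτT ⟨_, mul_mem (mul_mem heP hzP) (inv_mem heP)⟩ hez
    have h2 : e⁻¹ * z * e = e * z * e⁻¹ := by
      refine Eq.trans ?_ h1
      calc e⁻¹ * z * e = e⁻¹ * z * (e⁻¹)⁻¹ := by rw [inv_inv]
        _ = ((τ : G) * e * (τ : G)⁻¹) * ((τ : G) * z * (τ : G)⁻¹) * ((τ : G) * e * (τ : G)⁻¹)⁻¹ := by
          rw [hinv e he, show (τ : G) * z * (τ : G)⁻¹ = z from hzfix]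
        _ = _ := by group
    refine (commute_of_sq (hP.to_le hP2P) hp2 (hE0P2 he) ?_).eq
    show e ^ 2 * z = z * e ^ 2
    calc e ^ 2 * z = e * (e * z * e⁻¹) * e := by rw [sq]; group
      _ = e * (e⁻¹ * z * e) * e := by rw [h2]
      _ = z * e ^ 2 := by rw [sq]; group
  -- elements in the fixed line commute
  have hline : ∀ (x : G) (hx : x ∈ P2) (y : G) (hy : y ∈ P2) (v w : Fin 2 → ZMod p),
      f ⟨x, hP2P hx⟩ = θ v → v 1 = 0 → f ⟨y, hP2P hy⟩ = θ w → w 1 = 0 → Commute x y := by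
    intro x hx y hy v w hv hv1 hw hw1
    by_cases hv0 : v 0 = 0
    · refine hZcent x hx (hP2P hx) ?_ y hy
      rw [hv, show v = 0 from funext fun i => by fin_cases i <;> assumption, map_zero]
    set k := (w 0 / v 0).val with hk
    have hwk : w = k • v := funext fun i => by
      fin_cases i
      · simp [hk, nsmul_eq_mul, div_mul_cancel₀ _ hv0]
      · simp [hw1, hv1]
    have hfk : ∀ j : ℕ, f (⟨x, hP2P hx⟩ ^ j) = θ (j • v) := by
      intro j
      induction j with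
      | zero => rw [pow_zero, f0, zero_smul, map_zero]
      | succ j ihj => rw [pow_succ, fmul, ihj, hv, succ_nsmul, map_add]
    have hz : f (⟨y, hP2P hy⟩ * (⟨x, hP2P hx⟩ ^ k : P)⁻¹) = 0 := by
      rw [fmul, finv, hfk, hw, hwk, add_neg_cancel]
    have hc := hZcent (y * (x ^ k)⁻¹) (mul_mem hy (inv_mem (pow_mem hx k)))
      (mul_mem (hP2P hy) (inv_mem (pow_mem (hP2P hx) k))) hz x hx
    have h5 := (hc.symm.mul_right ((Commute.refl x).pow_right k))
    rwa [inv_mul_cancel_right] at h5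
  obtain ⟨a, haL1, hau⟩ := hL1s (ux 1)
  set s : G → G := fun x => (a : G) * x * (a : G)⁻¹ with hs
  set δ : G → G := fun x => x⁻¹ * s x with hδ
  have sP2 : ∀ {x}, x ∈ P2 → s x ∈ P2 := fun hx => hL1P2 a haL1 hx
  have δP2 : ∀ {x}, x ∈ P2 → δ x ∈ P2 := fun hx => mul_mem (inv_mem hx) (sP2 hx)
  have fδ : ∀ {x} (hx : x ∈ P2), ∀ w, f ⟨x, hP2P hx⟩ = θ w →
      f ⟨δ x, hP2P (δP2 hx)⟩ = θ ![w 1, 0] := by
    intro x hx w hw
    have e : (⟨δ x, hP2P (δP2 hx)⟩ : P) = (⟨x, hP2P hx⟩ : P)⁻¹ * ⟨_, hconjP a ⟨x, hP2P hx⟩⟩ := rfl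
    rw [e, fmul, finv, hw, feq a _ w hw, hau, ← map_neg, ← map_add]
    congr 1
    ext i
    fin_cases i <;> simp [coe_ux, Matrix.mulVec, dotProduct, Fin.sum_univ_two]
  have exw : ∀ {x} (hx : x ∈ P2), ∃ w, f ⟨x, hP2P hx⟩ = θ w := fun hx => by
    obtain ⟨h, w, hw⟩ := hQ1f (hP2PO hx).1
    exact ⟨w, hw⟩
  have hDhom : ∀ x ∈ P2, δ (δ x) = 1 := by
    intro x hx
    rw [hP2] at hx
    induction hx using closure_induction with
    | one => simp [δ, s]
    | mem e he =>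
      have he2 := hE0P2 he
      obtain ⟨w, hw⟩ := exw he2
      have h1 := fδ he2 w hw
      have h2 := fδ (δP2 he2) _ h1
      have hD0 : f ⟨δ (δ e), hP2P (δP2 (δP2 he2))⟩ = 0 := by
        rw [h2, show (![![w 1, (0 : ZMod p)] 1, 0] : Fin 2 → ZMod p) = 0 from
          funext fun i => by fin_cases i <;> simp, map_zero]
      have hτs : ∀ {y}, y ∈ P2 → (τ : G) * s y * (τ : G)⁻¹ = s ((τ : G) * y * (τ : G)⁻¹) := by
        intro y hy
        have := hcommτ a haL1 (hP2PO (sP2 hy))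
        rw [← this]
        simp [s, mul_assoc]
      have hτδ : ∀ {y}, y ∈ P2 → (τ : G) * δ y * (τ : G)⁻¹ = δ ((τ : G) * y * (τ : G)⁻¹) := by
        intro y hy
        show (τ : G) * (y⁻¹ * s y) * (τ : G)⁻¹ = _⁻¹ * s _
        rw [← hτs hy]
        group
      have h3 := hfix τ hτT ⟨_, hP2P (δP2 (δP2 he2))⟩ hD0
      simp only at h3
      rw [hτδ (δP2 he2), hτδ he2, hinv e he] at h3
      -- `δ (δ e⁻¹) = (δ (δ e))⁻¹`
      set d := δ e with hd
      have hde : Commute (e * d * e⁻¹) d := by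
        refine hline _ (mul_mem (mul_mem he2 (δP2 he2)) (inv_mem he2)) d (δP2 he2) ![w 1, 0] ![w 1, 0] ?_ (by simp) h1 (by simp)
        rw [← h1, show (⟨e * d * e⁻¹, _⟩ : P) = ⟨e, hP2P he2⟩ * ⟨d, hP2P (δP2 he2)⟩ * (⟨e, hP2P he2⟩ : P)⁻¹ from rfl,
          fmul, fmul, finv]
        abel
      have e1 : δ e⁻¹ = e * d⁻¹ * e⁻¹ := by simp [d, δ, s, mul_assoc]
      have se : s e = e * d := by simp [d, δ]
      have e2 : δ (δ e⁻¹) = (δ d)⁻¹ := by
        have hc := hZcent _ (δP2 (δP2 he2)) (hP2P (δP2 (δP2 he2))) hD0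
        have sd : s d = d * δ d := by simp [δ]
        have sinv : ∀ z, s z⁻¹ = (s z)⁻¹ := fun z => by simp [s, mul_assoc]
        have smul : ∀ y z, s (y * z) = s y * s z := fun y z => by simp [s, mul_assoc]
        rw [e1]
        show (e * d⁻¹ * e⁻¹)⁻¹ * s (e * d⁻¹ * e⁻¹) = _
        rw [smul, smul, sinv, sinv, se, sd]
        have hc1 : Commute (δ d) d := hc d (δP2 he2)
        have hc2 : Commute (δ d) e := hc e he2
        calc (e * d⁻¹ * e⁻¹)⁻¹ * (e * d * (d * δ d)⁻¹ * (e * d)⁻¹)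
            = e * d * (d * (δ d)⁻¹ * d⁻¹) * d⁻¹ * e⁻¹ := by group
          _ = e * d * (δ d)⁻¹ * d⁻¹ * e⁻¹ := by rw [hc1.inv_left.symm.eq, mul_inv_cancel_right]
          _ = e * (δ d)⁻¹ * e⁻¹ := by rw [mul_assoc e d, hc1.inv_left.symm.eq]; group
          _ = _ := by rw [hc2.inv_left.symm.eq, mul_inv_cancel_right]
      rw [e2] at h3
      refine eq_one_of_sq (hP.to_le hP2P) hp2 (δP2 (δP2 he2)) ?_
      nth_rw 1 [← h3]
      exact inv_mul_cancel _
    | mul x y hx' hy' ihx ihy =>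
      rw [← hP2] at hx' hy'
      obtain ⟨v, hv⟩ := exw hx'
      obtain ⟨w, hw⟩ := exw hy'
      set A := y⁻¹ * δ x * y with hA
      have hA2 : A ∈ P2 := mul_mem (mul_mem (inv_mem hy') (δP2 hx')) hy'
      have hAf : f ⟨A, hP2P hA2⟩ = θ ![v 1, 0] := by
        rw [← fδ hx' v hv,
          show (⟨A, _⟩ : P) = (⟨y, hP2P hy'⟩ : P)⁻¹ * ⟨δ x, hP2P (δP2 hx')⟩ * ⟨y, hP2P hy'⟩ from rfl, fmul, fmul, finv]
        abel
      have hcm : Commute A (δ y) :=
        hline A hA2 _ (δP2 hy') _ _ hAf (by simp) (fδ hy' w hw) (by simp)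
      have sx : s (δ x) = δ x := by
        have : (δ x)⁻¹ * s (δ x) = 1 := ihx
        exact (inv_mul_eq_one.mp this).symm
      have sy : s (δ y) = δ y := by
        have : (δ y)⁻¹ * s (δ y) = 1 := ihy
        exact (inv_mul_eq_one.mp this).symm
      have smul : ∀ y z, s (y * z) = s y * s z := fun y z => by simp [s, mul_assoc]
      have sinv : ∀ z, s z⁻¹ = (s z)⁻¹ := fun z => by simp [s, mul_assoc]
      have e : δ (x * y) = A * δ y := by
        show (x * y)⁻¹ * s (x * y) = _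
        rw [smul, hA]
        show _ = y⁻¹ * (x⁻¹ * s x) * y * (y⁻¹ * s y)
        group
      have e' : s y = y * δ y := by simp [δ]
      have sA : s A = A := by
        calc s A = (δ y)⁻¹ * A * δ y := by rw [hA, smul, smul, sinv, e', sx]; group
          _ = A := by rw [mul_assoc, hcm.eq, inv_mul_cancel_left]
      show (δ (x * y))⁻¹ * s (δ (x * y)) = 1
      rw [e, smul, sA, sy, inv_mul_cancel]
    | inv x hx' ihx =>
      rw [← hP2] at hx'
      have sx : s (δ x) = δ x := by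
        have : (δ x)⁻¹ * s (δ x) = 1 := ihx
        exact (inv_mul_eq_one.mp this).symm
      obtain ⟨v, hv⟩ := exw hx'
      have hcm : Commute (δ x) (x * δ x * x⁻¹) := by
        refine hline _ (δP2 hx') _ (mul_mem (mul_mem hx' (δP2 hx')) (inv_mem hx')) _ _ (fδ hx' v hv) (by simp) ?_
          (show ![v 1, (0 : ZMod p)] 1 = 0 by simp)
        rw [← fδ hx' v hv, show (⟨x * δ x * x⁻¹, _⟩ : P) =
          ⟨x, hP2P hx'⟩ * ⟨δ x, hP2P (δP2 hx')⟩ * (⟨x, hP2P hx'⟩ : P)⁻¹ from rfl, fmul, fmul, finv]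
        abel
      have smul : ∀ y z, s (y * z) = s y * s z := fun y z => by simp [s, mul_assoc]
      have sinv : ∀ z, s z⁻¹ = (s z)⁻¹ := fun z => by simp [s, mul_assoc]
      have e' : s x = x * δ x := by simp [δ]
      have e : δ x⁻¹ = (x * δ x * x⁻¹)⁻¹ := by
        show x⁻¹⁻¹ * s x⁻¹ = _
        rw [sinv, e']; group
      have sB : s (x * δ x * x⁻¹) = x * δ x * x⁻¹ := by
        calc s (x * δ x * x⁻¹) = x * δ x * x⁻¹ := by rw [smul, smul, sinv, e', sx]; group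
          _ = _ := rfl
      show (δ x⁻¹)⁻¹ * s (δ x⁻¹) = 1
      rw [e, sinv, sB, inv_mul_cancel]
  -- the contradiction
  have haN : (a : G) ∈ normalizer (P2 : Set G) :=
    Fusion.mem_normalizer_of_conj_mem fun x hx => hL1P2 a haL1 hx
  have hquad : ⁅⁅P2, zpowers (a : G)⁆, zpowers (a : G)⁆ = ⊥ := quad_of_fix fun x hx => by
    have : (δ x)⁻¹ * s (δ x) = 1 := hDhom x hx
    exact (inv_mul_eq_one.mp this).symm
  have hmem := hst P2 (hP.to_le hP2P) a haN hquad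
  set N2 := normalizer (P2 : Set G) with hN2
  have hincl : ∀ l : L1, ((l : L) : G) ∈ N2 := fun l => Fusion.mem_normalizer_of_conj_mem fun x hx => hL1P2 l l.2 hx
  let ι : L1 →* N2 :=
    { toFun := fun l => ⟨((l : L) : G), hincl l⟩, map_one' := rfl, map_mul' := fun _ _ => rfl }
  let φ := (QuotientGroup.mk' ((centralizer (P2 : Set G)).subgroupOf N2)).comp ι
  set R := (pCore p (N2 ⧸ (centralizer (P2 : Set G)).subgroupOf N2)).comap φ with hR
  have hRn : R.Normal := (Fusion.pCore_normal).comap φ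
  have haR : (⟨a, haL1⟩ : L1) ∈ R := hmem
  have hRp : IsPGroup p (R.map (π'.comp L1.subtype)) := by
    rintro ⟨_, d, hd, rfl⟩
    obtain ⟨n, hn⟩ := (Hall.isPGroup_pCore p) ⟨_, hd⟩
    refine ⟨n, Subtype.ext ?_⟩
    show (π'.comp L1.subtype d) ^ p ^ n = 1
    rw [← map_pow]
    set k := d ^ p ^ n with hk
    have hkC : ((k : L) : G) ∈ centralizer (P2 : Set G) := by
      have h1 : (φ d) ^ p ^ n = 1 := congrArg Subtype.val hn
      rw [← map_pow, ← hk] at h1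
      exact mem_subgroupOf.mp ((QuotientGroup.eq_one_iff (ι k)).mp h1)
    -- `π' k` fixes an orbit
    set e := x₀⁻¹ * ((τ : G) * x₀ * (τ : G)⁻¹) with he
    have heE : e ∈ E0 := ⟨x₀, hx₀, rfl⟩
    have hef : f ⟨e, hP2P (hE0P2 heE)⟩ = θ (-(2 : ZMod p) • w₀) := by
      rw [show (⟨e, _⟩ : P) = (⟨x₀, hx₀P⟩ : P)⁻¹ * ⟨_, hconjP τ ⟨x₀, hx₀P⟩⟩ from rfl, fmul, finv, hw₀,
        feq τ _ w₀ hw₀, hτ, ← map_neg, ← map_add]
      congr 1
      rw [Matrix.SpecialLinearGroup.coe_neg, Matrix.SpecialLinearGroup.coe_one, Matrix.neg_mulVec, Matrix.one_mulVec,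
        neg_smul, two_smul, neg_add]
    refine sl_eq_one_of_fix (w := -(2 : ZMod p) • w₀) (smul_ne_zero (neg_ne_zero.mpr h2ne) hw₀0) fun g => ?_
    obtain ⟨l, hl, rfl⟩ := hL1s g
    have hy := hL1P2 l hl (hE0P2 heE)
    have h4 := feq l _ _ hef
    have h5 := feq (k : L) _ _ h4
    refine hθ (h5.symm.trans (Eq.trans ?_ h4))
    refine congrArg f (Subtype.ext ?_)
    show ((k : L) : G) * ((l : G) * e * (l : G)⁻¹) * ((k : L) : G)⁻¹ = _
    rw [← mem_centralizer_iff.mp hkC _ hy, mul_inv_cancel_right]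
  have hRn' : (R.map (π'.comp L1.subtype)).Normal := hRn.map _ fun g => by
    obtain ⟨l, hl, he⟩ := hL1s g
    exact ⟨⟨l, hl⟩, he⟩
  have hux : ux (1 : ZMod p) ∈ R.map (π'.comp L1.subtype) := ⟨_, haR, hau⟩
  set J : SL(2, ZMod p) := slMk 0 1 (-1) 0 (by ring) with hJ
  have huy : J * ux 1 * J⁻¹ = uy (-1) := by
    rw [mul_inv_eq_iff_eq_mul]
    apply sl_ext <;> simp [mul_apply_two, coe_ux, coe_uy, hJ, coe_slMk]
  have hW : -1 ∈ R.map (π'.comp L1.subtype) := by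
    have h1 := hRn'.conj_mem _ hux J
    rw [huy] at h1
    have h2 := pow_mem (mul_mem (mul_mem hux h1) hux) 2
    convert h2 using 1
    rw [sq]
    apply sl_ext <;> simp [mul_apply_two, coe_ux, coe_uy, Matrix.SpecialLinearGroup.coe_neg]
  obtain ⟨n, hn⟩ := hRp ⟨_, hW⟩
  have h1 : (-1 : SL(2, ZMod p)) ^ p ^ n = 1 := congrArg Subtype.val hn
  rw [(hp.out.odd_of_ne_two hp2).pow.neg_one_pow] at h1
  have h2 := congrArg (fun g : SL(2, ZMod p) => (g : Matrix (Fin 2) (Fin 2) (ZMod p)) 0 0) h1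
  simp only [Matrix.SpecialLinearGroup.coe_neg, Matrix.SpecialLinearGroup.coe_one, Matrix.neg_apply,
    Matrix.one_apply_eq] at h2
  exact h2ne (by linear_combination -h2)

end Cfsg.Agent.Lib.LocalP2
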