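import Cfsg.Agent.Lib.LocalChar.Core

/-! Basic facts on strongly `p`-embedded subgroups, with hypothesis
`∀ g ∉ H, ¬ p ∣ |H ∩ gHg⁻¹|`. -/

set_option autoImplicit false

namespace Cfsg.Agent.Lib.LocalP2

open Cfsg Cfsg.Agent.Lib.LocalChar

variable {G : Type*} [Group G] [Finite G] {p : ℕ} [hp : Fact p.Prime] {H : Subgroup G}

theorem dvd_card_of_pGroup_le {D K : Subgroup G} (hD : IsPGroup p D) (hne : D ≠ ⊥) (h : D ≤ K) :
    p ∣ Nat.card K := by
  rcases hD.card_eq_or_dvd with h1 | h1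
  · exact absurd (Subgroup.eq_bot_of_card_eq D h1) hne
  · exact h1.trans (Subgroup.card_dvd_of_le h)

variable (hse : ∀ g : G, g ∉ H → ¬ p ∣ Nat.card ↥(H ⊓ H.map (MulAut.conj g).toMonoidHom))
include hse

theorem mem_of_common {D : Subgroup G} (hD : IsPGroup p D) (hne : D ≠ ⊥) (hDH : D ≤ H) {g : G}
    (hg : D ≤ cj g H) : g ∈ H := by
  by_contra h
  exact hse g h (dvd_card_of_pGroup_le hD hne (le_inf hDH hg))

theorem normalizer_le_of_common {D : Subgroup G} (hD : IsPGroup p D) (hne : D ≠ ⊥) (hDH : D ≤ H) :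
    Subgroup.normalizer (D : Set G) ≤ H := fun g hg =>
  mem_of_common hse hD hne hDH ((cj_eq_of_mem_nz hg).ge.trans (cj_mono hDH))

theorem exists_sylow_le_of_common (hpH : p ∣ Nat.card H) :
    ∃ P : Sylow p G, (P : Subgroup G) ≤ H ∧ (P : Subgroup G) ≠ ⊥ := by
  obtain ⟨Q, hQ⟩ := exists_isSylowIn (p := p) H
  have hne : Q ≠ ⊥ := fun h => hQ.2.2 (by rwa [h, Subgroup.relIndex_bot_left])
  obtain ⟨P, hP⟩ := hQ.2.1.exists_le_sylow
  suffices h : Q = (P : Subgroup G) from ⟨P, h ▸ hQ.1, h ▸ hne⟩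
  by_contra h
  obtain ⟨u, hu, huQ, hun⟩ := exists_mem_nz_of_lt P.isPGroup' (lt_of_le_of_ne hP h)
  have huH : u ∈ H := normalizer_le_of_common hse hQ.2.1 hne hQ.1 hun
  have := hQ.eq_of_le (P.isPGroup'.to_le (inf_le_left (b := H))) inf_le_right (le_inf hP hQ.1)
  exact huQ (this.le ⟨hu, huH⟩)

end Cfsg.Agent.Lib.LocalP2
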