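import Mathlib

/-! Transfer into `M/H` when conjugates outside `M` only contribute to `H` (helper19). -/

namespace Cfsg.Agent.Lib.LocalP2

open MulAction Subgroup

variable {G : Type*} [Group G] [Finite G]

/-- The transfer of `φ` at `m ∈ M` is `φ m` when every other coset contributes trivially. -/
theorem transfer_eq_self {A : Type*} [CommGroup A] (M : Subgroup G) (φ : M →* A) (m : G) (hm : m ∈ M)
    (h : ∀ (r : ℕ) (x : G), x ∉ M → ∀ hx : x⁻¹ * m ^ r * x ∈ M, φ ⟨_, hx⟩ = 1) :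
    MonoidHom.transfer φ m = φ ⟨m, hm⟩ := by
  classical
  have : Fintype (Quotient (orbitRel (zpowers m) (G ⧸ M))) := Fintype.ofFinite _
  rw [MonoidHom.transfer_eq_prod_quotient_orbitRel_zpowers_quot]
  have hfix : m • (QuotientGroup.mk 1 : G ⧸ M) = QuotientGroup.mk 1 := by
    rw [MulAction.Quotient.smul_mk, smul_eq_mul, mul_one, QuotientGroup.eq]
    simpa using M.inv_mem hm
  have horb : ∀ c : G ⧸ M, c ∈ orbit (zpowers m) (QuotientGroup.mk 1 : G ⧸ M) → c = QuotientGroup.mk 1 := by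
    rintro c ⟨⟨_, k, rfl⟩, rfl⟩
    have : m ∈ stabilizer G (QuotientGroup.mk 1 : G ⧸ M) := hfix
    exact mem_stabilizer_iff.1 (zpow_mem this k)
  set q0 : Quotient (orbitRel (zpowers m) (G ⧸ M)) := Quotient.mk'' (QuotientGroup.mk 1)
  have hq0 : q0.out = QuotientGroup.mk 1 :=
    horb _ (MulAction.orbitRel_apply.1 (Quotient.mk_out' (QuotientGroup.mk 1)))
  rw [Fintype.prod_eq_single q0]
  · have hper : Function.minimalPeriod (m • ·) q0.out = 1 := by
      rw [Function.minimalPeriod_eq_one_iff_isFixedPt, hq0]; exact hfix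
    have hx : q0.out.out ∈ M := by
      have h1 : QuotientGroup.mk q0.out.out = q0.out := QuotientGroup.out_eq' _
      rw [hq0, QuotientGroup.eq, mul_one] at h1
      rw [hq0]; exact M.inv_mem_iff.1 h1
    have key : ∀ (r : ℕ) (hh : q0.out.out⁻¹ * m ^ r * q0.out.out ∈ M), r = 1 →
        φ ⟨_, hh⟩ = φ ⟨m, hm⟩ := by
      intro r hh hr
      have e : (⟨_, hh⟩ : M) = (⟨_, hx⟩ : M)⁻¹ * ⟨m, hm⟩ * ⟨_, hx⟩ := Subtype.ext (by simp [hr])
      rw [e, map_mul, map_mul, map_inv, mul_assoc, mul_comm (φ ⟨m, hm⟩), inv_mul_cancel_left]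
    exact key _ _ hper
  · intro q hq
    refine h _ _ ?_ _
    intro hmem
    apply hq
    have h1 : QuotientGroup.mk q.out.out = q.out := QuotientGroup.out_eq' _
    have h2 : (QuotientGroup.mk q.out.out : G ⧸ M) = QuotientGroup.mk 1 := by
      rw [QuotientGroup.eq, mul_one]; exact M.inv_mem hmem
    rw [← Quotient.out_eq' q, ← h1, h2]

omit [Finite G] in
/-- A normal subgroup which is maximal in `M` has cyclic quotient. -/
theorem isCyclic_quotient_of_coatom {H M : Subgroup G} [(H.subgroupOf M).Normal]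
    (h : IsCoatom (H.subgroupOf M)) : IsCyclic (M ⧸ H.subgroupOf M) := by
  obtain ⟨x, hx⟩ : ∃ x : M, x ∉ H.subgroupOf M := by
    by_contra hh; push Not at hh; exact h.1 (eq_top_iff.2 fun x _ => hh x)
  refine ⟨⟨QuotientGroup.mk x, fun y => ?_⟩⟩
  have htop : (zpowers (QuotientGroup.mk x : M ⧸ H.subgroupOf M)).comap (QuotientGroup.mk' _) = ⊤ := by
    apply h.2
    refine lt_of_le_of_ne (fun z hz => ?_) fun heq => hx ?_
    · rw [mem_comap, QuotientGroup.mk'_apply, (QuotientGroup.eq_one_iff z).2 hz]; exact one_mem _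
    · rw [heq]; exact mem_zpowers (QuotientGroup.mk x : M ⧸ H.subgroupOf M)
  obtain ⟨z, rfl⟩ := QuotientGroup.mk_surjective y
  exact (htop.symm ▸ mem_top z : z ∈ (zpowers (QuotientGroup.mk x : M ⧸ H.subgroupOf M)).comap (QuotientGroup.mk' _))

omit [Finite G] in
theorem eq_or_eq_of_coatom {H M K : Subgroup G} (h : IsCoatom (H.subgroupOf M)) (hHM : H ≤ M)
    (hHK : H ≤ K) (hKM : K ≤ M) : K = H ∨ K = M := by
  by_cases he : K.subgroupOf M = H.subgroupOf M
  · exact Or.inl (le_antisymm (fun k hk => (he.le hk : (⟨k, hKM hk⟩ : M) ∈ H.subgroupOf M)) hHK)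
  · refine Or.inr (le_antisymm hKM ?_)
    rw [← Subgroup.subgroupOf_eq_top]
    exact h.2 _ (lt_of_le_of_ne (Subgroup.comap_mono hHK) (Ne.symm he))

omit [Finite G] in
theorem normalizer_sup_of_common {H M : Subgroup G} (hHn : M ≤ normalizer (H : Set G)) {g y : G}
    (hy : y ∈ M) (hy' : g⁻¹ * y * g ∈ M) :
    y ∈ normalizer ((H ⊔ H.map (MulAut.conj g).toMonoidHom : Subgroup G) : Set G) := by
  have h1 := hHn hy
  have h2 : y ∈ normalizer ((H.map (MulAut.conj g).toMonoidHom : Subgroup G) : Set G) := by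
    rw [← map_equiv_normalizer_eq H (MulAut.conj g)]
    exact ⟨g⁻¹ * y * g, hHn hy', by simp [mul_assoc]⟩
  rw [mem_normalizer_iff_map_conj_eq] at h1 h2 ⊢
  rw [Subgroup.map_sup]
  exact congrArg₂ (· ⊔ ·) h1 h2

end Cfsg.Agent.Lib.LocalP2
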